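import Mathlib
import Cfsg.Agent.H17.MulV
import Cfsg.Agent.H12.TwInv
import Cfsg.Agent.H13.TwFr

/-!
Schur multipliers: tools for the twisted groups.
-/

set_option autoImplicit false
set_option linter.unusedSectionVars false

namespace Cfsg.Agent.H17

open Subgroup H12 H12.RGD H13 H19.St Cfsg.Lie
open scoped commutatorElement

section Gen

variable {Φ I k : Type*} [DecidableEq I] [CommRing k] [LinearOrder k] {R : RS Φ I k}
  {G : Type*} [Group G] {X : RGD R G} [IsStrictOrderedRing k] [Fintype I] [Finite Φ]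
  {E : Type*} [Group E] {π : E →* G}

theorem cm_of_ok' {L : Lift X π}
    (h : ∀ r s, s ≠ r → s ≠ R.neg r → ∃ w : R.W, L.Ok (w • r) (w • s))
    {r s : Φ} (h1 : s ≠ r) (h2 : s ≠ R.neg r) : L.CM r s := by
  induction hn : (R.itv r s).ncard using Nat.strong_induction_on generalizing r s with
  | _ n ih =>
    obtain ⟨w, hw⟩ := h r s h1 h2
    have h1' := R.smul_ne w h1
    have h2' := R.smul_ne_neg w h2
    rw [← RS.ncard_itv_smul w] at hn
    suffices L.CM (w • r) (w • s) by simpa using this.smul w⁻¹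
    refine hw (Lift.le_normalizer_of_cm fun t ht => ?_) ?_ fun a ha b hb => ?_
    · obtain ⟨a, b⟩ := RS.ne_of_mem_itv h1' h2' ht
      exact ih _ (hn ▸ RS.ncard_itv_lt h1' h2' ht) a b rfl
    · rw [R.itv_comm] at hn ⊢
      refine Lift.le_normalizer_of_cm fun t ht => ?_
      obtain ⟨a, b⟩ := RS.ne_of_mem_itv h1'.symm (RS.ne_symm h2') ht
      exact ih _ (hn ▸ RS.ncard_itv_lt h1'.symm (RS.ne_symm h2') ht) a b rfl
    · have := X.comm _ _ h1' h2' _ (L.map_mem _ a ha) _ (L.map_mem _ b hb)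
      change _ ∈ X.US _ at this
      rw [← L.map_VS] at this
      obtain ⟨c, hc, e⟩ := this
      obtain ⟨z, hz, e'⟩ := eq_mul_of_map_eq (π := π) (a := c) (b := a * b * a⁻¹ * b⁻¹)
        (by rw [e]; simp)
      exact ⟨z, hz, e' ▸ hc⟩

theorem ok_of_five (L : Lift X π) {r s : Φ} {F A A' : Type*} [Field F] [AddCommGroup A]
    [Module F A] [AddCommGroup A'] [Module F A'] {x : A → G} {y : A' → G}
    (hx : ∀ a b, x (a + b) = x a * x b) (hy : ∀ a b, y (a + b) = y a * y b)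
    (mx : ∀ g, g ∈ X.U r ↔ ∃ a, g = x a) (my : ∀ g, g ∈ X.U s ↔ ∃ a, g = y a) {v : F}
    (v2 : v * (1 - v) - 1 ≠ 0) {g g' : G} (hg : g ∈ X.T) (hg' : g' ∈ X.T)
    (h1 : ∀ a, g * x a * g⁻¹ = x (v • a)) (h2 : ∀ a, g * y a * g⁻¹ = y (v • a))
    (h3 : ∀ a, g' * x a * g'⁻¹ = x ((1 - v) • a)) (h4 : ∀ a, g' * y a * g'⁻¹ = y ((1 - v) • a)) :
    L.Ok r s := by
  intro n1 n2 h a ha b hb
  set M := L.VS (R.itv r s)
  choose x' hx' ex using fun a => L.exists_lift r _ ((mx _).2 ⟨a, rfl⟩)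
  choose y' hy' ey using fun a => L.exists_lift s _ ((my _).2 ⟨a, rfl⟩)
  let φ := QuotientGroup.mk' (M.subgroupOf (normalizer (M : Set E)))
  let P a : normalizer (M : Set E) := ⟨x' a, n1 (hx' a)⟩
  let Q a : normalizer (M : Set E) := ⟨y' a, n2 (hy' a)⟩
  have cen : ∀ a b u, φ (P a * Q b * (P a)⁻¹ * (Q b)⁻¹) * u =
      u * φ (P a * Q b * (P a)⁻¹ * (Q b)⁻¹) := fun a b u => by
    obtain ⟨z, hz, e⟩ := h _ (hx' a) _ (hy' b)
    obtain ⟨u, rfl⟩ := QuotientGroup.mk'_surjective _ u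
    have hz' : z ∈ normalizer (M : Set E) := center_le_normalizer _ (L.cent hz)
    have e1 : φ (P a * Q b * (P a)⁻¹ * (Q b)⁻¹) = φ (⟨z, hz'⟩⁻¹) := by
      rw [map_inv, eq_inv_iff_mul_eq_one, ← map_mul]
      exact (QuotientGroup.eq_one_iff _).2 e
    rw [e1, ← map_mul, ← map_mul]
    exact congrArg φ (Subtype.ext (central_comm (inv_mem (L.cent hz)) _))
  have hP : ∀ a b, P (a + b) = P a * P b := fun a b => Subtype.ext
    (L.eq_of_map_eq (hx' _) (mul_mem (hx' _) (hx' _)) (by simp [P, ex, hx]))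
  have hQ : ∀ a b, Q (a + b) = Q a * Q b := fun a b => Subtype.ext
    (L.eq_of_map_eq (hy' _) (mul_mem (hy' _) (hy' _)) (by simp [Q, ey, hy]))
  have inv : ∀ g ∈ X.T, ∀ c : F, (∀ a, g * x a * g⁻¹ = x (c • a)) → (∀ a, g * y a * g⁻¹ = y (c • a)) →
      ∀ a b, φ (P (c • a) * Q (c • b) * (P (c • a))⁻¹ * (Q (c • b))⁻¹) =
        φ (P a * Q b * (P a)⁻¹ * (Q b)⁻¹) := fun g hg c e1 e2 a b => by
    obtain ⟨g, rfl⟩ := L.surj g
    have k : ∀ t, π t ∈ X.T → ∀ x ∈ M, t * x * t⁻¹ ∈ M := fun t ht x hx =>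
      L.conj_VS (rep_of_mem_T ht) (fun r hr => by simpa using hr) hx
    let n : normalizer (M : Set E) := ⟨g, mem_normalizer_of_conj (k g hg) fun x hx => by
      simpa using k g⁻¹ (by simpa using hg) x hx⟩
    have a1 : P (c • a) = n * P a * n⁻¹ := Subtype.ext
      (L.eq_of_map_eq (hx' _) (L.eqv.conj_T g hg _ _ (hx' _)) (by simp [P, n, ex, e1]))
    have a2 : Q (c • b) = n * Q b * n⁻¹ := Subtype.ext
      (L.eq_of_map_eq (hy' _) (L.eqv.conj_T g hg _ _ (hy' _)) (by simp [Q, n, ey, e2]))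
    rw [a1, a2, show n * P a * n⁻¹ * (n * Q b * n⁻¹) * (n * P a * n⁻¹)⁻¹ * (n * Q b * n⁻¹)⁻¹ =
      n * (P a * Q b * (P a)⁻¹ * (Q b)⁻¹) * n⁻¹ by group, map_mul, map_mul, ← cen, map_inv,
      mul_inv_cancel_right]
  obtain ⟨a, e⟩ := (mx _).1 (L.map_mem _ a ha)
  obtain ⟨b, e'⟩ := (my _).1 (L.map_mem _ b hb)
  rw [L.eq_of_map_eq ha (hx' a) (by rw [e, ex]), L.eq_of_map_eq hb (hy' b) (by rw [e', ey])]
  exact (QuotientGroup.eq_one_iff (P a * Q b * (P a)⁻¹ * (Q b)⁻¹)).1 (five (fun a b => φ (P a * Q b * (P a)⁻¹ * (Q b)⁻¹))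
    (fun a b c => by
      rw [hP, show P a * P b * Q c * (P a * P b)⁻¹ * (Q c)⁻¹ = P a * (P b * Q c * (P b)⁻¹ * (Q c)⁻¹) *
        (P a)⁻¹ * (P a * Q c * (P a)⁻¹ * (Q c)⁻¹) by group, map_mul, map_mul, map_mul, ← cen b, map_inv,
        mul_inv_cancel_right, cen])
    (fun a b c => by
      rw [hQ, show P a * (Q b * Q c) * (P a)⁻¹ * (Q b * Q c)⁻¹ = (P a * Q b * (P a)⁻¹ * (Q b)⁻¹) *
        (Q b * (P a * Q c * (P a)⁻¹ * (Q c)⁻¹) * (Q b)⁻¹) by group, map_mul, map_mul φ (Q b * _),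
        map_mul φ (Q b), ← cen a c, map_inv φ (Q b), mul_inv_cancel_right]) v2 (inv g hg v h1 h2)
    (inv g' hg' _ h3 h4) a b)

theorem isLift_smul (hs : Function.Surjective π) (hc : π.ker ≤ center E) {V : Φ → Subgroup E}
    (h : Eqv X π V) {r : Φ} (h1 : IsLift X π (V r) r) (w : R.W) :
    IsLift X π (V (w • r)) (w • r) := by
  obtain ⟨n, hn⟩ := exists_rep (X := X) w
  obtain ⟨n, rfl⟩ := hs n
  refine ⟨fun u hu => ?_, fun v hv e => ?_⟩
  · obtain ⟨v, hv, e⟩ := h1.1 _ (by simpa using hn.conj_U' hu)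
    exact ⟨_, h.conj hs hc hn hv, by simp [e, mul_assoc]⟩
  · have := h.conj hs hc (n := n⁻¹) (by simpa using hn.inv) hv
    rw [inv_smul_smul] at this
    simpa [mul_assoc, inv_mul_eq_iff_eq_mul, mul_eq_right] using h1.2 _ this (by simp [e])

theorem kill_smul {r s : Φ} (h : X.Kill r s) (w : R.W) : X.Kill (w • r) (w • s) := by
  obtain ⟨n, hn⟩ := exists_rep (X := X) w
  obtain ⟨h, hT, h1, h2⟩ := h
  refine ⟨n * h * n⁻¹, hn.conj_T hT, fun u hu => ?_, fun u hu => ?_⟩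
  · have := h1 _ (by simpa using hn.conj_U' hu)
    calc n * h * n⁻¹ * u = n * (h * (n⁻¹ * u * n)) * n⁻¹ := by group
      _ = _ := by rw [this]; group
  · have := mem_map_of_mem (MulAut.conj n).toMonoidHom (h2 (by simpa using hn.conj_U' hu))
    rw [MonoidHom.map_closure] at this
    simp only [MulEquiv.coe_toMonoidHom, MulAut.conj_apply, mul_assoc, mul_inv_cancel_left,
      mul_inv_cancel, mul_one] at this
    refine closure_mono ?_ this
    rintro _ ⟨_, ⟨v, hv, rfl⟩, rfl⟩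
    exact ⟨_, hn.conj_U hv, by simp [mul_assoc]⟩

/-- an element of a subgroup from an element of the ambient group -/
noncomputable def subo (K : Subgroup G) (g : G) : K := by
  classical exact if h : g ∈ K then ⟨g, h⟩ else 1

theorem subo_val {K : Subgroup G} {g : G} (h : g ∈ K) : (subo K g : G) = g := by
  rw [subo, dif_pos h]

theorem subo_eq {K : Subgroup G} {g : G} (h : g ∈ K) : subo K g = ⟨g, h⟩ := Subtype.ext (subo_val h)

theorem kill_sub [Finite G] {K : Subgroup G} (hK : X.grp ≤ K) {r s : Φ} {h : G} (hT : h ∈ X.T)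
    (h1 : ∀ u ∈ X.U r, h * u = u * h) (h2 : ∀ u ∈ X.U s, h * u = u * h → u = 1) :
    (X.sub K hK).Kill r s := by
  refine ⟨⟨h, hK (T_le_grp hT)⟩, hT, fun u hu => Subtype.ext (h1 u hu), fun u hu => ?_⟩
  obtain ⟨v, hv, e⟩ := exists_eq_comm_of_fpf (fun u hu => X.T_conj h hT s u hu) h2 (inv_mem hu)
  refine subset_closure ⟨⟨v⁻¹, hK (U_le_grp _ (inv_mem hv))⟩, inv_mem hv, Subtype.ext ?_⟩
  change u.1 = h * v⁻¹ * h⁻¹ * v⁻¹⁻¹
  rw [← inv_inv u.1, show u.1⁻¹ = _ from e]; group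

theorem rel_comp {K K' : Type*} [Field K] [Field K'] {x y : K → G} (h : Rel x y) (φ : K' →+* K) :
    Rel (fun t => x (φ t)) fun t => y (φ t) :=
  ⟨fun s t => by rw [map_add, h.x_add], fun s t => by rw [map_add, h.y_add], fun t ht u => by
    simpa using h.conj (φ t) (by simpa using ht) (φ u)⟩

theorem ww_mul {K : Type*} [Field K] {x y x' y' : K → G} (h1 : ∀ s t, Commute (x s) (x' t))
    (h2 : ∀ s t, Commute (x s) (y' t)) (h3 : ∀ s t, Commute (y s) (x' t)) (t : K) :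
    ww (fun t => x t * x' t) (fun t => y t * y' t) t = ww x y t * ww x' y' t :=
  (mul_shuffle (h1 _ _) (h2 _ _) (h3 _ _)).symm

theorem rel_mul {K : Type*} [Field K] {x y x' y' : K → G} (h : Rel x y) (h' : Rel x' y')
    (h1 : ∀ s t, Commute (x s) (x' t)) (h2 : ∀ s t, Commute (x s) (y' t))
    (h3 : ∀ s t, Commute (y s) (x' t)) (h4 : ∀ s t, Commute (y s) (y' t)) :
    Rel (fun t => x t * x' t) fun t => y t * y' t :=
  ⟨fun s t => by rw [h.x_add, h'.x_add, (h1 _ _).mul_mul_mul_comm],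
    fun s t => by rw [h.y_add, h'.y_add, (h4 _ _).mul_mul_mul_comm], fun t ht u => by
      change ww (fun t => x t * x' t) (fun t => y t * y' t) t * _ =
        _ * ww (fun t => x t * x' t) (fun t => y t * y' t) t
      have a1 : Commute (ww x' y' t) (x u) := (((h1 u t).mul_right (h2 _ _)).mul_right (h1 _ _)).symm
      have a2 : Commute (y' (-u / t ^ 2)) (ww x y t) :=
        (((h2 t _).mul_left (h4 _ _)).mul_left (h2 _ _)).symm
      rw [ww_mul h1 h2 h3, a1.mul_mul_mul_comm, a2.mul_mul_mul_comm]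
      exact congrArg₂ _ (h.conj t ht u) (h'.conj t ht u)⟩

theorem hh_mul {K : Type*} [Field K] {x y x' y' : K → G} (h1 : ∀ s t, Commute (x s) (x' t))
    (h2 : ∀ s t, Commute (x s) (y' t)) (h3 : ∀ s t, Commute (y s) (x' t))
    (h4 : ∀ s t, Commute (y s) (y' t)) (t : K) :
    hh (fun t => x t * x' t) (fun t => y t * y' t) t = hh x y t * hh x' y' t := by
  have a : ∀ s t, Commute (ww x y s) (ww x' y' t) := fun s t => by
    have a1 := fun a => ((h1 a t).mul_right (h2 a (-t⁻¹))).mul_right (h1 a t)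
    exact ((a1 _).mul_left (((h3 _ t).mul_right (h4 _ (-t⁻¹))).mul_right (h3 _ t))).mul_left (a1 _)
  rw [hh, ww_mul h1 h2 h3, ww_mul h1 h2 h3, (a 1 1).eq, mul_inv_rev,
    (a 1 t).inv_left.symm.mul_mul_mul_comm, hh, hh]

theorem hh_comp {K K' : Type*} [Field K] [Field K'] (x y : K → G) (φ : K' →+* K) (t : K') :
    hh (fun t => x (φ t)) (fun t => y (φ t)) t = hh x y (φ t) := by simp [hh, ww]

theorem r1_sub [Finite G] {K : Subgroup G} (hK : X.grp ≤ K) {F : Type*} [Field F] {x y : F → G}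
    {i : I} (h : Rel x y) (mx : ∀ g, g ∈ X.U (R.simple i) ↔ ∃ t, g = x t)
    (my : ∀ t, y t ∈ X.U (R.neg (R.simple i))) :
    R1 (X.sub K hK) i (fun t => subo K (x t)) (fun t => subo K (y t)) ∧
      ∀ t, ((hh (fun t => subo K (x t)) (fun t => subo K (y t)) t : K) : G) = hh x y t := by
  have ex : ∀ t, (subo K (x t) : G) = x t := fun t =>
    subo_val (hK (U_le_grp _ ((mx _).2 ⟨t, rfl⟩)))
  have ey : ∀ t, (subo K (y t) : G) = y t := fun t => subo_val (hK (U_le_grp _ (my t)))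
  refine ⟨⟨⟨fun s t => Subtype.ext ?_, fun s t => Subtype.ext ?_, fun t ht u => Subtype.ext ?_⟩,
    fun g => (mx g).trans (exists_congr fun t => by rw [Subtype.ext_iff, ex]),
    fun g => ⟨fun hg => ?_, ?_⟩⟩, fun t => by simp [hh, ww, ex, ey]⟩
  · rw [coe_mul, ex, ex, ex, h.x_add]
  · rw [coe_mul, ey, ey, ey, h.y_add]
  · simpa [ex, ey] using h.conj t ht u
  · have e : ∀ u, ww x y 1 * x u * (ww x y 1)⁻¹ = y (-u / 1 ^ 2) := fun u => by
      rw [mul_inv_eq_iff_eq_mul]; exact h.w_x one_ne_zero u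
    have hle : (X.U (R.simple i)).map (MulAut.conj (ww x y 1)).toMonoidHom ≤
        X.U (R.neg (R.simple i)) := by
      rintro _ ⟨u, hu, rfl⟩
      obtain ⟨t, rfl⟩ := (mx u).1 hu
      exact Set.mem_of_eq_of_mem (e t) (my _)
    change g.1 ∈ X.U _ at hg
    rw [← eq_of_le_of_card_ge hle (by
      rw [card_map_of_injective (MulAut.conj _).injective, ← R.sref_simple, ← RS.s_smul,
        (rep_m i).card_U])] at hg
    obtain ⟨u, hu, e'⟩ := hg
    obtain ⟨t, rfl⟩ := (mx u).1 hu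
    exact ⟨_, Subtype.ext (e'.symm.trans ((e t).trans (ey _).symm))⟩
  · rintro ⟨t, rfl⟩
    exact (Set.mem_of_eq_of_mem (ey t) (my t) : (subo K (y t) : G) ∈ (X.U _ : Set G))

end Gen

section St

variable {Φ I : Type*} [DecidableEq I] [Fintype I] [Finite Φ] {R : RS Φ I ℤ} {C : CD R}
  {K : Type*} [Field K] {G : Type*} [Group G] {S : StSys C K G} (hS : S.NC) (hM : S.NM)

theorem exists_pr' {L : List Φ} (hL : L.Nodup) (hc : R.Closed {r | r ∈ L}) (w : R.W)
    (hpos : ∀ r ∈ L, R.Pos (w • r)) {g : G} (hg : g ∈ (StSys.rgd hS hM).US {r | r ∈ L}) :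
    ∃ f : Φ → K, g = pr S L f := by
  obtain ⟨n, hn⟩ := exists_rep (X := StSys.rgd hS hM) w
  choose c hc0 hc' using StSys.Rep.exists_conj hS hM hn
  obtain ⟨f, hf⟩ := exists_pr hS hM (hL.map (MulAction.injective w)) (by
    convert hc.preimage w⁻¹ using 1
    ext r
    simp only [List.mem_map, Set.mem_setOf_eq]
    exact ⟨fun ⟨a, h, e⟩ => by simpa [← e] using h, fun h => ⟨_, h, by simp⟩⟩) (by simpa using hpos)
    (hn.conj_US (fun r hr => List.mem_map_of_mem hr) hg)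
  refine ⟨fun r => (c r)⁻¹ * f (w • r), (MulAut.conj n).injective ?_⟩
  rw [MulAut.conj_apply, hf, pr, pr, map_list_prod, List.map_map, List.map_map]
  refine congrArg _ (List.map_congr_left fun r _ => ?_)
  simp [hc', hc0]

end St

section Tw

variable {D : ChevalleyDatum} [Good D] {K : Type*} [Field K] {Φ' I' k' : Type*} [DecidableEq I']
  [Fintype I'] [Finite Φ'] [CommRing k'] [LinearOrder k'] [IsStrictOrderedRing k']
  {R' : RS Φ' I' k'} {F : Fold (rsOf D) R'} (A : Twist F (chevRGD D K))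

/-- the root group datum on the group of fixed points -/
noncomputable abbrev twY : RGD R' A.Fix := A.rgd.sub A.Fix A.rgd_grp.le

theorem HH_comm {c : Fin D.rank → Kˣ} {r : Φ'}
    (h : ∀ a, F.π a = r → ∏ i : Fin D.rank, c i ^ D.cartan i a = 1) :
    ∀ u ∈ A.rgd.U r, HH D K c * u = u * HH D K c := fun u hu =>
  (mem_centralizer_iff.1 ((iSup₂_le fun a ha v hv => by
    obtain ⟨t, rfl⟩ := (chevSt D K).mem_U.1 hv
    refine mem_centralizer_iff.2 fun g hg => ?_
    rw [Set.mem_singleton_iff.1 hg, ← mul_inv_eq_iff_eq_mul, HH_conj_x, h a ha, Units.val_one,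
      one_mul] : (chevRGD D K).US _ ≤ centralizer {HH D K c}) hu.1) _ rfl)

theorem HH_fpf {c : Fin D.rank → Kˣ} {r : Φ'}
    (h : ∀ a, F.π a = r → ∏ i : Fin D.rank, c i ^ D.cartan i a ≠ 1) :
    ∀ u ∈ A.rgd.U r, HH D K c * u = u * HH D K c → u = 1 := fun u hu e => by
  classical
  obtain ⟨w', i, hw'⟩ := R'.exists_smul_simple r
  obtain ⟨w, hw⟩ := F.exists_lift w'⁻¹
  let L := (List.finRange D.nroots).filter fun a => F.π a = r
  have hL : L.Nodup := (List.nodup_finRange _).filter _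
  have hL' : {a | a ∈ L} = F.π ⁻¹' {r} := by ext a; simp [L]
  have hp : ∀ a ∈ L, (rsOf D).Pos (w • a) := fun a ha => by
    rw [hw.pos_iff, show F.π a = r by simpa [L] using ha, hw', inv_smul_smul]
    exact R'.pos_simple i
  obtain ⟨f, rfl⟩ := exists_pr' chevNC chevNM hL (hL' ▸ F.closed_preimage (R'.closed_singleton r)) w hp
    (hL' ▸ hu.1)
  rw [← pr_zero (S := chevSt D K) L]
  refine pr_congr fun a ha => ?_
  have := HH_conj_pr c L f
  rw [e, mul_inv_cancel_right] at this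
  by_contra h0
  exact h a (by simpa [L] using ha) (Units.ext (mul_right_cancel₀ h0
    ((pr_unique' chevNC chevNM hL w hp this ha).symm.trans (one_mul _).symm)))

theorem mem_ker_of_HH {c : Fin D.rank → Kˣ} (h : HH D K c = 1) : c ∈ (hT D K).ker :=
  dgU_injective (h.trans (map_one _).symm)

theorem rel_two {a b : Fin D.nroots} (h : Orth a b) (θ : K →+* K) :
    Rel (fun t => (chevSt D K).x a t * (chevSt D K).x b (θ t))
      (fun t => (chevSt D K).x ((rsOf D).neg a) t * (chevSt D K).x ((rsOf D).neg b) (θ t)) ∧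
    ∀ t, hh (fun t => (chevSt D K).x a t * (chevSt D K).x b (θ t))
      (fun t => (chevSt D K).x ((rsOf D).neg a) t * (chevSt D K).x ((rsOf D).neg b) (θ t)) t =
      (chevSt D K).h a t * (chevSt D K).h b (θ t) :=
  ⟨rel_mul (chevNC.rel a) (rel_comp (chevNC.rel b) θ) (fun _ _ => h.pp _ _) (fun _ _ => h.pn _ _)
    (fun _ _ => h.np _ _) fun _ _ => h.nn _ _, fun t => by
    rw [hh_mul (fun _ _ => h.pp _ _) (fun _ _ => h.pn _ _) (fun _ _ => h.np _ _) fun _ _ => h.nn _ _,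
      hh_comp, StSys.hh_eq, StSys.hh_eq]⟩

theorem rel_three {a b c : Fin D.nroots} (h : Orth a b) (h' : Orth a c) (h'' : Orth b c)
    (θ : K →+* K) :
    Rel (fun t => (chevSt D K).x a t * ((chevSt D K).x b (θ t) * (chevSt D K).x c (θ (θ t))))
      (fun t => (chevSt D K).x ((rsOf D).neg a) t * ((chevSt D K).x ((rsOf D).neg b) (θ t) *
        (chevSt D K).x ((rsOf D).neg c) (θ (θ t)))) ∧
    ∀ t, hh (fun t => (chevSt D K).x a t * ((chevSt D K).x b (θ t) * (chevSt D K).x c (θ (θ t))))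
      (fun t => (chevSt D K).x ((rsOf D).neg a) t * ((chevSt D K).x ((rsOf D).neg b) (θ t) *
        (chevSt D K).x ((rsOf D).neg c) (θ (θ t)))) t =
      (chevSt D K).h a t * ((chevSt D K).h b (θ t) * (chevSt D K).h c (θ (θ t))) :=
  ⟨rel_mul (chevNC.rel a) (rel_comp (rel_two h'' θ).1 θ) (fun _ _ => (h.pp _ _).mul_right (h'.pp _ _))
    (fun _ _ => (h.pn _ _).mul_right (h'.pn _ _)) (fun _ _ => (h.np _ _).mul_right (h'.np _ _))
    fun _ _ => (h.nn _ _).mul_right (h'.nn _ _), fun t => by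
    rw [hh_mul (fun _ _ => (h.pp _ _).mul_right (h'.pp _ _))
      (fun _ _ => (h.pn _ _).mul_right (h'.pn _ _)) (fun _ _ => (h.np _ _).mul_right (h'.np _ _))
      fun _ _ => (h.nn _ _).mul_right (h'.nn _ _), StSys.hh_eq, ← (rel_two h'' θ).2, ← hh_comp]⟩

theorem kill_HH [Finite K] {c : Fin D.rank → Kˣ} (hc : HH D K c ∈ A.rgd.T) {r s : Φ'}
    (h1 : ∀ a, F.π a = r → ∏ i : Fin D.rank, c i ^ D.cartan i a = 1)
    (h2 : ∀ a, F.π a = s → ∏ i : Fin D.rank, c i ^ D.cartan i a ≠ 1) : (twY A).Kill r s :=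
  kill_sub _ hc (HH_comm A h1) (HH_fpf A h2)

end Tw

end Cfsg.Agent.H17
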