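import Mathlib
import Cfsg.Agent.H17.MulW
import Cfsg.Agent.H13.D4Str
import Cfsg.Agent.H12.Tb

/-!
The Schur multiplier of `³D₄(q)`.
-/

set_option autoImplicit false
set_option linter.unusedSectionVars false
set_option maxRecDepth 100000

namespace Cfsg.Agent.H17

open Subgroup H12 H12.RGD H13 H13.D4 H19.St Cfsg.Lie
open scoped commutatorElement

universe u

namespace TD

/-- determinants of pairs of roots -/
def dt (r s : Fin chevG2.nroots) : ℤ :=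
  (rsOf chevG2).α r 0 * (rsOf chevG2).α s 1 - (rsOf chevG2).α r 1 * (rsOf chevG2).α s 0

/-- the interval between two roots -/
def Iv (r s t : Fin chevG2.nroots) : Prop :=
  dt r s ∣ dt t s ∧ dt r s ∣ dt r t ∧ 0 < dt t s * dt r s ∧ 0 < dt r t * dt r s

instance instDecIv (r s t : Fin chevG2.nroots) : Decidable (Iv r s t) := by
  unfold Iv; infer_instance

theorem mem_itv {r s t : Fin chevG2.nroots} (h : dt r s ≠ 0) :
    t ∈ (rsOf chevG2).itv r s ↔ Iv r s t := by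
  have h0 := mul_self_pos.2 h
  constructor
  · rintro ⟨p, q, hp, hq, e⟩
    have e1 : dt t s = dt r s * p := by simp only [dt, e, Pi.add_apply, Pi.smul_apply, smul_eq_mul]; ring
    have e2 : dt r t = dt r s * q := by simp only [dt, e, Pi.add_apply, Pi.smul_apply, smul_eq_mul]; ring
    exact ⟨⟨_, e1⟩, ⟨_, e2⟩, by rw [e1]; nlinarith, by rw [e2]; nlinarith⟩
  · rintro ⟨⟨p, e1⟩, ⟨q, e2⟩, h1, h2⟩
    refine ⟨p, q, by rw [e1] at h1; nlinarith, by rw [e2] at h2; nlinarith, funext fun i => ?_⟩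
    refine mul_left_cancel₀ h ?_
    rw [Pi.add_apply, Pi.smul_apply, Pi.smul_apply, smul_eq_mul, smul_eq_mul, mul_add, ← mul_assoc,
      ← mul_assoc, ← e1, ← e2]
    obtain rfl | rfl : i = 0 ∨ i = 1 := by revert i; decide
    all_goals simp only [dt]; ring

theorem dt_ne : ∀ r s, s ≠ r → s ≠ (rsOf chevG2).neg r → dt r s ≠ 0 := by decide +kernel

theorem itv_eq {r s t : Fin chevG2.nroots} (h : dt r s ≠ 0 ∧ ∀ v, Iv r s v ↔ v = t) :
    (rsOf chevG2).itv r s = {t} := Set.ext fun v => (mem_itv h.1).trans (h.2 v)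

theorem itv_empty {r s : Fin chevG2.nroots} (h : dt r s ≠ 0 ∧ ∀ v, ¬ Iv r s v) :
    (rsOf chevG2).itv r s = ∅ := Set.eq_empty_of_forall_notMem fun v hv => h.2 v ((mem_itv h.1).1 hv)

theorem mem_dec {r s t : Fin chevG2.nroots}
    (h : (s ≠ r ∧ s ≠ (rsOf chevG2).neg r) ∧ dt r s ≠ 0 ∧ ∀ v, Iv r s v ↔ v = t) :
    (r, s) ∈ (rsOf chevG2).Dec t := ⟨h.1.1, h.1.2, itv_eq h.2⟩

theorem dec11 {p : Fin chevG2.nroots × Fin chevG2.nroots} (h : p ∈ (rsOf chevG2).Dec 11) :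
    p = (8, 9) ∨ p = (9, 8) ∨ p = (6, 10) ∨ p = (10, 6) := by
  obtain ⟨r, s⟩ := p
  have : ∀ r s : Fin chevG2.nroots, Iv r s 11 → ¬ Iv r s 8 → ¬ Iv r s 9 → ¬ Iv r s 10 → ¬ Iv r s 6 →
      (r, s) = (8, 9) ∨ (r, s) = (9, 8) ∨ (r, s) = (6, 10) ∨ (r, s) = (10, 6) := by decide +kernel
  have k := fun v => (mem_itv (t := v) (dt_ne r s h.1 h.2.1)).symm.trans (Set.ext_iff.1 h.2.2 v)
  exact this r s ((k _).2 rfl) (mt (k _).1 (by decide)) (mt (k _).1 (by decide))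
    (mt (k _).1 (by decide)) (mt (k _).1 (by decide))

theorem reps {P : Fin chevG2.nroots → Fin chevG2.nroots → Prop}
    (h : ∀ r s : Fin chevG2.nroots, rlen chevG2 r ≠ 1 → rlen chevG2 s = 1 → P r s ∧ P s r) (h1 : P 7 8) (h2 : P 7 9)
    (h3 : P 6 10) (h4 : P 6 11) (r s : Fin chevG2.nroots) (n1 : s ≠ r)
    (n2 : s ≠ (rsOf chevG2).neg r) : ∃ w : (rsOf chevG2).W, P (w • r) (w • s) := by
  have key : ∀ r s : Fin chevG2.nroots, s ≠ r → s ≠ (rsOf chevG2).neg r →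
      (rlen chevG2 r = 1 ↔ rlen chevG2 s = 1) → ∃ l ∈ [[], [0], [1], [0, 1], [1, 0], [0, 1, 0],
        [1, 0, 1], [0, 1, 0, 1], [1, 0, 1, 0], [0, 1, 0, 1, 0], [1, 0, 1, 0, 1], [0, 1, 0, 1, 0, 1]],
        (l.foldr (rsOf chevG2).sref r, l.foldr (rsOf chevG2).sref s) ∈
          [(7, 8), (7, 9), (6, 10), (6, 11)] := by decide +kernel
  by_cases e : rlen chevG2 r = 1 ↔ rlen chevG2 s = 1
  · obtain ⟨l, -, hl⟩ := key r s n1 n2 e
    refine ⟨wprod (rsOf chevG2).s l, ?_⟩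
    simp only [List.mem_cons, Prod.mk.injEq, List.not_mem_nil, or_false] at hl
    rw [wprod_smul, wprod_smul]
    rcases hl with ⟨a, b⟩ | ⟨a, b⟩ | ⟨a, b⟩ | ⟨a, b⟩ <;> rw [a, b] <;> assumption
  · refine ⟨1, ?_⟩
    rw [one_smul, one_smul]
    by_cases a : rlen chevG2 r = 1
    exacts [(h s r (by tauto) a).2, (h r s a (by tauto)).1]

theorem simple_cases (i : Fin chevG2.rank) :
    (rsOf chevG2).simple i = 7 ∨ (rsOf chevG2).simple i = 6 := by revert i; decide +kernel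

variable {K : Type u} [Field K] [Finite K] (S : DD K)

/-- the root group datum on the group -/
noncomputable abbrev Y : RGD (rsOf chevG2) S.G := twY S.tw

theorem chi (a b : Kˣ) (r : Fin chevD4.nroots) {e : ℤ × ℤ × ℤ × ℤ} (h : (chevD4.cartan 0 r,
    chevD4.cartan 1 r, chevD4.cartan 2 r, chevD4.cartan 3 r) = e) :
    ((∏ i : Fin chevD4.rank, S.hc a b i ^ chevD4.cartan i r : Kˣ) : K) =
      a ^ e.1 * b ^ e.2.1 * S.θ a ^ e.2.2.1 * S.θ (S.θ a) ^ e.2.2.2 := by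
  subst h
  rw [show ∏ i : Fin chevD4.rank, S.hc a b i ^ chevD4.cartan i r = a ^ chevD4.cartan 0 r *
    b ^ chevD4.cartan 1 r * S.hc a b 2 ^ chevD4.cartan 2 r * S.hc a b 3 ^ chevD4.cartan 3 r from
    Fin.prod_univ_four _]
  simp only [Units.val_mul, Units.val_zpow_eq_zpow_val]
  rfl

theorem kill_of {a b : Kˣ} (hb : S.θ b = b) {r s : Fin chevG2.nroots} {L L' : List (ℤ × ℤ × ℤ × ℤ)}
    (h : ∀ c, (foldD4.π c = r → (chevD4.cartan 0 c, chevD4.cartan 1 c, chevD4.cartan 2 c,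
      chevD4.cartan 3 c) ∈ L) ∧ (foldD4.π c = s → (chevD4.cartan 0 c, chevD4.cartan 1 c,
      chevD4.cartan 2 c, chevD4.cartan 3 c) ∈ L'))
    (h1 : ∀ e ∈ L, (a : K) ^ e.1 * b ^ e.2.1 * S.θ a ^ e.2.2.1 * S.θ (S.θ a) ^ e.2.2.2 = 1)
    (h2 : ∀ e ∈ L', (a : K) ^ e.1 * b ^ e.2.1 * S.θ a ^ e.2.2.1 * S.θ (S.θ a) ^ e.2.2.2 ≠ 1) :
    (Y S).Kill r s :=
  kill_HH S.tw (S.mem_T.2 ⟨a, b, hb, rfl⟩)
    (fun c hc => Units.ext ((chi S a b c rfl).trans (h1 _ ((h c).1 hc))))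
    fun c hc e => h2 _ ((h c).2 hc) ((chi S a b c rfl).symm.trans (congrArg Units.val e))

theorem kill_ls (hθ : ∃ c, S.θ c ≠ c) (r s : Fin chevG2.nroots) (hr : rlen chevG2 r ≠ 1)
    (hs : rlen chevG2 s = 1) : (Y S).Kill r s := by
  obtain ⟨c, hc⟩ := hθ
  have c0 : c ≠ 0 := by rintro rfl; simp at hc
  have c1 : S.θ c ≠ 0 := by simpa
  have c2 : S.θ (S.θ c) ≠ 0 := by simpa
  obtain ⟨a, n, a1⟩ : ∃ a : K, a * S.θ a * S.θ (S.θ a) = 1 ∧ a ≠ 1 :=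
    ⟨c / S.θ c, by simp only [map_div₀, S.hθ]; field_simp, by rwa [Ne, div_eq_one_iff_eq c1, eq_comm]⟩
  have a0 : a ≠ 0 := by rintro rfl; simp at n
  have sq : ∀ b : K, b * S.θ b * S.θ (S.θ b) = 1 → b ≠ 1 → b ^ 2 ≠ 1 := fun b hb b1 e => by
    obtain rfl := (sq_eq_one_iff.1 e).resolve_left b1
    exact b1 (by simpa using hb)
  have s0 := sq a n a1
  have s1 := sq (S.θ a) (by rw [S.hθ, ← n]; ring) (by rwa [Ne, map_eq_one_iff _ S.θ.injective])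
  have s2 := sq (S.θ (S.θ a)) (by rw [S.hθ, ← n]; ring)
    (by rwa [Ne, map_eq_one_iff _ S.θ.injective, map_eq_one_iff _ S.θ.injective])
  have b1 : S.θ a ≠ 0 := by simpa
  have b2 : S.θ (S.θ a) ≠ 0 := by simpa
  have key : ∀ c : Fin chevD4.nroots, ∃ m ∈ [-1, 0, 1], (chevD4.cartan 0 c - m, chevD4.cartan 2 c - m,
      chevD4.cartan 3 c - m) ∈ if rlen chevG2 (foldD4.π c) = 1 then [(2, 0, 0), (0, 2, 0), (0, 0, 2),
        (-2, 0, 0), (0, -2, 0), (0, 0, -2)] else [(0, 0, 0)] := by decide +kernel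
  have ev : ∀ c : Fin chevD4.nroots, ∀ m : ℤ, ((∏ i : Fin chevD4.rank, S.hc (Units.mk0 a a0) 1 i ^
      chevD4.cartan i c : Kˣ) : K) = a ^ (chevD4.cartan 0 c - m) * S.θ a ^ (chevD4.cartan 2 c - m) *
        S.θ (S.θ a) ^ (chevD4.cartan 3 c - m) := fun c m => by
    rw [chi S _ _ c rfl, zpow_sub₀ a0, zpow_sub₀ b1, zpow_sub₀ b2, div_mul_div_comm, div_mul_div_comm,
      ← mul_zpow, ← mul_zpow, n]
    simp
  refine kill_HH S.tw (S.mem_T.2 ⟨Units.mk0 a a0, 1, map_one _, rfl⟩) (fun c hc => ?_) fun c hc e => ?_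
  · obtain ⟨m, -, hm⟩ := key c
    rw [hc, if_neg hr, List.mem_singleton, Prod.mk.injEq, Prod.mk.injEq] at hm
    exact Units.ext (by rw [ev c m, hm.1, hm.2.1, hm.2.2]; simp)
  · obtain ⟨m, -, hm⟩ := key c
    have := ev c m
    rw [e] at this
    simp only [hc, if_pos hs, List.mem_cons, Prod.mk.injEq, List.not_mem_nil, or_false] at hm
    rcases hm with h | h | h | h | h | h <;> rw [h.1, h.2.1, h.2.2] at this <;>
      simp [zpow_ofNat, eq_comm (a := (1 : K)), s0, s1, s2] at this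

theorem kill7 {c : K} (hc : S.θ c = c) (c0 : c ≠ 0) (c1 : c ≠ 1) {s : Fin chevG2.nroots}
    (hs : s = 6 ∨ s = 8 ∨ s = 9) : (Y S).Kill 7 s :=
  kill_of S (a := Units.mk0 c c0) (b := Units.mk0 c c0 ^ 2) (by simp [hc])
    (L := [(2, -1, 0, 0), (0, -1, 2, 0), (0, -1, 0, 2)])
    (L' := [(-1, 2, -1, -1), (1, 1, -1, -1), (-1, 1, 1, -1), (-1, 1, -1, 1), (-1, 0, 1, 1),
      (1, 0, -1, 1), (1, 0, 1, -1)])
    (by rcases hs with rfl | rfl | rfl <;> decide +kernel) (by simp [hc, zpow_ofNat, c0])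
    (by simp [hc, zpow_ofNat, c0, c1, pow_succ, ← mul_assoc])

theorem kill6 {c : K} (c0 : c ≠ 0) (c1 : c * S.θ c * S.θ (S.θ c) ≠ 1) {s : Fin chevG2.nroots}
    (hs : s = 10 ∨ s = 11) : (Y S).Kill 6 s := by
  have b1 : S.θ c ≠ 0 := by simpa
  have b2 : S.θ (S.θ c) ≠ 0 := by simpa
  refine kill_of S (a := Units.mk0 c c0 ^ 2) (b := Units.mk0 (c * S.θ c * S.θ (S.θ c)) (by simp [c0]))
    (by simp only [Units.val_mk0, map_mul, S.hθ]; ring) (L := [(-1, 2, -1, -1)])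
    (L' := [(1, -1, 1, 1), (0, 1, 0, 0)]) (by rcases hs with rfl | rfl <;> decide +kernel) ?_ ?_
  · simp [zpow_ofNat]; field_simp
  · simp only [List.forall_mem_cons]
    refine ⟨fun e => c1 ?_, by simpa using c1, by simp⟩
    rw [← e]; simp; field_simp

theorem comm_of {r s : Fin chevG2.nroots}
    (h : (s ≠ r ∧ s ≠ (rsOf chevG2).neg r) ∧ dt r s ≠ 0 ∧ ∀ v, ¬ Iv r s v) :
    ∀ u ∈ (Y S).U r, ∀ v ∈ (Y S).U s, u * v = v * u := fun _ hu _ hv =>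
  commute_of_itv h.1.1 h.1.2 (itv_empty h.2) hu hv

/-- elements of the group -/
noncomputable abbrev o (g : GL chevD4.Idx K) : S.G := subo S.G g

theorem o_val {r : Fin chevG2.nroots} {g : GL chevD4.Idx K} (h : g ∈ S.X.U r) : (o S g).1 = g :=
  subo_val (S.X_grp.le (U_le_grp _ h))

theorem o_mem {r : Fin chevG2.nroots} {g : GL chevD4.Idx K} (h : g ∈ S.X.U r) : o S g ∈ (Y S).U r :=
  (Set.mem_of_eq_of_mem (o_val S h) h : (o S g).1 ∈ (S.X.U r : Set _))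

theorem ho_val (a : Kˣ) : (o S (HH chevD4 K (S.hc a 1))).1 = HH chevD4 K (S.hc a 1) :=
  subo_val (S.X_grp.le (T_le_grp (S.mem_T.2 ⟨a, 1, map_one _, rfl⟩)))

theorem ho_mem (a : Kˣ) : o S (HH chevD4 K (S.hc a 1)) ∈ (Y S).T :=
  (Set.mem_of_eq_of_mem (ho_val S a) (S.mem_T.2 ⟨a, 1, map_one _, rfl⟩) : _ ∈ (S.X.T : Set _))

/-- the elements of a short class -/
def x3 (a b c : Fin chevD4.nroots) (t : K) : GL chevD4.Idx K :=
  x a t * (x b (S.θ t) * x c (S.θ (S.θ t)))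

theorem x3_add {a b c : Fin chevD4.nroots} (h : Orth a b ∧ Orth a c ∧ Orth b c) (s t : K) :
    x3 S a b c (s + t) = x3 S a b c s * x3 S a b c t := by
  simp only [x3, map_add, StSys.add]
  rw [(h.2.2.pp _ _).mul_mul_mul_comm, ((h.1.pp _ _).mul_right (h.2.1.pp _ _)).mul_mul_mul_comm]

theorem x3_conj {a b c : Fin chevD4.nroots} (d : Kˣ) {i j k : ℤ}
    (h : ∃ m m' m'', (chevD4.cartan 0 a, chevD4.cartan 1 a, chevD4.cartan 2 a, chevD4.cartan 3 a) =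
      (i, m, j, k) ∧ (chevD4.cartan 0 b, chevD4.cartan 1 b, chevD4.cartan 2 b, chevD4.cartan 3 b) =
      (k, m', i, j) ∧ (chevD4.cartan 0 c, chevD4.cartan 1 c, chevD4.cartan 2 c, chevD4.cartan 3 c) =
      (j, m'', k, i)) (t : K) :
    HH chevD4 K (S.hc d 1) * x3 S a b c t * (HH chevD4 K (S.hc d 1))⁻¹ =
      x3 S a b c (d ^ i * S.θ d ^ j * S.θ (S.θ d) ^ k * t) := by
  obtain ⟨m, m', m'', h1, h2, h3⟩ := h
  rw [x3, ← conj_mul, ← conj_mul, HH_conj_x, HH_conj_x, HH_conj_x, chi S _ _ _ h1, chi S _ _ _ h2,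
    chi S _ _ _ h3, x3]
  simp only [Units.val_one, one_zpow, mul_one, map_mul, map_zpow₀, S.hθ]
  congr 3 <;> ring

theorem mem7 (g : S.G) : g ∈ (Y S).U 7 ↔ ∃ t, g = o S (x3 S 18 13 12 t) :=
  S.mem_U7.trans (exists_congr fun t => by
    rw [Subtype.ext_iff, o_val S (S.mem_U7.2 ⟨t, rfl⟩ : x3 S 18 13 12 t ∈ _)]; rfl)

variable {E : Type u} [Group E] {p : ℕ} {π : E →* S.G} (H : CX p π)
include H

theorem lc7 (h5 : ∃ a b : K, a ≠ 0 ∧ b ≠ 0 ∧ 1 - a ^ 2 = b ^ 2 ∧ a ^ 2 * (1 - a ^ 2) - 1 ≠ 0) :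
    LC (Y S) π 7 7 := by
  obtain ⟨a, b, a0, b0, e, h⟩ := h5
  have v := fun t => o_val S (S.mem_U7.2 ⟨t, rfl⟩ : x3 S 18 13 12 t ∈ _)
  have ad : ∀ s t, o S (x3 S 18 13 12 (s + t)) = o S (x3 S 18 13 12 s) * o S (x3 S 18 13 12 t) :=
    fun s t => Subtype.ext (by rw [coe_mul, v, v, v, x3_add S ⟨o1, o2, o3⟩])
  have cj : ∀ (d : Kˣ) t, o S (HH chevD4 K (S.hc d 1)) * o S (x3 S 18 13 12 t) *
      (o S (HH chevD4 K (S.hc d 1)))⁻¹ = o S (x3 S 18 13 12 ((d : K) ^ 2 • t)) := fun d t =>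
    Subtype.ext (by
      rw [coe_mul, coe_mul, coe_inv, ho_val, v, v,
        x3_conj S d (i := 2) (j := 0) (k := 0) ⟨-1, -1, -1, by decide +kernel⟩]
      simp [zpow_ofNat])
  refine H.lc fun u hu v hv => ?_
  obtain ⟨s, rfl⟩ := (mem7 S u).1 hu
  obtain ⟨t, rfl⟩ := (mem7 S v).1 hv
  exact H.five_K ad ad (fun s t => by rw [← ad, ← ad, add_comm]) h (cj (Units.mk0 a a0))
    (cj (Units.mk0 a a0)) (e ▸ cj (Units.mk0 b b0)) (e ▸ cj (Units.mk0 b b0)) s t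

theorem lc11 : LC (Y S) π 11 11 := by
  refine lc_of_commutator H.surj H.cent (C := (Y S).U 6 ⊔ (Y S).U 10) (fun c hc u hu => ?_) ?_
  · exact (mem_centralizer_iff.1 ((sup_le (fun v hv => mem_centralizer_iff.2 fun u hu =>
      comm_of S (by decide +kernel) u hu v hv) fun v hv => mem_centralizer_iff.2 fun u hu =>
      comm_of S (by decide +kernel) u hu v hv : _ ≤ centralizer ((Y S).U 11 : Set S.G)) hc) u hu).symm
  · refine (U_le_commutator_of_itv (a := 6) (b := 10) (by decide) (by decide +kernel) ?_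
      (itv_eq (by decide +kernel)) (itv_empty (by decide +kernel)) (itv_eq (by decide +kernel))
      (itv_empty (by decide +kernel)) (itv_empty (by decide +kernel))).trans
      (commutator_mono le_sup_left le_sup_right)
    rw [show (6 : Fin chevG2.nroots) = (rsOf chevG2).simple 1 by decide +kernel, RS.rrefl_simple]
    decide +kernel

theorem lc_smul {r s r' s' : Fin chevG2.nroots} (h : LC (Y S) π r s) (l : List (Fin chevG2.rank))
    (e : l.foldr (rsOf chevG2).sref r = r' ∧ l.foldr (rsOf chevG2).sref s = s') : LC (Y S) π r' s' := by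
  simpa only [wprod_smul, e.1, e.2] using h.smul H.surj (wprod (rsOf chevG2).s l)

theorem lift_big [Fact p.Prime] [CharP K p] (hθ : ∃ c, S.θ c ≠ c)
    (h5 : ∃ a b : K, a ≠ 0 ∧ b ≠ 0 ∧ 1 - a ^ 2 = b ^ 2 ∧ a ^ 2 * (1 - a ^ 2) - 1 ≠ 0)
    {c : K} (c0 : c ≠ 0) (c1 : c * S.θ c * S.θ (S.θ c) ≠ 1) :
    ∃ L : Lift (Y S) π, ∀ r s, s ≠ r → s ≠ (rsOf chevG2).neg r → L.CM r s := by
  have hX : (Y S).CharP p := (twist_charP S.tw (chev_charP p)).sub _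
  have k7 := fun s => kill7 S (c := c * S.θ c * S.θ (S.θ c)) (s := s)
    (by simp only [map_mul, S.hθ]; ring) (by simp [c0]) c1
  refine ⟨Lift.mk' H.surj H.cent _ eqv_Vt Vt_le fun i => ?_, fun r s => cm_of_ok' (reps
    (fun r s hr hs => ⟨Lift.ok_of_kill (kill_ls S hθ r s hr hs),
      (Lift.ok_of_kill (kill_ls S hθ r s hr hs)).symm⟩) (Lift.ok_of_kill (k7 _ (by simp)))
    (Lift.ok_of_kill (k7 _ (by simp))) (Lift.ok_of_kill (kill6 S c0 c1 (by simp)))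
    (Lift.ok_of_kill (kill6 S c0 c1 (by simp))))⟩
  rcases simple_cases i with e | e <;> rw [e]
  · exact H.isLift_Vt hX (lc7 S H h5) (kill_ls S hθ 6 7 (by decide +kernel) (by decide +kernel))
  · exact H.isLift_Vt hX (lc_smul S H (lc11 S H) [0, 1] (by decide +kernel)) (k7 _ (by simp))

section Two

omit H
variable (h2 : (2 : K) = 0)
include h2

theorem σ_x (r : Fin chevD4.nroots) (t : K) : S.A.σ (x r t) = x (foldD4.ρ r) (S.θ t) := by
  have := S.A.σ_x (fun _ => S.θ) (fun _ => 1) (fun i => (S.φ i).symm) (fun _ => Int.cast_one)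
    (fun _ _ => rfl) (fun i r => by
      have h : ∀ i r, ((cdOf chevD4).eta i r : K) = 1 := fun i r => by
        rcases mul_self_eq_one_iff.1 ((cdOf chevD4).eta_sq i r K) with h | h
        exacts [h, by rw [h]; linear_combination -h2]
      rw [h, h, Int.cast_one]) r t
  rwa [Int.cast_one, one_mul] at this

theorem mem3 {a b c : Fin chevD4.nroots} {d : Fin chevG2.nroots}
    (h : (Orth a b ∧ Orth a c ∧ Orth b c) ∧ (foldD4.ρ a = b ∧ foldD4.ρ b = c ∧ foldD4.ρ c = a) ∧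
      (rsOf chevG2).Pos d ∧ ∀ r, r ∈ [a, b, c] ↔ foldD4.π r = d) {g : GL chevD4.Idx K} :
    g ∈ S.X.U d ↔ ∃ t, g = x3 S a b c t :=
  mem_U_three S.tw h.1.1 h.1.2.1 h.1.2.2 (h.2.1.1 ▸ σ_x S h2 a) (h.2.1.2.1 ▸ σ_x S h2 b)
    (h.2.1.2.2 ▸ σ_x S h2 c) S.hθ h.2.2.1 h.2.2.2

theorem mem1 {a : Fin chevD4.nroots} {d : Fin chevG2.nroots}
    (h : foldD4.ρ a = a ∧ (rsOf chevG2).Pos d ∧ ∀ r, r ∈ [a] ↔ foldD4.π r = d)
    {g : GL chevD4.Idx K} : g ∈ S.X.U d ↔ ∃ t, S.θ t = t ∧ g = x a t :=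
  mem_U_one S.tw (fun t => (σ_x S h2 a t).trans (by rw [h.1])) h.2.1 h.2.2

omit S [Finite K] in
theorem chk2 (μ : ℕ →*₀ K) (w w' : List (Fin chevD4.nroots × Ex))
    (h : wChk fastD4.tab 2 id (w.map fun a => (a.1.1, a.2)) (w'.map fun a => (a.1.1, a.2)) = true) :
    (w.map fun a => x a.1 (a.2.ev μ)).prod = (w'.map fun a => x a.1 (a.2.ev μ)).prod :=
  prod_eq_of_wChk (p := 2) h2 (by norm_num) (fun _ => rfl) tbD4 h

local notation "v" n:max => Ex.var n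

theorem f89 (t u : K) : x3 S 19 16 15 t * x3 S 17 20 21 u =
    x 23 (t * u + S.θ (t * u) + S.θ (S.θ (t * u))) * (x3 S 17 20 21 u * x3 S 19 16 15 t) := by
  simp only [x3, map_mul]
  obtain ⟨μ, e1, e2, e3, e4, e5, e6, -⟩ :=
    exists_mu8 t (S.θ t) (S.θ (S.θ t)) u (S.θ u) (S.θ (S.θ u)) 0 0
  have := chk2 h2 μ [(19, v 2), (16, v 3), (15, v 5), (17, v 7), (20, v 11), (21, v 13)]
    [(23, v 2 * v 7 + v 3 * v 11 + v 5 * v 13), (17, v 7), (20, v 11), (21, v 13), (19, v 2),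
      (16, v 3), (15, v 5)] (by decide +kernel)
  simpa [mul_assoc, e1, e2, e3, e4, e5, e6] using this

theorem f79 (u : K) : x3 S 18 13 12 1 * x3 S 17 20 21 u =
    x 22 (u + S.θ u + S.θ (S.θ u)) * (x3 S 17 20 21 u * x3 S 18 13 12 1) := by
  simp only [x3, map_one]
  obtain ⟨μ, e1, e2, e3, -⟩ := exists_mu8 u (S.θ u) (S.θ (S.θ u)) 0 0 0 0 0
  have := chk2 h2 μ [(18, v 1), (13, v 1), (12, v 1), (17, v 2), (20, v 3), (21, v 5)]
    [(22, v 2 + v 3 + v 5), (17, v 2), (20, v 3), (21, v 5), (18, v 1), (13, v 1), (12, v 1)]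
    (by decide +kernel)
  simpa [mul_assoc, e1, e2, e3] using this

theorem f78 (t : K) : x3 S 18 13 12 1 * x3 S 19 16 15 t =
    x3 S 19 16 15 t * x3 S 17 20 21 (S.θ t + S.θ (S.θ t)) * (x 22 (t + S.θ t + S.θ (S.θ t)) *
      x 23 (t * S.θ t + t * S.θ (S.θ t) + S.θ t * S.θ (S.θ t))) * x3 S 18 13 12 1 := by
  simp only [x3, map_one, map_add, S.hθ]
  obtain ⟨μ, e1, e2, e3, -⟩ := exists_mu8 t (S.θ t) (S.θ (S.θ t)) 0 0 0 0 0
  have := chk2 h2 μ [(18, v 1), (13, v 1), (12, v 1), (19, v 2), (16, v 3), (15, v 5)]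
    [(19, v 2), (16, v 3), (15, v 5), (17, v 3 + v 5), (20, v 5 + v 2), (21, v 2 + v 3),
      (22, v 2 + v 3 + v 5), (23, v 2 * v 3 + v 2 * v 5 + v 3 * v 5), (18, v 1), (13, v 1), (12, v 1)]
    (by decide +kernel)
  simpa [mul_assoc, e1, e2, e3] using this

theorem f67 : x 14 1 * x3 S 18 13 12 1 =
    x3 S 18 13 12 1 * (x3 S 19 16 15 1 * (x3 S 17 20 21 1 * x 22 1)) * x 14 1 := by
  simp only [x3, map_one]
  obtain ⟨μ, -⟩ := exists_mu8 (0 : K) 0 0 0 0 0 0 0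
  have := chk2 h2 μ [(14, v 1), (18, v 1), (13, v 1), (12, v 1)]
    [(18, v 1), (13, v 1), (12, v 1), (19, v 1), (16, v 1), (15, v 1), (17, v 1), (20, v 1), (21, v 1),
      (22, v 1), (14, v 1)] (by decide +kernel)
  simpa [mul_assoc] using this

end Two

end TD

end Cfsg.Agent.H17
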