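import Mathlib
import Cfsg.Agent.H11.LS3
import Cfsg.Agent.H6.Central

/-! Multiplicities of weights of commuting families in complex representations. -/

set_option autoImplicit false

namespace Cfsg.Agent.H17

open Module Cfsg.Agent.H11

variable {V : Type*} [AddCommGroup V] [Module ℂ V] [FiniteDimensional ℂ V] {G : Type*} [Group G]
  {ρ : Representation ℂ G V} {κ κ' D : Type*}

/-- the multiplicity of a weight -/
noncomputable def wm (ρ : Representation ℂ G V) (u : κ → G) (χ : κ → ℂ) : ℕ := finrank ℂ (wtSp ρ u χ)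

theorem wm_le_of_conj {u : κ → G} {u' : κ' → G} {χ : κ → ℂ} {χ' : κ' → ℂ} (g : G)
    (h : ∀ v ∈ wtSp ρ u χ, ρ g v ∈ wtSp ρ u' χ') : wm ρ u χ ≤ wm ρ u' χ' :=
  LinearMap.finrank_le_finrank_of_injective (f := (ρ g).restrict h) fun a b e =>
    Subtype.ext ((ρ.apply_bijective g).1 (congrArg Subtype.val e))

omit [FiniteDimensional ℂ V] in
theorem apply_mem_wtSp {u : κ → G} {u' : κ' → G} {χ : κ → ℂ} {χ' : κ' → ℂ} {g : G}
    (h : ∀ b, ∃ a, u' b * g = g * u a ∧ χ' b = χ a) {v : V} (hv : v ∈ wtSp ρ u χ) :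
    ρ g v ∈ wtSp ρ u' χ' := mem_wtSp.2 fun b => by
  obtain ⟨a, h1, h2⟩ := h b
  rw [← End.mul_apply, ← map_mul, h1, map_mul, End.mul_apply, mem_wtSp.1 hv, map_smul, h2]

theorem wm_le {u : κ → G} {u' : κ' → G} {χ : κ → ℂ} {χ' : κ' → ℂ} (g : G)
    (h : ∀ b, ∃ a, u' b * g = g * u a ∧ χ' b = χ a) : wm ρ u χ ≤ wm ρ u' χ' :=
  wm_le_of_conj g fun _ hv => apply_mem_wtSp h hv

theorem wm_eq_zero {u : κ → G} {χ : κ → ℂ} : wm ρ u χ = 0 ↔ wtSp ρ u χ = ⊥ := Submodule.finrank_eq_zero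

theorem sum_finrank_le [Fintype D] {u : κ → G} {χ : D → κ → ℂ} (hχ : Function.Injective χ)
    (W : D → Submodule ℂ V) (hW : ∀ d, W d ≤ wtSp ρ u (χ d)) {M : Submodule ℂ V} (hM : ∀ d, W d ≤ M) :
    ∑ d, finrank ℂ (W d) ≤ finrank ℂ M := by
  classical
  rw [← finrank_pi_fintype ℂ]
  refine LinearMap.finrank_le_finrank_of_injective
    (f := ∑ d, (Submodule.inclusion (hM d)) ∘ₗ LinearMap.proj d) ((injective_iff_map_eq_zero _).2 fun f hf => ?_)
  have := eq_zero_of_sum_weight (fun b => ρ (u b)) hχ Finset.univ (fun d => (f d : V))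
    (fun d _ => mem_wtSp.1 (hW d (f d).2)) (by simpa using congrArg Subtype.val hf)
  exact funext fun d => Subtype.ext (this d (Finset.mem_univ d))

/-- decomposition of a weight space under a larger commuting family -/
theorem wm_eq_sum [Finite G] [Fintype D] {u : κ → G} (hu : ∀ a b, Commute (u a) (u b)) {χ : D → κ → ℂ}
    (hχ : Function.Injective χ) {u' : κ' → G} {χ' : κ' → ℂ} (hc : ∀ a b, Commute (u a) (u' b))
    (h1 : ∀ d, wtSp ρ u (χ d) ≤ wtSp ρ u' χ')
    (h2 : ∀ ψ, wtSp ρ u ψ ⊓ wtSp ρ u' χ' ≠ ⊥ → ∃ d, ψ = χ d) : wm ρ u' χ' = ∑ d, wm ρ u (χ d) := by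
  classical
  refine le_antisymm ?_ (sum_finrank_le hχ _ (fun _ => le_rfl) h1)
  have h3 : wtSp ρ u' χ' ≤ ⨆ d, wtSp ρ u (χ d) := by
    have key : ∀ ψ, wtSp ρ u ψ ⊓ wtSp ρ u' χ' ≤ ⨆ d, wtSp ρ u (χ d) := fun ψ => by
      by_cases h : wtSp ρ u ψ ⊓ wtSp ρ u' χ' = ⊥
      · rw [h]; exact bot_le
      · obtain ⟨d, rfl⟩ := h2 ψ h
        exact inf_le_left.trans (le_iSup (fun d => wtSp ρ u (χ d)) d)
    let H := Subgroup.centralizer (Set.range u')
    let ρ' : Representation ℂ H (wtSp ρ u' χ') :=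
      { toFun := fun g => (ρ g).restrict fun v hv => apply_mem_wtSp
          (fun b => ⟨b, g.2 _ ⟨b, rfl⟩, rfl⟩) hv
        map_one' := by ext; simp
        map_mul' := fun a b => by ext; simp }
    let u₁ : κ → H := fun a => ⟨u a, by rintro _ ⟨b, rfl⟩; exact (hc a b).symm⟩
    intro v hv
    have := iSup_wtSp ρ' u₁ fun a b => Subtype.ext (hu a b)
    have h4 : (⟨v, hv⟩ : wtSp ρ u' χ') ∈ ⨆ ψ, wtSp ρ' u₁ ψ := this ▸ Submodule.mem_top
    have h5 := Submodule.mem_map_of_mem (f := (wtSp ρ u' χ').subtype) h4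
    rw [Submodule.map_iSup] at h5
    refine (iSup_le fun ψ => le_trans ?_ (key ψ)) h5
    rintro _ ⟨y, hy, rfl⟩
    exact ⟨mem_wtSp.2 fun b => congrArg Subtype.val (mem_wtSp.1 hy b), y.2⟩
  refine (Submodule.finrank_mono h3).trans ?_
  rw [← Finset.sup_univ_eq_iSup]
  induction (Finset.univ : Finset D) using Finset.induction_on with
  | empty => simp
  | insert a s ha ih =>
    rw [Finset.sup_insert, Finset.sum_insert ha]
    exact (Submodule.finrank_add_le_finrank_add_finrank _ _).trans (Nat.add_le_add_left ih _)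

theorem wm_le_finrank (u : κ → G) (χ : κ → ℂ) : wm ρ u χ ≤ finrank ℂ V := Submodule.finrank_le _

theorem sum_wm_le [Fintype D] (u : κ → G) {χ : D → κ → ℂ} (hχ : Function.Injective χ) :
    ∑ d, wm ρ u (χ d) ≤ finrank ℂ V := by
  simpa [wm] using sum_finrank_le hχ _ (fun _ => le_rfl) (M := ⊤) fun _ => le_top

variable {F : Type*} [Field F] [Finite F] {ψ : AddChar F ℂ}

omit [Finite F] in
theorem addChar_inj (hψ : ψ ≠ 1) : Function.Injective fun (d : F) (t : F) => ψ (d * t) :=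
  fun _ _ h => eq_of_addChar hψ (congrFun h)

omit [FiniteDimensional ℂ V] in
/-- the weights of a one-parameter subgroup -/
theorem exists_wt (hψ : ψ ≠ 1) {u : κ → G} {χ : κ → ℂ} (h : wtSp ρ u χ ≠ ⊥) (i : F → κ)
    (hi : ∀ s t, u (i (s + t)) = u (i s) * u (i t)) : ∃ c, ∀ t, χ (i t) = ψ (c * t) :=
  exists_eq_addChar hψ _ (wt_one h (by simpa using hi 0 0)) fun s t => wt_mul h (hi s t)

omit [FiniteDimensional ℂ V] in
theorem sum_mem_wtSp [Fintype F] {x : F → G} (hx : ∀ s t, x (s + t) = x s * x t) (c : F) (v : V) :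
    ∑ t, ψ (-(c * t)) • ρ (x t) v ∈ wtSp ρ x fun t => ψ (c * t) := mem_wtSp.2 fun s => by
  rw [map_sum, Finset.smul_sum]
  refine Fintype.sum_equiv (Equiv.addLeft s) _ _ fun t => ?_
  rw [map_smul, ← End.mul_apply, ← map_mul, ← hx, smul_smul, ← AddChar.map_add_eq_mul, Equiv.coe_addLeft]
  congr 2; ring

theorem four_dvd_finrank {a b : G} (ha : a * a = 1) (hb : b * b = 1) (h : a * b = b * a)
    (h1 : ρ.character a = 0) (h2 : ρ.character b = 0) (h3 : ρ.character (a * b) = 0) : 4 ∣ finrank ℂ V := by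
  have e : IsIdempotentElem ((4 : ℂ)⁻¹ • ((1 + ρ a) * (1 + ρ b))) := by
    have k : ∀ {a : G}, a * a = 1 → (1 + ρ a) * (1 + ρ a) = (2 : ℂ) • (1 + ρ a) := fun {a} ha => by
      rw [mul_add, add_mul, add_mul, ← map_mul, ha, map_one, two_smul]; simp only [mul_one, one_mul]; abel
    have c : (1 + ρ b) * (1 + ρ a) = (1 + ρ a) * (1 + ρ b) := by
      simp only [mul_add, add_mul, ← map_mul, h, mul_one, one_mul]; abel
    rw [IsIdempotentElem, smul_mul_smul_comm, mul_assoc, ← mul_assoc (1 + ρ b), c, mul_assoc, k hb,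
      ← mul_assoc, k ha, smul_mul_smul_comm, smul_smul]
    norm_num
  have := (LinearMap.IsIdempotentElem.isProj_range _ e).trace
  simp only [Representation.character, map_mul] at h1 h2 h3
  simp only [mul_add, add_mul, mul_one, one_mul, map_smul, map_add, h1, h2, h3, LinearMap.trace_one,
    add_zero, smul_eq_mul] at this
  exact ⟨_, Nat.cast_injective (R := ℂ) (by rw [Nat.cast_mul, ← this]; simp)⟩

end Cfsg.Agent.H17
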