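import Mathlib
import Cfsg.Agent.H17.Wt

/-! Weight spaces of one-parameter subgroups; groups with commutator relations of type `G₂`. -/

set_option autoImplicit false
set_option linter.unusedSectionVars false

namespace Cfsg.Agent.H17

open Module Cfsg.Agent.H11

variable {V : Type*} [AddCommGroup V] [Module ℂ V] [FiniteDimensional ℂ V] {G : Type*} [Group G]
  {ρ : Representation ℂ G V} {F : Type*} [Field F] [Fintype F] {ψ : AddChar F ℂ}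

/-- the weight space of a one-parameter subgroup -/
noncomputable def Ew (ρ : Representation ℂ G V) (ψ : AddChar F ℂ) (x : F → G) (c : F) : Submodule ℂ V :=
  wtSp ρ x fun t => ψ (c * t)

theorem mem_Ew {x : F → G} {c : F} {v : V} : v ∈ Ew ρ ψ x c ↔ ∀ t, ρ (x t) v = ψ (c * t) • v := mem_wtSp

theorem mem_Ew0 {x : F → G} {v : V} : v ∈ Ew ρ ψ x 0 ↔ ∀ t, ρ (x t) v = v := by simp [mem_Ew]

theorem eig_mv {a g b : G} {v : V} {z : ℂ} (h : a * g = g * b) (hb : ρ b v = z • v) :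
    ρ a (ρ g v) = z • ρ g v := by
  rw [← End.mul_apply, ← map_mul, h, map_mul, End.mul_apply, hb, map_smul]

theorem eig_mul {a b : G} {v : V} {z z' : ℂ} (ha : ρ a v = z • v) (hb : ρ b v = z' • v) :
    ρ (a * b) v = (z * z') • v := by
  rw [map_mul, End.mul_apply, hb, map_smul, ha, smul_smul, mul_comm]

theorem Ew_mv {x y : F → G} {g : G} {c c' l : F} {v : V} (h : ∀ t, x t * g = g * y (l * t)) (hv : v ∈ Ew ρ ψ y c)
    (e : c' = c * l) : ρ g v ∈ Ew ρ ψ x c' :=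
  mem_Ew.2 fun t => (eig_mv (h t) (mem_Ew.1 hv _)).trans (by rw [e, mul_assoc])

theorem Ew_mv1 {x y : F → G} {g : G} {c : F} {v : V} (h : ∀ t, x t * g = g * y t) (hv : v ∈ Ew ρ ψ y c) :
    ρ g v ∈ Ew ρ ψ x c := mem_Ew.2 fun t => eig_mv (h t) (mem_Ew.1 hv _)

theorem Ew_mv2 {x y : F → G} {g : G} {c d c' l : F} {v : V} (h : ∀ t, x t * g = g * (x t * y (l * t)))
    (hv : v ∈ Ew ρ ψ x c) (hv' : v ∈ Ew ρ ψ y d) (e : c' = c + d * l) : ρ g v ∈ Ew ρ ψ x c' :=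
  mem_Ew.2 fun t => (eig_mv (h t) (eig_mul (mem_Ew.1 hv _) (mem_Ew.1 hv' _))).trans (by
    rw [← AddChar.map_add_eq_mul, e, add_mul, mul_assoc])

theorem rho_ne_zero (g : G) {v : V} (h : v ≠ 0) : ρ g v ≠ 0 := fun e =>
  h ((ρ.apply_bijective g).1 (e.trans (map_zero _).symm))

theorem fr_le {W W' : Submodule ℂ V} (g : G) (h : ∀ v ∈ W, ρ g v ∈ W') : finrank ℂ W ≤ finrank ℂ W' :=
  LinearMap.finrank_le_finrank_of_injective (f := (ρ g).restrict h) fun _ _ e =>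
    Subtype.ext ((ρ.apply_bijective g).1 (congrArg Subtype.val e))

theorem sum_fr_le (hψ : ψ ≠ 1) {x : F → G} (W : F → Submodule ℂ V) (hW : ∀ c, W c ≤ Ew ρ ψ x c)
    {M : Submodule ℂ V} (hM : ∀ c, W c ≤ M) : ∑ c, finrank ℂ (W c) ≤ finrank ℂ M :=
  sum_finrank_le (addChar_inj hψ) W hW hM

theorem sum_proj (hψ : ψ ≠ 1) {x : F → G} (h0 : x 0 = 1) (v : V) :
    ∑ c, ∑ t, ψ (-(c * t)) • ρ (x t) v = (Fintype.card F : ℂ) • v := by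
  classical
  rw [Finset.sum_comm]
  simp only [← Finset.sum_smul, ← mul_neg, AddChar.sum_mulShift _ (AddChar.IsPrimitive.of_ne_one hψ)]
  simp [h0]

theorem fr_split (hψ : ψ ≠ 1) {x : F → G} (hx : ∀ s t, x (s + t) = x s * x t) {W : Submodule ℂ V}
    (hW : ∀ t, ∀ v ∈ W, ρ (x t) v ∈ W) : finrank ℂ W = ∑ c, finrank ℂ (W ⊓ Ew ρ ψ x c : Submodule ℂ V) := by
  classical
  refine le_antisymm ?_ (sum_fr_le hψ _ (fun _ => inf_le_right) fun _ => inf_le_left)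
  have h3 : W ≤ Finset.univ.sup fun c => W ⊓ Ew ρ ψ x c := fun v hv => by
    rw [← Submodule.smul_mem_iff _ (Nat.cast_ne_zero.2 (Fintype.card_ne_zero (α := F)) : (_ : ℂ) ≠ 0),
      ← sum_proj (ρ := ρ) hψ (x := x) (by simpa using hx 0 0)]
    exact Submodule.sum_mem _ fun c _ => Finset.le_sup (f := fun c => W ⊓ Ew ρ ψ x c) (Finset.mem_univ c)
      ⟨Submodule.sum_mem _ fun t _ => W.smul_mem _ (hW t v hv), sum_mem_wtSp hx c v⟩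
  refine (Submodule.finrank_mono h3).trans ?_
  induction (Finset.univ : Finset F) using Finset.induction_on with
  | empty => simp
  | insert a s ha ih =>
    rw [Finset.sup_insert, Finset.sum_insert ha]
    exact (Submodule.finrank_add_le_finrank_add_finrank _ _).trans (Nat.add_le_add_left ih _)

theorem fr_split_const (hψ : ψ ≠ 1) {x : F → G} (hx : ∀ s t, x (s + t) = x s * x t) {W : Submodule ℂ V}
    (hW : ∀ t, ∀ v ∈ W, ρ (x t) v ∈ W) (h : ∀ c c', ∃ g, ∀ v ∈ W ⊓ Ew ρ ψ x c, ρ g v ∈ W ⊓ Ew ρ ψ x c') (c : F) :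
    finrank ℂ W = Fintype.card F * finrank ℂ (W ⊓ Ew ρ ψ x c : Submodule ℂ V) := by
  rw [fr_split hψ hx hW, Finset.sum_congr rfl fun c' _ => le_antisymm (fr_le _ (h c' c).choose_spec)
    (fr_le _ (h c c').choose_spec), Finset.sum_const, Finset.card_univ, smul_eq_mul]

theorem sum_eq_of_ne {f : F → ℕ} {n : ℕ} (h : ∀ c, c ≠ 0 → f c = n) : ∑ c, f c = (Fintype.card F - 1) * n + f 0 := by
  classical
  rw [← Finset.add_sum_erase _ _ (Finset.mem_univ 0), Finset.sum_congr rfl fun c hc => h c (Finset.ne_of_mem_erase hc),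
    Finset.sum_const, Finset.card_erase_of_mem (Finset.mem_univ _), Finset.card_univ, smul_eq_mul, add_comm]

theorem le_sum_of_ne {f : F → ℕ} {n : ℕ} (h : ∀ c, c ≠ 0 → n ≤ f c) : (Fintype.card F - 1) * n + f 0 ≤ ∑ c, f c := by
  classical
  rw [← Finset.add_sum_erase _ _ (Finset.mem_univ 0), add_comm]
  refine Nat.add_le_add_left (le_trans ?_ (Finset.card_nsmul_le_sum _ _ n fun c hc => h c (Finset.ne_of_mem_erase hc))) _
  rw [Finset.card_erase_of_mem (Finset.mem_univ _), Finset.card_univ, smul_eq_mul]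

theorem fr_pos {W : Submodule ℂ V} {v : V} (h : v ∈ W) (h0 : v ≠ 0) : 1 ≤ finrank ℂ W :=
  Nat.one_le_iff_ne_zero.2 fun e => h0 (by rw [Submodule.finrank_eq_zero.1 e] at h; exact h)

theorem exists_of_fr_pos {W : Submodule ℂ V} (h : 1 ≤ finrank ℂ W) : ∃ v ∈ W, v ≠ 0 :=
  (Submodule.ne_bot_iff W).1 fun e => by rw [e] at h; simp at h

theorem exists_smul_of_fr {W : Submodule ℂ V} (h : finrank ℂ W ≤ 1) {v w : V} (hv : v ∈ W) (h0 : v ≠ 0)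
    (hw : w ∈ W) : ∃ z : ℂ, w = z • v := by
  obtain ⟨u, hu⟩ := finrank_le_one_iff.1 h
  obtain ⟨a, ha⟩ := hu ⟨v, hv⟩
  obtain ⟨b, hb⟩ := hu ⟨w, hw⟩
  have ha' : a • (u : V) = v := congrArg Subtype.val ha
  have : a ≠ 0 := by rintro rfl; exact h0 (by simpa using ha'.symm)
  exact ⟨b / a, by rw [← ha', smul_smul, div_mul_cancel₀ _ this]; exact (congrArg Subtype.val hb).symm⟩

/-- a one-parameter subgroup acts on an invariant line through a character -/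
theorem exists_Ew_of_line (hψ : ψ ≠ 1) {x : F → G} (hx : ∀ s t, x (s + t) = x s * x t) {v : V} (h0 : v ≠ 0)
    (h : ∀ t, ∃ z : ℂ, ρ (x t) v = z • v) : ∃ c, v ∈ Ew ρ ψ x c := by
  choose z hz using h
  obtain ⟨c, hc⟩ := exists_wt hψ (ρ := ρ) (u := x) (χ := z)
    ((Submodule.ne_bot_iff _).2 ⟨v, mem_wtSp.2 hz, h0⟩) id hx
  exact ⟨c, mem_Ew.2 fun t => (hz t).trans (congrArg (· • v) (hc t))⟩

theorem Ew_unique (hψ : ψ ≠ 1) {x : F → G} {v : V} (h0 : v ≠ 0) {c c' : F} (h : v ∈ Ew ρ ψ x c)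
    (h' : v ∈ Ew ρ ψ x c') : c = c' :=
  eq_of_addChar hψ fun t => smul_left_injective ℂ h0 ((mem_Ew.1 h t).symm.trans (mem_Ew.1 h' t))

/-- a one-parameter subgroup scaled by an element fixing an invariant line acts trivially on it -/
theorem mem_Ew0_of_line (hψ : ψ ≠ 1) {x : F → G} (hx : ∀ s t, x (s + t) = x s * x t) {v : V} (h0 : v ≠ 0)
    (h : ∀ t, ∃ z : ℂ, ρ (x t) v = z • v) {g : G} {l : F} (hl : l ≠ 1) (hg : ∀ t, x t * g = g * x (l * t))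
    (hv : ∃ z : ℂ, ρ g v = z • v) : v ∈ Ew ρ ψ x 0 := by
  obtain ⟨c, hc⟩ := exists_Ew_of_line hψ hx h0 h
  obtain ⟨z, hz⟩ := hv
  have := Ew_unique hψ (rho_ne_zero g h0) (Ew_mv hg hc rfl) (hz ▸ Submodule.smul_mem _ z hc)
  rwa [show c = 0 by
    by_contra h1
    exact hl (mul_left_cancel₀ h1 (this.trans (mul_one c).symm))] at hc

/-- commutator relations of type `G₂` -/
structure GT (G K F : Type*) [Group G] [Field K] [Field F] where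
  ι : F →+* K
  τ : K →+ F
  τ_mul : ∀ e s, τ (ι e * s) = e * τ s
  a : K → G
  b : F → G
  c : K → G
  d : K → G
  e : F → G
  h : F → G
  na : G
  nb : G
  b_add : ∀ s t, b (s + t) = b s * b t
  c_add : ∀ s t, c (s + t) = c s * c t
  d_add : ∀ s t, d (s + t) = d s * d t
  e_add : ∀ s t, e (s + t) = e s * e t
  h_add : ∀ s t, h (s + t) = h s * h t
  ed : ∀ s t, e t * d s = d s * e t
  hd : ∀ s t, h t * d s = d s * h t
  he : ∀ s t, h t * e s = e s * h t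
  eb : ∀ u t, e t * b u = b u * (e t * h (-u * t))
  db : ∀ u t, d t * b u = b u * d t
  hb : ∀ u t, h t * b u = b u * h t
  dc : ∀ r s, d s * c r = c r * (d s * h (τ (r * s)))
  ec : ∀ r t, e t * c r = c r * e t
  hc : ∀ r t, h t * c r = c r * h t
  da : ∀ r s, d s * a r = a r * (d s * e (τ (r * s)))
  ea : ∀ r t, e t * a r = a r * e t
  ha : ∀ r t, h t * a r = a r * h t
  enb : ∀ t, e t * nb = nb * h (-1 * t)
  hnb : ∀ t, h t * nb = nb * e t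
  ena : ∀ t, e t * na = na * b t
  bna : ∀ t, b t * na = na * e (-1 * t)
  hna : ∀ t, h t * na = na * h t

namespace GT

variable {K : Type*} [Field K] [Fintype K] (S : GT G K F)

/-- the additive character of the bigger field -/
noncomputable def Ψ (ψ : AddChar F ℂ) : AddChar K ℂ := ψ.compAddMonoidHom S.τ

/-- weight spaces of the two highest long root subgroups -/
noncomputable def Z (ρ : Representation ℂ G V) (ψ : AddChar F ℂ) (e d : F) : Submodule ℂ V := Ew ρ ψ S.e e ⊓ Ew ρ ψ S.h d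

theorem Z_b (u : F) {e d e' : F} (he : e' = e + d * -u) : ∀ v ∈ S.Z ρ ψ e d, ρ (S.b u) v ∈ S.Z ρ ψ e' d :=
  fun _ hv => ⟨Ew_mv2 (S.eb u) hv.1 hv.2 he, Ew_mv1 (S.hb u) hv.2⟩

theorem Z_nb {e d : F} : ∀ v ∈ S.Z ρ ψ e d, ρ S.nb v ∈ S.Z ρ ψ (-d) e :=
  fun _ hv => ⟨Ew_mv S.enb hv.2 (by ring), Ew_mv1 S.hnb hv.1⟩

theorem Z_le {e d e' d' : F} (h : e ≠ 0 ∨ d ≠ 0) (h' : e' ≠ 0 ∨ d' ≠ 0) :
    finrank ℂ (S.Z ρ ψ e d) ≤ finrank ℂ (S.Z ρ ψ e' d') := by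
  have k1 : ∀ e e' d, d ≠ 0 → finrank ℂ (S.Z ρ ψ e d) ≤ finrank ℂ (S.Z ρ ψ e' d) := fun e e' d hd =>
    fr_le _ (S.Z_b ((e - e') / d) (by field_simp; ring))
  have k2 : ∀ e e' d d', d ≠ 0 → d' ≠ 0 → finrank ℂ (S.Z ρ ψ e d) ≤ finrank ℂ (S.Z ρ ψ e' d') :=
    fun e e' d d' hd hd' => (k1 e d' d hd).trans ((fr_le _ S.Z_nb).trans (k1 _ _ _ hd'))
  have k3 : ∀ e' d', d' ≠ 0 → finrank ℂ (S.Z ρ ψ e d) ≤ finrank ℂ (S.Z ρ ψ e' d') := fun e' d' hd' => by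
    rcases h with h | h
    exacts [(fr_le _ S.Z_nb).trans (k2 _ _ _ _ h hd'), k2 _ _ _ _ h hd']
  rcases h' with h' | h'
  · have := (k3 d' (-e') (neg_ne_zero.2 h')).trans (fr_le _ S.Z_nb)
    rwa [neg_neg] at this
  · exact k3 _ _ h'

theorem Z_eq {e d : F} (h : e ≠ 0 ∨ d ≠ 0) : finrank ℂ (S.Z ρ ψ e d) = finrank ℂ (S.Z ρ ψ 0 1) :=
  le_antisymm (S.Z_le h (Or.inr one_ne_zero)) (S.Z_le (Or.inr one_ne_zero) h)

theorem fr_h (hψ : ψ ≠ 1) (d : F) : finrank ℂ (Ew ρ ψ S.h d) = ∑ e, finrank ℂ (S.Z ρ ψ e d) := by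
  rw [fr_split hψ S.e_add (W := Ew ρ ψ S.h d) fun t v hv => Ew_mv1 (S.he t) hv]
  exact Finset.sum_congr rfl fun _ _ => by rw [inf_comm, Z]

theorem dim_eq (hψ : ψ ≠ 1) : finrank ℂ V = (Fintype.card F ^ 2 - 1) * finrank ℂ (S.Z ρ ψ 0 1) +
    finrank ℂ (S.Z ρ ψ 0 0) := by
  rw [← finrank_top, fr_split hψ S.h_add (W := ⊤) (ρ := ρ) fun _ _ _ => trivial]
  rw [Finset.sum_congr rfl fun d _ => (congrArg (fun W : Submodule ℂ V => finrank ℂ W) (top_inf_eq _)).trans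
    (S.fr_h hψ d), sum_eq_of_ne (n := Fintype.card F * finrank ℂ (S.Z ρ ψ 0 1)) fun d hd => by
    rw [Finset.sum_congr rfl fun e _ => S.Z_eq (Or.inr hd), Finset.sum_const, Finset.card_univ, smul_eq_mul],
    sum_eq_of_ne fun e he => S.Z_eq (Or.inl he)]
  obtain ⟨k, hk⟩ := Nat.exists_eq_add_of_le' (Fintype.card_pos (α := F))
  rw [hk, show (k + 1) ^ 2 - 1 = k * (k + 1) + k from Nat.sub_eq_of_eq_add (by ring), Nat.add_sub_cancel]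
  ring

theorem Z_pos (hψ : ψ ≠ 1) (h : ρ (S.h 1) ≠ 1) : 1 ≤ finrank ℂ (S.Z ρ ψ 0 1) := by
  by_contra h1
  have := S.dim_eq (ρ := ρ) hψ
  rw [show finrank ℂ (S.Z ρ ψ 0 1) = 0 by omega, mul_zero, zero_add] at this
  exact h (LinearMap.ext fun v => mem_Ew0.1 ((Submodule.eq_top_of_finrank_eq this.symm).ge trivial).2 1)

theorem Z_d (s : K) {e d : F} : ∀ v ∈ S.Z ρ ψ e d, ρ (S.d s) v ∈ S.Z ρ ψ e d :=
  fun _ hv => ⟨Ew_mv1 (S.ed s) hv.1, Ew_mv1 (S.hd s) hv.2⟩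

theorem Ew_d {g : G} {y : F → G} {r c c' : K} {e : F} {v : V} (h : ∀ s, S.d s * g = g * (S.d s * y (S.τ (r * s))))
    (hv : v ∈ Ew ρ (S.Ψ ψ) S.d c) (hv' : v ∈ Ew ρ ψ y e) (hc : c' = c + S.ι e * r) :
    ρ g v ∈ Ew ρ (S.Ψ ψ) S.d c' :=
  mem_Ew.2 fun t => (eig_mv (h t) (eig_mul (mem_Ew.1 hv _) (mem_Ew.1 hv' _))).trans (by
    rw [hc, add_mul, AddChar.map_add_eq_mul, mul_assoc, ← S.τ_mul]; rfl)

theorem Z_split (hΨ : S.Ψ ψ ≠ 1) {e d : F} (h : e ≠ 0 ∨ d ≠ 0) (c : K) : finrank ℂ (S.Z ρ ψ e d) =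
    Fintype.card K * finrank ℂ (S.Z ρ ψ e d ⊓ Ew ρ (S.Ψ ψ) S.d c : Submodule ℂ V) := by
  refine fr_split_const hΨ S.d_add (fun s => S.Z_d s) (fun c c' => ?_) c
  rcases h with h | h
  · exact ⟨S.a ((c' - c) / S.ι e), fun v hv => ⟨⟨Ew_mv1 (S.ea _) hv.1.1, Ew_mv1 (S.ha _) hv.1.2⟩,
      S.Ew_d (S.da _) hv.2 hv.1.1 (by rw [mul_div_cancel₀ _ ((map_ne_zero _).2 h)]; ring)⟩⟩
  · exact ⟨S.c ((c' - c) / S.ι d), fun v hv => ⟨⟨Ew_mv1 (S.ec _) hv.1.1, Ew_mv1 (S.hc _) hv.1.2⟩,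
      S.Ew_d (S.dc _) hv.2 hv.1.2 (by rw [mul_div_cancel₀ _ ((map_ne_zero _).2 h)]; ring)⟩⟩

theorem Z_na {e : F} : ∀ v ∈ S.Z ρ ψ e 0 ⊓ Ew ρ ψ S.b 0, ρ S.na v ∈ S.Z ρ ψ 0 0 ⊓ Ew ρ ψ S.b (-e) :=
  fun _ hv => ⟨⟨Ew_mv1 S.ena hv.2, Ew_mv1 S.hna hv.1.2⟩, Ew_mv S.bna hv.1.1 (by ring)⟩

theorem Z0_split (hψ : ψ ≠ 1) (e : F) :
    finrank ℂ (S.Z ρ ψ e 0) = ∑ β, finrank ℂ (S.Z ρ ψ e 0 ⊓ Ew ρ ψ S.b β : Submodule ℂ V) :=
  fr_split hψ S.b_add fun u => S.Z_b u (by simp)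

theorem fix_b (hψ : ψ ≠ 1) {e : F} (h : finrank ℂ (S.Z ρ ψ e 0 ⊓ Ew ρ (S.Ψ ψ) S.d 0 : Submodule ℂ V) = 1)
    {g : G} {l ν : F} {μ : K} (hl : l ≠ 1) (h1 : ∀ t, S.e t * g = g * S.e t) (h2 : ∀ t, S.b t * g = g * S.b (l * t))
    (h3 : ∀ t, S.h t * g = g * S.h (ν * t)) (h4 : ∀ t, S.d t * g = g * S.d (μ * t)) :
    1 ≤ finrank ℂ (S.Z ρ ψ 0 0 ⊓ Ew ρ ψ S.b (-e) : Submodule ℂ V) := by
  obtain ⟨v, hv, h0⟩ := exists_of_fr_pos h.ge
  exact fr_pos (S.Z_na v ⟨hv.1, mem_Ew0_of_line hψ S.b_add h0 (fun t => exists_smul_of_fr h.le hv h0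
    ⟨S.Z_b t (by simp) v hv.1, Ew_mv1 (S.db t) hv.2⟩) hl h2 (exists_smul_of_fr h.le hv h0
      ⟨⟨Ew_mv1 h1 hv.1.1, Ew_mv h3 hv.1.2 (by simp)⟩, Ew_mv h4 hv.2 (by simp)⟩)⟩) (rho_ne_zero _ h0)

theorem Z0_ge (hψ : ψ ≠ 1) (h : ∀ e, e ≠ 0 → 1 ≤ finrank ℂ (S.Z ρ ψ 0 0 ⊓ Ew ρ ψ S.b (-e) : Submodule ℂ V)) :
    Fintype.card F - 1 + finrank ℂ (S.Z ρ ψ 0 0 ⊓ Ew ρ ψ S.b 0 : Submodule ℂ V) ≤ finrank ℂ (S.Z ρ ψ 0 0) := by
  rw [S.Z0_split hψ, ← mul_one (_ - 1)]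
  exact le_sum_of_ne (f := fun β => finrank ℂ (S.Z ρ ψ 0 0 ⊓ Ew ρ ψ S.b β : Submodule ℂ V)) fun c hc => by
    simpa using h (-c) (neg_ne_zero.2 hc)

end GT

end Cfsg.Agent.H17
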