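import Mathlib
import Cfsg.Agent.H17.Wt2
import Cfsg.Agent.H17.MulD
import Cfsg.Agent.H12.Coll

/-! The relations of type `G₂` in the triality groups. -/

set_option autoImplicit false
set_option linter.unusedSectionVars false
set_option maxRecDepth 100000

namespace Cfsg.Agent.H17

open Module H11 H12 H12.RGD H13 H13.D4 Cfsg.Lie

namespace GT

variable {V : Type*} [AddCommGroup V] [Module ℂ V] [FiniteDimensional ℂ V] {G : Type*} [Group G]
  {ρ : Representation ℂ G V} {F : Type*} [Field F] [Fintype F] {ψ : AddChar F ℂ}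
  {K : Type*} [Field K] [Fintype K] (S : GT G K F)

/-- restriction to a subgroup -/
def sub (H : Subgroup G) (h : (∀ t, S.a t ∈ H ∧ S.c t ∈ H ∧ S.d t ∈ H) ∧
    (∀ t, S.b t ∈ H ∧ S.e t ∈ H ∧ S.h t ∈ H) ∧ S.na ∈ H ∧ S.nb ∈ H) : GT H K F where
  ι := S.ι
  τ := S.τ
  τ_mul := S.τ_mul
  a t := ⟨S.a t, (h.1 t).1⟩
  b t := ⟨S.b t, (h.2.1 t).1⟩
  c t := ⟨S.c t, (h.1 t).2.1⟩
  d t := ⟨S.d t, (h.1 t).2.2⟩
  e t := ⟨S.e t, (h.2.1 t).2.1⟩
  h t := ⟨S.h t, (h.2.1 t).2.2⟩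
  na := ⟨S.na, h.2.2.1⟩
  nb := ⟨S.nb, h.2.2.2⟩
  b_add s t := Subtype.ext (S.b_add s t)
  c_add s t := Subtype.ext (S.c_add s t)
  d_add s t := Subtype.ext (S.d_add s t)
  e_add s t := Subtype.ext (S.e_add s t)
  h_add s t := Subtype.ext (S.h_add s t)
  ed s t := Subtype.ext (S.ed s t)
  hd s t := Subtype.ext (S.hd s t)
  he s t := Subtype.ext (S.he s t)
  eb s t := Subtype.ext (S.eb s t)
  db s t := Subtype.ext (S.db s t)
  hb s t := Subtype.ext (S.hb s t)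
  dc s t := Subtype.ext (S.dc s t)
  ec s t := Subtype.ext (S.ec s t)
  hc s t := Subtype.ext (S.hc s t)
  da s t := Subtype.ext (S.da s t)
  ea s t := Subtype.ext (S.ea s t)
  ha s t := Subtype.ext (S.ha s t)
  enb t := Subtype.ext (S.enb t)
  hnb t := Subtype.ext (S.hnb t)
  ena t := Subtype.ext (S.ena t)
  bna t := Subtype.ext (S.bna t)
  hna t := Subtype.ext (S.hna t)

theorem Ψ_ne (hψ : ψ ≠ 1) {s : K} (h : S.τ s ≠ 0) : S.Ψ ψ ≠ 1 := fun e => hψ (AddChar.ext _ _ fun t => by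
  have := DFunLike.congr_fun e (S.ι (t / S.τ s) * s)
  rwa [Ψ, AddChar.compAddMonoidHom_apply, S.τ_mul, div_mul_cancel₀ _ h] at this)

theorem fix_two (hψ : ψ ≠ 1) (hF : ∀ t : F, t = 0 ∨ t = 1)
    (h : 1 ≤ finrank ℂ (S.Z ρ ψ 1 0 ⊓ Ew ρ (S.Ψ ψ) S.d 0 : Submodule ℂ V))
    (hr : ∀ r, r ≠ 0 → ∃ s, S.b 1 * S.a r = S.a r * (S.b 1 * (S.c r * (S.d s * (S.e 1 * S.h 1)))))
    {r : K} (h0 : r ≠ 0) (h1 : 1 + r ≠ 0) :
    1 ≤ finrank ℂ (S.Z ρ ψ 0 0 ⊓ Ew ρ ψ S.b (-1) : Submodule ℂ V) := by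
  by_contra hc
  obtain ⟨v, hv, v0⟩ := exists_of_fr_pos h
  have b0 : S.b 0 = 1 := by simpa using S.b_add 0 0
  have b1 : S.b 1 * S.b 1 = 1 := by
    rw [← S.b_add, (hF (1 + 1)).resolve_right (by simp), b0]
  have k1 : ∀ w ∈ S.Z ρ ψ 1 0, ρ (S.b 1) w = (-1 : ℂ) • w := fun w hw => by
    rw [neg_one_smul, eq_neg_iff_add_eq_zero]
    by_contra e
    refine hc (fr_pos (S.Z_na _ ⟨add_mem (S.Z_b 1 (by simp) w hw) hw, mem_Ew0.2 fun t => ?_⟩) (rho_ne_zero _ e))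
    rcases hF t with rfl | rfl
    · simp [b0]
    · rw [map_add, ← End.mul_apply, ← map_mul, b1, map_one, End.one_apply, add_comm]
  have k2 : ∀ r, r ≠ 0 → ρ (S.c r) v = (ψ 1)⁻¹ • v := fun r hr0 => by
    obtain ⟨s, hs⟩ := hr r hr0
    have e1 := eig_mul ((mem_Ew0.1 hv.2 s).trans (one_smul ℂ _).symm)
      (eig_mul (mem_Ew.1 hv.1.1 1) (mem_Ew.1 hv.1.2 1))
    have e2 := k1 (ρ (S.a r) v) ⟨Ew_mv1 (S.ea _) hv.1.1, Ew_mv1 (S.ha _) hv.1.2⟩
    rw [← End.mul_apply, ← map_mul, hs, map_mul, map_mul, map_mul, End.mul_apply, End.mul_apply, End.mul_apply,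
      e1, map_smul, map_smul, k1 _ ⟨Ew_mv1 (S.ec _) hv.1.1, Ew_mv1 (S.hc _) hv.1.2⟩, ← map_smul (ρ (S.a r))] at e2
    have e3 := (ρ.apply_bijective _).1 e2
    rw [smul_comm, (smul_right_injective V (neg_ne_zero.2 one_ne_zero)).eq_iff] at e3
    rw [eq_inv_smul_iff₀ (AddChar.val_isUnit ψ 1).ne_zero]
    simpa using e3
  have k3 := smul_left_injective ℂ v0 ((k2 _ h1).symm.trans ((congrArg (ρ · v) (S.c_add 1 r)).trans
    (eig_mul (k2 1 one_ne_zero) (k2 r h0))))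
  refine hψ (AddChar.ext _ _ fun t => ?_)
  rcases hF t with rfl | rfl
  · simp
  · simpa [(AddChar.val_isUnit ψ 1).ne_zero] using k3

/-- the lower bound for the dimension -/
theorem dim_ge (hψ : ψ ≠ 1) (hΨ : S.Ψ ψ ≠ 1) (h : ρ (S.h 1) ≠ 1)
    (h1 : ∀ e, e ≠ 0 → finrank ℂ (S.Z ρ ψ e 0 ⊓ Ew ρ (S.Ψ ψ) S.d 0 : Submodule ℂ V) = 1 →
      1 ≤ finrank ℂ (S.Z ρ ψ 0 0 ⊓ Ew ρ ψ S.b (-e) : Submodule ℂ V)) :
    2 * ((Fintype.card F ^ 2 - 1) * Fintype.card K) ≤ finrank ℂ V ∨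
      finrank ℂ (S.Z ρ ψ 0 1) = Fintype.card K ∧
        (Fintype.card F ^ 2 - 1) * Fintype.card K + (Fintype.card F - 1) +
          finrank ℂ (S.Z ρ ψ 0 0 ⊓ Ew ρ ψ S.b 0 : Submodule ℂ V) ≤ finrank ℂ V := by
  have k1 := S.dim_eq (ρ := ρ) hψ
  have k2 := S.Z_pos hψ h
  have k3 := S.Z_split (ρ := ρ) hΨ (e := 0) (.inr one_ne_zero) 0
  generalize finrank ℂ (S.Z ρ ψ 0 1 ⊓ Ew ρ (S.Ψ ψ) S.d 0 : Submodule ℂ V) = m at k3
  rcases m with _ | _ | m
  · omega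
  · rw [zero_add, mul_one] at k3
    have := S.Z0_ge hψ fun e he => h1 e he (Nat.eq_of_mul_eq_mul_left (Fintype.card_pos (α := K)) (by
      rw [← S.Z_split hΨ (.inl he), S.Z_eq (.inl he), k3, mul_one]))
    exact .inr ⟨k3, by rw [k1, k3]; omega⟩
  · rw [k1, k3]
    exact .inl (by nlinarith [Nat.zero_le ((Fintype.card F ^ 2 - 1) * Fintype.card K * m)])

end GT

namespace TD

universe u

variable {K : Type u} [Field K] (S : DD K)

omit S in
theorem chk0 (μ : ℕ →*₀ K) (w w' : List (Fin chevD4.nroots × Ex)) {p : ℤ} (hp : (p : K) = 0)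
    (h : Col.chk ⟨fastD4.tab, p, id, id, 60⟩ (w.map fun a => (a.1.1, a.2)) (w'.map fun a => (a.1.1, a.2)) = true) :
    (w.map fun a => x a.1 (a.2.ev μ)).prod = (w'.map fun a => x a.1 (a.2.ev μ)).prod := by
  simpa [eev, Function.comp_def, xN_fin] using
    Col.OK.eq_of_chk (chevSt chevD4 K) (μ := μ) ⟨tbD4, hp, fun _ => rfl⟩ h

/-- the simple reflections -/
noncomputable def ns (K : Type u) [Field K] (i : Fin chevD4.rank) : GL chevD4.Idx K :=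
  (chevSt chevD4 K).n ((rsOf chevD4).simple i) 1

omit S in
theorem ns_x (i : Fin chevD4.rank) (r s : Fin chevD4.nroots) (e : ℤ)
    (h : fastD4.tab.refl i r = s ∧ fastD4.tab.eta i r = e) (t : K) :
    ns K i * x r t * (ns K i)⁻¹ = x s (e * t) := by
  rw [← tbD4] at h
  rw [ns, (chev_nc _).m_conj_x, ← h.2, show (rsOf chevD4).sref i r = s from Fin.ext h.1]
  rfl

/-- the short simple reflection of the twisted group -/
noncomputable def n3 (K : Type u) [Field K] : GL chevD4.Idx K := ns K 0 * (ns K 2 * ns K 3)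

omit S in
theorem n3_x (r r1 r2 s : Fin chevD4.nroots) (e : ℤ)
    (h : (fastD4.tab.refl 3 r = r1 ∧ fastD4.tab.refl 2 r1 = r2 ∧ fastD4.tab.refl 0 r2 = s) ∧
      fastD4.tab.eta 0 r2 * (fastD4.tab.eta 2 r1 * fastD4.tab.eta 3 r) = e) (t : K) :
    n3 K * x r t * (n3 K)⁻¹ = x s (e * t) := by
  rw [← h.2, Int.cast_mul, Int.cast_mul, mul_assoc (_ : K), mul_assoc (_ : K),
    ← ns_x 0 r2 s (fastD4.tab.eta 0 r2) ⟨h.1.2.2, rfl⟩, ← ns_x 2 r1 r2 (fastD4.tab.eta 2 r1) ⟨h.1.2.1, rfl⟩,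
    ← ns_x 3 r r1 (fastD4.tab.eta 3 r) ⟨h.1.1, rfl⟩, n3]
  group

/-- a class of three roots with signs -/
def z3 (a b c : Fin chevD4.nroots) (t : K) : GL chevD4.Idx K :=
  x a t * (x b (-S.θ t) * x c (-S.θ (S.θ t)))

/-- the fixed field -/
abbrev Fx : Subfield K := S.θ.eqLocusField (RingHom.id K)

local notation "v" n:max => Ex.var n

theorem rels (r s u t : K) :
    (z3 S 19 16 15 (r + s) = z3 S 19 16 15 r * z3 S 19 16 15 s ∧
      z3 S 17 20 21 (r + s) = z3 S 17 20 21 r * z3 S 17 20 21 s ∧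
      x 22 t * z3 S 17 20 21 s = z3 S 17 20 21 s * x 22 t ∧
      x 23 t * z3 S 17 20 21 s = z3 S 17 20 21 s * x 23 t ∧
      x 23 t * x 22 u = x 22 u * x 23 t ∧
      x 22 t * x 14 u = x 14 u * (x 22 t * x 23 (-u * t)) ∧
      z3 S 17 20 21 s * x 14 u = x 14 u * z3 S 17 20 21 s ∧
      x 23 t * x 14 u = x 14 u * x 23 t) ∧
    z3 S 17 20 21 s * z3 S 19 16 15 r = z3 S 19 16 15 r * (z3 S 17 20 21 s *
        x 23 (r * s + S.θ (r * s) + S.θ (S.θ (r * s)))) ∧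
      x 22 t * z3 S 19 16 15 r = z3 S 19 16 15 r * x 22 t ∧
      x 23 t * z3 S 19 16 15 r = z3 S 19 16 15 r * x 23 t ∧
      z3 S 17 20 21 s * S.us r = S.us r * (z3 S 17 20 21 s * x 22 (r * s + S.θ (r * s) + S.θ (S.θ (r * s)))) ∧
      x 22 t * S.us r = S.us r * x 22 t ∧ x 23 t * S.us r = S.us r * x 23 t := by
  simp only [z3, DD.us, map_mul, map_add]
  obtain ⟨μ, e1, e2, e3, e4, e5, e6, e7, e8⟩ :=
    exists_mu8 r (S.θ r) (S.θ (S.θ r)) s (S.θ s) (S.θ (S.θ s)) u t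
  let A : List (Fin chevD4.nroots × Ex) := [(18, v 2), (13, v 3), (12, v 5)]
  let C : List (Fin chevD4.nroots × Ex) := [(19, v 2), (16, -v 3), (15, -v 5)]
  let D : List (Fin chevD4.nroots × Ex) := [(17, v 7), (20, -v 11), (21, -v 13)]
  let T := v 2 * v 7 + v 3 * v 11 + v 5 * v 13
  let o (a : Fin chevD4.nroots) (t : Ex) := [(a, t)]
  let C' : List (Fin chevD4.nroots × Ex) := [(19, v 7), (16, -v 11), (15, -v 13)]
  let D' : List (Fin chevD4.nroots × Ex) := [(17, v 2), (20, -v 3), (21, -v 5)]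
  have k := fun w w' => chk0 μ w w' Int.cast_zero
  simpa [A, C, D, T, C', D', o, mul_assoc, e1, e2, e3, e4, e5, e6, e7, e8] using And.intro (And.intro
    (k [(19, v 2 + v 7), (16, -(v 3 + v 11)), (15, -(v 5 + v 13))] (C ++ C') (by decide +kernel)) <| And.intro
    (k [(17, v 2 + v 7), (20, -(v 3 + v 11)), (21, -(v 5 + v 13))] (D' ++ D) (by decide +kernel)) <| And.intro
    (k ((22, v 19) :: D) (D ++ o 22 (v 19)) (by decide +kernel)) <| And.intro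
    (k ((23, v 19) :: D) (D ++ o 23 (v 19)) (by decide +kernel)) <| And.intro
    (k [(23, v 19), (22, v 17)] [(22, v 17), (23, v 19)] (by decide +kernel)) <| And.intro
    (k [(22, v 19), (14, v 17)] [(14, v 17), (22, v 19), (23, -v 17 * v 19)] (by decide +kernel)) <| And.intro
    (k (D ++ o 14 (v 17)) ((14, v 17) :: D) (by decide +kernel))
    (k [(23, v 19), (14, v 17)] [(14, v 17), (23, v 19)] (by decide +kernel))) <| And.intro
    (k (D ++ C) (C ++ D ++ o 23 T) (by decide +kernel)) <| And.intro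
    (k ((22, v 19) :: C) (C ++ o 22 (v 19)) (by decide +kernel)) <| And.intro
    (k ((23, v 19) :: C) (C ++ o 23 (v 19)) (by decide +kernel)) <| And.intro
    (k (D ++ A) (A ++ D ++ o 22 T) (by decide +kernel)) <| And.intro
    (k ((22, v 19) :: A) (A ++ o 22 (v 19)) (by decide +kernel))
    (k ((23, v 19) :: A) (A ++ o 23 (v 19)) (by decide +kernel))

theorem rel2 (h2 : (2 : K) = 0) (r : K) : x 14 1 * S.us r = S.us r * (x 14 1 * (z3 S 19 16 15 r *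
    (z3 S 17 20 21 (S.θ r * S.θ (S.θ r)) * (x 22 (r * S.θ r * S.θ (S.θ r)) * x 23 (r * S.θ r * S.θ (S.θ r)))))) := by
  simp only [z3, DD.us, map_mul, S.hθ, fun t : K => (neg_eq_of_add_eq_zero_left (by rw [← two_mul, h2, zero_mul]) :
    -t = t)]
  obtain ⟨μ, e1, e2, e3, -⟩ := exists_mu8 r (S.θ r) (S.θ (S.θ r)) 0 0 0 0 0
  simpa [mul_assoc, e1, e2, e3] using chk0 μ [(14, v 1), (18, v 2), (13, v 3), (12, v 5)]
    [(18, v 2), (13, v 3), (12, v 5), (14, v 1), (19, v 2), (16, v 3), (15, v 5), (17, v 3 * v 5), (20, v 5 * v 2),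
      (21, v 2 * v 3), (22, v 2 * v 3 * v 5), (23, v 2 * v 3 * v 5)] (p := 2) (by exact_mod_cast h2)
    (by decide +kernel)

theorem tr_mem (t : K) : t + S.θ t + S.θ (S.θ t) ∈ Fx S := by
  change S.θ _ = _
  simp only [map_add, S.hθ, RingHom.id_apply]; ring

/-- the relations in the ambient group -/
noncomputable def gt0 : GT (GL chevD4.Idx K) K (Fx S) where
  ι := (Fx S).subtype
  τ := ⟨⟨fun t => ⟨_, tr_mem S t⟩, Subtype.ext (by simp)⟩, fun s t => Subtype.ext (by simp; ring)⟩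
  τ_mul e s := Subtype.ext (by
    have : S.θ e = e := e.2
    simp [this]; ring)
  a := S.us
  b t := x 14 t
  c := z3 S 19 16 15
  d := z3 S 17 20 21
  e t := x 22 t
  h t := x 23 t
  na := (n3 K)⁻¹
  nb := ns K 1
  b_add s t := (chevSt chevD4 K).add _ _ _
  c_add s t := (rels S s t 0 0).1.1
  d_add s t := (rels S s t 0 0).1.2.1
  e_add s t := (chevSt chevD4 K).add _ _ _
  h_add s t := (chevSt chevD4 K).add _ _ _
  ed s t := (rels S 0 s 0 t).1.2.2.1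
  hd s t := (rels S 0 s 0 t).1.2.2.2.1
  he s t := (rels S 0 0 s t).1.2.2.2.2.1
  eb s t := (rels S 0 0 s t).1.2.2.2.2.2.1
  db s t := (rels S 0 t s 0).1.2.2.2.2.2.2.1
  hb s t := (rels S 0 0 s t).1.2.2.2.2.2.2.2
  dc s t := (rels S s t 0 0).2.1
  ec s t := (rels S s 0 0 t).2.2.1
  hc s t := (rels S s 0 0 t).2.2.2.1
  da s t := (rels S s t 0 0).2.2.2.2.1
  ea s t := (rels S s 0 0 t).2.2.2.2.2.1
  ha s t := (rels S s 0 0 t).2.2.2.2.2.2
  enb t := by simpa using (mul_inv_eq_iff_eq_mul.1 (ns_x 1 23 22 (-1) (by decide +kernel) (-t : K))).symm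
  hnb t := by simpa using (mul_inv_eq_iff_eq_mul.1 (ns_x 1 22 23 1 (by decide +kernel) (t : K))).symm
  ena t := by
    simpa [mul_assoc] using congrArg ((n3 K)⁻¹ * ·) (n3_x 22 21 19 14 1 (by decide +kernel) (t : K))
  bna t := by
    simpa [mul_assoc] using congrArg ((n3 K)⁻¹ * ·) (n3_x 14 15 17 22 (-1) (by decide +kernel) (t : K))
  hna t := by
    simpa [mul_assoc] using congrArg ((n3 K)⁻¹ * ·) (n3_x 23 23 23 23 1 (by decide +kernel) (t : K))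

theorem gt0_mem : (∀ t, (gt0 S).a t ∈ S.G ∧ (gt0 S).c t ∈ S.G ∧ (gt0 S).d t ∈ S.G) ∧
    (∀ t, (gt0 S).b t ∈ S.G ∧ (gt0 S).e t ∈ S.G ∧ (gt0 S).h t ∈ S.G) ∧ (gt0 S).na ∈ S.G ∧ (gt0 S).nb ∈ S.G := by
  have m : ∀ {r g}, g ∈ S.X.U r → g ∈ S.G := fun h => S.X_grp ▸ U_le_grp _ h
  have ma := fun t => m (S.mem_U7.2 ⟨t, rfl⟩)
  have mb := fun t : Fx S => m (S.mem_U6.2 ⟨t, t.2, rfl⟩)
  have n : ((rsOf chevD4).neg 18 = 5 ∧ (rsOf chevD4).neg 13 = 10 ∧ (rsOf chevD4).neg 12 = 11 ∧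
      (rsOf chevD4).neg 14 = 9) ∧ (rsOf chevD4).simple 0 = 18 ∧ (rsOf chevD4).simple 1 = 14 ∧
      (rsOf chevD4).simple 2 = 13 ∧ (rsOf chevD4).simple 3 = 12 := by decide +kernel
  have m1 : ns K 1 ∈ S.G := by
    rw [ns, n.2.2.1, StSys.n, n.1.2.2.2]
    exact mul_mem (mul_mem (mb 1) (m (S.x9_mem (by simp)))) (mb 1)
  have m3 : n3 K ∈ S.G := by
    rw [n3, ns, ns, ns, n.2.1, n.2.2.2.1, n.2.2.2.2, StSys.n, StSys.n, StSys.n,
      mul_shuffle (o3.pp _ _) (o3.pn _ _) (o3.np _ _), mul_shuffle ((o1.pp _ _).mul_right (o2.pp _ _))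
        ((o1.pn _ _).mul_right (o2.pn _ _)) ((o1.np _ _).mul_right (o2.np _ _)), n.1.1, n.1.2.1, n.1.2.2.1]
    simpa [DD.us, DD.um] using mul_mem (mul_mem (ma 1) (m (S.um_mem (-1)))) (ma 1)
  have cj : ∀ {g y}, g ∈ S.G → y ∈ S.G → g * y * g⁻¹ ∈ S.G := fun h h' => mul_mem (mul_mem h h') (inv_mem h)
  have mc : ∀ t, z3 S 19 16 15 t ∈ S.G := fun t => by
    have := cj m1 (ma t)
    rw [DD.us, ← conj_mul, ← conj_mul, ns_x 1 18 19 1 (by decide +kernel), ns_x 1 13 16 (-1) (by decide +kernel),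
      ns_x 1 12 15 (-1) (by decide +kernel)] at this
    simpa [z3] using this
  have me : ∀ t : Fx S, x 22 (t : K) ∈ S.G := fun t => by
    simpa [n3_x 14 15 17 22 (-1) (by decide +kernel)] using cj m3 (mb (-t))
  refine ⟨fun t => ⟨ma t, mc t, ?_⟩, fun t => ⟨mb t, me t, ?_⟩, inv_mem m3, m1⟩
  · have := cj m3 (mc t)
    rw [z3, ← conj_mul, ← conj_mul, n3_x 19 20 22 17 1 (by decide +kernel), n3_x 16 17 15 20 1 (by decide +kernel),
      n3_x 15 14 16 21 1 (by decide +kernel)] at this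
    simpa [gt0, z3] using this
  · simpa [gt0, ns_x 1 22 23 1 (by decide +kernel)] using cj m1 (me t)

/-- the relations in the twisted group -/
noncomputable def gt : GT S.G K (Fx S) := (gt0 S).sub S.G (gt0_mem S)

theorem tr_ne (hθ : ∃ c, S.θ c ≠ c) : ∃ s, (gt S).τ s ≠ 0 := by
  by_contra! h
  obtain ⟨c, hc⟩ := hθ
  have h' : ∀ s, s + S.θ s + S.θ (S.θ s) = 0 := fun s => congrArg Subtype.val (h s)
  have h1 := h' 1
  have h2 := h' (c * c)
  simp only [map_one, map_mul] at h1 h2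
  have h3 : (S.θ (S.θ c) - c) * (S.θ (S.θ c) - S.θ c) = 0 := by
    linear_combination h2 - (c + S.θ c) * h' c + c * S.θ c * h1
  rcases mul_eq_zero.1 h3 with e | e <;> rw [sub_eq_zero] at e
  · exact hc ((congrArg S.θ e).symm.trans (S.hθ c))
  · exact hc (S.θ.injective e)

theorem tor [Finite K] {a : K} (a0 : a ≠ 0) : ∃ (g : S.G) (l : Fx S) (μ : K), l = a * S.θ a * S.θ (S.θ a) ∧
    (∀ t, (gt S).e t * g = g * (gt S).e t) ∧ (∀ t, (gt S).b t * g = g * (gt S).b (l * t)) ∧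
    (∀ t, (gt S).h t * g = g * (gt S).h (l * t)) ∧ ∀ t, (gt S).d t * g = g * (gt S).d (μ * t) := by
  have a1 := (map_ne_zero S.θ).2 a0
  have a2 := (map_ne_zero S.θ).2 a1
  have hb : S.θ (a * S.θ a * S.θ (S.θ a)) = a * S.θ a * S.θ (S.θ a) := by simp only [map_mul, S.hθ]; ring
  let c := S.hc (Units.mk0 a a0) (Units.mk0 (a * S.θ a * S.θ (S.θ a)) (by simp [a0]))
  have hg : HH chevD4 K c ∈ S.G := S.X_grp ▸ T_le_grp (S.mem_T.2 ⟨_, _, hb, rfl⟩)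
  have k : ∀ (r : Fin chevD4.nroots) (e : ℤ × ℤ × ℤ × ℤ), (chevD4.cartan 0 r, chevD4.cartan 1 r,
      chevD4.cartan 2 r, chevD4.cartan 3 r) = e → ∀ z t, z = a ^ e.1 * (a * S.θ a * S.θ (S.θ a)) ^ e.2.1 *
        S.θ a ^ e.2.2.1 * S.θ (S.θ a) ^ e.2.2.2 * t → HH chevD4 K c * x r t * (HH chevD4 K c)⁻¹ = x r z :=
    fun r e h z t hz => by rw [HH_conj_x, chi S _ _ _ h, hz]; rfl
  have k' : ∀ {y y' : GL chevD4.Idx K}, HH chevD4 K c * y * (HH chevD4 K c)⁻¹ = y' →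
      y * (HH chevD4 K c)⁻¹ = (HH chevD4 K c)⁻¹ * y' := fun h => by rw [← h]; group
  refine ⟨⟨_, inv_mem hg⟩, ⟨_, hb⟩, S.θ a * S.θ (S.θ a) / a, rfl, fun t => Subtype.ext (k' (k 22 (1, -1, 1, 1)
    (by decide +kernel) _ _ (by simp; field_simp))), fun t => Subtype.ext (k' (k 14 (-1, 2, -1, -1)
    (by decide +kernel) _ _ (by rw [Subfield.coe_mul]; simp only [zpow_neg]; field_simp))), fun t => Subtype.ext (k' (k 23 (0, 1, 0, 0)
    (by decide +kernel) _ _ (by simp only [zpow_zero, zpow_one, one_mul, mul_one]; rfl))), fun t => Subtype.ext (k' ?_)⟩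
  change _ * z3 S _ _ _ t * _ = z3 S _ _ _ _
  rw [z3, ← conj_mul, ← conj_mul, k 17 (-1, 0, 1, 1) (by decide +kernel) _ _ rfl,
    k 20 (1, 0, -1, 1) (by decide +kernel) _ _ rfl, k 21 (1, 0, 1, -1) (by decide +kernel) _ _ rfl, z3]
  simp only [map_mul, map_div₀, S.hθ]
  congr 3 <;> simp only [zpow_zero, zpow_one, zpow_neg] <;> field_simp

end TD

end Cfsg.Agent.H17
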