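import Mathlib
import Cfsg.Agent.H17.Wt2
import Cfsg.Agent.H11.LS5

/-!
Fixed spaces, Heisenberg counting and filtrations for complex representations of finite groups.
-/

set_option autoImplicit false
set_option linter.unusedSectionVars false

namespace Cfsg.Agent.H17.Ex

open Module
open scoped commutatorElement

variable {V : Type*} [AddCommGroup V] [Module ℂ V] [FiniteDimensional ℂ V] {G : Type*} [Group G]
  [Finite G] {ρ : Representation ℂ G V}

/-- the fixed space of a subgroup -/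
def Fix (ρ : Representation ℂ G V) (A : Subgroup G) : Submodule ℂ V where
  carrier := {v | ∀ a ∈ A, ρ a v = v}
  add_mem' := fun hv hw a ha => by rw [map_add, hv a ha, hw a ha]
  zero_mem' := fun a _ => map_zero _
  smul_mem' := fun c v hv a ha => by rw [map_smul, hv a ha]

theorem mem_Fix {A : Subgroup G} {v : V} : v ∈ Fix ρ A ↔ ∀ a ∈ A, ρ a v = v := Iff.rfl

/-- invariance under a subgroup -/
def Inv (ρ : Representation ℂ G V) (A : Subgroup G) (W : Submodule ℂ V) : Prop :=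
  ∀ a ∈ A, ∀ v ∈ W, ρ a v ∈ W

/-- the pointwise stabiliser of a subspace -/
def PS (ρ : Representation ℂ G V) (W : Submodule ℂ V) : Subgroup G where
  carrier := {g | ∀ v ∈ W, ρ g v = v}
  mul_mem' := fun ha hb v hv => by rw [map_mul, End.mul_apply, hb v hv, ha v hv]
  one_mem' := fun v _ => by simp
  inv_mem' := fun {a} ha v hv => by
    conv_lhs => rw [← ha v hv]
    rw [← End.mul_apply, ← map_mul, inv_mul_cancel, map_one, End.one_apply]

theorem le_Fix_iff {A : Subgroup G} {W : Submodule ℂ V} : W ≤ Fix ρ A ↔ A ≤ PS ρ W :=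
  ⟨fun h a ha v hv => h hv a ha, fun h v hv a ha => h ha v hv⟩

theorem rho_mul (a b : G) (v : V) : ρ (a * b) v = ρ a (ρ b v) := by rw [map_mul, End.mul_apply]

theorem Inv.inf {A : Subgroup G} {W W' : Submodule ℂ V} (h : Inv ρ A W) (h' : Inv ρ A W') :
    Inv ρ A (W ⊓ W') := fun a ha v hv => ⟨h a ha v hv.1, h' a ha v hv.2⟩

theorem sum_tr {A : Subgroup G} [Fintype A] {W : Submodule ℂ V} (h : Inv ρ A W) :
    ∑ a : A, LinearMap.trace ℂ W ((ρ a).restrict (h a a.2)) =
      Nat.card A * finrank ℂ (W ⊓ Fix ρ A : Submodule ℂ V) := by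
  have h0 : (Nat.card A : ℂ) ≠ 0 := Nat.cast_ne_zero.2 Nat.card_pos.ne'
  letI := invertibleOfNonzero h0
  let σ : Representation ℂ A W := Representation.subrepresentation (ρ.comp A.subtype) W fun a => h a a.2
  have h1 := σ.card_inv_mul_sum_char_eq_finrank
  have h2 : σ.invariants.map W.subtype = W ⊓ Fix ρ A := by
    ext v
    constructor
    · rintro ⟨w, hw, rfl⟩
      exact ⟨w.2, fun a ha => congrArg Subtype.val (hw ⟨a, ha⟩)⟩
    · rintro ⟨h3, h4⟩
      exact ⟨⟨v, h3⟩, fun a => Subtype.ext (h4 a a.2), rfl⟩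
  rw [← h2, Submodule.finrank_map_subtype_eq, ← h1, mul_inv_cancel_left₀ h0]
  rfl

theorem heis_step {A B : Subgroup G} {W : Submodule ℂ V} (hA : Inv ρ A W) (hB : Inv ρ B W)
    (h : ∀ a ∈ A, a ≠ 1 → ∃ b ∈ B, ∃ z : ℂ, z ≠ 1 ∧ ∀ v ∈ W, ρ (a * b) v = z • ρ (b * a) v) :
    finrank ℂ W = Nat.card A * finrank ℂ (W ⊓ Fix ρ A : Submodule ℂ V) := by
  classical
  have := Fintype.ofFinite A
  have h1 := sum_tr hA
  rw [Finset.sum_eq_single 1 (fun a _ ha => ?_) (by simp)] at h1
  · have : (ρ (1 : A)).restrict (hA _ (1 : A).2) = 1 := by ext; simp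
    rw [this, LinearMap.trace_one] at h1
    exact_mod_cast h1
  · obtain ⟨b, hb, z, hz, e⟩ := h a a.2 fun e => ha (Subtype.ext e)
    set P := (ρ a).restrict (hA a a.2)
    set Q := (ρ b).restrict (hB b hb)
    set Q' := (ρ b⁻¹).restrict (hB _ (inv_mem hb))
    have e1 : Q' * (P * Q) = z • P := by
      ext v
      simp only [P, Q, Q', End.mul_apply, LinearMap.restrict_coe_apply, LinearMap.smul_apply,
        Submodule.coe_smul]
      rw [← rho_mul (a : G), e v v.2, map_smul, ← rho_mul, inv_mul_cancel_left]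
    have e2 : P * Q * Q' = P := by
      ext v
      simp only [P, Q, Q', End.mul_apply, LinearMap.restrict_coe_apply]
      rw [← rho_mul b, mul_inv_cancel, map_one, End.one_apply]
    have e3 := LinearMap.trace_mul_comm ℂ Q' (P * Q)
    rw [e1, e2, map_smul, smul_eq_mul] at e3
    exact (mul_eq_zero.1 (show (z - 1) * _ = 0 by linear_combination e3)).resolve_left (sub_ne_zero.2 hz)

/-- the sum over a subgroup -/
noncomputable def Sm (ρ : Representation ℂ G V) (A : Subgroup G) : End ℂ V :=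
  haveI := Fintype.ofFinite A
  ∑ a : A, ρ a

theorem Sm_apply (A : Subgroup G) [Fintype A] (v : V) : Sm ρ A v = ∑ a : A, ρ a v := by
  rw [Sm, LinearMap.sum_apply]; congr!

theorem Sm_inv {A : Subgroup G} {W : Submodule ℂ V} (h : Inv ρ A W) {v : V} (hv : v ∈ W) :
    Sm ρ A v ∈ W := by
  have := Fintype.ofFinite A
  rw [Sm_apply]; exact W.sum_mem fun a _ => h a a.2 v hv

theorem Sm_rho {A : Subgroup G} {a : G} (ha : a ∈ A) (v : V) : Sm ρ A (ρ a v) = Sm ρ A v := by
  have := Fintype.ofFinite A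
  rw [Sm_apply, Sm_apply]
  exact Fintype.sum_equiv (Equiv.mulRight (⟨a, ha⟩ : A)) _ _ fun g => by simp [rho_mul]

theorem Sm_mem (A : Subgroup G) (v : V) : Sm ρ A v ∈ Fix ρ A := fun a ha => by
  have := Fintype.ofFinite A
  rw [Sm_apply, map_sum]
  exact Fintype.sum_equiv (Equiv.mulLeft (⟨a, ha⟩ : A)) _ _ fun g => by simp [rho_mul]

theorem Sm_fix {A : Subgroup G} {v : V} (hv : v ∈ Fix ρ A) : Sm ρ A v = Nat.card A • v := by
  have := Fintype.ofFinite A
  rw [Sm_apply, Finset.sum_congr rfl fun (a : A) _ => hv a a.2, Finset.sum_const, Nat.card_eq_fintype_card,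
    Finset.card_univ]

theorem Sm_conj {A : Subgroup G} {g : G} (hg : g ∈ Subgroup.normalizer (A : Set G)) (v : V) :
    ρ g (Sm ρ A v) = Sm ρ A (ρ g v) := by
  have := Fintype.ofFinite A
  rw [Sm_apply, Sm_apply, map_sum]
  exact Fintype.sum_equiv (A.normalizerMonoidHom ⟨g, hg⟩).toEquiv _ _ fun a => by
    change _ = ρ (g * a * g⁻¹) _
    rw [← rho_mul, ← rho_mul, inv_mul_cancel_right]

theorem tr_Sm (A : Subgroup G) : LinearMap.trace ℂ V (Sm ρ A) = Nat.card A * finrank ℂ (Fix ρ A) := by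
  have := Fintype.ofFinite A
  have h := sum_tr (ρ := ρ) (A := A) (W := ⊤) fun _ _ _ _ => trivial
  rw [top_inf_eq] at h
  rw [← h, Sm, map_sum]
  convert Finset.sum_congr rfl fun a _ => _
  exact (LinearMap.trace_restrict_eq_of_forall_mem ⊤ _ fun _ => trivial).symm

theorem Sm_ne {A B : Subgroup G} {y : V} (hy : y ∈ Fix ρ B) (h0 : y ≠ 0)
    (h : ∀ a ∈ A, ρ a y = y ∨ ∃ b ∈ B, ∃ z : ℂ, z ≠ 1 ∧ ρ (a * b) y = z • ρ (b * a) y) :
    Sm ρ A y ≠ 0 := by
  classical
  have := Fintype.ofFinite A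
  intro e
  have e1 := congrArg (Sm ρ B) e
  have k : ∀ a : A, Sm ρ B (ρ a y) = (if ρ a y = y then Nat.card B else 0) • y := fun a => by
    split_ifs with h1
    · rw [h1, Sm_fix hy]
    · obtain ⟨b, hb, z, hz, e⟩ := (h a a.2).resolve_left h1
      have := congrArg (Sm ρ B) e
      rw [rho_mul, hy b hb, map_smul, rho_mul, Sm_rho hb, ← sub_eq_zero] at this
      rw [zero_smul]
      exact (smul_eq_zero.1 (show (1 - z) • Sm ρ B (ρ a y) = 0 by rw [sub_smul, one_smul, this])).resolve_left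
        (sub_ne_zero.2 hz.symm)
  rw [Sm_apply A, map_sum, map_zero, Finset.sum_congr rfl fun a _ => k a, ← Finset.sum_smul,
    ← Nat.cast_smul_eq_nsmul ℂ, smul_eq_zero, Nat.cast_eq_zero, Finset.sum_eq_zero_iff] at e1
  have := e1.resolve_right h0 1 (Finset.mem_univ _)
  rw [if_pos (by simp)] at this
  exact Nat.card_pos.ne' this

theorem line_fix {A B : Subgroup G} {Y : Submodule ℂ V} (h : finrank ℂ Y ≤ 1) (hA : Inv ρ A Y)
    (hB : Inv ρ B Y) : Y ≤ Fix ρ ⁅A, B⁆ := by
  rw [le_Fix_iff, Subgroup.commutator_le]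
  intro a ha b hb y hy
  have k : ∀ y ∈ Y, ρ (a * b) y = ρ (b * a) y := fun y hy => by
    rcases eq_or_ne y 0 with rfl | h0
    · simp
    obtain ⟨s, hs⟩ := exists_smul_of_fr h hy h0 (hA a ha y hy)
    obtain ⟨t, ht⟩ := exists_smul_of_fr h hy h0 (hB b hb y hy)
    rw [rho_mul, rho_mul, hs, ht, map_smul, map_smul, hs, ht, smul_comm]
  have := k _ (hA _ (inv_mem ha) _ (hB _ (inv_mem hb) y hy))
  rw [← rho_mul, ← rho_mul, ← rho_mul, ← rho_mul] at this
  rw [commutatorElement_def, this]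
  simp

theorem dvd_index [ρ.IsIrreducible] {U P : Subgroup G} (h : P ≤ Subgroup.normalizer (U : Set G)) :
    finrank ℂ V ∣ P.index * (Nat.card U * finrank ℂ (Fix ρ U)) := by
  classical
  have := Fintype.ofFinite U
  have := Fintype.ofFinite (G ⧸ P)
  have := Fintype.ofFinite G
  have := H6.nontrivial_of_isIrreducible ρ
  have h7 : finrank ℂ V ≠ 0 := finrank_pos.ne'
  let f : G → End ℂ V := fun g => ρ g * Sm ρ U * ρ g⁻¹
  have k1 : ∀ g, ∀ p ∈ P, f (g * p) = f g := fun g p hp => LinearMap.ext fun v => by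
    simp only [f, End.mul_apply, rho_mul]
    rw [Sm_conj (h hp), ← rho_mul p, mul_inv_rev, mul_inv_cancel_left]
  obtain ⟨c, hc⟩ := H6.exists_scalar_of_comm ρ (∑ x : G ⧸ P, f x.out) fun s => by
    rw [Finset.sum_mul, Finset.mul_sum]
    refine (Fintype.sum_equiv (MulAction.toPerm s) _ _ fun x => ?_).symm
    obtain ⟨p, hp⟩ := QuotientGroup.mk_out_eq_mul P (s * x.out)
    have : MulAction.toPerm s x = ((s * x.out : G) : G ⧸ P) := by
      rw [MulAction.toPerm_apply, ← smul_eq_mul, ← MulAction.Quotient.smul_coe, QuotientGroup.out_eq']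
    rw [this, hp, k1 _ _ p.2]
    simp only [f, map_mul, mul_inv_rev, mul_assoc]
    rw [← map_mul ρ s⁻¹, inv_mul_cancel, map_one, mul_one]
  have h10 := H11.isIntegral_of_sum_rep (ρ := ρ)
    (fun p : (G ⧸ P) × U => p.1.out * p.2 * p.1.out⁻¹) (c := c) (by
      rw [Fintype.sum_prod_type, End.one_eq_id, ← hc]
      refine Finset.sum_congr rfl fun x _ => LinearMap.ext fun v => ?_
      simp only [f, End.mul_apply, Sm_apply, map_sum, LinearMap.sum_apply, rho_mul])
  have h9 := congrArg (LinearMap.trace ℂ V) hc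
  rw [map_sum, Finset.sum_congr rfl fun x _ => (show _ = LinearMap.trace ℂ V (Sm ρ U) by
    rw [LinearMap.trace_mul_comm, ← mul_assoc, ← map_mul, inv_mul_cancel, map_one, one_mul]), tr_Sm,
    map_smul, LinearMap.trace_id, Finset.sum_const, Finset.card_univ, ← Nat.card_eq_fintype_card,
    ← Subgroup.index_eq_card, nsmul_eq_mul, smul_eq_mul] at h9
  refine H6.nat_dvd_of_isIntegral_div h7 ?_
  rwa [Nat.cast_mul, Nat.cast_mul, h9, mul_div_cancel_right₀ _ (Nat.cast_ne_zero.2 h7)]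

variable {F : Type*} [Field F] [Fintype F] {ψ : AddChar F ℂ}

theorem filt (hψ : ψ ≠ 1) {ι κ : Type*} [LinearOrder κ] (key : ι → κ) (x : ι → F → G)
    (Z : ι → Submodule ℂ V) (e : ι → ℕ) (A : Finset ι) (hk : Function.Injective key)
    (h1 : ∀ α β, key β < key α → Z β ≤ Z α ⊓ Ew ρ ψ (x α) 0)
    (h2 : ∀ α ∈ A, ∀ c, c ≠ 0 → e α ≤ finrank ℂ (Z α ⊓ Ew ρ ψ (x α) c : Submodule ℂ V))
    {M : Submodule ℂ V} (hM : ∀ α ∈ A, Z α ≤ M) :
    (Fintype.card F - 1) * ∑ α ∈ A, e α ≤ finrank ℂ M := by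
  classical
  induction A using Finset.induction_on_max_value key generalizing M with
  | empty => simp
  | insert a s ha hs ih =>
    have k1 := ih (fun α hα => h2 α (Finset.mem_insert_of_mem hα)) fun β hβ =>
      h1 a β ((hs β hβ).lt_of_ne fun e => ha (hk e ▸ hβ))
    have k2 := le_sum_of_ne (h2 a (Finset.mem_insert_self _ _))
    have k3 := sum_fr_le hψ (fun c => Z a ⊓ Ew ρ ψ (x a) c) (fun c => inf_le_right)
      fun c => inf_le_left.trans (hM a (Finset.mem_insert_self _ _))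
    rw [Finset.sum_insert ha, mul_add]
    omega

end Cfsg.Agent.H17.Ex
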