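import Mathlib
import Cfsg.Agent.H17.Ex1
import Cfsg.Agent.H12.RS4
import Cfsg.Agent.H12.Orb

/-!
Long root subgroups and their Heisenberg groups in a root group datum.
-/

set_option autoImplicit false
set_option linter.unusedSectionVars false

namespace Cfsg.Agent.H17.Ex

open Module H12 H12.RGD
open scoped commutatorElement

variable {Φ I : Type*} [DecidableEq I] [Fintype I] [Finite Φ] {R : RS Φ I ℤ}

variable (R) in
/-- the partner `α - δ` -/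
noncomputable def pt (α δ : Φ) : Φ := R.neg (R.rrefl α • δ)

theorem α_pt {α δ : Φ} (h : R.cor α (R.α δ) = 1) : R.α (pt R α δ) = R.α α - R.α δ := by
  rw [pt, R.α_neg, R.α_rrefl, h]; module

theorem pt_pt (α δ : Φ) : pt R α (pt R α δ) = δ := by
  rw [pt, pt, R.smul_neg, R.neg_neg, R.rrefl_rrefl]

theorem pt_smul (w : R.W) (α δ : Φ) : pt R (w • α) (w • δ) = w • pt R α δ := by
  rw [pt, pt, R.rrefl_smul, R.smul_neg, mul_smul, mul_smul, inv_smul_smul]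

theorem pt_eq {α δ ε : Φ} (h : R.cor α (R.α δ) = 1) (e : R.α ε = R.α α - R.α δ) : pt R α δ = ε :=
  R.inj (by rw [α_pt h, e])

theorem cor_pt {α δ : Φ} (h : R.cor α (R.α δ) = 1) (γ : Φ) :
    R.cor γ (R.α (pt R α δ)) = R.cor γ (R.α α) - R.cor γ (R.α δ) := by rw [α_pt h, map_sub]

theorem ty_pt {α δ : Φ} (h : R.cor α (R.α δ) = 1) : R.cor α (R.α (pt R α δ)) = 1 := by
  rw [cor_pt h, R.cor_self, h]; rfl

theorem ht_pt {α δ : Φ} (h : R.cor α (R.α δ) = 1) : R.ht (pt R α δ) = R.ht α - R.ht δ := by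
  simp only [RS.ht, α_pt h, Pi.sub_apply, Finset.sum_sub_distrib]

theorem ne_of_ty {α δ : Φ} {n : ℤ} (h : R.cor α (R.α δ) = n) (h1 : -1 ≤ n ∧ n ≤ 1) :
    δ ≠ α ∧ δ ≠ R.neg α := RS.ne_of_cor (R := R) (by omega)

theorem ne_neg_of_ty {α δ s : Φ} (h : R.cor α (R.α s) + R.cor α (R.α δ) ≠ 0) : s ≠ R.neg δ := by
  rintro rfl
  rw [RS.cor_α_neg] at h
  omega

theorem pt_ne {α δ : Φ} (h : R.cor α (R.α δ) = 1) : pt R α δ ≠ δ := fun e => by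
  have h1 := α_pt h
  rw [e] at h1
  obtain ⟨a, b⟩ := ne_of_ty h (by omega)
  exact (R.eq_or_eq_neg_of_smul (r := α) (u := δ) (a := 2) (b := 1) two_ne_zero
    (by rw [eq_sub_iff_add_eq] at h1; rw [← h1]; module)).elim a b

theorem itv_lin {r s t : Φ} (h : t ∈ R.itv r s) : ∃ p q : ℤ, 0 < p ∧ 0 < q ∧
    R.α t = p • R.α r + q • R.α s ∧ R.ht t = p * R.ht r + q * R.ht s ∧
    ∀ γ, R.cor γ (R.α t) = p * R.cor γ (R.α r) + q * R.cor γ (R.α s) := by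
  obtain ⟨p, q, hp, hq, e⟩ := h
  refine ⟨p, q, hp, hq, e, ?_, fun γ => by rw [e, map_add, map_smul, map_smul]; rfl⟩
  simp only [RS.ht, e, Pi.add_apply, Pi.smul_apply, smul_eq_mul, Finset.sum_add_distrib, Finset.mul_sum]

variable (R) in
/-- a long root -/
def Long (α : Φ) : Prop :=
  ∀ t, t ≠ α → t ≠ R.neg α → -1 ≤ R.cor α (R.α t) ∧ R.cor α (R.α t) ≤ 1

theorem Long.cases {α : Φ} (h : Long R α) (t : Φ) : R.cor α (R.α t) = 2 ∧ t = α ∨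
    R.cor α (R.α t) = -2 ∧ t = R.neg α ∨ -1 ≤ R.cor α (R.α t) ∧ R.cor α (R.α t) ≤ 1 := by
  by_cases h1 : t = α
  · exact Or.inl ⟨h1 ▸ R.cor_self t, h1⟩
  by_cases h2 : t = R.neg α
  · exact Or.inr (Or.inl ⟨by rw [h2, RS.cor_α_neg, R.cor_self], h2⟩)
  · exact Or.inr (Or.inr (h t h1 h2))

theorem Long.smul {α : Φ} (h : Long R α) (w : R.W) : Long R (w • α) := fun t h1 h2 => by
  have := h (w⁻¹ • t) (fun e => h1 (by rw [← e, smul_inv_smul]))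
    fun e => h2 (by rw [← R.smul_neg, ← e, smul_inv_smul])
  rwa [← R.cor_smul_smul w, smul_inv_smul] at this

theorem Long.itv_α {α δ : Φ} (h : Long R α) (h0 : 0 ≤ R.cor α (R.α δ)) (h1 : R.cor α (R.α δ) ≤ 1)
    (t : Φ) : t ∉ R.itv δ α := fun ht => by
  obtain ⟨p, q, hp, hq, -, -, e⟩ := itv_lin ht
  have e1 := e α
  rw [R.cor_self] at e1
  have := mul_nonneg hp.le h0
  obtain ⟨a, b⟩ := ne_of_ty (R := R) (α := α) (δ := δ) rfl (by omega)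
  rcases h.cases t with ⟨-, rfl⟩ | h | h
  · exact RS.not_mem_itv_left a b (R.itv_comm _ _ ▸ ht)
  · omega
  · omega

theorem Long.itv_one {α δ s t : Φ} (h : Long R α) (h1 : R.cor α (R.α δ) = 1)
    (h2 : R.cor α (R.α s) = 1) (ht : t ∈ R.itv δ s) : s = pt R α δ := by
  obtain ⟨p, q, hp, hq, e0, -, e⟩ := itv_lin ht
  have e1 := e α
  rw [h1, h2] at e1
  rcases h.cases t with ⟨h3, rfl⟩ | h | h
  · obtain rfl : p = 1 := by omega
    obtain rfl : q = 1 := by omega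
    exact (pt_eq h1 (by rw [e0]; module)).symm
  · omega
  · omega

variable (R) in
/-- a choice of one root from each pair `δ, α - δ` -/
def Lag (α : Φ) (M : Set Φ) : Prop :=
  (∀ δ ∈ M, R.cor α (R.α δ) = 1) ∧ ∀ δ, R.cor α (R.α δ) = 1 → (δ ∈ M ↔ pt R α δ ∉ M)

variable {G : Type*} [Group G] [Finite G] {X : RGD R G}

theorem exists_mu {δ : Φ} {a : G} (ha : a ∈ X.U δ) (h1 : a ≠ 1) :
    ∃ v ∈ X.U (R.neg δ), ∃ v' ∈ X.U (R.neg δ), X.Rep (v * a * v') (R.rrefl δ) := by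
  obtain ⟨w, i, e⟩ := R.exists_smul_simple (R.neg δ)
  obtain ⟨n, hn⟩ := exists_rep (X := X) w
  have e1 : w⁻¹ • δ = R.neg (R.simple i) := by
    rw [inv_smul_eq_iff, R.smul_neg, ← e, R.neg_neg]
  obtain ⟨b, hb, t, ht, b', hb', e2⟩ := X.rank1 i _ (e1 ▸ hn.conj_U' ha) (by
    simpa [mul_assoc, inv_mul_eq_one] using h1)
  refine ⟨_, e ▸ hn.conj_U (inv_mem hb), _, e ▸ hn.conj_U (inv_mem hb'), ?_⟩
  have := (hn.mul ((rep_m i).T_mul ht)).mul hn.inv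
  rw [← R.rrefl_simple, ← R.rrefl_smul, ← e, R.rrefl_neg] at this
  convert this using 1
  rw [show t * X.m i = b⁻¹ * (n⁻¹ * a * n) * b'⁻¹ by rw [e2]; group]
  group

theorem exists_ne_one (r : Φ) : ∃ a ∈ X.U r, a ≠ 1 := by
  obtain ⟨w, i, e⟩ := R.exists_smul_simple (R.neg r)
  obtain ⟨n, hn⟩ := exists_rep (X := X) w
  by_contra! h
  refine not_U_neg_le_B (X := X) i fun u hu => ?_
  have h1 := hn.conj_U hu
  rw [R.smul_neg, ← e, R.neg_neg] at h1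
  have : u = 1 := by simpa [mul_inv_eq_iff_eq_mul] using h _ h1
  exact this ▸ one_mem _

theorem comm_of {r s : Φ} (h1 : s ≠ r) (h2 : s ≠ R.neg r) (h : ∀ t, t ∉ R.itv r s) {a b : G}
    (ha : a ∈ X.U r) (hb : b ∈ X.U s) : a * b = b * a := by
  have h3 : X.US (R.itv r s) ≤ ⊥ := US_le.2 fun t ht => (h t ht).elim
  have := Subgroup.mem_bot.1 (h3 (X.comm r s h1 h2 a ha b hb))
  rwa [mul_inv_eq_one, mul_inv_eq_iff_eq_mul] at this

variable (X) in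
/-- nondegeneracy of a commutator map -/
def ND (δ ε γ : Φ) : Prop :=
  ∀ a ∈ X.U δ, a ≠ 1 → ∀ u ∈ X.U γ, ∃ b ∈ X.U ε, a * b * a⁻¹ * b⁻¹ = u

theorem ND.le {δ ε γ : Φ} (h : ND X δ ε γ) : X.U γ ≤ ⁅X.U δ, X.U ε⁆ := fun u hu => by
  obtain ⟨a, ha, h1⟩ := exists_ne_one (X := X) δ
  obtain ⟨b, hb, rfl⟩ := h a ha h1 u hu
  exact Subgroup.commutator_mem_commutator ha hb

theorem ND.smul {δ ε γ : Φ} (h : ND X δ ε γ) (w : R.W) : ND X (w • δ) (w • ε) (w • γ) := by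
  obtain ⟨n, hn⟩ := exists_rep (X := X) w
  intro a ha h1 u hu
  obtain ⟨b, hb, e⟩ := h _ (by simpa using hn.conj_U' ha) (by
    simpa [mul_assoc, inv_mul_eq_one] using h1) _ (by simpa using hn.conj_U' hu)
  refine ⟨_, hn.conj_U hb, ?_⟩
  rw [show u = n * (n⁻¹ * u * n) * n⁻¹ by group, ← e]
  group

theorem nd_of_a2 {δ ε γ : Φ} (h : R.cor δ (R.α ε) = -1) (e : R.α γ = R.α δ + R.α ε)
    (i1 : ∀ t ∈ R.itv δ ε, t = γ) (i2 : ∀ t, t ∉ R.itv (R.neg δ) ε) : ND X δ ε γ := by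
  obtain ⟨h1, h2⟩ := ne_of_ty h (by omega)
  have e1 : R.rrefl δ • ε = γ := R.inj (by rw [R.α_rrefl, h, e]; module)
  have h3 : ε ≠ γ := fun h => R.α_ne_zero δ (by rwa [← h, right_eq_add] at e)
  intro a ha h4 u hu
  have k : X.US (R.itv δ ε) ≤ X.U γ := US_le.2 fun t ht => (i1 t ht).symm ▸ le_rfl
  obtain ⟨v, hv, v', hv', hn⟩ := exists_mu ha h4
  let f : X.U ε → X.U γ := fun b => ⟨_, k (X.comm δ ε h1 h2 a ha b b.2)⟩
  have hf : Function.Injective f := fun b b' hb => by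
    have hb : a * b * a⁻¹ * (b : G)⁻¹ = a * b' * a⁻¹ * (b' : G)⁻¹ := congrArg Subtype.val hb
    have h5 : (b'⁻¹ * b : X.U ε) = (1 : G) := by
      generalize hd : ((b'⁻¹ * b : X.U ε) : G) = d
      have h6 : d ∈ X.U ε := hd ▸ Subtype.coe_prop _
      have c1 : a * d = d * a := by
        rw [← hd, Subgroup.coe_mul, Subgroup.coe_inv]
        calc a * ((b' : G)⁻¹ * b) = (b' : G)⁻¹ * (a * b' * a⁻¹ * (b' : G)⁻¹)⁻¹ * (a * b) := by group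
          _ = _ := by rw [← hb]; group
      have c2 := fun v hv => comm_of h2 (by rwa [R.neg_neg]) i2 (a := v) hv h6
      have h7 := hn.conj_U h6
      rw [e1, mul_assoc _ v', c2 _ hv', ← mul_assoc, mul_assoc _ a, c1, ← mul_assoc, c2 _ hv] at h7
      exact eq_one_of_mem_U_U h3 h6 (by simpa [mul_assoc] using h7)
    exact (inv_mul_eq_one.1 (Subtype.ext h5)).symm
  obtain ⟨b, hb⟩ := (hf.bijective_of_nat_card_le (by rw [← e1, card_U_smul])).2 ⟨u, hu⟩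
  exact ⟨b, b.2, congrArg Subtype.val hb⟩

variable (X) in
/-- the hypotheses on a long root subgroup -/
structure Lg {F : Type*} [Field F] (x : F → G) (α : Φ) : Prop where
  add : ∀ s t, x (s + t) = x s * x t
  mem : ∀ u, u ∈ X.U α ↔ ∃ t, u = x t
  long : Long R α
  heis : ∀ δ, R.cor α (R.α δ) = 1 → ND X δ (pt R α δ) α
  dec : ∀ γ, R.cor α (R.α γ) = 0 → ∃ δ ε, R.cor α (R.α δ) = 0 ∧ R.cor α (R.α ε) = 0 ∧
    0 < R.cor γ (R.α δ) ∧ 0 < R.cor γ (R.α ε) ∧ X.U γ ≤ ⁅X.U δ, X.U ε⁆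

theorem heis_smul {α : Φ} (h : ∀ δ, R.cor α (R.α δ) = 1 → ND X δ (pt R α δ) α) (w : R.W) (δ : Φ)
    (hδ : R.cor (w • α) (R.α δ) = 1) : ND X δ (pt R (w • α) δ) (w • α) := by
  have := (h (w⁻¹ • δ) (by rwa [← R.cor_smul_smul w, smul_inv_smul])).smul w
  rwa [← pt_smul, smul_inv_smul] at this

theorem Lg.smul {F : Type*} [Field F] {x : F → G} {α : Φ} (h : Lg X x α) {n : G} {w : R.W}
    (hn : X.Rep n w) : Lg X (fun t => n * x t * n⁻¹) (w • α) where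
  add s t := by rw [h.add]; group
  mem u := ⟨fun hu => by
    obtain ⟨t, e⟩ := (h.mem _).1 (by simpa using hn.conj_U' hu)
    exact ⟨t, by rw [← e]; group⟩, by rintro ⟨t, rfl⟩; exact hn.conj_U ((h.mem _).2 ⟨t, rfl⟩)⟩
  long := h.long.smul w
  heis := heis_smul h.heis w
  dec γ hγ := by
    obtain ⟨δ, ε, h1, h2, h3, h4, h5⟩ := h.dec (w⁻¹ • γ) (by rwa [← R.cor_smul_smul w, smul_inv_smul])
    rw [← R.cor_smul_smul w] at h1 h2 h3 h4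
    rw [smul_inv_smul] at h3 h4
    refine ⟨_, _, h1, h2, h3, h4, ?_⟩
    rw [← smul_inv_smul w γ, ← hn.map_U, ← hn.map_U, ← hn.map_U, ← Subgroup.map_commutator]
    exact Subgroup.map_mono h5

theorem card_pt (α δ : Φ) : Nat.card (X.U (pt R α δ)) = Nat.card (X.U δ) := by
  rw [pt, ← R.rrefl_self, card_U_smul, card_U_smul]

theorem prod_sq {α : Φ} {M : Set Φ} (hM : Lag R α M) (T : Finset Φ) [DecidablePred (· ∈ M)]
    (h1 : ∀ δ ∈ T, R.cor α (R.α δ) = 1) (h2 : ∀ δ ∈ T, pt R α δ ∈ T) :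
    (∏ δ ∈ T with δ ∈ M, Nat.card (X.U δ)) ^ 2 = ∏ δ ∈ T, Nat.card (X.U δ) := by
  rw [sq, ← Finset.prod_filter_mul_prod_filter_not T (· ∈ M)]
  congr 1
  refine Finset.prod_nbij' (pt R α) (pt R α) (fun δ h => ?_) (fun δ h => ?_) (fun δ _ => pt_pt α δ)
    (fun δ _ => pt_pt α δ) fun δ _ => (card_pt α δ).symm
  · rw [Finset.mem_filter] at h ⊢
    exact ⟨h2 δ h.1, (hM.2 δ (h1 δ h.1)).1 h.2⟩
  · rw [Finset.mem_filter] at h ⊢
    exact ⟨h2 δ h.1, not_not.1 (mt (hM.2 δ (h1 δ h.1)).2 h.2)⟩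

variable {V : Type*} [AddCommGroup V] [Module ℂ V] [FiniteDimensional ℂ V] {ρ : Representation ℂ G V}

theorem le_Fx {S : Set Φ} {W : Submodule ℂ V} :
    W ≤ Fix ρ (X.US S) ↔ ∀ r ∈ S, W ≤ Fix ρ (X.U r) := by
  simp only [le_Fix_iff, US_le]

theorem Fx_le {S : Set Φ} {r : Φ} (h : r ∈ S) : Fix ρ (X.US S) ≤ Fix ρ (X.U r) := le_Fx.1 le_rfl r h

theorem Fx_mono {S S' : Set Φ} (h : S ⊆ S') : Fix ρ (X.US S') ≤ Fix ρ (X.US S) :=
  le_Fx.2 fun _ hr => Fx_le (h hr)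

theorem inv_US {S : Set Φ} {W : Submodule ℂ V} (h : ∀ r ∈ S, Inv ρ (X.U r) W) : Inv ρ (X.US S) W := by
  let H : Subgroup G :=
    { carrier := {g | (∀ v ∈ W, ρ g v ∈ W) ∧ ∀ v ∈ W, ρ g⁻¹ v ∈ W}
      mul_mem' := fun ha hb => ⟨fun v hv => by rw [rho_mul]; exact ha.1 _ (hb.1 v hv),
        fun v hv => by rw [mul_inv_rev, rho_mul]; exact hb.2 _ (ha.2 v hv)⟩
      one_mem' := ⟨fun v hv => by simpa using hv, fun v hv => by simpa using hv⟩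
      inv_mem' := fun ha => ⟨ha.2, by simpa using ha.1⟩ }
  have : X.US S ≤ H := US_le.2 fun r hr a ha => ⟨h r hr a ha, h r hr _ (inv_mem ha)⟩
  exact fun a ha => (this ha).1

theorem swap {r s : Φ} (h1 : s ≠ r) (h2 : s ≠ R.neg r) {a b : G} (ha : a ∈ X.U r) (hb : b ∈ X.U s)
    {v : V} (hv : v ∈ Fix ρ (X.US (R.itv r s))) : ρ b (ρ a v) = ρ a (ρ b v) := by
  conv_lhs => rw [← hv _ (X.comm r s h1 h2 _ (inv_mem ha) _ (inv_mem hb))]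
  simp only [← rho_mul]
  congr 2
  group

theorem mv_Fx {γ : Φ} {S : Set Φ} {a : G} (ha : a ∈ X.U γ) {y : V} (hy : y ∈ Fix ρ (X.US S))
    (h : ∀ s ∈ S, s ≠ γ → s ≠ R.neg γ ∧ y ∈ Fix ρ (X.US (R.itv γ s))) : ρ a y ∈ Fix ρ (X.US S) := by
  refine le_Fx.2 (fun s hs => ?_) (Submodule.mem_span_singleton_self _)
  rw [Submodule.span_singleton_le_iff_mem]
  intro b hb
  by_cases h1 : s = γ
  · rw [Fx_le hs hy a (h1 ▸ ha), Fx_le hs hy b hb]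
  · rw [swap h1 (h s hs h1).1 ha hb (h s hs h1).2, Fx_le hs hy b hb]

theorem inv_Fx {γ : Φ} {S : Set Φ} (h : ∀ s ∈ S, s ≠ γ → s ≠ R.neg γ ∧ R.itv γ s ⊆ S) :
    Inv ρ (X.U γ) (Fix ρ (X.US S)) :=
  fun _ ha _ hy => mv_Fx ha hy fun s hs h1 => ⟨(h s hs h1).1, Fx_mono (h s hs h1).2 hy⟩

variable {F : Type*} [Field F] [Fintype F] {ψ : AddChar F ℂ} {x : F → G} {α : Φ} {c : F}

theorem Lg.mv (h : Lg X x α) {γ : Φ} (h1 : -1 ≤ R.cor α (R.α γ) ∧ R.cor α (R.α γ) ≤ 1) {a : G}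
    (ha : a ∈ X.U γ) {y : V} (hy : y ∈ Ew ρ ψ x c) (h2 : y ∈ Fix ρ (X.US (R.itv γ α))) :
    ρ a y ∈ Ew ρ ψ x c := mem_Ew.2 fun t => by
  obtain ⟨a1, a2⟩ := ne_of_ty rfl h1
  rw [swap a1.symm (RS.ne_symm a2) ha ((h.mem _).2 ⟨t, rfl⟩) h2, mem_Ew.1 hy, map_smul]

theorem Lg.inv (h : Lg X x α) {γ : Φ} (h0 : 0 ≤ R.cor α (R.α γ)) (h1 : R.cor α (R.α γ) ≤ 1) :
    Inv ρ (X.U γ) (Ew ρ ψ x c) := fun _ ha _ hy =>
  h.mv ⟨by omega, h1⟩ ha hy (le_Fx.2 (fun t ht => (h.long.itv_α h0 h1 t ht).elim) (Submodule.mem_top))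

theorem Lg.inv1 (h : Lg X x α) {γ : Φ} (h1 : R.cor α (R.α γ) = 1) : Inv ρ (X.U γ) (Ew ρ ψ x c) :=
  h.inv (by omega) h1.le

theorem Lg.zrel (h : Lg X x α) (hψ : ψ ≠ 1) (hc : c ≠ 0) {δ : Φ} (h1 : R.cor α (R.α δ) = 1) {a : G}
    (ha : a ∈ X.U δ) (h2 : a ≠ 1) : ∃ b ∈ X.U (pt R α δ), ∃ z : ℂ, z ≠ 1 ∧
      ∀ v ∈ Ew ρ ψ x c, ρ (a * b) v = z • ρ (b * a) v := by
  obtain ⟨s, hs⟩ : ∃ s, ψ s ≠ 1 := by
    by_contra! k
    exact hψ (AddChar.ext _ _ k)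
  obtain ⟨b, hb, e⟩ := h.heis δ h1 a ha h2 _ ((h.mem _).2 ⟨s / c, rfl⟩)
  refine ⟨b, hb, _, hs, fun v hv => ?_⟩
  rw [show a * b = x (s / c) * (b * a) by rw [← e]; group, rho_mul, rho_mul,
    mem_Ew.1 (h.inv1 (ty_pt h1) b hb _ (h.inv1 h1 a ha v hv)), mul_div_cancel₀ _ hc]

theorem Lg.comm (h : Lg X x α) {δ s : Φ} (h1 : R.cor α (R.α δ) = 1) (h2 : R.cor α (R.α s) = 1)
    (h3 : s ≠ δ) (h4 : s ≠ pt R α δ) {a b : G} (ha : a ∈ X.U δ) (hb : b ∈ X.U s) : a * b = b * a :=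
  comm_of h3 (ne_neg_of_ty (α := α) (by omega)) (fun _ ht => h4 (h.long.itv_one h1 h2 ht)) ha hb

theorem Lg.inv_Fx (h : Lg X x α) {δ : Φ} (h1 : R.cor α (R.α δ) = 1) {S : Set Φ}
    (h2 : ∀ s ∈ S, R.cor α (R.α s) = 1) (h3 : pt R α δ ∉ S) : Inv ρ (X.U δ) (Fix ρ (X.US S)) :=
  Ex.inv_Fx fun s hs _ => ⟨ne_neg_of_ty (α := α) (by have := h2 s hs; omega),
    fun _ ht => (h3 (h.long.itv_one h1 (h2 s hs) ht ▸ hs)).elim⟩

theorem Lg.prod (h : Lg X x α) (hψ : ψ ≠ 1) (hc : c ≠ 0) {W : Submodule ℂ V} (hW : W ≤ Ew ρ ψ x c)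
    (S : Finset Φ) (h1 : ∀ δ ∈ S, R.cor α (R.α δ) = 1 ∧ pt R α δ ∉ S ∧ Inv ρ (X.U δ) W ∧
      Inv ρ (X.U (pt R α δ)) W) :
    finrank ℂ W = (∏ δ ∈ S, Nat.card (X.U δ)) * finrank ℂ (W ⊓ Fix ρ (X.US S) : Submodule ℂ V) := by
  classical
  induction S using Finset.induction_on with
  | empty => rw [Finset.prod_empty, one_mul, inf_eq_left.2 (le_Fx.2 (by simp))]
  | insert δ S hδ ih =>
    obtain ⟨a1, a2, a3, a4⟩ := h1 δ (Finset.mem_insert_self _ _)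
    have a5 := fun s hs => (h1 s (Finset.mem_insert_of_mem hs)).1
    rw [ih fun s hs => ?_, heis_step (a3.inf (h.inv_Fx a1 a5 fun k => a2 (Finset.mem_insert_of_mem k)))
      (a4.inf (h.inv_Fx (ty_pt a1) a5 (by rwa [pt_pt]))) fun a ha h2 => ?_, Finset.prod_insert hδ,
      mul_comm (Nat.card (X.U δ)) (∏ _ ∈ _, _), mul_assoc, inf_assoc,
      show Fix ρ (X.US S) ⊓ Fix ρ (X.U δ) = Fix ρ (X.US (insert δ S : Finset Φ)) from ?_]
    · refine le_antisymm (le_Fx.2 fun r hr => ?_)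
        (le_inf (Fx_mono (by simp)) (Fx_le (by simp)))
      rcases Finset.mem_insert.1 hr with rfl | hr
      · exact inf_le_right
      · exact inf_le_left.trans (Fx_le hr)
    · obtain ⟨b, hb, z, hz, e⟩ := h.zrel (ρ := ρ) hψ hc a1 ha h2
      exact ⟨b, hb, z, hz, fun v hv => e v (hW hv.1)⟩
    · obtain ⟨b1, b2, b3⟩ := h1 s (Finset.mem_insert_of_mem hs)
      exact ⟨b1, fun k => b2 (Finset.mem_insert_of_mem k), b3⟩

theorem Lg.alt (h : Lg X x α) (hψ : ψ ≠ 1) (hc : c ≠ 0) (M : Set Φ) {M₀ : Set Φ} (h0 : Lag R α M₀)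
    {S : Set Φ} (hS : S ⊆ M₀) : ∀ a ∈ X.US S, a ∈ X.US M ∨ ∃ δ ∈ S, δ ∉ M ∧ ∃ b ∈ X.U (pt R α δ),
      ∃ z : ℂ, z ≠ 1 ∧ ∀ v ∈ Ew ρ ψ x c, ρ (a * b) v = z • ρ (b * a) v := by
  induction S, S.toFinite using Set.Finite.induction_on with
  | empty => exact fun a ha => Or.inl (US_mono (Set.empty_subset _) ha)
  | @insert δ S hδ _ ih =>
    intro a ha
    have a1 := h0.1 δ (hS (Set.mem_insert _ _))
    have a2 : S ⊆ M₀ := (Set.subset_insert _ _).trans hS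
    have a3 := fun s hs => (h0.2 s (h0.1 s hs)).1 hs
    rw [US_insert, mem_sup_of_le_normalizer (U_le_normalizer (fun k => ?_) fun s hs _ t ht => ?_)] at ha
    · obtain ⟨a', ha', a, ha, rfl⟩ := ha
      by_cases k : δ ∈ M ∨ a = 1
      · refine (ih a2 a' ha').imp (fun k1 => mul_mem k1 ?_) ?_
        · exact k.elim (fun k => U_le_US k ha) fun k => k ▸ one_mem _
        · rintro ⟨s, hs, k1, b, hb, z, hz, e⟩
          refine ⟨s, Set.mem_insert_of_mem _ hs, k1, b, hb, z, hz, fun v hv => ?_⟩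
          have b1 := h0.1 s (a2 hs)
          rw [mul_assoc, h.comm a1 (ty_pt b1) (fun k => a3 s (a2 hs) (by rw [k]; exact hS (Set.mem_insert _ _)))
            (fun k => hδ (by rw [← pt_pt (R := R) α δ, ← k, pt_pt]; exact hs)) ha hb, ← mul_assoc, rho_mul,
            e _ (h.inv1 a1 a ha v hv), ← rho_mul, mul_assoc]
      · rw [not_or] at k
        obtain ⟨b, hb, z, hz, e⟩ := h.zrel (ρ := ρ) hψ hc a1 ha k.2
        refine Or.inr ⟨δ, Set.mem_insert _ _, k.1, b, hb, z, hz, fun v hv => ?_⟩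
        have : X.US S ≤ Subgroup.centralizer {b} := US_le.2 fun s hs u hu =>
          Subgroup.mem_centralizer_singleton_iff.2 (h.comm (h0.1 s (a2 hs)) (ty_pt a1)
            (fun k => a3 δ (hS (Set.mem_insert _ _)) (k ▸ a2 hs))
            (fun k => hδ (by rw [← pt_pt (R := R) α δ, k, pt_pt]; exact hs)) hu hb)
        rw [mul_assoc, rho_mul, e v hv, map_smul, ← rho_mul, ← mul_assoc,
          Subgroup.mem_centralizer_singleton_iff.1 (this ha'), mul_assoc]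
    · have := h0.1 _ (a2 k)
      rw [RS.cor_α_neg] at this
      omega
    · exact (a3 δ (hS (Set.mem_insert _ _)) (h.long.itv_one a1 (h0.1 s (a2 hs)) ht ▸ a2 hs)).elim

theorem Lg.Sm_ne (h : Lg X x α) (hψ : ψ ≠ 1) (hc : c ≠ 0) {M M₀ : Set Φ} (hM : Lag R α M)
    (h0 : Lag R α M₀) {y : V} (hy : y ∈ Ew ρ ψ x c ⊓ Fix ρ (X.US M)) (y0 : y ≠ 0) :
    Sm ρ (X.US M₀) y ≠ 0 :=
  Ex.Sm_ne hy.2 y0 fun a ha => (h.alt hψ hc M h0 subset_rfl a ha).imp (hy.2 a)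
    fun ⟨δ, h1, h2, b, hb, z, hz, e⟩ =>
      ⟨b, U_le_US (not_not.1 (mt (hM.2 δ (h0.1 δ h1)).2 h2)) hb, z, hz, e y hy.1⟩

theorem Lg.Sm_mem (h : Lg X x α) {M₀ : Set Φ} (h0 : Lag R α M₀) {y : V} (hy : y ∈ Ew ρ ψ x c) :
    Sm ρ (X.US M₀) y ∈ Ew ρ ψ x c ⊓ Fix ρ (X.US M₀) :=
  ⟨Sm_inv (inv_US fun r hr => h.inv1 (h0.1 r hr)) hy, Ex.Sm_mem _ _⟩

theorem Lg.fr_le (h : Lg X x α) (hψ : ψ ≠ 1) (hc : c ≠ 0) {M M₀ : Set Φ} (hM : Lag R α M)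
    (h0 : Lag R α M₀) : finrank ℂ (Ew ρ ψ x c ⊓ Fix ρ (X.US M) : Submodule ℂ V) ≤
      finrank ℂ (Ew ρ ψ x c ⊓ Fix ρ (X.US M₀) : Submodule ℂ V) :=
  LinearMap.finrank_le_finrank_of_injective (f := (Sm ρ (X.US M₀)).restrict fun _ hy => h.Sm_mem h0 hy.1)
    ((injective_iff_map_eq_zero _).2 fun y hy => Subtype.ext (not_not.1 fun y0 =>
      h.Sm_ne hψ hc hM h0 y.2 y0 (congrArg Subtype.val hy)))

theorem Lg.stepA (h : Lg X x α) (hψ : ψ ≠ 1) (hc : c ≠ 0) {M : Set Φ} (hM : Lag R α M)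
    (h1 : finrank ℂ (Ew ρ ψ x c ⊓ Fix ρ (X.US M) : Submodule ℂ V) ≤ 1) {γ : Φ}
    (hγ : R.cor α (R.α γ) = 0) (h2 : Inv ρ (X.U γ) (Ew ρ ψ x c ⊓ Fix ρ (X.US M))) :
    Ew ρ ψ x c ⊓ Fix ρ (X.US M) ≤ Fix ρ (X.U γ) := by
  have hγ' := RS.cor_eq_zero_comm.1 hγ
  let M₀ : Set Φ := {δ | R.cor α (R.α δ) = 1 ∧ (0 < R.cor γ (R.α δ) ∨ R.cor γ (R.α δ) = 0 ∧ δ ∈ M)}
  have h0 : Lag R α M₀ := ⟨fun δ hδ => hδ.1, fun δ hδ => by
    simp only [M₀, Set.mem_setOf_eq, hδ, ty_pt hδ, cor_pt hδ, hγ', true_and, hM.2 δ hδ]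
    by_cases pt R α δ ∈ M <;> simp only [*, and_true, and_false, or_false, not_true, not_false_iff] <;>
      omega⟩
  have k : ∀ η, R.cor α (R.α η) = 0 → 0 < R.cor γ (R.α η) → ∀ s ∈ M₀,
      s ≠ R.neg η ∧ R.itv η s ⊆ M₀ := fun η a1 a2 s hs =>
    ⟨ne_neg_of_ty (α := α) (by have := hs.1; omega), fun t ht => by
      obtain ⟨p, q, hp, hq, -, -, e⟩ := itv_lin ht
      have e1 := e α
      have e2 := e γ
      have := mul_pos hp a2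
      have := mul_nonneg hq.le (show 0 ≤ R.cor γ (R.α s) by have := hs.2; omega)
      rw [a1, hs.1] at e1
      rcases h.long.cases t with ⟨-, rfl⟩ | h | h
      · omega
      · omega
      · exact ⟨by omega, Or.inl (by omega)⟩⟩
  have k1 : ∀ η, R.cor α (R.α η) = 0 → 0 < R.cor γ (R.α η) →
      Inv ρ (X.U η) (Ew ρ ψ x c ⊓ Fix ρ (X.US M₀)) := fun η a1 a2 =>
    (h.inv a1.ge (by omega)).inf (Ex.inv_Fx fun s hs _ => k η a1 a2 s hs)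
  obtain ⟨δ, ε, a1, a2, a3, a4, a5⟩ := h.dec γ hγ
  have k2 := line_fix ((h.fr_le hψ hc h0 hM).trans h1) (k1 δ a1 a3) (k1 ε a2 a4)
  have k3 := k γ hγ (by rw [R.cor_self]; decide)
  intro y hy g hg
  rw [← sub_eq_zero]
  by_contra y0
  refine h.Sm_ne hψ hc hM h0 (sub_mem (h2 g hg y hy) hy) y0 ?_
  rw [map_sub, ← Sm_conj (U_le_normalizer (fun e => (k3 _ e).1 rfl) (fun s hs _ => (k3 s hs).2) hg),
    k2 (h.Sm_mem h0 hy.1) g (a5 hg), sub_self]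

end Cfsg.Agent.H17.Ex
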