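import Mathlib
import Cfsg.Agent.H17.Ex2

/-!
A lower bound for the degrees of representations of groups with a root group datum.
-/

set_option autoImplicit false
set_option linter.unusedSectionVars false

namespace Cfsg.Agent.H17.Ex

open Module H12 H12.RGD
open scoped commutatorElement

variable {Φ I : Type*} [DecidableEq I] [Fintype I] [Fintype Φ] [LinearOrder Φ] {R : RS Φ I ℤ}

variable (R) in
/-- the upper half of the roots of type one -/
def Ms (α : Φ) : Set Φ :=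
  {δ | R.cor α (R.α δ) = 1 ∧ (R.ht α < 2 * R.ht δ ∨ R.ht α = 2 * R.ht δ ∧ δ < pt R α δ)}

theorem lag_Ms (α : Φ) : Lag R α (Ms R α) := ⟨fun δ hδ => hδ.1, fun δ hδ => by
  simp only [Ms, Set.mem_ofPred_eq, hδ, ty_pt hδ, ht_pt hδ, true_and, pt_pt]
  rcases (pt_ne hδ).lt_or_gt with h | h <;> simp only [h, h.not_gt, and_true, and_false, or_false] <;>
    omega⟩

variable {G : Type*} [Group G] [Finite G] {X : RGD R G}

variable (X) in
/-- roots whose root groups are forced to fix the distinguished line -/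
inductive Tv (α : Φ) : Φ → Prop
  | zero (γ : Φ) : 0 < R.ht γ → R.cor α (R.α γ) = 0 → Tv α γ
  | one (γ : Φ) : R.ht α < 2 * R.ht γ → R.cor α (R.α γ) = 1 → Tv α γ
  | dec (γ δ ε : Φ) : 0 < R.ht δ → R.cor α (R.α δ) = 0 → 0 < R.ht ε → R.cor α (R.α ε) = -1 →
      X.U γ ≤ ⁅X.U δ, X.U ε⁆ → (∀ t ∈ R.itv ε α, Tv α t) →
      (∀ s ∈ Ms R α, ∀ t ∈ R.itv ε s, Tv α t) → Tv α γ

variable {V : Type*} [AddCommGroup V] [Module ℂ V] [FiniteDimensional ℂ V] {ρ : Representation ℂ G V}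
  {F : Type*} [Field F] [Fintype F] {ψ : AddChar F ℂ} {x : F → G} {α : Φ} {c : F}

theorem Lg.inv_zero (h : Lg X x α) {γ : Φ} (h1 : 0 < R.ht γ) (h2 : R.cor α (R.α γ) = 0) :
    Inv ρ (X.U γ) (Ew ρ ψ x c ⊓ Fix ρ (X.US (Ms R α))) :=
  (h.inv h2.ge (by omega)).inf (Ex.inv_Fx fun s hs _ =>
    ⟨ne_neg_of_ty (α := α) (by have := hs.1; omega), fun t ht => by
      obtain ⟨p, q, hp, hq, -, e2, e⟩ := itv_lin ht
      have e1 := e α
      have := mul_pos hp h1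
      have := hs.2
      rw [h2, hs.1] at e1
      rcases h.long.cases t with ⟨h, rfl⟩ | h | h
      · obtain rfl : q = 2 := by omega
        omega
      · omega
      · obtain rfl : q = 1 := by omega
        exact ⟨by omega, Or.inl (by omega)⟩⟩)

theorem Lg.tv (h : Lg X x α) (hψ : ψ ≠ 1) (hc : c ≠ 0) (hα : 0 < R.ht α)
    (h1 : finrank ℂ (Ew ρ ψ x c ⊓ Fix ρ (X.US (Ms R α)) : Submodule ℂ V) ≤ 1) {γ : Φ}
    (hγ : Tv X α γ) : Ew ρ ψ x c ⊓ Fix ρ (X.US (Ms R α)) ≤ Fix ρ (X.U γ) := by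
  induction hγ with
  | zero γ a b => exact h.stepA hψ hc (lag_Ms α) h1 b (h.inv_zero a b)
  | one γ a b => exact inf_le_right.trans (Fx_le ⟨b, Or.inl a⟩)
  | dec γ δ ε a1 a2 a3 a4 a5 _ _ i1 i2 =>
    refine fun y hy g hg => line_fix h1 (h.inv_zero a1 a2) (fun a ha y hy =>
      ⟨h.mv (by omega) ha hy.1 (le_Fx.2 i1 hy), mv_Fx ha hy.2 fun s hs _ =>
        ⟨?_, le_Fx.2 (i2 s hs) hy⟩⟩) hy g (a5 hg)
    rintro rfl
    have := hs.2
    rw [R.ht_neg] at this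
    omega

variable (R) in
/-- an order refining the height -/
def key (r : Φ) : ℤ ×ₗ Φ := toLex (R.ht r, r)

theorem key_lt {r s : Φ} : key R r < key R s ↔ R.ht r < R.ht s ∨ R.ht r = R.ht s ∧ r < s :=
  Prod.Lex.toLex_lt_toLex

variable (X) in
/-- the roots of type `-1` above `α` are forced -/
def HB (α : Φ) : Prop := ∀ γ, R.cor α (R.α γ) = -1 → R.ht α ≤ R.ht γ → Tv X α γ

theorem pow_of_sq {q a k : ℕ} (h : a ^ 2 = q ^ (2 * k)) : a = q ^ k :=
  Nat.pow_left_injective two_ne_zero (by simpa [← pow_mul, mul_comm] using h)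

theorem Lg.low (h : Lg X x α) (hψ : ψ ≠ 1) (hc : c ≠ 0) (hα : 0 < R.ht α) (hB : HB X α)
    (h1 : finrank ℂ (Ew ρ ψ x c ⊓ Fix ρ (X.US (Ms R α)) : Submodule ℂ V) = 1) {q k : ℕ}
    (hk : ∏ δ with R.cor α (R.α δ) = 1 ∧ 0 < R.ht δ ∧ R.ht δ < R.ht α, Nat.card (X.U δ) = q ^ (2 * k)) :
    q ^ k ≤ finrank ℂ (Fix ρ (X.US {γ | key R α < key R γ}) ⊓ Ew ρ ψ x c : Submodule ℂ V) := by
  classical
  have k1 : Ew ρ ψ x c ⊓ Fix ρ (X.US (Ms R α)) ≤ Fix ρ (X.US {γ | key R α < key R γ}) ⊓ Ew ρ ψ x c := by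
    refine le_inf (le_Fx.2 fun γ hγ => h.tv hψ hc hα h1.le ?_) inf_le_left
    have a1 := key_lt.1 hγ
    rcases h.long.cases γ with ⟨-, rfl⟩ | ⟨-, rfl⟩ | h
    · exact (lt_irrefl (key R γ) hγ).elim
    · rw [R.ht_neg] at a1; omega
    · rcases (by omega : R.cor α (R.α γ) = -1 ∨ R.cor α (R.α γ) = 0 ∨ R.cor α (R.α γ) = 1) with b | b | b
      · exact hB γ b (by omega)
      · exact .zero γ (by omega) b
      · exact .one γ (by omega) b
  have k2 : ∀ δ, R.cor α (R.α δ) = 1 → 0 < R.ht δ →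
      Inv ρ (X.U δ) (Fix ρ (X.US {γ | key R α < key R γ}) ⊓ Ew ρ ψ x c) := fun δ a1 a2 =>
    (Ex.inv_Fx fun s hs _ => by
      have a3 := key_lt.1 hs
      refine ⟨?_, fun t ht => key_lt.2 (Or.inl ?_)⟩
      · rintro rfl
        rw [R.ht_neg] at a3; omega
      · have := R.ht_of_mem_itv (R.pos_iff_ht.2 a2) (R.pos_iff_ht.2 (by omega)) ht
        omega).inf (h.inv1 a1)
  rw [← prod_sq (lag_Ms α) _ (fun δ hδ => (Finset.mem_filter.1 hδ).2.1) fun δ hδ => by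
    simp only [Finset.mem_filter, Finset.mem_univ, true_and] at hδ ⊢
    rw [ty_pt hδ.1, ht_pt hδ.1]
    omega] at hk
  have k3 := h.prod hψ hc inf_le_right _ fun δ (hδ : δ ∈ Finset.filter (· ∈ Ms R α) (Finset.univ.filter
      fun δ => R.cor α (R.α δ) = 1 ∧ 0 < R.ht δ ∧ R.ht δ < R.ht α)) => by
    simp only [Finset.mem_filter, Finset.mem_univ, true_and] at hδ ⊢
    obtain ⟨⟨a1, a2, a3⟩, a4⟩ := hδ
    exact ⟨a1, fun b => ((lag_Ms α).2 δ a1).1 a4 b.2, k2 δ a1 a2,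
      k2 _ (ty_pt a1) (by rw [ht_pt a1]; omega)⟩
  have k4 := Submodule.finrank_mono k1
  rw [k3, pow_of_sq hk, h1] at *
  exact Nat.le_mul_of_pos_right _ (Nat.pos_of_mul_pos_left k4)

theorem Lg.top (h : Lg X x α) (hψ : ψ ≠ 1) (hc : c ≠ 0) {q k : ℕ}
    (hk : ∏ δ with R.cor α (R.α δ) = 1, Nat.card (X.U δ) = q ^ (2 * k)) : finrank ℂ (Ew ρ ψ x c) =
      q ^ k * finrank ℂ (Ew ρ ψ x c ⊓ Fix ρ (X.US (Ms R α)) : Submodule ℂ V) := by
  classical
  rw [← prod_sq (lag_Ms α) _ (fun δ hδ => (Finset.mem_filter.1 hδ).2) fun δ hδ => by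
    simp only [Finset.mem_filter, Finset.mem_univ, true_and] at hδ ⊢
    exact ty_pt hδ] at hk
  have k3 := h.prod (ρ := ρ) hψ hc le_rfl _ fun δ (hδ : δ ∈ Finset.filter (· ∈ Ms R α)
      (Finset.univ.filter fun δ => R.cor α (R.α δ) = 1)) => by
    simp only [Finset.mem_filter, Finset.mem_univ, true_and] at hδ ⊢
    exact ⟨hδ.1, fun b => ((lag_Ms α).2 δ hδ.1).1 hδ.2 b.2, h.inv1 hδ.1, h.inv1 (ty_pt hδ.1)⟩
  have e : ((Finset.filter (· ∈ Ms R α) (Finset.univ.filter fun δ => R.cor α (R.α δ) = 1) : Finset Φ) :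
      Set Φ) = Ms R α := Set.ext fun δ => by simpa using fun h => h.1
  rwa [pow_of_sq hk, e] at k3

theorem prod_smul (w : R.W) (α : Φ) : ∏ δ with R.cor (w • α) (R.α δ) = 1, Nat.card (X.U δ) =
    ∏ δ with R.cor α (R.α δ) = 1, Nat.card (X.U δ) :=
  (Finset.prod_equiv (MulAction.toPerm w) (by simp [R.cor_smul_smul])
    fun δ _ => (card_U_smul w δ).symm).symm

theorem Lg.fix_eq (h : Lg X x α) : Fix ρ (X.U α) = Ew ρ ψ x 0 := by
  ext v
  rw [mem_Ew0, mem_Fix]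
  exact ⟨fun k t => k _ ((h.mem _).2 ⟨t, rfl⟩), fun k a ha => by
    obtain ⟨t, rfl⟩ := (h.mem _).1 ha; exact k t⟩

theorem main [ρ.IsIrreducible] {θ : Φ} (h : Lg X x θ)
    (tor : ∀ l : F, l ≠ 0 → ∃ g, ∀ t, x t * g = g * x (l * t)) {q m : ℕ} (hq : Fintype.card F = q)
    (hθ : Nat.card (X.U θ) = q) (hm : ∏ δ with R.cor θ (R.α δ) = 1, Nat.card (X.U δ) = q ^ (2 * m))
    (A : Finset Φ) (k : Φ → ℕ) (hA : ∀ α ∈ A, (∃ w : R.W, α = w • θ) ∧ 0 < R.ht α ∧ HB X α ∧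
      ∏ δ with R.cor α (R.α δ) = 1 ∧ 0 < R.ht δ ∧ R.ht δ < R.ht α, Nat.card (X.U δ) = q ^ (2 * k α))
    {w₀ : R.W} (hβ : R.cor (w₀ • θ) (R.α θ) = 1) {P : Subgroup G}
    (hP : P ≤ Subgroup.normalizer (X.U θ : Set G)) {t₀ : F} (hne : ρ (x t₀) ≠ 1) :
    2 * ((q - 1) * (q + 1) * q ^ m) ≤ q * finrank ℂ V ∨ (q - 1) * ∑ α ∈ A, q ^ k α ≤ finrank ℂ V ∧
      finrank ℂ V ∣ P.index * (q * ((q - 1) * q ^ m)) := by
  classical
  obtain ⟨ψ, hψ⟩ := H11.exists_addChar_ne_one F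
  choose n hn using exists_rep (X := X)
  have k0 : ∀ c c', c ≠ 0 → c' ≠ 0 → finrank ℂ (Ew ρ ψ x c) ≤ finrank ℂ (Ew ρ ψ x c') :=
    fun c c' hc hc' => by
      obtain ⟨g, hg⟩ := tor (c' / c) (div_ne_zero hc' hc)
      exact fr_le g fun v hv => Ew_mv hg hv (by field_simp)
  have k1 : ∀ w c, c ≠ 0 → finrank ℂ (Ew ρ ψ (fun t => n w * x t * (n w)⁻¹) c) =
      finrank ℂ (Ew ρ ψ x 1) := fun w c hc => le_antisymm
    ((fr_le (n w)⁻¹ fun v hv => Ew_mv1 (fun t => by group) hv).trans (k0 c 1 hc one_ne_zero))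
    ((k0 1 c one_ne_zero hc).trans (fr_le (n w) fun v hv => Ew_mv1 (fun t => by group) hv))
  have k2 := fr_split (ρ := ρ) hψ h.add (W := ⊤) fun _ _ _ => trivial
  rw [finrank_top, Finset.sum_congr rfl fun c _ => by rw [top_inf_eq], sum_eq_of_ne fun c hc => le_antisymm (k0 c 1 hc one_ne_zero) (k0 1 c one_ne_zero hc), hq] at k2
  have k3 := h.top (ρ := ρ) hψ one_ne_zero hm
  generalize finrank ℂ (Ew ρ ψ x 1 ⊓ Fix ρ (X.US (Ms R θ)) : Submodule ℂ V) = μ at k3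
  have hq2 : 1 < q := hq ▸ Fintype.one_lt_card
  rcases Nat.lt_trichotomy μ 1 with k4 | rfl | k4
  · obtain rfl : μ = 0 := by omega
    rw [k3, mul_zero, mul_zero, zero_add] at k2
    refine (hne (LinearMap.ext fun v => (mem_Ew0 (ψ := ψ)).1 ?_ t₀)).elim
    rw [Submodule.eq_top_of_finrank_eq k2.symm]
    trivial
  · refine Or.inr ⟨?_, ?_⟩
    · have k5 : ∀ α, ∃ y : F → G, (∀ t, y t ∈ X.U α) ∧ (α ∈ A → ∀ c, c ≠ 0 → q ^ k α ≤ finrank ℂ
          (Fix ρ (X.US {γ | key R α < key R γ}) ⊓ Ew ρ ψ y c : Submodule ℂ V)) := fun α => by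
        by_cases hα : α ∈ A
        · obtain ⟨⟨w, rfl⟩, a1, a2, a3⟩ := hA α hα
          have h' := h.smul (hn w)
          refine ⟨_, fun t => (h'.mem _).2 ⟨t, rfl⟩, fun _ c hc => h'.low hψ hc a1 a2 ?_ a3⟩
          have := h'.top (ρ := ρ) hψ hc ((prod_smul w θ).trans hm)
          rw [k1 w c hc, k3] at this
          exact (Nat.eq_of_mul_eq_mul_left (by positivity) this).symm
        · exact ⟨fun _ => 1, fun _ => one_mem _, fun h => (hα h).elim⟩
      choose y hy hy' using k5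
      rw [← finrank_top, show q - 1 = Fintype.card F - 1 by rw [hq]]
      refine filt hψ (key R) y (fun α => Fix ρ (X.US {γ | key R α < key R γ})) (fun α => q ^ k α) A
        (fun a b e => congrArg (fun p => (ofLex p).2) e)
        (fun α β e => le_inf (Fx_mono fun γ hγ => e.trans hγ) fun v hv =>
          mem_Ew0.2 fun t => Fx_le (S := {γ | key R β < key R γ}) e hv _ (hy α t)) hy' fun _ _ => le_top
    · have := dvd_index (ρ := ρ) hP
      rw [h.fix_eq (ψ := ψ), hθ] at this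
      rw [Nat.dvd_add_iff_right this, ← mul_add, ← mul_add, add_comm, ← mul_one (q ^ m), ← k3, ← k2,
        ← mul_assoc]
      exact dvd_mul_left _ _
  · have h' := h.smul (hn w₀)
    have k5 := sum_fr_le hψ (fun c => Ew ρ ψ (fun t => n w₀ * x t * (n w₀)⁻¹) c ⊓ Ew ρ ψ x 0)
      (fun c => inf_le_left) fun c => inf_le_right
    have k6 : ∀ c, c ≠ 0 → q * finrank ℂ (Ew ρ ψ (fun t => n w₀ * x t * (n w₀)⁻¹) c ⊓ Ew ρ ψ x 0 :
        Submodule ℂ V) = q ^ m * μ := fun c hc => by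
      have := h'.prod (ρ := ρ) hψ hc le_rfl {θ} fun δ hδ => by
        obtain rfl := Finset.mem_singleton.1 hδ
        exact ⟨hβ, by simpa using pt_ne hβ, h'.inv1 hβ, h'.inv1 (ty_pt hβ)⟩
      rw [k1 w₀ c hc, Finset.prod_singleton, Finset.coe_singleton, US_singleton, hθ,
        h.fix_eq (ψ := ψ), k3] at this
      exact this.symm
    have k7 := Nat.mul_le_mul_left q k5
    have k8 := le_sum_of_ne fun c hc => (k6 c hc).ge
    rw [← Finset.mul_sum, hq] at k8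
    left
    rw [k2, k3]
    obtain ⟨p, rfl⟩ : ∃ p, q = p + 1 := ⟨q - 1, by omega⟩
    rw [Nat.add_sub_cancel] at k8 ⊢
    nlinarith [Nat.mul_le_mul_left (p * (p + 2) * (p + 1) ^ m) k4, Nat.zero_le ((p + 1) *
      finrank ℂ (Ew ρ ψ (fun t => n w₀ * x t * (n w₀)⁻¹) 0 ⊓ Ew ρ ψ x 0 : Submodule ℂ V))]

theorem PJ_le {θ : Φ} (h : Long R θ) {J : Set I}
    (hJ : ∀ r, R.Pos r ∨ R.InJ J r → 0 ≤ R.cor θ (R.α r)) :
    X.PJ J ≤ Subgroup.normalizer (X.U θ : Set G) := by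
  rw [PJ_eq, ← US_singleton]
  refine sup_le (US_le.2 fun r hr => U_le_normalizer (fun e => ?_) ?_) (T_le_normalizer_US _)
  · have := hJ r hr
    rw [← R.neg_neg r, e, RS.cor_α_neg, R.cor_self] at this
    omega
  · rintro _ rfl h1 t ht
    have := hJ r hr
    refine (h.itv_α this ?_ t ht).elim
    rcases h.cases r with h | h | h
    · exact (h1 h.2.symm).elim
    · omega
    · omega

theorem index_PJ (h : X.grp = ⊤) {J : Set I} {N : ℕ}
    (e : ∑ᶠ w : R.WJ Set.univ, Nat.card (X.US (R.invSet w)) =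
      N * ∑ᶠ w : R.WJ J, Nat.card (X.US (R.invSet w))) : (X.PJ J).index = N := by
  have h1 := (X.PJ J).index_mul_card
  rw [← Subgroup.card_top (G := G), ← h, ← PJ_univ, card_PJ Set.univ, e, mul_left_comm, ← card_PJ] at h1
  exact Nat.eq_of_mul_eq_mul_right Nat.card_pos h1

/-! ### the simply laced case -/

theorem sl_long (h : R.SL) (α : Φ) : Long R α := fun t h1 h2 => by
  have := h.cases h1 h2; omega

theorem sl_nd (h : R.SL) {δ ε γ : Φ} (h1 : R.cor δ (R.α ε) = -1) (e : R.α γ = R.α δ + R.α ε) :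
    ND X δ ε γ :=
  nd_of_a2 h1 e (fun t ht => by
      rw [h.itv_eq h1] at ht
      exact ht.trans (R.inj (by rw [R.α_rrefl, h1, e]; module)))
    fun t => by
      rw [h.itv_eq_empty (ne_of_ty h1 (by omega)).2 (by rw [RS.cor_neg_α]; omega)]
      exact id

theorem sl_heis (h : R.SL) (α δ : Φ) (h1 : R.cor α (R.α δ) = 1) : ND X δ (pt R α δ) α :=
  sl_nd h (by rw [cor_pt h1, h δ α, h1, R.cor_self]; rfl) (by rw [α_pt h1]; module)

theorem sl_hb (h : R.SL) {α : Φ} (hα : 1 < R.ht α) : HB X α := fun γ h1 h2 => by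
  have k : ∀ δ ε, 0 < R.ht δ → R.cor α (R.α δ) = 0 → 0 < R.ht ε → R.cor α (R.α ε) = -1 →
      X.U γ ≤ ⁅X.U δ, X.U ε⁆ → Tv X α γ := fun δ ε a1 a2 a3 a4 a5 => by
    refine .dec γ δ ε a1 a2 a3 a4 a5 (fun t ht => ?_) fun s hs t ht => ?_
    · have a6 : R.cor ε (R.α α) = -1 := (h _ _).trans a4
      rw [h.itv_eq a6] at ht
      have e : R.α t = R.α α + R.α ε := by rw [ht, R.α_rrefl, a6]; module
      refine .one t ?_ (by rw [e, map_add, a4, R.cor_self]; rfl)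
      simp only [RS.ht, e, Pi.add_apply, Finset.sum_add_distrib] at hα a3 ⊢
      omega
    · have a6 := hs.2
      have a7 := hs.1
      have a8 := R.ht_of_mem_itv (R.pos_iff_ht.2 a3) (R.pos_iff_ht.2 (by omega)) ht
      rw [h.mem_itv (by rintro rfl; omega) (by rintro rfl; rw [R.ht_neg] at a6; omega)] at ht
      exact .zero t (by omega) (by rw [ht.2, RS.cor_rrefl, ht.1, a7, a4]; rfl)
  obtain ⟨i, hi⟩ := R.descent γ (R.pos_iff_ht.2 (by omega))
  rw [← R.cor_simple, h] at hi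
  have b0 := R.ht_simple i
  have b1 : R.cor γ (R.α (R.simple i)) = 1 := by
    have := sl_long h γ (R.simple i) (by rintro rfl; omega)
      (fun e => by rw [e, R.ht_neg] at b0; omega)
    omega
  have b2 := (sl_heis (X := X) h γ _ b1).le
  have b3 := ht_pt b1
  have b4 := cor_pt b1 α
  rcases (sl_long h α).cases (R.simple i) with ⟨-, e⟩ | ⟨-, e⟩ | e
  · rw [e] at b0; omega
  · rw [e, R.ht_neg] at b0; omega
  rcases (sl_long h α).cases (pt R γ (R.simple i)) with e' | ⟨-, e'⟩ | e'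
  · omega
  · rw [e', R.ht_neg] at b3; omega
  by_cases b5 : R.cor α (R.α (R.simple i)) = 0
  · exact k _ _ (by omega) b5 (by omega) (by omega) b2
  · exact k (pt R γ (R.simple i)) (R.simple i) (by omega) (by omega) (by omega) (by omega)
      (by rwa [Subgroup.commutator_comm])

theorem sl_lg (h : R.SL) {θ : Φ} (add : ∀ s t, x (s + t) = x s * x t)
    (mem : ∀ u, u ∈ X.U θ ↔ ∃ t, u = x t) (hd : ∀ γ, R.cor θ (R.α γ) = 0 →
      ∃ δ, R.cor θ (R.α δ) = 0 ∧ R.cor γ (R.α δ) = 1) : Lg X x θ :=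
  ⟨add, mem, sl_long h θ, sl_heis h θ, fun γ hγ => by
    obtain ⟨δ, h1, h2⟩ := hd γ hγ
    exact ⟨δ, pt R γ δ, h1, by rw [cor_pt h2, hγ, h1]; rfl, by omega, by rw [ty_pt h2]; decide,
      (sl_heis h γ δ h2).le⟩⟩

/-! ### arithmetic -/

theorem nt_bound {q n j d c m B : ℕ} (hq : IsPrimePow q) (hn : n < q) (h0 : 0 < j) (h1 : j ≤ n * q)
    (h2 : j ≠ q) (hd : 0 < d) (e : d + j = q + q ^ 2 * c) (hB : 0 < B) (h : d ∣ q ^ m * (j * B)) :
    d ≤ n ^ 2 * q * B := by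
  obtain ⟨p, f, hp, hf, rfl⟩ := (isPrimePow_nat_iff q).1 hq
  obtain ⟨a, d', hd', rfl⟩ := Nat.exists_eq_pow_mul_and_not_dvd hd.ne' p hp.ne_one
  obtain ⟨b, j', hj', rfl⟩ := Nat.exists_eq_pow_mul_and_not_dvd h0.ne' p hp.ne_one
  have c1 : Nat.Coprime d' p := ((Nat.Prime.coprime_iff_not_dvd hp).2 hd').symm
  have p0 := hp.pos
  have j0 : 0 < j' := Nat.pos_of_mul_pos_left h0
  have k1 : d' ∣ j' * B := (c1.pow_right b).dvd_of_dvd_mul_left (by
    rw [← mul_assoc]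
    exact ((c1.pow_right f).pow_right m).dvd_of_dvd_mul_left ((dvd_mul_left _ _).trans h))
  have k2 := Nat.le_of_dvd (by positivity) k1
  have n0 : 0 < n := Nat.pos_of_mul_pos_right (h0.trans_le h1)
  suffices p ^ a * j' ≤ n ^ 2 * p ^ f by
    calc p ^ a * d' ≤ p ^ a * (j' * B) := Nat.mul_le_mul_left _ k2
      _ ≤ _ := by rw [← mul_assoc]; exact Nat.mul_le_mul_right _ this
  by_cases hab : a ≤ b
  · calc p ^ a * j' ≤ p ^ b * j' := Nat.mul_le_mul_right _ (Nat.pow_le_pow_right hp.pos hab)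
      _ ≤ n * p ^ f := h1
      _ ≤ _ := Nat.mul_le_mul_right _ (by nlinarith)
  have hbf : f ≤ b := by
    by_contra! hbf
    have k3 : p ^ (b + 1) ∣ p ^ a * d' + p ^ b * j' := by
      rw [e, sq, mul_assoc]
      exact dvd_add (pow_dvd_pow p hbf) ((pow_dvd_pow p hbf).mul_right _)
    rw [Nat.dvd_add_right ((pow_dvd_pow p (by omega)).mul_right _), pow_succ,
      Nat.mul_dvd_mul_iff_left (by positivity)] at k3
    exact hj' k3
  obtain ⟨b, rfl⟩ := Nat.exists_eq_add_of_le hbf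
  obtain ⟨a, rfl⟩ := Nat.exists_eq_add_of_le (show f ≤ a by omega)
  have q0 : 0 < p ^ f := by positivity
  have k4 : p ^ b * j' ≤ n := Nat.le_of_mul_le_mul_left (by rwa [← mul_assoc, ← pow_add, mul_comm _ n]) q0
  have k5 : p ^ a * d' + p ^ b * j' = 1 + p ^ f * c := Nat.eq_of_mul_eq_mul_left q0 (by
    rw [mul_add, ← mul_assoc, ← mul_assoc, ← pow_add, ← pow_add, e]; ring)
  have k6 : p ^ b * j' ≠ 1 := fun k => h2 (by rw [pow_add, mul_assoc, k, mul_one])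
  have k7 : 0 < p ^ b * j' := by positivity
  obtain ⟨i, hi⟩ : ∃ i, p ^ b * j' = i + 1 := ⟨p ^ b * j' - 1, by omega⟩
  have k8 : p ^ min a f ∣ i := (Nat.dvd_add_right ((pow_dvd_pow p (min_le_left a f)).mul_right d')).1
    (by rw [show p ^ a * d' + i = p ^ f * c by omega]; exact (pow_dvd_pow p (min_le_right a f)).mul_right _)
  have k9 := Nat.le_of_dvd (by omega) k8
  rcases le_total a f with haf | haf
  · rw [min_eq_left haf] at k9
    have : j' ≤ n := (Nat.le_mul_of_pos_left _ (by positivity)).trans k4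
    rw [pow_add, mul_assoc, mul_comm, sq]
    exact Nat.mul_le_mul_right _ (Nat.mul_le_mul (by omega) this)
  · rw [min_eq_right haf] at k9
    omega

end Cfsg.Agent.H17.Ex
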