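import Mathlib
import Cfsg.Agent.H17.Ex4
import Cfsg.Agent.H12.Coll
import Cfsg.Agent.H12.WeylF4
import Cfsg.Agent.H13.E6Str
import Cfsg.Agent.H13.Chk

/-!
The degree bound for the twisted groups of type `E₆`.
-/

set_option autoImplicit false
set_option linter.unusedSectionVars false
set_option maxRecDepth 100000

namespace Cfsg.Agent.H17.Ex

open Module H12 H12.RGD H13 H13.E6 Cfsg.Lie
open scoped commutatorElement

/-- a necessary condition for membership in an interval -/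
noncomputable def iv (X : Tab) (r s t : ℕ) : Bool :=
  forceZ (2 * X.pairing r t - X.pairing r s * X.pairing s t) fun P =>
  forceZ (2 * X.pairing s t - X.pairing s r * X.pairing r t) fun Q =>
  decide (0 < P) && decide (0 < Q) && allLt X.l fun i =>
    decide ((4 - X.pairing r s * X.pairing s r) * X.al t i = P * X.al r i + Q * X.al s i)

/-- a sum of two roots -/
noncomputable def sm (X : Tab) (δ ε γ : ℕ) : Bool := allLt X.l fun i => decide (X.al γ i = X.al δ i + X.al ε i)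

/-- a triple of type `A₂` -/
noncomputable def a2 (X : Tab) (δ ε γ : ℕ) : Bool :=
  sm X δ ε γ && decide (X.pairing δ ε = -1) &&
    allLt X.n fun t => (!iv X δ ε t || Nat.beq t γ) && !iv X (X.neg δ) ε t

/-- a decomposition -/
noncomputable def dc (X : Tab) (θ δ ε γ : ℕ) : Bool :=
  sm X δ ε γ && decide (X.len γ = X.len θ) && decide (X.pairing γ δ = 1) || a2 X δ ε γ

/-- forced roots -/
noncomputable def tv (X : Tab) (α : ℕ) (L : List ℕ) (t : ℕ) : Bool :=
  decide (0 < hT X t) && decide (X.pairing α t = 0) ||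
    decide (hT X α < 2 * hT X t) && decide (X.pairing α t = 1) || decide (t ∈ L)

/-- one step -/
noncomputable def stp (X : Tab) (θ α : ℕ) (L : List ℕ) (γ δ ε : ℕ) : Bool :=
  Nat.blt δ X.n && Nat.blt ε X.n && decide (0 < hT X δ) && decide (X.pairing α δ = 0) &&
  decide (0 < hT X ε) && decide (X.pairing α ε = -1) && dc X θ δ ε γ &&
  (allLt X.n fun t => !iv X ε α t || tv X α L t) &&
  allLt X.n fun s => !(decide (X.pairing α s = 1) && (decide (hT X α < 2 * hT X s) ||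
    decide (hT X α = 2 * hT X s) && allLt X.n fun s' => !sm X s s' α || Nat.blt s s')) ||
    allLt X.n fun t => !iv X ε s t || tv X α L t

/-- all steps -/
noncomputable def run (X : Tab) (θ α : ℕ) (W : List (ℕ × ℕ × ℕ)) : List ℕ → Bool :=
  List.rec (fun L => allLt X.n fun γ =>
      !(decide (X.pairing α γ = -1) && decide (hT X α ≤ hT X γ)) || decide (γ ∈ L))
    (fun w _ ih L => stp X θ α L w.1 w.2.1 w.2.2 && ih (w.1 :: L)) W

section Tables

variable {D : ChevalleyDatum} [Good D]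

theorem iv_of {r s t : Fin D.nroots} (h1 : s ≠ r) (h2 : s ≠ (rsOf D).neg r) (h : t ∈ (rsOf D).itv r s) :
    iv (tb D) r s t = true := by
  obtain ⟨p, q, hp, hq, e, -, k⟩ := itv_lin h
  have k1 := k r
  have k2 := k s
  have k3 := RS.cor_mul_cor_lt_four h1 h2
  rw [RS.cor_self] at k1 k2
  simp only [cor_tb] at k1 k2 k3
  simp only [iv, forceZ_eq, Bool.and_eq_true, decide_eq_true_eq, allLt_iff, k1, k2]
  refine ⟨⟨by nlinarith, by nlinarith⟩, fun i hi => ?_⟩
  rw [show (tb D).al t i = p * (tb D).al r i + q * (tb D).al s i from congrFun e ⟨i, hi⟩]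
  ring

theorem val_wprod (a : List (Fin D.rank)) (r : Fin D.nroots) :
    ((wprod (rsOf D).s a • r : Fin D.nroots) : ℕ) = (a.map Fin.val).foldr (tb D).refl r := by
  induction a with
  | nil => rfl
  | cons i a ih => rw [wprod_cons, mul_smul, List.map_cons, List.foldr_cons, ← ih]; rfl

theorem sm_iff {δ ε γ : Fin D.nroots} : sm (tb D) δ ε γ = true ↔
    (rsOf D).α γ = (rsOf D).α δ + (rsOf D).α ε := by
  simp only [sm, allLt_iff, decide_eq_true_eq]
  exact ⟨fun h => funext fun i => h i i.2, fun h i hi => congrFun h ⟨i, hi⟩⟩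

variable {G : Type*} [Group G] [Finite G] {X : RGD (rsOf D) G}

theorem nd_of {δ ε γ : Fin D.nroots} (h : a2 (tb D) δ ε γ = true) : ND X δ ε γ := by
  simp only [a2, Bool.and_eq_true, decide_eq_true_eq, allLt_iff, sm_iff, ← cor_tb, Bool.or_eq_true,
    Nat.beq_eq, Bool.not_eq_true'] at h
  obtain ⟨⟨h1, h2⟩, h3⟩ := h
  obtain ⟨a1, a2⟩ := ne_of_ty h2 (by omega)
  refine nd_of_a2 h2 h1 (fun t ht => Fin.ext ((h3 t t.2).1.resolve_left ?_)) fun t ht => ?_
  · rw [iv_of a1 a2 ht]; decide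
  · have := iv_of a2 (by rwa [RS.neg_neg]) ht
    exact Bool.eq_false_iff.1 (h3 t t.2).2 this

variable {θ : ℕ} (hh : ∀ γ : Fin D.nroots, rlen D γ = rlen D θ → ∀ δ, (rsOf D).cor γ ((rsOf D).α δ) = 1 →
  ND X δ (pt (rsOf D) γ δ) γ)
include hh

theorem dc_le {δ ε γ : Fin D.nroots} (h : dc (tb D) θ δ ε γ = true) : X.U γ ≤ ⁅X.U δ, X.U ε⁆ := by
  simp only [dc, Bool.and_eq_true, decide_eq_true_eq, sm_iff, ← cor_tb, Bool.or_eq_true] at h
  rcases h with ⟨⟨h1, h2⟩, h3⟩ | h
  · rw [← pt_eq h3 (ε := ε) (by rw [h1]; module)]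
    exact (hh γ h2 δ h3).le
  · exact (nd_of h).le

theorem hb_of {α : Fin D.nroots} (hα : 0 < (rsOf D).ht α) {W : List (ℕ × ℕ × ℕ)} {L : List ℕ}
    (hL : ∀ t : Fin D.nroots, t.1 ∈ L → Tv X α t) (h : run (tb D) θ α W L = true) : HB X α := by
  induction W generalizing L with
  | nil =>
    intro γ h1 h2
    simp only [run, allLt_iff, Bool.or_eq_true, Bool.not_eq_true', ← Bool.not_eq_true, Bool.and_eq_true,
      decide_eq_true_eq] at h
    exact hL γ ((h γ γ.2).resolve_left (not_not.2 ⟨by rwa [← cor_tb], by rwa [← ht_tb, ← ht_tb]⟩))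
  | cons w W ih =>
    obtain ⟨γ, δ, ε⟩ := w
    obtain ⟨h1, h2⟩ := Bool.and_eq_true_iff.1 h
    refine ih (fun t ht => ?_) h2
    rcases List.mem_cons.1 ht with rfl | ht
    swap; · exact hL t ht
    have k : ∀ t : Fin D.nroots, tv (tb D) α L t = true → Tv X α t := fun t h => by
      simp only [tv, Bool.or_eq_true, Bool.and_eq_true, decide_eq_true_eq, ← cor_tb, ← ht_tb] at h
      rcases h with (h | h) | h
      exacts [.zero t h.1 h.2, .one t h.1 h.2, hL t h]
    simp only [stp, Bool.and_eq_true, Nat.blt_eq, decide_eq_true_eq, allLt_iff, Bool.or_eq_true,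
      Bool.not_eq_true', ← Bool.not_eq_true, ← imp_iff_not_or] at h1
    obtain ⟨⟨⟨⟨⟨⟨⟨⟨a1, a2⟩, a3⟩, a4⟩, a5⟩, a6⟩, a7⟩, a8⟩, a9⟩ := h1
    lift δ to Fin D.nroots using a1
    lift ε to Fin D.nroots using a2
    rw [← ht_tb] at a3 a5
    rw [← cor_tb] at a4 a6
    obtain ⟨b1, b2⟩ := ne_of_ty a6 (by omega)
    refine .dec t δ ε a3 a4 a5 a6 (dc_le hh a7) (fun u hu => k u (a8 u u.2 (iv_of b1.symm (RS.ne_symm b2) hu)))
      fun s hs u hu => k u (a9 s s.2 ?_ u u.2 (iv_of ?_ ?_ hu))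
    · rw [← cor_tb, ← ht_tb, ← ht_tb]
      refine ⟨hs.1, hs.2.imp_right fun h => ⟨h.1, fun s' h1 h2 => ?_⟩⟩
      lift s' to Fin D.nroots using h1
      rw [← pt_eq hs.1 (ε := s') (by rw [sm_iff.1 h2]; module)]
      exact h.2
    · rintro rfl
      have := hs.1; omega
    · rintro rfl
      have := hs.2
      rw [RS.ht_neg] at this; omega

end Tables

theorem f4_long : (allLt (tb chevF4).n fun t => Nat.beq t 25 || Nat.beq t 22 ||
    decide (-1 ≤ (tb chevF4).pairing 25 t ∧ (tb chevF4).pairing 25 t ≤ 1)) = true := by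
  rw [tbF4]; decide +kernel

theorem f4_heis : (allLt (tb chevF4).n fun δ => !decide ((tb chevF4).pairing 25 δ = 1) ||
    (anyLt (tb chevF4).n fun ε => a2 (tb chevF4) δ ε 25) ||
    ([[3, 2, 1, 2, 3, 0, 1, 2, 1], [0, 1, 2, 1], [1, 2, 1], [], [0], [3, 2, 1, 2, 3, 0]] :
      List (List (Fin chevF4.rank))).any fun a => Nat.beq ((a.map Fin.val).foldr (tb chevF4).refl 28) δ &&
        Nat.beq ((a.map Fin.val).foldr (tb chevF4).refl 25) 25) = true := by
  rw [tbF4]; decide +kernel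

theorem f4_dec : (allLt (tb chevF4).n fun γ => !decide ((tb chevF4).pairing 25 γ = 0) ||
    anyLt (tb chevF4).n fun δ => decide ((tb chevF4).pairing 25 δ = 0) && decide (0 < (tb chevF4).pairing γ δ) &&
    anyLt (tb chevF4).n fun ε => decide ((tb chevF4).pairing 25 ε = 0) && decide (0 < (tb chevF4).pairing γ ε) &&
      dc (tb chevF4) 47 δ ε γ) = true := by
  rw [tbF4]; decide +kernel

theorem f4_hb : (allLt (tb chevF4).n fun α => !decide ((tb chevF4).len α = (tb chevF4).len 47) ||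
    !decide (1 < hT (tb chevF4) α) || run (tb chevF4) 47 α ([[], [], [(45, 31, 41), (30, 28, 27), (34, 33, 27),
      (37, 28, 34), (41, 33, 37)], [], [], [], [(42, 34, 36), (43, 25, 42), (36, 29, 33)],
      [(41, 34, 35), (43, 26, 41)], [(41, 35, 34), (42, 24, 41)], [], [], [], [], [], [], [], [],
      [(32, 25, 31)]].getD (α - 24) []) []) = true := by
  rw [tbF4]; decide +kernel

theorem f4_T : chkT (tb chevF4) 47 46 10 (fun r => ((tb chevF4).len r % 2).toNat + 1) (fun i => Nat.blt i 3)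
    [1, 2, 3, 4, 4, 5, 6, 8, 9, 10] = true := by
  rw [tbF4]; decide +kernel

theorem f4_orb (r : Fin chevF4.nroots) (h : rlen chevF4 r = rlen chevF4 47) :
    ∃ w : (rsOf chevF4).W, r = w • (25 : Fin chevF4.nroots) := by
  have k := orbit (D := chevF4) (θ := 47) (by decide +kernel)
  obtain ⟨w, rfl⟩ := k r h
  obtain ⟨v, e⟩ := k 25 (by decide +kernel)
  exact ⟨w * v⁻¹, by rw [e, mul_smul, inv_smul_smul]⟩

theorem ND.sub {Φ I G : Type*} [DecidableEq I] {R : RS Φ I ℤ} [Group G] {X : RGD R G} {δ ε γ : Φ}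
    (h : ND X δ ε γ) {K : Subgroup G} (hK : X.grp ≤ K) : ND (X.sub K hK) δ ε γ := fun a ha h1 u hu => by
  obtain ⟨b, hb, e⟩ := h a ha (fun e => h1 (Subtype.ext e)) u hu
  exact ⟨⟨b, hK (U_le_grp _ hb)⟩, hb, Subtype.ext e⟩

variable {K : Type*} [Field K] [Finite K] (S : ED K)

local notation "v" n:max => Ex.var n

omit S in
theorem rel (a b c d : K) : x 43 a * x 40 (-b) * (x 29 c * x 34 d) =
    x 39 (a * c + b * d) * (x 29 c * x 34 d * (x 43 a * x 40 (-b))) := by
  obtain ⟨μ, e1, e2, e3, e4, -⟩ := exists_mu8 a b c d 0 0 0 0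
  let A : List (Fin chevE6.nroots × Ex) := [(43, v 2), (40, -v 3), (29, v 5), (34, v 7)]
  let B : List (Fin chevE6.nroots × Ex) := [(39, v 2 * v 5 + v 3 * v 7), (29, v 5), (34, v 7), (43, v 2), (40, -v 3)]
  have := Col.OK.eq_of_chk (chevSt chevE6 K) (μ := μ) ⟨tbE6, Int.cast_zero, fun _ => rfl⟩
    (show Col.chk ⟨fastE6.tab, 0, id, id, 60⟩ (A.map fun a => (a.1.1, a.2)) (B.map fun a => (a.1.1, a.2)) = true by
      decide +kernel)
  simp only [eev, List.map_map, Function.comp_def, xN_fin] at this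
  simpa [A, B, mul_assoc, e1, e2, e3, e4] using this

theorem n_mem {r : Fin chevE6.nroots} {c d : Fin chevF4.nroots}
    (h1 : ∀ t, S.θ t = t → x r t ∈ S.X.U c) (h2 : ∀ t, S.θ t = t → x ((rsOf chevE6).neg r) t ∈ S.X.U d)
    {t : K} (ht : S.θ t = t) : (chevSt chevE6 K).n r t ∈ S.G :=
  S.X_grp.le (mul_mem (mul_mem (U_le_grp _ (h1 t ht)) (U_le_grp _ (h2 _ (by simp [ht]))))
    (U_le_grp _ (h1 t ht)))

theorem nd28 (hθ : ∃ c, c + S.θ c = 1) : ND S.X 28 20 25 := by
  obtain ⟨c, hc⟩ := hθ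
  intro a ha h1 u hu
  obtain ⟨r, hr, rfl⟩ := S.mem_U25.1 hu
  have e : (rsOf chevE6).simple 3 = 39 := by decide +kernel
  have hn := n_mem S (r := 39) (fun t ht => S.mem_U25.2 ⟨t, ht, rfl⟩)
    (fun t ht => (show (rsOf chevE6).neg 39 = 32 by decide +kernel) ▸ S.mem22 ht) (map_one _)
  obtain ⟨t, ht⟩ := (S.mem_U27 (g := ((chevRGD chevE6 K).m 3)⁻¹ * a * (chevRGD chevE6 K).m 3)).1
    ⟨(rep_m 3).conj_US' (by
      simp only [RS.s_inv, RS.s_smul, Set.mem_preimage, Set.mem_singleton_iff]; decide +kernel) ha.1, by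
      rw [chevRGD_m, e]; exact S.G.mul_mem (S.G.mul_mem (S.G.inv_mem hn) ha.2) hn⟩
  have k := fun r t => (chevNC (D := chevE6) (F := K)).m_conj_x 3 r t
  have e1 : a = x 43 t * x 40 (-S.θ t) := by
    have k1 := k 42 t
    have k2 := k 37 (S.θ t)
    rw [show (rsOf chevE6).sref 3 42 = 43 by decide +kernel,
      show (cdOf chevE6).eta 3 42 = 1 by decide +kernel, Int.cast_one, one_mul] at k1
    rw [show (rsOf chevE6).sref 3 37 = 40 by decide +kernel,
      show (cdOf chevE6).eta 3 37 = -1 by decide +kernel, Int.cast_neg, Int.cast_one, neg_one_mul] at k2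
    rw [x, x, ← k1, ← k2, conj_mul, ← ED.up, ← ht, chevRGD_m]
    group
  have t0 : t ≠ 0 := by
    rintro rfl
    simp [e1] at h1
  refine ⟨_, S.mem20 (r * c / t), ?_⟩
  rw [e1, ED.up, rel, mul_assoc, mul_assoc, ← mul_inv_rev, mul_inv_cancel, mul_one, ← map_mul,
    mul_div_cancel₀ _ t0, map_mul, hr, ← mul_add, hc, mul_one]

/-- the root group datum on the group -/
noncomputable abbrev Y : RGD (rsOf chevF4) S.G := S.X.sub S.G S.X_grp.le

/-- the fixed field -/
abbrev Fx : Subfield K := S.θ.eqLocusField (RingHom.id K)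

/-- a long root subgroup -/
noncomputable def x0 (t : Fx S) : S.G := ⟨x 39 t, S.X_grp.le (U_le_grp _ (S.mem_U25.2 ⟨t, t.2, rfl⟩))⟩

theorem heis25 (hθ : ∃ c, c + S.θ c = 1) (δ : Fin chevF4.nroots)
    (h : (rsOf chevF4).cor 25 ((rsOf chevF4).α δ) = 1) : ND (Y S) δ (pt (rsOf chevF4) 25 δ) 25 := by
  have := allLt_iff.1 f4_heis δ δ.2
  simp only [Bool.or_eq_true, anyLt_iff, List.any_eq_true, Bool.and_eq_true, Nat.beq_eq,
    Bool.not_eq_true', decide_eq_false_iff_not] at this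
  rcases this with (h1 | ⟨ε, h1, h2⟩) | ⟨a, -, h1, h2⟩
  · exact (h1 ((cor_tb 25 δ).symm.trans h)).elim
  · lift ε to Fin chevF4.nroots using h1
    rw [pt_eq h (ε := ε) (by
      rw [(sm_iff (δ := δ) (γ := 25)).1 (Bool.and_eq_true_iff.1 (Bool.and_eq_true_iff.1 h2).1).1]; module)]
    exact nd_of (γ := 25) h2
  · have := ((nd28 S hθ).sub S.X_grp.le).smul (wprod (rsOf chevF4).s a)
    rwa [← pt_eq (α := 25) (δ := 28) (ε := 20) (by rw [cor_α]; decide +kernel) (by decide +kernel), ← pt_smul,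
      Fin.ext ((val_wprod a 28).trans h1), Fin.ext (b := 25) ((val_wprod a 25).trans h2)] at this

theorem heisL (hθ : ∃ c, c + S.θ c = 1) (γ : Fin chevF4.nroots) (h : rlen chevF4 γ = rlen chevF4 47) (δ) :
    (rsOf chevF4).cor γ ((rsOf chevF4).α δ) = 1 → ND (Y S) δ (pt (rsOf chevF4) γ δ) γ := by
  obtain ⟨w, rfl⟩ := f4_orb γ h
  exact heis_smul (heis25 S hθ) w δ

theorem lg25 (hθ : ∃ c, c + S.θ c = 1) : Lg (Y S) (x0 S) 25 where
  add s t := Subtype.ext ((chevSt chevE6 K).add 39 s t)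
  mem u := S.mem_U25.trans ⟨fun ⟨t, h, e⟩ => ⟨⟨t, h⟩, Subtype.ext e⟩,
    fun ⟨t, e⟩ => ⟨t, t.2, congrArg Subtype.val e⟩⟩
  long t h1 h2 := by
    have := allLt_iff.1 f4_long t t.2
    simp only [Bool.or_eq_true, Nat.beq_eq, decide_eq_true_eq] at this
    rw [cor_tb]
    exact this.resolve_left (not_or.2 ⟨fun e => h1 (Fin.ext e),
      fun e => h2 ((Fin.ext e : t = 22).trans (by decide +kernel))⟩)
  heis := heis25 S hθ
  dec γ h := by
    have := allLt_iff.1 f4_dec γ γ.2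
    simp only [Bool.or_eq_true, anyLt_iff, Bool.and_eq_true, decide_eq_true_eq,
      Bool.not_eq_true', decide_eq_false_iff_not] at this
    obtain ⟨δ, a1, ⟨a2, a3⟩, ε, a4, ⟨a5, a6⟩, a7⟩ := this.resolve_left (not_not.2 ((cor_tb 25 γ).symm.trans h))
    lift δ to Fin chevF4.nroots using a1
    lift ε to Fin chevF4.nroots using a4
    exact ⟨δ, ε, (cor_tb 25 δ).trans a2, (cor_tb 25 ε).trans a5, by rwa [cor_tb], by rwa [cor_tb],
      dc_le (heisL S hθ) a7⟩

theorem tor25 (l : Fx S) (hl : l ≠ 0) : ∃ g, ∀ t, x0 S t * g = g * x0 S (l * t) := by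
  have l0 : (l : K) ≠ 0 := fun e => hl (Subtype.ext e)
  have k := fun t => n_mem S (r := 46) (fun t ht => S.mem_U24.2 ⟨t, ht, rfl⟩)
    (fun t ht => (show (rsOf chevE6).neg 46 = 25 by decide +kernel) ▸ S.mem23 ht) (t := t)
  refine ⟨⟨(chevSt chevE6 K).h 46 l, mul_mem (k _ l.2) (k _ (by simp))⟩, fun t => Subtype.ext ?_⟩
  have := (chevNC (D := chevE6) (F := K)).h_conj_x 46 39 l0 (l * t)
  rw [cor_α, show chevE6.pairing (46 : Fin chevE6.nroots) (39 : Fin chevE6.nroots) = -1 by decide +kernel,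
    zpow_neg_one, inv_mul_cancel_left₀ l0, mul_inv_eq_iff_eq_mul] at this
  exact this.symm

theorem main_tw [IsSimpleGroup S.G] {q : ℕ} (hq : 2 ≤ q) (hK : Nat.card K = q ^ 2) (he : ∀ t, S.θ t = t ^ q)
    {k : ℕ} {ρ : Representation ℂ S.G (Fin k → ℂ)} (hρ : ρ.IsIrreducible) (hk : 2 ≤ k) :
    2 * ((q - 1) * (q + 1) * q ^ 10) ≤ q * k ∨ (q - 1) * ([1, 2, 3, 4, 4, 5, 6, 8, 9, 10].map (q ^ ·)).sum ≤ k ∧
      k ∣ orbF4_3.poly q (q ^ 2) * (q * ((q - 1) * q ^ 10)) := by
  classical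
  have := Fintype.ofFinite (Fx S)
  have h0 : Nat.card {t // S.θ t = t} = q := by simp only [he]; exact card_fixed hq hK
  have hF : Fintype.card (Fx S) = q := Nat.card_eq_fintype_card.symm.trans h0
  have hθ : ∃ c, c + S.θ c = 1 := by
    obtain ⟨z, hz⟩ : ∃ z, z + S.θ z ≠ 0 := by
      by_contra! h
      have h1 : ∀ t, S.θ t = t := fun t => by
        have := h 1
        rw [map_one] at this
        linear_combination h t - t * this
      rw [Nat.card_congr (Equiv.subtypeUnivEquiv h1), hK] at h0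
      nlinarith
    exact ⟨z / (z + S.θ z), by rw [map_div₀, map_add, S.hθ, add_comm (S.θ z), ← add_div, div_self hz]⟩
  have hU : ∀ r, Nat.card ((Y S).U r) = q ^ (((tb chevF4).len r % 2).toNat + 1) := fun r => by
    rw [show Nat.card ((Y S).U r) = Nat.card (S.X.U r) from
      Nat.card_congr (Subgroup.subgroupOfEquivOfLe ((U_le_grp r).trans S.X_grp.le)).toEquiv, S.card_U, h0,
      hK, show ((tb chevF4).len r % 2).toNat + 1 = if decide (rlen chevF4 r = 1) then 2 else 1 by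
        revert r; decide +kernel]
    split_ifs <;> simp
  obtain ⟨w, e⟩ := f4_orb 47 rfl
  obtain ⟨n, hn⟩ := exists_rep (X := Y S) w
  have := main_tb (ρ := ρ) (sub_grp_eq_top _ S.X_grp.ge) (θ := 47) (e ▸ (lg25 S hθ).smul hn) (fun l hl => by
      obtain ⟨g, hg⟩ := tor25 S l hl
      exact ⟨n * g * n⁻¹, fun t => by rw [conj_mul, conj_mul, hg]⟩) hF hU f4_T (fun α h1 h2 => by
      have := allLt_iff.1 f4_hb α α.2
      simp only [Bool.or_eq_true, Bool.not_eq_true', decide_eq_false_iff_not] at this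
      exact hb_of (heisL S hθ) (by omega) (by simp)
        (this.resolve_left (not_or.2 ⟨not_not.2 h1, by rw [← ht_tb]; omega⟩)))
    (idx_orb cartF4_eq orbF4_chk3 (by decide) (x := q) (y := q ^ 2) fun i => by
      rw [hU, ← pow_mul, ← pow_add]
      congr 1
      revert i; decide +kernel)
    (t₀ := 1) (H13.rep_ne_one_of_isSimpleGroup ρ hρ hk fun h => x_ne_one (K := K) 39
      (congrArg Subtype.val (by simpa [mul_inv_eq_iff_eq_mul] using h : x0 S 1 = 1)))
  rwa [finrank_fin_fun] at this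

end Cfsg.Agent.H17.Ex
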