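import Mathlib
import Cfsg.Agent.H17.F4M
import Cfsg.Agent.H17.F4T

/-! The commutator relations hold up to sign for the matrices of degree 52. -/

set_option autoImplicit false
set_option maxRecDepth 100000

namespace Cfsg.Agent.H17.F4R
open Cfsg.Agent.H15 Cfsg.Agent.H14 Cfsg.Agent.H17.F4M Cfsg.Agent.H17.F4U

noncomputable def eq (u v : List ℕ) : Bool := eqOn MM.ap MM.L MM.bs u v

noncomputable def relAt (r s : ℕ) : Bool :=
  decide (s = r) || decide (s = H12.fastF4.neg r) || match TT r s with
    | [] => eq [s, r] [r, s]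
    | [c] => frc c.1 fun k => Bool.rec (eq [s, r] [r, s]) (eq [s, r] [r, s, k]) (decide (c.2.1 % 2 = 1))
    | [c, d] => frc c.1 fun k => frc d.1 fun l =>
        decide (c.2.1 % 2 = 1) && decide (d.2.1 % 2 = 1) && eq [s, r] [r, s, k, l, 48]
    | _ => false

noncomputable def relChk (a : ℕ) : Bool :=
  H12.allLt 6 fun i => frc (a + i) fun r => H12.allLt 48 fun s => relAt r s

theorem rel0 : relChk 0 = true := by decide +kernel
theorem rel6 : relChk 6 = true := by decide +kernel
theorem rel12 : relChk 12 = true := by decide +kernel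
theorem rel18 : relChk 18 = true := by decide +kernel
theorem rel24 : relChk 24 = true := by decide +kernel
theorem rel30 : relChk 30 = true := by decide +kernel
theorem rel36 : relChk 36 = true := by decide +kernel
theorem rel42 : relChk 42 = true := by decide +kernel

theorem relAll {r s : ℕ} (hr : r < 48) (hs : s < 48) : relAt r s = true := by
  have key : ∀ a, relChk a = true → a ≤ r → r < a + 6 → relAt r s = true := by
    intro a h h1 h2
    obtain ⟨k, rfl⟩ := Nat.exists_eq_add_of_le h1
    have := H12.allLt_iff.1 h k (by omega)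
    rw [frc_eq] at this
    exact H12.allLt_iff.1 this s hs
  obtain h | h | h | h | h | h | h | h : r < 6 ∨ (6 ≤ r ∧ r < 12) ∨ (12 ≤ r ∧ r < 18) ∨
    (18 ≤ r ∧ r < 24) ∨ (24 ≤ r ∧ r < 30) ∨ (30 ≤ r ∧ r < 36) ∨ (36 ≤ r ∧ r < 42) ∨ 42 ≤ r := by omega
  exacts [key 0 rel0 (by omega) (by omega), key 6 rel6 (by omega) (by omega),
    key 12 rel12 (by omega) (by omega), key 18 rel18 (by omega) (by omega),
    key 24 rel24 (by omega) (by omega), key 30 rel30 (by omega) (by omega),
    key 36 rel36 (by omega) (by omega), key 42 rel42 (by omega) (by omega)]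

theorem cenChk : (H12.allLt 49 fun r => eq [r, 48] [48, r] && eq [r, r] []) = true := by decide +kernel

theorem dChk : (eq [14, 7, 14, 7] [3] && eq [32, 1, 32, 1] [6] && eq [29, 0, 29, 0] [3, 6, 48] &&
    neAt MM.ap MM.L (Nat.shiftLeft 1 (Nat.mul MM.w MM.m)) 1 [48] []) = true := by decide +kernel

end Cfsg.Agent.H17.F4R
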