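import Mathlib
import Cfsg.Agent.H17.F4U
import Cfsg.Agent.H17.F4R

/-!
The Schur multiplier of `F₄(2)`.
-/

set_option autoImplicit false
set_option linter.unusedSectionVars false
set_option maxRecDepth 100000

namespace Cfsg.Agent.H17.F4U

open Cfsg.Lie Cfsg.Agent.H12 Subgroup
open scoped commutatorElement

universe u

variable {K : Type u} [Field K] (hK : ∀ t : K, t = 0 ∨ t = 1)
include hK

theorem exists_hom {Q : Type*} [Group Q] (S : StSys CC K Q) :
    ∃ f : chevF4.group K →* Q, (grpSt chevF4 K).Hom S f := by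
  have h3 : S.R3 := fun r t u ht hu => by
    rw [(hK t).resolve_left ht, (hK u).resolve_left hu, one_mul, S.h_one, one_mul]
  obtain ⟨f, hf⟩ := stSt_lift h3
  obtain ⟨θ, hθ⟩ := stSt_lift (grpSt_r3 (D := chevF4) (K := K))
  have hk : θ.ker = ⊥ := by
    rw [hom_grp_ker stSt_top hθ, center_eq_map stSt_nm stSt_top stSt_r3, hT_ker_F4, Subgroup.map_bot]
  let e := MulEquiv.ofBijective θ ⟨(MonoidHom.ker_eq_bot_iff _).1 hk, hθ.surjective grpSt_top⟩
  refine ⟨f.comp e.symm.toMonoidHom, fun r t => ?_⟩
  rw [← hθ r t, ← hf r t]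
  exact congrArg f (e.symm_apply_apply _)

theorem ker_le {E : Type*} [Group E] {σ : E →* chevF4.group K} (h : IsStemExtension σ) {l : Rt → E}
    (hl : ∀ r, σ (l r) = (grpSt chevF4 K).x r 1) : σ.ker ≤ zpowers (dd l) := by
  have hN : zpowers (dd l) ≤ σ.ker := zpowers_le_of_mem (dd_ker hK hl)
  have := H27.normal_of_le_center' (hN.trans h.2.1)
  let π := QuotientGroup.lift (zpowers (dd l)) σ hN
  have hπ : IsStemExtension π := by
    refine ⟨fun g => ?_, fun x hx => ?_, fun x hx => ?_⟩
    · obtain ⟨y, rfl⟩ := h.1 g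
      exact ⟨y, rfl⟩
    · obtain ⟨y, rfl⟩ := QuotientGroup.mk_surjective x
      refine mem_center_iff.2 fun w => ?_
      obtain ⟨w, rfl⟩ := QuotientGroup.mk_surjective w
      rw [← QuotientGroup.mk_mul, ← QuotientGroup.mk_mul, mem_center_iff.1 (h.2.1 hx) w]
    · obtain ⟨y, rfl⟩ := QuotientGroup.mk_surjective x
      have h1 : (commutator E).map (QuotientGroup.mk' (zpowers (dd l))) ≤ commutator _ := by
        rw [commutator_def, map_commutator]; exact commutator_mono le_top le_top
      exact h1 (mem_map_of_mem _ (h.2.2 hx))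
  obtain ⟨S, hS⟩ := exists_lift hK grpNM hπ.1 hπ.2.1 (l := fun r => QuotientGroup.mk' _ (l r)) hl
    (by rw [← map_dd]; exact (QuotientGroup.eq_one_iff _).2 (mem_zpowers _))
  obtain ⟨τ, hτ⟩ := exists_hom hK S
  have h1 : π.comp τ = MonoidHom.id _ := StSys.hom_ext grpSt_top fun r t => hτ.comp hS r t
  intro y hy
  obtain ⟨g, hg⟩ := H27.surjective_of_lift_stem Function.surjective_id hπ h1 (y : E ⧸ zpowers (dd l))
  have h2 : g = 1 := (DFunLike.congr_fun h1 g).symm.trans ((congrArg π hg).trans hy)
  rw [h2, map_one] at hg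
  exact (QuotientGroup.eq_one_iff _).1 hg.symm

theorem upper (E : Type u) [Group E] (σ : E →* chevF4.group K) (h : IsStemExtension σ) :
    ∃ π : Multiplicative (ZMod 2) →* σ.ker, Function.Surjective π := by
  choose l hl using fun r => h.1 ((grpSt chevF4 K).x r 1)
  have h1 := dd_ker hK hl
  have h2 := dd_sq hK grpNM h.1 h.2.1 hl
  have h3 : σ.ker = zpowers (dd l) := le_antisymm (ker_le hK h hl) (zpowers_le_of_mem h1)
  by_cases e : dd l = 1
  · refine ⟨1, fun x => ⟨1, Subtype.ext ?_⟩⟩
    have := h3.le x.2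
    rw [e, zpowers_one_eq_bot, mem_bot] at this
    exact this.symm
  · have h4 : Nat.card σ.ker = 2 := by rw [h3, Nat.card_zpowers, orderOf_eq_prime h2 e]
    have h5 : Nat.card (Multiplicative (ZMod 2)) = 2 := by simp
    exact ⟨(mulEquivOfPrimeCardEq h5 h4).toMonoidHom, (mulEquivOfPrimeCardEq h5 h4).surjective⟩

theorem exists_stem [Finite K] {T : Type} [Group T] (y : Rt → T) {z : T} (hz : z ∈ center T)
    (hy : ∀ r, y r * y r = 1)
    (rel : ∀ r s : Rt, s ≠ r → s ≠ RR.neg r → ∃ c ∈ zpowers z, y s * y r = y r * y s *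
      ((TT r s).map fun c => if c.2.1 % 2 = 1 then y (finR r c.1) else 1).prod * c)
    (hd : dd y = z) (h1 : z ≠ 1) (h2 : z ^ 2 = 1) :
    ∃ (Γ : Type u) (_ : Group Γ) (_ : Finite Γ) (σ : Γ →* chevF4.group K), IsStemExtension σ ∧
      Nonempty (σ.ker ≃* Multiplicative (ZMod 2)) := by
  classical
  have := H27.normal_of_le_center' (zpowers_le_of_mem hz)
  let q := QuotientGroup.mk' (zpowers z)
  let S : StSys CC K (T ⧸ zpowers z) :=
    { x := fun r t => if t = 0 then 1 else q (y r)
      add := fun r t u => by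
        rcases hK t with rfl | rfl <;> rcases hK u with rfl | rfl
        · simp
        · simp
        · simp
        · rw [one_add_one_eq_two, if_pos (two_eq hK), if_neg one_ne_zero, ← map_mul, hy, map_one]
      comm := fun r s a b t u => by
        rcases hK t with rfl | rfl
        · rw [List.prod_eq_one, if_pos rfl, mul_one, mul_one, one_mul]
          intro g hg
          obtain ⟨c, hc, rfl⟩ := List.mem_map.1 hg
          rw [if_pos (by rw [neg_zero, zero_pow (CC.vec r s c hc).2.1.ne', mul_zero, zero_mul])]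
        rcases hK u with rfl | rfl
        · rw [List.prod_eq_one, if_pos rfl, mul_one, mul_one, one_mul]
          intro g hg
          obtain ⟨c, hc, rfl⟩ := List.mem_map.1 hg
          rw [if_pos (by rw [zero_pow (CC.vec r s c hc).2.2.ne', mul_zero])]
        obtain ⟨c, hc, e⟩ := rel r s a b
        rw [if_neg one_ne_zero, if_neg one_ne_zero, ← map_mul, e, map_mul,
          show q c = 1 from (QuotientGroup.eq_one_iff _).2 hc, mul_one, map_mul, map_mul, map_list_prod,
          terms_eq, List.map_map, List.map_map]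
        congr 2
        refine List.map_congr_left fun c _ => ?_
        simp only [Function.comp, neg_one_eq hK, one_pow, mul_one]
        rcases Int.emod_two_eq_zero_or_one c.2.1 with h | h
        · rw [if_neg (by omega), if_pos (cast_even hK h), map_one]
        · rw [if_pos h, if_neg (by rw [cast_odd hK h]; exact one_ne_zero)] }
  obtain ⟨ψ, hψ⟩ := exists_hom hK S
  let P := (ψ.comp (MonoidHom.fst _ T)).eqLocus (q.comp (MonoidHom.snd _ T))
  let σ : P →* chevF4.group K := (MonoidHom.fst _ T).comp P.subtype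
  let ρ : P →* T := (MonoidHom.snd _ T).comp P.subtype
  let l : Rt → P := fun r => ⟨((grpSt chevF4 K).x r 1, y r), (hψ r 1).trans (if_neg one_ne_zero)⟩
  have k1 : σ (dd l) = 1 := dd_ker hK (S := grpSt chevF4 K) (π := σ) (l := l) fun r => rfl
  have k2 : ρ (dd l) = z := (map_dd ρ l).trans hd
  have ext : ∀ a b : P, σ a = σ b → ρ a = ρ b → a = b := fun a b e1 e2 => Subtype.ext (Prod.ext e1 e2)
  have k3 : σ.ker = zpowers (dd l) := by
    refine le_antisymm (fun x hx => ?_) (zpowers_le_of_mem k1)
    have e : q (ρ x) = 1 := x.2.symm.trans ((congrArg ψ hx).trans (map_one ψ))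
    obtain ⟨n, hn⟩ := (QuotientGroup.eq_one_iff _).1 e
    exact ⟨n, ext _ _ (by rw [map_zpow, k1, one_zpow]; exact hx.symm) (by rw [map_zpow, k2]; exact hn)⟩
  have k4 : Nat.card σ.ker = 2 := by
    rw [k3, Nat.card_zpowers, orderOf_eq_prime (p := 2) (ext _ _ (by rw [map_pow, k1, one_pow, map_one])
      (by rw [map_pow, k2, h2, map_one])) fun e => h1 (by rw [← k2, e, map_one])]
  have : Finite σ.ker := Nat.finite_of_card_ne_zero (by omega)
  have h5 : Nat.card (Multiplicative (ZMod 2)) = 2 := by simp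
  refine ⟨P, inferInstance, H27.finite_of_finite_ker σ, σ, ⟨fun g => ?_, ?_, ?_⟩,
    ⟨mulEquivOfPrimeCardEq k4 h5⟩⟩
  · obtain ⟨t, ht⟩ := QuotientGroup.mk'_surjective (zpowers z) (ψ g)
    exact ⟨⟨(g, t), ht.symm⟩, rfl⟩
  · rw [k3]
    refine zpowers_le_of_mem (mem_center_iff.2 fun w => ext _ _ ?_ ?_)
    · rw [map_mul, map_mul, k1, mul_one, one_mul]
    · rw [map_mul, map_mul, k2, mem_center_iff.1 hz]
  · rw [k3]; exact zpowers_le_of_mem (dd_mem l)

open Cfsg.Agent.H15 Cfsg.Agent.H17.F4M Cfsg.Agent.H17.F4R in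
theorem mult [Finite K] : HasCyclicSchurMultiplier (chevF4.group K) 2 := by
  refine ⟨?_, fun E _ _ => upper hK E⟩
  set e := ok.tab.e
  have he : ∀ {u v : List ℕ}, F4R.eq u v = true → lprod e u = lprod e v := fun h => ok.base.eq h
  have c1 : ∀ r < 49, e r * e 48 = e 48 * e r ∧ e r * e r = 1 := fun r hr => by
    have := allLt_iff.1 cenChk r hr
    rw [Bool.and_eq_true] at this
    exact ⟨by simpa using he this.1, by simpa using he this.2⟩
  let y : ℕ → centralizer {e 48} := fun r =>
    if h : r < 49 then ⟨e r, mem_centralizer_singleton_iff.2 (c1 r h).1⟩ else 1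
  have hy : ∀ r < 49, (y r).1 = e r := fun r hr => by simp only [y, dif_pos hr]
  have lt : ∀ r : Rt, r.1 < 49 := fun r => r.2.trans (by decide)
  have d := dChk
  simp only [Bool.and_eq_true] at d
  refine exists_stem hK (fun r => y r) (z := y 48) (mem_center_iff.2 fun g => Subtype.ext ?_)
    (fun r => Subtype.ext ?_) (fun r s a b => ?_) (Subtype.ext ?_) (fun h => ?_) (Subtype.ext ?_)
  · rw [coe_mul, coe_mul, hy 48 (by decide)]; exact mem_centralizer_singleton_iff.1 g.2
  · rw [coe_mul, hy _ (lt r)]; exact (c1 _ (lt r)).2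
  · have h := relAll r.2 s.2
    have m : ∀ c ∈ TT r s, (y (finR r c.1)).1 = e c.1 := fun c hc => by
      rw [hy _ (lt _), finR_val r (mem_commTerms r.2 s.2 (TT_eq _ _ ▸ hc)).1]
    simp only [relAt, Bool.or_eq_true, decide_eq_true_eq, frc_eq] at h
    rcases h with (h | h) | h
    · exact absurd (Fin.ext h) a
    · exact absurd (Fin.ext (h.trans (neg_eq _).symm)) b
    split at h
    · rename_i t
      refine ⟨1, one_mem _, Subtype.ext ?_⟩
      simpa [t, hy _ (lt _)] using he h
    · rename_i c t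
      refine ⟨1, one_mem _, Subtype.ext ?_⟩
      have m1 := m c (by simp [t])
      by_cases o : c.2.1 % 2 = 1
      · rw [decide_eq_true o] at h
        simpa [t, hy _ (lt r), hy _ (lt s), o, m1, mul_assoc] using he h
      · rw [decide_eq_false o] at h
        simpa [t, hy _ (lt _), o] using he h
    · rename_i c c' t
      refine ⟨_, mem_zpowers _, Subtype.ext ?_⟩
      have m1 := m c (by simp [t])
      have m2 := m c' (by simp [t])
      simp only [Bool.and_eq_true, decide_eq_true_eq] at h
      simpa [t, hy _ (lt r), hy _ (lt s), hy 48 (by decide), h.1.1, h.1.2, m1, m2, mul_assoc]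
        using he h.2
    · exact absurd h (by simp)
  · have i : ∀ r < 49, (e r)⁻¹ = e r := fun r hr => inv_eq_of_mul_eq_one_right (c1 r hr).2
    have e1 := he d.1.1.1
    have e2 := he d.1.1.2
    have e3 := he d.1.2
    simp only [lprod_cons, lprod_nil, mul_one] at e1 e2 e3
    rw [← coe_subtype, map_dd, dd, inv_mul_eq_iff_eq_mul]
    simp only [coe_subtype, commutatorElement_def]
    rw [hy 14 (by decide), hy 7 (by decide), hy 32 (by decide), hy 1 (by decide), hy 29 (by decide),
      hy 0 (by decide), hy 48 (by decide), i 14 (by decide), i 7 (by decide), i 32 (by decide),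
      i 1 (by decide), i 29 (by decide), i 0 (by decide)]
    simp only [← mul_assoc] at e1 e2 e3
    rw [e1, e2, e3]
  · exact ok.tab.ne_of_neAt d.2 (by simpa [hy 48 (by decide)] using congrArg Subtype.val h)
  · rw [SubmonoidClass.coe_pow, hy 48 (by decide), sq]; exact (c1 48 (by decide)).2

end Cfsg.Agent.H17.F4U
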