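import Cfsg.Agent.GO.Fg0
import Cfsg.Agent.H28.Bfb0

/-! S3296: the presentation `FR 0 0 0` gives a group of type `Gs`. -/

set_option autoImplicit false
set_option linter.unusedVariables false

namespace Cfsg.Agent.GO.Fg

open Subgroup Cfsg.Agent.H19.Gt

theorem fG_top {G : Type*} [Group G] [Finite G] (hG : Nat.card G = 64) {f y g x : G} (h : FR 0 0 0 f y g x) :
    ∃ (τ : Multiplicative (ZMod 4) × Multiplicative (ZMod 4) →* G) (u v : G), Gs ⊤ τ u v := by
  obtain ⟨f8, z1, yy, yf, gf, gy, xf, xy, gg, xx, xg⟩ := h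
  simp only [mul_zero, pow_zero, mul_one] at gg xx xg
  have g4 : g ^ 4 = 1 := by rw [← yy, ← gg]; simp [pow_succ, mul_assoc]
  have gi : g⁻¹ = g ^ 3 := inv_eq_of_mul_eq_one_left (by rw [← pow_succ, g4])
  have xg' : x * g * x⁻¹ = g⁻¹ := by rw [xg, gi, ← gg]; simp [pow_succ, mul_assoc]
  have xf' : x * f * x⁻¹ = f⁻¹ := by
    rw [xf, mul_inv_cancel_right]; exact eq_inv_of_mul_eq_one_left (by rw [← pow_succ, f8])
  have yi : y⁻¹ = y := inv_eq_of_mul_eq_one_right yy
  have xi : x⁻¹ = x := inv_eq_of_mul_eq_one_right xx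
  have yf' : y * f * y⁻¹ = f ^ 5 := by rw [yf, mul_inv_cancel_right]
  have gf' : g * f * g⁻¹ = f ^ 3 * y := by rw [gf, mul_inv_cancel_right]
  have c2 : Commute g (f ^ 2) := by
    rw [Commute, SemiconjBy, ← mul_inv_eq_iff_eq_mul, ← conj_pow, gf']
    calc (f ^ 3 * y) ^ 2 = f ^ 3 * (y * f * y⁻¹) ^ 3 * (y * y) := by rw [conj_pow]; simp [pow_succ, mul_assoc]
      _ = f ^ 2 * (f ^ 8) ^ 2 := by rw [yf', yy]; group
      _ = _ := by rw [f8]; group
  have k1 : f * g⁻¹ * f = g := by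
    calc f * g⁻¹ * f = g⁻¹ * (g * f * g⁻¹ * f) := by group
      _ = g⁻¹ * (f ^ 8 * y) := by rw [gf', mul_assoc (f ^ 3), yf]; group
      _ = g := by rw [f8, ← gg]; group
  have key : ∀ n < 4, Commute (g ^ n) f → n = 0 := fun n hn e => by
    have ny : ¬ Commute y f := fun e => z1 (by
      have := yf'
      rw [e.eq, mul_inv_cancel_right] at this
      calc f ^ 4 = f ^ 5 * f⁻¹ := by group
        _ = 1 := by rw [← this, mul_inv_cancel])
    interval_cases n
    · rfl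
    · exact (ny (gg ▸ (pow_one g ▸ e).mul_left (pow_one g ▸ e))).elim
    · exact (ny (gg ▸ sq g ▸ e)).elim
    · rw [← gi] at e
      exact (ny (gg ▸ (Commute.inv_left_iff.1 e).mul_left (Commute.inv_left_iff.1 e))).elim
  obtain ⟨H, τ, hs, hc⟩ := H7.Bf.b0_gen (a := g) (b := g ^ 3 * f ^ 2) (u := g⁻¹ * x) (v := g⁻¹ * f) g4
    (by rw [(c2.pow_left 3).mul_pow, ← pow_mul, ← pow_mul, mul_comm 3, pow_mul, g4, f8]; group)
    (((Commute.refl g).pow_right 3).mul_right c2).eq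
    (by calc _ = g⁻¹ * (x * g * x⁻¹)⁻¹ * (x * x) := by group
          _ = 1 := by rw [xg', xx]; group)
    (by calc _ = g⁻¹ * (f * g⁻¹ * f) := by group
          _ = 1 := by rw [k1]; group)
    (by calc _ = g⁻¹ * (x * g * x⁻¹)⁻¹ * (x * f * x⁻¹) * x := by group
          _ = g⁻¹ * (f * g⁻¹ * f) * f⁻¹ * x := by rw [xg', xf', k1]; group
          _ = _ := by group)
    (by calc _ = (x * g * x⁻¹) * x := by group
          _ = _ := by rw [xg'])
    (by
      rw [← gi]
      calc _ = g⁻¹ * f ^ 2 * g⁻¹ * (x * g * x⁻¹)⁻¹ * (x * f * x⁻¹) ^ 2 * x := by rw [conj_pow]; group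
        _ = _ := by rw [xg', xf']; group)
    (by
      rw [← gi]
      calc _ = g⁻¹ * f * (f * g⁻¹ * f) := by rw [k1]
        _ = _ := by rw [sq]; group)
    fun i hi j hj e => by
      rw [(c2.pow_left 3).mul_pow, ← pow_mul, ← pow_mul, ← mul_assoc, ← pow_add, pow_eq_pow_mod _ g4] at e
      have e1 := key _ (Nat.mod_lt (i + 3 * j) (by norm_num)) (by
        rw [eq_inv_of_mul_eq_one_left e]; exact ((Commute.refl f).pow_left _).inv_left)
      rw [e1, pow_zero, one_mul] at e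
      have e2 : j = 0 := by
        by_contra h0
        apply z1
        interval_cases j
        · exact (h0 rfl).elim
        · rw [show 4 = 2 * 1 * 2 from rfl, pow_mul, e, one_pow]
        · exact e
        · calc f ^ 4 = (f ^ (2 * 3)) ^ 2 * (f ^ 8)⁻¹ := by group
            _ = 1 := by rw [e, f8]; group
      omega
  obtain rfl : H = ⊤ := eq_top_of_card_eq H (hc.trans hG.symm)
  exact ⟨τ, _, _, hs⟩

theorem fG {G : Type*} [Group G] [Finite G] {P : Subgroup G} (hP : Nat.card P = 64) {f y g x : G}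
    (hf : f ∈ P) (hy : y ∈ P) (hg : g ∈ P) (hx : x ∈ P) (h : FR 0 0 0 f y g x) :
    ∃ (τ : Multiplicative (ZMod 4) × Multiplicative (ZMod 4) →* G) (u v : G), Gs P τ u v := by
  obtain ⟨τ, u, v, hs⟩ := fG_top hP (f := ⟨f, hf⟩) (y := ⟨y, hy⟩) (g := ⟨g, hg⟩) (x := ⟨x, hx⟩)
    ⟨Subtype.ext h.f8, fun e => h.z1 (congrArg Subtype.val e), Subtype.ext h.yy, Subtype.ext h.yf,
      Subtype.ext h.gf, Subtype.ext h.gy, Subtype.ext h.xf, Subtype.ext h.xy, Subtype.ext h.gg,
      Subtype.ext h.xx, Subtype.ext h.xg⟩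
  refine ⟨P.subtype.comp τ, u, v, hs.cyc, hs.four, P.subtype_injective.comp hs.inj, congrArg Subtype.val hs.uu,
    congrArg Subtype.val hs.vv, congrArg Subtype.val hs.uv, fun a b => congrArg Subtype.val (hs.ut a b),
    fun a b => congrArg Subtype.val (hs.vt a b), fun s => ⟨fun e => ?_, ?_⟩⟩
  · obtain ⟨a, b, e'⟩ := (hs.mem ⟨s, e⟩).1 trivial
    exact ⟨a, b, e'.imp (congrArg Subtype.val) (Or.imp (congrArg Subtype.val)
      (Or.imp (congrArg Subtype.val) (congrArg Subtype.val)))⟩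
  · rintro ⟨a, b, rfl | rfl | rfl | rfl⟩
    exacts [(τ _).2, (τ _ * u).2, (τ _ * v).2, (τ _ * (u * v)).2]

end Cfsg.Agent.GO.Fg
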