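import Cfsg.Agent.H8.G2B4
import Cfsg.Agent.H29.G2N

/-! S1744: `Q₂` is strongly closed in `S`. -/

set_option autoImplicit false
set_option linter.unusedSectionVars false
set_option linter.unusedVariables false

namespace Cfsg.Agent.H1.G2

open Subgroup Cfsg.Agent.H19.Gt Cfsg.Agent.FT Cfsg.Agent.GW

/-- the symmetric data -/
structure sc_AB {G : Type*} [Group G] (S X A B : Subgroup G) (t : G) : Prop where
  syl : Syl 2 S ⊤
  nml : X.Normal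
  cen : ∀ g, g * t = t * g
  t1 : t ≠ 1
  tt : t * t = 1
  AX : A ≤ S ⊓ X
  BX : B ≤ S ⊓ X
  tA : t ∈ A
  tB : t ∈ B
  sqt : ∀ s ∈ S ⊓ X, s * s = t → s ∈ A ∨ s ∈ B
  comm : ∀ a ∈ A, ∀ b ∈ B, a * b = b * a
  inf : ∀ s ∈ A, s ∈ B → s = 1 ∨ s = t
  invA : ∀ s ∈ A, s * s = 1 → s = 1 ∨ s = t
  invB : ∀ s ∈ B, s * s = 1 → s = 1 ∨ s = t
  genA : ∀ H : Subgroup G, (∀ s ∈ A, s * s = t → s ∈ H) → A ≤ H
  genB : ∀ H : Subgroup G, (∀ s ∈ B, s * s = t → s ∈ H) → B ≤ H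
  nrmA : S ≤ N(A)
  nrmB : S ≤ N(B)
  card : #A = #B
  pA : ∀ n q, (∀ s ∈ S ⊓ X, n * s * n⁻¹ ∈ S ⊓ X) → q ∈ A → n * q * n⁻¹ ∈ A
  pB : ∀ n q, (∀ s ∈ S ⊓ X, n * s * n⁻¹ ∈ S ⊓ X) → q ∈ B → n * q * n⁻¹ ∈ B
  exA : ∃ a ∈ A, a * a = t
  exB : ∃ a ∈ B, a * a = t

section
variable {G : Type*} [Group G] [Finite G] {S X A B : Subgroup G} {t : G}

theorem sc_AB.symm (h : sc_AB S X A B t) : sc_AB S X B A t :=
  ⟨h.syl, h.nml, h.cen, h.t1, h.tt, h.BX, h.AX, h.tB, h.tA, fun s hs e => (h.sqt s hs e).symm,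
    fun a ha b hb => (h.comm b hb a ha).symm, fun s h1 h2 => h.inf s h2 h1, h.invB, h.invA, h.genB,
    h.genA, h.nrmB, h.nrmA, h.card.symm, h.pB, h.pA, h.exB, h.exA⟩

theorem sc_AB.ct (h : sc_AB S X A B t) (g : G) : g * t * g⁻¹ = t := by
  rw [h.cen g, mul_inv_cancel_right]

theorem sc_AB.csq (h : sc_AB S X A B t) (g : G) {x : G} (e : x * x = t) :
    g * x * g⁻¹ * (g * x * g⁻¹) = t := by rw [conj_mul, e, h.ct]

theorem sc_AB.swap (h : sc_AB S X A B t) (g : G) : ¬ cj g A ≤ B := fun e => by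
  have e1 : cj g A = B := eq_of_card_eq e ((card_cj g A).trans h.card)
  obtain ⟨k, hk, e2⟩ := (h.syl.subl h.nrmB le_top).syl_Jsub (Q := cj g S) (h.syl.pi.cj g)
    (e1 ▸ cj_norms.2 h.nrmA)
  rw [cj_cj] at e2
  obtain ⟨a, ha, e3⟩ := h.exA
  have h1 := h.pA (k * g) a (fun s hs => ⟨e2 (conj_mem_cj.2 hs.1), h.nml.conj_mem _ hs.2 _⟩) ha
  have h2 : k * g * a * (k * g)⁻¹ ∈ B := by
    have := mem_nrm.1 hk _ (e (conj_mem_cj.2 ha))
    rwa [show k * (g * a * g⁻¹) * k⁻¹ = k * g * a * (k * g)⁻¹ by group] at this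
  have h3 := h.csq (k * g) e3
  rcases h.inf _ h1 h2 with e4 | e4 <;> rw [e4] at h3
  · exact h.t1 (by rw [← h3, mul_one])
  · exact h.t1 (by rw [← h3, h.tt])

theorem sc_AB.key' (h : sc_AB S X A B t) {r g : G} {R : Subgroup G} (hr : r ∈ B) (e : r * r = t)
    (hc : g * r * g⁻¹ ∈ A) (hR : Syl 2 R C[g * r * g⁻¹]) (hS : R ≤ S) : False := by
  obtain ⟨k, hk, e2⟩ := hR.syl_Jsub (Q := cj g A) ((h.syl.pi.mono (h.AX.trans inf_le_left)).cj g)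
    (cj_cen1 g r ▸ cj_mono g fun a ha => mem_cen1.2 (h.comm a ha r hr))
  rw [cj_cj] at e2
  have e3 : k * g * r * (k * g)⁻¹ = g * r * g⁻¹ := by
    rw [show k * g * r * (k * g)⁻¹ = k * (g * r * g⁻¹) * k⁻¹ by group, mem_cen1.1 hk,
      mul_inv_cancel_right]
  rw [← e3] at hc
  generalize k * g = n at *
  refine h.swap n ?_
  rw [← cj_le_cj (g := n⁻¹), cj_inv_cj]
  refine h.genA _ fun i hi ei => ?_
  rw [mem_cj, inv_inv]
  refine (h.sqt _ ⟨hS (e2 (conj_mem_cj.2 hi)), h.nml.conj_mem _ (h.AX hi).2 _⟩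
    (h.csq n ei)).resolve_left fun h1 => ?_
  have h2 : i * r * (i * r) = 1 := by
    rw [mul_assoc, ← mul_assoc r, ← h.comm i hi r hr, mul_assoc, ← mul_assoc, ei, e, h.tt]
  have h3 : i ∉ B := fun hb => by
    rcases h.inf i hi hb with rfl | rfl
    · exact h.t1 (by rw [← ei, mul_one])
    · exact h.t1 (by rw [← ei, h.tt])
  have h4 := h.invA _ (mul_mem h1 hc) (by rw [conj_mul, conj_mul, h2]; group)
  rw [conj_mul, ← h.ct n, mul_left_inj, mul_right_inj, conj_eq_one_iff] at h4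
  rcases h4 with h4 | h4
  · exact h3 (by rw [eq_inv_of_mul_eq_one_left h4]; exact inv_mem hr)
  · exact h3 (by rw [eq_mul_inv_of_mul_eq h4]; exact mul_mem h.tB (inv_mem hr))

theorem sc_AB.key (h : sc_AB S X A B t) {r g : G} (hr : r ∈ B) (e : r * r = t)
    (hc : g * r * g⁻¹ ∈ A) : False := by
  obtain ⟨R, hR⟩ := exists_syl 2 C[r]
  obtain ⟨k, -, e2⟩ := h.syl.syl_Jsub hR.pi le_top
  have h1 : r ∈ R := hR.mem_of_cen (self_mem_cen1 r)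
    ((pElt_iff Nat.prime_two).2 ⟨2, by
      rw [show r ^ 2 ^ 2 = r * r * (r * r) by simp [pow_succ, mul_assoc], e, h.tt]⟩)
    (mem_cen.2 fun x hx => mem_cen1.1 (hR.le hx))
  have h2 : Syl 2 (cj k R) C[k * r * k⁻¹] := cj_cen1 k r ▸ hR.cj k
  rcases h.sqt _ ⟨e2 (conj_mem_cj.2 h1), h.nml.conj_mem _ (h.BX hr).2 _⟩ (h.csq k e) with h3 | h3
  · exact h.key' hr e h3 h2 e2
  · have e4 : k * g⁻¹ * (g * r * g⁻¹) * (k * g⁻¹)⁻¹ = k * r * k⁻¹ := by group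
    exact h.symm.key' (g := k * g⁻¹) hc (h.csq g e) (e4 ▸ h3) (e4 ▸ h2) e2

theorem sc_AB.cC (h : sc_AB S X A B t) (meq : ∀ s ∈ S ⊓ X, ∃ a ∈ A, ∃ b ∈ B, s = a * b)
    (str : ∀ c ∈ B, c * c ≠ t → ∀ i ∈ B, i * c = c * i ∨ (i * c * i⁻¹ = c⁻¹ ∧ i * i = t))
    {q i : G} (hq : q ∈ B) (q2 : q * q ≠ t) (hi : i ∈ X) (ei : i * i = t) : i * q * (i * q) ≠ 1 := by
  intro e
  have nz : ∀ g, g * q * g⁻¹ ∈ ⟪q⟫ ⊔ ⟪t⟫ → g ∈ N(⟪q⟫ ⊔ ⟪t⟫) := fun g hg => by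
    refine mem_nrm_of_cj_le ?_
    rw [← cj_le_cj (g := g⁻¹), cj_inv_cj]
    refine sup_le (zpowers_le.2 ?_) (zpowers_le.2 ?_) <;> rw [mem_cj, inv_inv]
    · exact hg
    · rw [h.ct]; exact mem_sup_right (mem_zpowers t)
  have h1 : Syl 2 (S ⊓ X) X := h.syl.inf_nml (nml_top_iff.2 h.nml)
  have h2 := h1.subl_inf (K := N(⟪q⟫ ⊔ ⟪t⟫)) fun m hm => nz m (mem_sup_left (by
    obtain ⟨a, ha, b, hb, rfl⟩ := meq m hm
    have k : ∀ x ∈ B, a * x * a⁻¹ = x := fun x hx => by rw [h.comm a ha x hx, mul_inv_cancel_right]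
    rw [show a * b * q * (a * b)⁻¹ = a * (b * q * b⁻¹) * a⁻¹ by group,
      k _ (mul_mem (mul_mem hb hq) (inv_mem hb))]
    rcases str q hq q2 b hb with e1 | ⟨e1, -⟩
    · rw [e1, mul_inv_cancel_right]; exact mem_zpowers q
    · rw [e1]; exact inv_mem (mem_zpowers q)))
  obtain ⟨k, hk, e2⟩ := h2.syl_elt (x := i) ⟨hi, nz i (by
      rw [show i * q * i⁻¹ = (i * q * (i * q)) * q⁻¹ * (i * i)⁻¹ by group, e, ei, one_mul]
      exact mul_mem (mem_sup_left (inv_mem (mem_zpowers q))) (mem_sup_right (inv_mem (mem_zpowers t))))⟩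
    ((pElt_iff Nat.prime_two).2 ⟨2, by
      rw [show i ^ 2 ^ 2 = i * i * (i * i) by simp [pow_succ, mul_assoc], ei, h.tt]⟩)
  have h3 : k * q * k⁻¹ ∈ B := (sup_le (zpowers_le.2 hq) (zpowers_le.2 h.tB))
    (mem_nrm.1 hk.2 q (mem_sup_left (mem_zpowers q)))
  have h4 : k * q * k⁻¹ * (k * q * k⁻¹) ≠ t := fun e' => q2 (by
    rw [conj_mul, ← h.ct k, mul_left_inj, mul_right_inj] at e'; exact e')
  have h5 : k * i * k⁻¹ * (k * q * k⁻¹) * (k * i * k⁻¹ * (k * q * k⁻¹)) = 1 := by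
    rw [conj_mul, conj_mul, e]; group
  have h6 := h.csq k ei
  generalize k * i * k⁻¹ = j at *
  generalize k * q * k⁻¹ = c at *
  have h7 : j * c ≠ c * j := fun e' => h4 (by
    rw [mul_assoc, ← mul_assoc c, ← e', mul_assoc, ← mul_assoc, h6] at h5
    rw [eq_inv_of_mul_eq_one_right h5, inv_eq_of_mul_eq_one_right h.tt])
  rcases h.sqt j e2 h6 with h8 | h8
  · exact h7 (h.comm j h8 c h3)
  · obtain ⟨h9, -⟩ := (str c h3 h4 j h8).resolve_left h7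
    rw [show j * c * (j * c) = j * c * j⁻¹ * (j * j) * c by group, h9, h6, h.cen,
      inv_mul_cancel_right] at h5
    exact h.t1 h5

theorem sc_AB.main (h : sc_AB S X A B t) (meq : ∀ s ∈ S ⊓ X, ∃ a ∈ A, ∃ b ∈ B, s = a * b)
    (str : ∀ c ∈ B, c * c ≠ t → ∀ i ∈ B, i * c = c * i ∨ (i * c * i⁻¹ = c⁻¹ ∧ i * i = t))
    (str' : ∀ c ∈ B, c * c ≠ t → ∃ i ∈ B, i * c * i⁻¹ = c⁻¹ ∧ i * i = t) :
    IsStronglyClosed B S := by
  refine ⟨h.BX.trans inf_le_left, fun q hq g hg => ?_⟩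
  obtain ⟨n, hn⟩ := ((h.syl.pi.mono (h.BX.trans inf_le_left)).isPGroup ⟨q, hq⟩)
  replace hn : q ^ 2 ^ n = 1 := congrArg Subtype.val hn
  induction n generalizing q with
  | zero =>
    rw [pow_zero, pow_one] at hn
    rw [hn, mul_one, mul_inv_cancel]; exact one_mem _
  | succ n ih =>
    have hb : g * q * g⁻¹ ∈ S ⊓ X := ⟨hg, h.nml.conj_mem _ (h.BX hq).2 _⟩
    by_cases q2 : q * q = t
    · exact (h.sqt _ hb (h.csq g q2)).resolve_left (h.key hq q2)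
    by_cases q1 : q * q = 1
    · rcases h.invB q hq q1 with rfl | rfl
      · rw [mul_one, mul_inv_cancel]; exact one_mem _
      · rw [h.ct]; exact hq
    have h1 := ih (q * q) (mul_mem hq hq) (by rw [← conj_mul]; exact mul_mem hg hg) (by
      rw [← pow_two, ← pow_mul, ← pow_succ', hn])
    obtain ⟨a, ha, c, hc, e⟩ := meq _ hb
    have e2 : g * (q * q) * g⁻¹ = a * a * (c * c) := by
      rw [← conj_mul, e, mul_assoc, ← mul_assoc c, ← h.comm a ha c hc]; simp only [mul_assoc]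
    rw [e2, mul_mem_cancel_right (mul_mem hc hc)] at h1
    rw [e]
    rcases h.inf _ (mul_mem ha ha) h1 with e3 | e3
    · rcases h.invA a ha e3 with rfl | rfl
      exacts [mul_mem (one_mem _) hc, mul_mem h.tB hc]
    · exfalso
      obtain ⟨i, hi, e4, e5⟩ := str' c hc fun e' => q1 (by
        rw [e3, e', h.tt, conj_eq_one_iff] at e2; exact e2)
      refine h.cC meq str hq q2 (i := g⁻¹ * i * g⁻¹⁻¹) (h.nml.conj_mem _ (h.BX hi).2 _) (h.csq _ e5) ?_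
      have e6 : i * (a * c) * (i * (a * c)) = 1 := by
        have k1 := h.comm a ha i hi
        have k2 := h.comm a ha _ (mul_mem hi hc)
        calc _ = (i * a) * c * ((i * a) * c) := by group
          _ = a * ((i * c) * a) * (i * c) := by rw [← k1]; group
          _ = (a * a) * (i * c * i⁻¹ * (i * i) * c) := by rw [← k2]; group
          _ = 1 := by rw [e3, e4, e5, h.cen c⁻¹, inv_mul_cancel_right, h.tt]
      rw [← e] at e6
      calc _ = g⁻¹ * (i * (g * q * g⁻¹) * (i * (g * q * g⁻¹))) * g := by group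
        _ = 1 := by rw [e6]; group

end

variable {G K : Type*} [Group G] [Finite G] [CommGroup K] {τ : K × K →* G} {u v : G} {z : K} {S : Sylow 2 G}
  {X : Subgroup G}

theorem sc_card (h : Gz (S : Subgroup G) τ u v z) : #h.Q = Nat.card (K ⊕ K) := by
  refine (Nat.card_eq_of_bijective (fun x : K ⊕ K => (Sum.elim (fun a => ⟨τ (a, a⁻¹), a, .inl rfl⟩)
    (fun a => ⟨τ (a, z * a⁻¹) * v, a, .inr rfl⟩) x : h.Q)) ⟨?_, ?_⟩).symm
  · rintro (a | a) (b | b) e <;> replace e := congrArg Subtype.val e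
    · rw [(h.toGs.teq.1 e).1]
    · exact (h.ne_v _ _ _ _ e.symm).elim
    · exact (h.ne_v _ _ _ _ e).elim
    · rw [(h.toGs.teq.1 (mul_right_cancel e)).1]
  · rintro ⟨_, a, rfl | rfl⟩
    exacts [⟨.inl a, rfl⟩, ⟨.inr a, rfl⟩]

theorem pSC (h : Hy S τ u v z X) : IsStronglyClosed h.gz.Q (S : Subgroup G) := by
  have g := h.gz.toGs
  have hi := h.inf
  have k : ∀ a : K, τ (a, z * a⁻¹) * v * (τ (a, z * a⁻¹) * v) = τ (z, z) := fun a => by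
    rw [mul_assoc, g.vt', g.vv, mul_one, tm, mul_left_comm, mul_inv_cancel, mul_one, inv_mul_cancel_right]
  have k2 : ∀ a b : K, τ (b, z * b⁻¹) * v * τ (a, a⁻¹) * (τ (b, z * b⁻¹) * v)⁻¹ = (τ (a, a⁻¹))⁻¹ :=
    fun a b => by
      rw [mul_inv_eq_iff_eq_mul, mul_assoc, g.vt, tinv, inv_inv, tm', tm', mul_comm b, mul_comm _ a]
  obtain ⟨ρ, r, -⟩ := h.gz.rho
  refine sc_AB.main (X := X) (A := h.gz.flp.Q) (t := τ (z, z)) ⟨syl_top Nat.prime_two S, h.nml, h.cen,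
    h.gz.t_ne, h.gz.tt, hi ▸ h.gz.Q_le', hi ▸ h.gz.Q_le, h.gz.tQ', h.gz.tQ,
    fun s hs => h.gz.sqt (hi ▸ hs), fun a ha b hb => h.gz.Q_comm ha hb, fun s => h.gz.Q_inf,
    fun s => h.gz.Q_inv', fun s => h.gz.Q_inv, fun H hH => h.gz.flp.Q_gen (h.gz.fl_t.symm ▸ hH),
    fun H => h.gz.Q_gen, fun s hs => mem_nrm.2 fun q => h.gz.flp.Q_nrm hs,
    fun s hs => mem_nrm.2 fun q => h.gz.Q_nrm hs, (sc_card h.gz.flp).trans (sc_card h.gz).symm,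
    fun n q hn => pN h.gz.flp h.flp.cen (by rw [h.gz.flp_M, ← hi]; exact hn),
    fun n q hn => pN h.gz h.cen (by rw [← hi]; exact hn),
    ⟨τ (ρ, ρ), h.gz.memQ'.2 ⟨ρ, .inl rfl⟩, by rw [tm, r]⟩, ⟨_, ⟨1, .inr rfl⟩, k 1⟩⟩
    (fun s hs => h.gz.M_eq (hi ▸ hs)) ?_ ?_
  · rintro _ ⟨a, rfl | rfl⟩ hc _ ⟨b, rfl | rfl⟩
    · left; rw [tm, tm, mul_comm a, mul_comm a⁻¹]
    · exact .inr ⟨k2 a b, k b⟩
    · exact (hc (k a)).elim
    · exact (hc (k a)).elim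
  · rintro _ ⟨a, rfl | rfl⟩ hc
    · exact ⟨_, ⟨1, .inr rfl⟩, k2 a 1, k 1⟩
    · exact (hc (k a)).elim

/-- the normal subgroup with Sylow `2`-subgroup `Q₂`, for any `|K|` -/
theorem pBall (h : Hy S τ u v z X) (hO : Cfsg.oddCore G = ⊥) :
    ∃ N : Subgroup G, N.Normal ∧ (S : Subgroup G) ⊓ N = h.gz.Q :=
  pB4_of h hO (pSC h) (pSC h.flp)

theorem pB8' (h : Hy S τ u v z X) (hO : Cfsg.oddCore G = ⊥) (h8 : 8 ∣ Nat.card K) :
    ∃ N : Subgroup G, N.Normal ∧ (S : Subgroup G) ⊓ N = h.gz.Q := pBall h hO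

end Cfsg.Agent.H1.G2
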