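import Mathlib
import Cfsg.Agent.H17.Wt2

/-! Projections onto weight spaces of one-parameter subgroups. -/

set_option autoImplicit false
set_option linter.unusedSectionVars false

namespace Cfsg.Agent.H17

open Module Cfsg.Agent.H11

variable {V : Type*} [AddCommGroup V] [Module ℂ V] [FiniteDimensional ℂ V] {G : Type*} [Group G]
  {ρ : Representation ℂ G V} {F : Type*} [Field F] [Fintype F] {ψ : AddChar F ℂ}

/-- the projection onto a weight space, up to a scalar -/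
noncomputable def Pj (ρ : Representation ℂ G V) (ψ : AddChar F ℂ) (x : F → G) (c : F) : End ℂ V :=
  ∑ t, ψ (-(c * t)) • ρ (x t)

theorem Pj_apply (x : F → G) (c : F) (v : V) : Pj ρ ψ x c v = ∑ t, ψ (-(c * t)) • ρ (x t) v := by
  simp [Pj]

theorem Pj_mem {x : F → G} (hx : ∀ s t, x (s + t) = x s * x t) (c : F) (v : V) : Pj ρ ψ x c v ∈ Ew ρ ψ x c := by
  rw [Pj_apply]; exact sum_mem_wtSp hx c v

theorem Pj_inv {x : F → G} {W : Submodule ℂ V} (hW : ∀ t, ∀ v ∈ W, ρ (x t) v ∈ W) (c : F) {v : V} (hv : v ∈ W) :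
    Pj ρ ψ x c v ∈ W := by
  rw [Pj_apply]; exact W.sum_mem fun t _ => W.smul_mem _ (hW t v hv)

theorem Pj_mv {x y : F → G} {g : G} {l c c' : F} (hl : l ≠ 0) (h : ∀ t, x t * g = g * y (l * t)) (e : c' = c * l)
    (v : V) : Pj ρ ψ x c' (ρ g v) = ρ g (Pj ρ ψ y c v) := by
  rw [Pj_apply, Pj_apply, map_sum]
  exact Fintype.sum_equiv (Equiv.mulLeft₀ l hl) _ _ fun t => by
    rw [← End.mul_apply, ← map_mul, h, map_mul, map_smul, e, mul_assoc]; rfl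

theorem Pj_mv1 {x y : F → G} {g : G} {c : F} (h : ∀ t, x t * g = g * y t) (v : V) :
    Pj ρ ψ x c (ρ g v) = ρ g (Pj ρ ψ y c v) :=
  Pj_mv one_ne_zero (by simpa using h) (mul_one c).symm v

theorem Pj_x {x : F → G} (hx : ∀ s t, x (s + t) = x s * x t) (c s : F) (v : V) :
    Pj ρ ψ x c (ρ (x s) v) = ψ (c * s) • Pj ρ ψ x c v :=
  (Pj_mv1 (fun t => by rw [← hx, ← hx, add_comm]) v).trans (mem_Ew.1 (Pj_mem hx c v) s)

theorem Pj_self {x : F → G} {c : F} {v : V} (hv : v ∈ Ew ρ ψ x c) : Pj ρ ψ x c v = (Fintype.card F : ℂ) • v := by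
  simp [Pj_apply, mem_Ew.1 hv, smul_smul, ← AddChar.map_add_eq_mul, Nat.cast_smul_eq_nsmul]

theorem Pj_ne (hψ : ψ ≠ 1) {x : F → G} (hx : ∀ s t, x (s + t) = x s * x t) {c c' : F} {v : V}
    (hv : v ∈ Ew ρ ψ x c') (h : c ≠ c') : Pj ρ ψ x c v = 0 := by
  by_contra h0
  exact h (Ew_unique hψ h0 (Pj_mem hx c v) (Pj_inv (fun t w hw => Ew_mv1 (fun s => by rw [← hx, ← hx, add_comm]) hw)
    c hv))

theorem sum_char (hψ : ψ ≠ 1) {c : F} (hc : c ≠ 0) {f : F → V} {w : V} (h : ∀ t, t ≠ 0 → f t = w) :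
    ∑ t, ψ (-(c * t)) • f t = f 0 - w := by
  classical
  have h1 : ∑ t, ψ (-(c * t)) = 0 := by
    simpa [hc, mul_comm c] using AddChar.sum_mulShift (-c) (AddChar.IsPrimitive.of_ne_one hψ)
  rw [← sub_eq_zero, ← zero_smul ℂ w, ← h1, Finset.sum_smul, sub_eq_iff_eq_add, ← sub_eq_iff_eq_add',
    ← Finset.sum_sub_distrib, Finset.sum_eq_single 0 (fun t _ ht => by rw [h t ht, sub_self]) (by simp)]
  simp

theorem sum_off {f : F → V} {w : V} (h : ∀ t, t ≠ 0 → f t = w) :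
    ∑ t, f t = f 0 + ((Fintype.card F : ℂ) - 1) • w := by
  classical
  rw [← Finset.add_sum_erase _ _ (Finset.mem_univ 0), Finset.sum_congr rfl fun t ht => h t (Finset.ne_of_mem_erase ht),
    Finset.sum_const, Finset.card_erase_of_mem (Finset.mem_univ _), Finset.card_univ, ← Nat.cast_smul_eq_nsmul ℂ,
    Nat.cast_pred Fintype.card_pos]

theorem exists_Ew (hψ : ψ ≠ 1) {x : F → G} (hx : ∀ s t, x (s + t) = x s * x t) {W : Submodule ℂ V}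
    (hW : ∀ t, ∀ v ∈ W, ρ (x t) v ∈ W) (h : 1 ≤ finrank ℂ W) : ∃ c v, v ≠ 0 ∧ v ∈ W ∧ v ∈ Ew ρ ψ x c := by
  rw [fr_split hψ hx hW] at h
  obtain ⟨c, -, hc⟩ := Finset.exists_ne_zero_of_sum_ne_zero (Nat.one_le_iff_ne_zero.1 h)
  obtain ⟨v, hv, h0⟩ := exists_of_fr_pos (Nat.one_le_iff_ne_zero.2 hc)
  exact ⟨c, v, h0, hv⟩

theorem pair_eq {x y u : F → G} {n : G} {κ : F} (hκ : κ ≠ 0) (xu : ∀ r t, x t * u r = u r * (x t * y (κ * r * t)))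
    (yu : ∀ r t, y t * u r = u r * y t) (xn : ∀ t, x t * n = n * y (-1 * t)) (yn : ∀ t, y t * n = n * x t)
    {M : Submodule ℂ V} (hu : ∀ r, ∀ v ∈ M, ρ (u r) v ∈ M) (hn : ∀ v ∈ M, ρ n v ∈ M) {e d : F}
    (h : e ≠ 0 ∨ d ≠ 0) : finrank ℂ (M ⊓ (Ew ρ ψ x e ⊓ Ew ρ ψ y d) : Submodule ℂ V) =
      finrank ℂ (M ⊓ (Ew ρ ψ x 0 ⊓ Ew ρ ψ y 1) : Submodule ℂ V) := by
  let f e d := finrank ℂ (M ⊓ (Ew ρ ψ x e ⊓ Ew ρ ψ y d) : Submodule ℂ V)
  have k0 : ∀ e d, f e d ≤ f (-d) e := fun e d =>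
    fr_le n fun v hv => ⟨hn v hv.1, Ew_mv xn hv.2.2 (by ring), Ew_mv1 yn hv.2.1⟩
  have k1 : ∀ e e' d, d ≠ 0 → f e d ≤ f e' d := fun e e' d hd => fr_le (u ((e' - e) / (d * κ))) fun v hv =>
    ⟨hu _ v hv.1, Ew_mv2 (xu _) hv.2.1 hv.2.2 (by field_simp; ring), Ew_mv1 (yu _) hv.2.2⟩
  have k2 : ∀ e e' d d', d ≠ 0 → d' ≠ 0 → f e d ≤ f e' d' :=
    fun e e' d d' hd hd' => (k1 e d' d hd).trans ((k0 _ _).trans (k1 _ _ _ hd'))
  rcases h with h | h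
  · refine le_antisymm ((k0 _ _).trans (k2 _ _ _ _ h one_ne_zero)) ?_
    simpa using (k2 0 d 1 (-e) one_ne_zero (neg_ne_zero.2 h)).trans (k0 _ _)
  · exact le_antisymm (k2 _ _ _ _ h one_ne_zero) (k2 _ _ _ _ one_ne_zero h)

theorem card_image_le (hψ : ψ ≠ 1) {x : F → G} {W : Submodule ℂ V} [DecidableEq F] (s : Finset F)
    (h : ∀ c ∈ s, ∃ v, v ≠ 0 ∧ v ∈ W ∧ v ∈ Ew ρ ψ x c) : s.card ≤ finrank ℂ W := by
  refine le_trans ?_ (sum_fr_le hψ (fun c => W ⊓ Ew ρ ψ x c) (fun _ => inf_le_right) fun _ => inf_le_left)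
  rw [Finset.card_eq_sum_ones]
  refine (Finset.sum_le_sum fun c hc => ?_).trans (Finset.sum_le_sum_of_subset s.subset_univ)
  obtain ⟨v, h0, hv⟩ := h c hc
  exact fr_pos hv h0

namespace GT

variable {K : Type*} [Field K] [Fintype K] (S : GT G K F)

/-- the projection onto the fixed points of the two highest long root subgroups -/
noncomputable def E (ρ : Representation ℂ G V) (ψ : AddChar F ℂ) : End ℂ V := Pj ρ ψ S.e 0 * Pj ρ ψ S.h 0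

theorem E_apply (v : V) : S.E ρ ψ v = Pj ρ ψ S.e 0 (Pj ρ ψ S.h 0 v) := rfl

theorem E_apply' (v : V) : S.E ρ ψ v = Pj ρ ψ S.h 0 (Pj ρ ψ S.e 0 v) := by
  rw [E_apply, Pj_apply S.e, Pj_apply S.e, map_sum]
  exact Finset.sum_congr rfl fun t _ => by rw [map_smul, Pj_mv1 (S.he t)]

theorem E_mem (v : V) : S.E ρ ψ v ∈ S.Z ρ ψ 0 0 :=
  ⟨Pj_mem S.e_add _ _, S.E_apply' v ▸ Pj_mem S.h_add _ _⟩

theorem E_e (t : F) (v : V) : S.E ρ ψ (ρ (S.e t) v) = S.E ρ ψ v := by simp [E_apply', Pj_x S.e_add]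

theorem E_h (t : F) (v : V) : S.E ρ ψ (ρ (S.h t) v) = S.E ρ ψ v := by simp [E_apply, Pj_x S.h_add]

theorem E_nb (v : V) : S.E ρ ψ (ρ S.nb v) = ρ S.nb (S.E ρ ψ v) := by
  rw [E_apply, Pj_mv1 S.hnb, Pj_mv (neg_ne_zero.2 one_ne_zero) S.enb (zero_mul _).symm, E_apply']

theorem E_b (u : F) (v : V) : S.E ρ ψ (ρ (S.b u) v) = ρ (S.b u) (S.E ρ ψ v) := by
  rw [E_apply, E_apply, Pj_mv1 (S.hb u), Pj_apply S.e, Pj_apply S.e, map_sum]
  exact Finset.sum_congr rfl fun t _ => by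
    rw [map_smul, ← End.mul_apply, ← map_mul, S.eb, map_mul, map_mul, End.mul_apply, End.mul_apply,
      mem_Ew0.1 (Pj_mem S.h_add _ _)]

theorem E_self {v : V} (hv : v ∈ S.Z ρ ψ 0 0) : S.E ρ ψ v = (Fintype.card F : ℂ) ^ 2 • v := by
  rw [E_apply, Pj_self hv.2, map_smul, Pj_self hv.1, smul_smul, sq]

theorem E_fix {v : V} (hv : v ∈ Ew ρ ψ S.b 0) : S.E ρ ψ v ∈ S.Z ρ ψ 0 0 ⊓ Ew ρ ψ S.b 0 :=
  ⟨S.E_mem v, mem_Ew0.2 fun t => by rw [← E_b, mem_Ew0.1 hv]⟩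

theorem be (t u : F) : S.b u * S.e t = S.e t * (S.b u * S.h (t * u)) := by
  have : S.h 0 = 1 := by simpa using S.h_add 0 0
  rw [← mul_assoc, S.eb, mul_assoc, mul_assoc, ← S.h_add, show -u * t + t * u = 0 by ring, this, mul_one]

/-- a weight vector survives the projection attached to the opposite subgroup -/
theorem key (hψ : ψ ≠ 1) {β l : F} (hβ : β ≠ 0) {y : V} (h0 : y ≠ 0) (hy : y ∈ S.Z ρ ψ 0 0 ⊓ Ew ρ ψ S.b β) {w : G}
    (hl : l ≠ 0) (hw : ∀ t, S.b t * w⁻¹ = w⁻¹ * S.b (l * t))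
    (h1 : ∀ u, u ≠ 0 → S.E ρ ψ (ρ (w * S.h u * w⁻¹) y) ∈ Ew ρ ψ S.b 0) {z : ℂ}
    (h2 : ∀ t, t ≠ 0 → Pj ρ ψ S.b β (S.E ρ ψ (ρ (w * S.e t * w⁻¹) y)) = z • y) (hz : z ≠ Fintype.card F ^ 2) :
    ∃ v, v ≠ 0 ∧ v ∈ S.Z ρ ψ 1 0 ∧ v ∈ Ew ρ ψ S.b (β * l) := by
  have k1 : Pj ρ ψ S.h 0 (ρ w⁻¹ y) ∈ Ew ρ ψ S.h 0 ⊓ Ew ρ ψ S.b (β * l) := ⟨Pj_mem S.h_add _ _,
    Pj_inv (fun t v hv => Ew_mv1 (fun u => (S.hb u t).symm) hv) _ (Ew_mv hw hy.2 rfl)⟩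
  have k2 := Pj_inv (ψ := ψ) (x := S.e) (W := Ew ρ ψ S.h 0 ⊓ Ew ρ ψ S.b (β * l))
    (fun t v hv => ⟨Ew_mv1 (S.he t) hv.1, Ew_mv2 (S.be t) hv.2 hv.1 (by simp)⟩) 1 k1
  refine ⟨_, fun e => hz ?_, ⟨Pj_mem S.e_add _ _, k2.1⟩, k2.2⟩
  have q0 : (Fintype.card F : ℂ) ≠ 0 := Nat.cast_ne_zero.2 Fintype.card_ne_zero
  have b0 : S.b 0 = 1 := by simpa using S.b_add 0 0
  have k3 := congrArg (fun v => Pj ρ ψ S.b β (S.E ρ ψ (ρ w v))) e
  simp only [Pj_apply S.e, Pj_apply S.h, map_sum, map_smul, zero_mul, neg_zero, AddChar.map_zero_eq_one, one_smul,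
    map_zero] at k3
  rw [sum_char hψ one_ne_zero (w := (Fintype.card F : ℂ) • z • y) fun t ht => by
      rw [Finset.sum_congr rfl (g := fun _ => z • y) fun u _ => ?_]
      · simp [Nat.cast_smul_eq_nsmul]
      have e1 : w * (S.e t * (S.h u * w⁻¹)) =
          S.b (l * (u / t)) * (w * S.e t * w⁻¹ * S.b (l * -(u / t))) := by
        have e2 := S.eb (-(u / t)) t
        have e3 : ∀ r, S.b (l * r) = w * S.b r * w⁻¹ := fun r => by rw [mul_assoc, hw, mul_inv_cancel_left]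
        rw [neg_neg, div_mul_cancel₀ _ ht] at e2
        simp only [e3, mul_assoc, inv_mul_cancel_left]
        rw [← mul_assoc (S.e t) (S.b _), e2, mul_assoc, ← mul_assoc (S.b _), ← S.b_add, add_neg_cancel, b0, one_mul,
          mul_assoc]
      simp only [← End.mul_apply (ρ _), ← map_mul]
      rw [e1, map_mul, map_mul, End.mul_apply, End.mul_apply, mem_Ew.1 hy.2, E_b, Pj_x S.b_add, map_smul, map_smul,
        map_smul, h2 t ht, smul_smul, ← AddChar.map_add_eq_mul]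
      simp,
    sum_off (w := 0) fun u hu => by
      simp only [← End.mul_apply (ρ _), ← map_mul]
      rw [show S.e 0 = 1 by simpa using S.e_add 0 0, one_mul, ← mul_assoc]
      exact Pj_ne hψ S.b_add (h1 u hu) hβ] at k3
  simp only [← End.mul_apply (ρ _), ← map_mul] at k3
  rw [show S.e 0 = 1 by simpa using S.e_add 0 0, show S.h 0 = 1 by simpa using S.h_add 0 0, one_mul, one_mul,
    mul_inv_cancel, map_one, End.one_apply, S.E_self hy.1, map_smul, Pj_self hy.2, smul_zero, add_zero, smul_smul,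
    smul_smul, ← sub_smul, smul_eq_zero, sub_eq_zero, mul_comm] at k3
  exact (mul_left_cancel₀ q0 (k3.resolve_right h0)).symm

end GT

end Cfsg.Agent.H17
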