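import Mathlib
import Cfsg.Agent.H17.Wt3
import Cfsg.Agent.H17.D4Deg

/-! Small representations of groups of type `G₂`, the characteristic different from three. -/

set_option autoImplicit false
set_option linter.unusedSectionVars false
set_option maxRecDepth 100000

namespace Cfsg.Agent.H17

open Module H11 H12 H13 Cfsg.Lie

namespace DG

variable {V : Type*} [AddCommGroup V] [Module ℂ V] [FiniteDimensional ℂ V] {G : Type*} [Group G]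
  {ρ : Representation ℂ G V} {F : Type*} [Field F] {ψ : AddChar F ℂ} (S : StSys (cdOf chevG2) F G)

theorem chk (μ : ℕ →*₀ F) (w w' : List (Fin chevG2.nroots × Ex)) {p : ℤ} (hp : (p : F) = 0)
    (h : Col.chk ⟨fastG2.tab, p, id, id, 60⟩ (w.map fun a => (a.1.1, a.2)) (w'.map fun a => (a.1.1, a.2)) = true) :
    (w.map fun a => S.x a.1 (a.2.ev μ)).prod = (w'.map fun a => S.x a.1 (a.2.ev μ)).prod := by
  simpa [eev, Function.comp_def, xN_fin] using Col.OK.eq_of_chk S (μ := μ) ⟨tbG2, hp, fun _ => rfl⟩ h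

theorem simp01 : (rsOf chevG2).simple 0 = 7 ∧ (rsOf chevG2).simple 1 = 6 := by decide +kernel

theorem nx (i : Fin chevG2.rank) (a r s : Fin chevG2.nroots) (e : ℤ)
    (h : (rsOf chevG2).simple i = a ∧ fastG2.tab.refl i r = s ∧ fastG2.tab.eta i r = e) (t : F) :
    S.x s (e * t) * S.n a 1 = S.n a 1 * S.x r t ∧ S.n s (e * t) * S.n a 1 = S.n a 1 * S.n r t := by
  rw [← tbG2] at h
  rw [← h.1, ← h.2.2, ← show (rsOf chevG2).sref i r = s from Fin.ext h.2.1]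
  exact ⟨(mul_inv_eq_iff_eq_mul.1 ((chev_nc S).m_conj_x i r t)).symm,
    (mul_inv_eq_iff_eq_mul.1 ((chev_nc S).m_conj_n i r t)).symm⟩

theorem nx1 (i : Fin chevG2.rank) (a r s : Fin chevG2.nroots)
    (h : (rsOf chevG2).simple i = a ∧ fastG2.tab.refl i r = s ∧ fastG2.tab.eta i r = 1) (t : F) :
    S.x s t * S.n a 1 = S.n a 1 * S.x r t := by simpa using (nx S i a r s 1 h t).1

theorem nx2 (i : Fin chevG2.rank) (a r s : Fin chevG2.nroots)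
    (h : (rsOf chevG2).simple i = a ∧ fastG2.tab.refl i r = s ∧ fastG2.tab.eta i r = -1) (t : F) :
    S.x s t * S.n a 1 = S.n a 1 * S.x r (-1 * t) := by simpa using (nx S i a r s (-1) h (-t)).1

local notation "v" n:max => Ex.var n

theorem rels (r s : F) : (S.x 10 s * S.x 9 r = S.x 9 r * S.x 10 s ∧ S.x 11 s * S.x 9 r = S.x 9 r * S.x 11 s ∧
    S.x 11 s * S.x 10 r = S.x 10 r * S.x 11 s ∧ S.x 10 s * S.x 6 r = S.x 6 r * (S.x 10 s * S.x 11 (-r * s)) ∧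
    S.x 9 s * S.x 6 r = S.x 6 r * S.x 9 s ∧ S.x 11 s * S.x 6 r = S.x 6 r * S.x 11 s ∧
    S.x 8 s * S.x 6 r = S.x 6 r * S.x 8 s) ∧
    S.x 9 s * S.x 8 r = S.x 8 r * (S.x 9 s * S.x 11 (-3 * (r * s))) ∧ S.x 10 s * S.x 8 r = S.x 8 r * S.x 10 s ∧
    S.x 11 s * S.x 8 r = S.x 8 r * S.x 11 s ∧ S.x 9 s * S.x 7 r = S.x 7 r * (S.x 9 s * S.x 10 (-3 * (r * s))) ∧
    S.x 10 s * S.x 7 r = S.x 7 r * S.x 10 s ∧ S.x 11 s * S.x 7 r = S.x 7 r * S.x 11 s := by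
  obtain ⟨μ, e1, e2, -⟩ := exists_mu8 r s 0 0 0 0 0 0
  have k := fun w w' => chk S μ w w' Int.cast_zero
  have c := fun a b : Fin chevG2.nroots => k [(a, v 3), (b, v 2)] [(b, v 2), (a, v 3)]
  have d := fun (a b c : Fin chevG2.nroots) t => k [(a, v 3), (b, v 2)] [(b, v 2), (a, v 3), (c, t)]
  simpa [e1, e2] using And.intro (And.intro (c 10 9 (by decide +kernel)) <| And.intro (c 11 9 (by decide +kernel)) <|
    And.intro (c 11 10 (by decide +kernel)) <| And.intro (d 10 6 11 (-v 2 * v 3) (by decide +kernel)) <|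
    And.intro (c 9 6 (by decide +kernel)) <| And.intro (c 11 6 (by decide +kernel)) (c 8 6 (by decide +kernel))) <|
    And.intro (d 9 8 11 (.cst (-3) * (v 2 * v 3)) (by decide +kernel)) <| And.intro (c 10 8 (by decide +kernel)) <|
    And.intro (c 11 8 (by decide +kernel)) <| And.intro (d 9 7 10 (.cst (-3) * (v 2 * v 3)) (by decide +kernel)) <|
    And.intro (c 10 7 (by decide +kernel)) (c 11 7 (by decide +kernel))

/-- the relations of type `G₂` -/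
def gt : GT G F F where
  ι := RingHom.id F
  τ := AddMonoidHom.mulLeft (-3)
  τ_mul e s := mul_left_comm _ _ _
  a := S.x 7
  b := S.x 6
  c := S.x 8
  d := S.x 9
  e := S.x 10
  h := S.x 11
  na := S.n 7 1
  nb := S.n 6 1
  b_add := S.add _
  c_add := S.add _
  d_add := S.add _
  e_add := S.add _
  h_add := S.add _
  ed s t := (rels S s t).1.1
  hd s t := (rels S s t).1.2.1
  he s t := (rels S s t).1.2.2.1
  eb s t := (rels S s t).1.2.2.2.1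
  db s t := (rels S s t).1.2.2.2.2.1
  hb s t := (rels S s t).1.2.2.2.2.2.1
  dc s t := (rels S s t).2.1
  ec s t := (rels S s t).2.2.1
  hc s t := (rels S s t).2.2.2.1
  da s t := (rels S s t).2.2.2.2.1
  ea s t := (rels S s t).2.2.2.2.2.1
  ha s t := (rels S s t).2.2.2.2.2.2
  enb := nx2 S 1 6 11 10 (by decide +kernel)
  hnb := nx1 S 1 6 10 11 (by decide +kernel)
  ena := nx1 S 0 7 6 10 (by decide +kernel)
  bna := nx2 S 0 7 10 6 (by decide +kernel)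
  hna := nx1 S 0 7 11 11 (by decide +kernel)

theorem tor {α β : F} (hα : α ≠ 0) (hβ : β ≠ 0) : ∃ g : G, (∀ t, S.n 6 t * g = g * S.n 6 (β * t)) ∧
    (∀ t, S.x 7 t * g = g * S.x 7 (α * t)) ∧ (∀ t, S.x 6 t * g = g * S.x 6 (β * t)) ∧
    (∀ t, S.x 8 t * g = g * S.x 8 (α * β * t)) ∧ (∀ t, S.x 9 t * g = g * S.x 9 (α ^ 2 * β * t)) ∧
    (∀ t, S.x 10 t * g = g * S.x 10 (α ^ 3 * β * t)) ∧ ∀ t, S.x 11 t * g = g * S.x 11 (α ^ 3 * β ^ 2 * t) := by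
  have h1 : α ^ 2 * β ≠ 0 := by simp [hα, hβ]
  have h2 : α ^ 3 * β ^ 2 ≠ 0 := by simp [hα, hβ]
  have k : ∀ (f : Fin chevG2.nroots → F → G), (∀ r s {t}, t ≠ 0 → ∀ u, S.h r t * f s u * (S.h r t)⁻¹ =
      f s (t ^ (rsOf chevG2).cor r ((rsOf chevG2).α s) * u)) → ∀ (r : Fin chevG2.nroots) (i j : ℤ) (z : F),
      chevG2.pairing 7 r = i ∧ chevG2.pairing 6 r = j → (α ^ 2 * β) ^ i * (α ^ 3 * β ^ 2) ^ j = z → ∀ t,
      f r t * (S.h 7 (α ^ 2 * β) * S.h 6 (α ^ 3 * β ^ 2))⁻¹ =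
        (S.h 7 (α ^ 2 * β) * S.h 6 (α ^ 3 * β ^ 2))⁻¹ * f r (z * t) := fun f hf r i j z h hz t => by
    have e1 := hf 7 r h1
    have e2 := hf 6 r h2
    rw [cor_α] at e1 e2
    rw [show chevG2.pairing (7 : Fin chevG2.nroots) r = i from h.1] at e1
    rw [show chevG2.pairing (6 : Fin chevG2.nroots) r = j from h.2] at e2
    rw [← hz, mul_assoc, ← e1, ← e2]
    group
  have kx := k S.x fun r s => (chev_nc S).h_conj_x r s
  refine ⟨_, k S.n (fun r s => (chev_nc S).h_conj_n r s) 6 (-3) 2 _ (by decide +kernel) ?_,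
    kx 7 2 (-1) _ (by decide +kernel) ?_, kx 6 (-3) 2 _ (by decide +kernel) ?_, kx 8 (-1) 1 _ (by decide +kernel) ?_,
    kx 9 1 0 _ (by decide +kernel) ?_, kx 10 3 (-1) _ (by decide +kernel) ?_, kx 11 0 1 _ (by decide +kernel) ?_⟩ <;>
    simp only [zpow_neg, zpow_ofNat] <;> field_simp

theorem negx (r s : Fin chevG2.nroots) (h : (rsOf chevG2).neg r = s) {t : F} :
    S.x s t = S.x r t⁻¹ * (S.n r (-t⁻¹) * S.x r t⁻¹) := by
  simp [StSys.n, h, S.x_neg, mul_assoc]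

theorem nb_conj {t : F} (ht : t ≠ 0) (r : F) : ∃ u, S.n 10 t * S.x 6 r = S.x 11 u * S.n 10 t := by
  obtain ⟨ε, -, h⟩ := (chev_nc S).exists_conj 10 6
  rw [show (rsOf chevG2).rrefl 10 • (6 : Fin chevG2.nroots) = 11 from (rsOf chevG2).inj (by
    rw [RS.α_rrefl, cor_α]; decide +kernel)] at h
  exact ⟨_, mul_inv_eq_iff_eq_mul.1 (h t r ht)⟩

theorem exists_w : ∃ w : G, (∀ t, S.x 6 t * w = w * S.x 6 t) ∧ (∀ t, w * S.x 11 t * w⁻¹ = S.x 1 (-t)) ∧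
    ∀ t, w * S.x 10 t * w⁻¹ = S.x 0 t := by
  have a1 := nx1 S 0 7 6 10 (by decide +kernel)
  have a2 := nx2 S 0 7 10 6 (by decide +kernel)
  have a3 := nx1 S 0 7 11 11 (by decide +kernel)
  have a4 := nx1 S 0 7 5 1 (by decide +kernel)
  have a5 := nx1 S 0 7 0 0 (by decide +kernel)
  have b1 := nx1 S 1 6 10 11 (by decide +kernel)
  have b2 := nx2 S 1 6 11 10 (by decide +kernel)
  have b3 := nx2 S 1 6 6 5 (by decide +kernel)
  have b4 := nx1 S 1 6 1 0 (by decide +kernel)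
  have m : ∀ {a b c g g' : G}, a * g = g * b → b * g' = g' * c → a * (g * g') = g * g' * c := fun h h' => by
    rw [← mul_assoc, h, mul_assoc, h', mul_assoc]
  refine ⟨S.n 7 1 * (S.n 6 1 * (S.n 7 1 * (S.n 6 1 * S.n 7 1))), fun t => ?_, fun t => ?_, fun t => ?_⟩
  · simpa using m (a2 _) (m (b2 _) (m (a3 _) (m (b1 _) (a1 _))))
  · rw [mul_inv_eq_iff_eq_mul, m (a4 _) (m (b3 _) (m (a2 _) (m (b2 _) (a3 _))))]; simp
  · rw [mul_inv_eq_iff_eq_mul, m (a5 _) (m (b4 _) (m (a4 _) (m (b3 _) (a2 _))))]; simp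

variable [Fintype F]

theorem wts (hψ : ψ ≠ 1) (hD : finrank ℂ ((gt S).Z ρ ψ 0 0 ⊓ Ew ρ ψ (gt S).b 0 : Submodule ℂ V) ≤ 1) {β : F}
    (hβ : β ≠ 0) (h : 1 ≤ finrank ℂ ((gt S).Z ρ ψ 0 0 ⊓ Ew ρ ψ (gt S).b β : Submodule ℂ V)) :
    1 ≤ finrank ℂ ((gt S).Z ρ ψ 1 0 ⊓ Ew ρ ψ (gt S).b β : Submodule ℂ V) := by
  set T := gt S
  obtain ⟨w, w1, w2, w3⟩ := exists_w S
  have q0 : (Fintype.card F : ℂ) ≠ 0 := Nat.cast_ne_zero.2 Fintype.card_ne_zero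
  have ap : ∀ (g g' : G) (y : V), ρ (g * g') y = ρ g (ρ g' y) := fun g g' y => by rw [map_mul]; rfl
  have m1 : ∀ {t y}, t ≠ 0 → y ∈ Ew ρ ψ T.h 0 → T.E ρ ψ (ρ (S.n 10 t) y) ∈ T.Z ρ ψ 0 0 ⊓ Ew ρ ψ T.b 0 :=
    fun {t y} ht hy => T.E_fix (mem_Ew0.2 fun r => by
      obtain ⟨u, hu⟩ := nb_conj S (neg_ne_zero.2 ht) r
      rw [S.n_neg, inv_mul_eq_iff_eq_mul, ← mul_assoc, eq_mul_inv_iff_mul_eq] at hu
      exact (ap _ _ _).symm.trans (hu ▸ (ap _ _ _).trans (congrArg _ (mem_Ew0.1 hy u))))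
  have ni : ∀ {t : F}, t ≠ 0 → -t⁻¹ ≠ 0 := fun h => by simpa using h
  suffices H : ∃ y z, y ≠ 0 ∧ y ∈ T.Z ρ ψ 0 0 ⊓ Ew ρ ψ T.b β ∧ z ≠ (Fintype.card F : ℂ) ^ 2 ∧ ∀ t, t ≠ 0 →
      Pj ρ ψ T.b β (ρ T.nb (T.E ρ ψ (ρ (S.n 10 t) (ρ T.nb⁻¹ y)))) = z • y by
    obtain ⟨y, z, y0, hy, hz, H⟩ := H
    obtain ⟨u, u0, hu⟩ := T.key hψ hβ y0 hy (w := w) one_ne_zero (fun t => by
      rw [one_mul, mul_inv_eq_iff_eq_mul, mul_assoc]; exact eq_inv_mul_iff_mul_eq.2 (w1 t).symm) (fun u hu => by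
        rw [show w * T.h u * w⁻¹ = _ from (w2 u).trans (negx S 10 1 (by decide +kernel)), ap, ap]
        erw [T.E_e, mem_Ew0.1 hy.1.1]
        exact (m1 (ni (neg_ne_zero.2 hu)) hy.1.2).2) (fun t ht => by
        rw [show w * T.e t * w⁻¹ = _ from (w3 t).trans (negx S 11 0 (by decide +kernel)), ap, ap, ← H _ (ni ht),
          ← T.E_nb, ← ap T.nb, show T.nb * _ = _ from (nx S 1 6 10 11 1 (by decide +kernel) _).2.symm, ap, ← ap _ T.nb⁻¹]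
        erw [T.E_h, mem_Ew0.1 hy.1.2]
        simp [T, gt]) hz
    exact fr_pos (mul_one β ▸ hu) u0
  have hn : ∀ {y}, y ∈ T.Z ρ ψ 0 0 → ρ T.nb⁻¹ y ∈ Ew ρ ψ T.h 0 := fun hy => Ew_mv (l := -1) (fun t => by
    rw [mul_inv_eq_iff_eq_mul, mul_assoc, T.enb]; simp) hy.1 (by simp)
  by_cases h1 : ∀ u ∈ T.Z ρ ψ 0 0 ⊓ Ew ρ ψ T.b 0, Pj ρ ψ T.b β (ρ T.nb u) = 0
  · obtain ⟨y, hy, y0⟩ := exists_of_fr_pos h
    exact ⟨y, 0, y0, hy, (pow_ne_zero _ q0).symm, fun t ht => by rw [h1 _ (m1 ht (hn hy.1)), zero_smul]⟩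
  push Not at h1
  obtain ⟨u, hu, h1⟩ := h1
  have u0 : u ≠ 0 := by rintro rfl; simp at h1
  have hZ : ρ T.nb u ∈ T.Z ρ ψ 0 0 := by simpa using T.Z_nb u hu.1
  have hP : ∀ c, Pj ρ ψ T.b c (ρ T.nb u) ∈ T.Z ρ ψ 0 0 ⊓ Ew ρ ψ T.b c := fun c =>
    ⟨Pj_inv (fun t => T.Z_b t (by simp)) _ hZ, Pj_mem T.b_add _ _⟩
  obtain ⟨l, hl⟩ := exists_smul_of_fr hD hu u0 (hP 0)
  have l1 : ∀ c, c ≠ 0 → Pj ρ ψ T.b 0 (ρ (S.n 6 c) u) = l • u := fun c hc => by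
    obtain ⟨g, g0, -, g1, -, -, g2, g3⟩ := tor S one_ne_zero hc
    obtain ⟨κ, hκ⟩ := exists_smul_of_fr hD hu u0 (w := ρ g u)
      ⟨⟨Ew_mv g2 hu.1.1 (by simp), Ew_mv g3 hu.1.2 (by simp)⟩, Ew_mv g1 hu.2 (by simp)⟩
    refine (ρ.apply_bijective g).1 ?_
    rw [← Pj_mv (x := T.b) (y := T.b) hc g1 (zero_mul _).symm, ← ap, ← mul_one c, ← g0, ap, map_smul, hκ, map_smul, map_smul, smul_comm]
    exact congrArg _ hl
  have l2 : ∀ c, c ≠ 0 → T.E ρ ψ (ρ (S.n 10 c) u) = ((Fintype.card F : ℂ) * l) • u := fun c hc => by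
    obtain ⟨κ, hκ⟩ := exists_smul_of_fr hD hu u0 (w := ρ T.na u) (by simpa using T.Z_na u hu)
    have κ0 : κ ≠ 0 := by rintro rfl; exact rho_ne_zero _ u0 (hκ.trans (zero_smul _ _))
    have e1 := (nx S 0 7 6 10 1 (by decide +kernel) c).2
    rw [Int.cast_one, one_mul] at e1
    have e2 := Pj_mv1 (ρ := ρ) (ψ := ψ) (c := 0) T.ena (ρ (S.n 6 c) u)
    rw [l1 c hc, map_smul, ← ap, show T.na * _ = _ from e1.symm, ap, show ρ (S.n 7 1) u = _ from hκ, hκ, map_smul,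
      map_smul, smul_comm] at e2
    rw [GT.E_apply', smul_right_injective V κ0 e2, map_smul, Pj_self hu.1.2, smul_smul, mul_comm]
  have l3 : ∀ r, r ≠ 0 → ∃ s c, c ≠ 0 ∧ ρ T.nb⁻¹ (ρ (T.b r) (ρ T.nb u)) = ρ (T.b s) (ρ (S.n 6 c) u) := fun r hr => by
    refine ⟨(-1 * r)⁻¹, _, ni (t := -1 * r) (by simpa using hr), ?_⟩
    rw [← ap (T.b r), show T.b r * T.nb = T.nb * _ from nx2 S 1 6 5 6 (by decide +kernel) r, ← ap, inv_mul_cancel_left,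
      negx S 6 5 (by decide +kernel), ap, ap]
    exact congrArg _ (congrArg _ (mem_Ew0.1 hu.2 _))
  have l0 : ρ T.nb⁻¹ (ρ (T.b 0) (ρ T.nb u)) = u := by
    rw [show T.b 0 = 1 from S.x_zero _, map_one, End.one_apply, ← ap, inv_mul_cancel, map_one, End.one_apply]
  have l4 : l * l = Fintype.card F + (Fintype.card F - 1) * l := by
    have e1 := congrArg (fun y => Pj ρ ψ T.b 0 (ρ T.nb⁻¹ y)) hl
    simp only [map_smul, show T.nb⁻¹ = _ from (S.n_neg 6 1).symm, l1 _ (neg_ne_zero.2 one_ne_zero)] at e1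
    rw [S.n_neg, Pj_apply _ _ (ρ T.nb u)] at e1
    simp only [map_sum, zero_mul, neg_zero, AddChar.map_zero_eq_one, one_smul] at e1
    rw [sum_off (w := l • u) fun r hr => by
      obtain ⟨s, c, c0, e⟩ := l3 r hr
      erw [e, Pj_x T.b_add, l1 c c0]
      simp] at e1
    erw [l0, Pj_self hu.2] at e1
    rw [smul_smul, smul_smul, ← add_smul] at e1
    exact (smul_left_injective ℂ u0 e1).symm
  refine ⟨_, Fintype.card F * l - l * l, h1, hP β, fun e => ?_, fun t ht => ?_⟩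
  · have e1 : l = Fintype.card F ^ 2 + Fintype.card F := by linear_combination e + l4
    rw [e1] at l4
    have : (Fintype.card F : ℂ) ^ 2 * (Fintype.card F ^ 2 + Fintype.card F + 1) = 0 := by linear_combination l4
    norm_cast at this
    simp at this
  rw [← map_smul, ← map_smul]
  congr 2
  rw [Pj_apply]
  simp only [map_sum, map_smul]
  rw [sum_char hψ hβ (w := (l * l) • u) fun r hr => ?_, l0, l2 t ht, sub_smul]
  obtain ⟨s, c, c0, e⟩ := l3 r hr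
  have k : ∀ s y, T.E ρ ψ (ρ (S.n 10 t) (ρ (T.b s) y)) = T.E ρ ψ (ρ (S.n 10 t) y) := fun s y => by
    obtain ⟨a, ha⟩ := nb_conj S ht s
    rw [← ap, show _ * T.b s = _ from ha, ap]
    exact T.E_h _ _
  have e1 := congrArg (fun y => T.E ρ ψ (ρ (S.n 10 t) y)) (l1 c c0)
  simp only [Pj_apply, map_sum, map_smul, k, l2 t ht, zero_mul, neg_zero, AddChar.map_zero_eq_one, one_smul,
    Finset.sum_const, Finset.card_univ, ← Nat.cast_smul_eq_nsmul ℂ] at e1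
  rw [e, k]
  refine smul_right_injective V q0 (e1.trans ?_)
  simp only [smul_smul]
  congr 1
  ring

theorem two_le (hψ : ψ ≠ 1) (hΨ : (gt S).Ψ ψ ≠ 1) {ω : F} (h1 : ω ≠ 1) (h3 : ω ^ 3 = 1)
    (h : finrank ℂ ((gt S).Z ρ ψ 0 1) = Fintype.card F)
    (hf : ∀ β, β ≠ 0 → 1 ≤ finrank ℂ ((gt S).Z ρ ψ 0 0 ⊓ Ew ρ ψ (gt S).b β : Submodule ℂ V)) :
    2 ≤ finrank ℂ ((gt S).Z ρ ψ 0 0 ⊓ Ew ρ ψ (gt S).b 0 : Submodule ℂ V) := by
  set T := gt S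
  by_contra hc
  have k1 : ∀ β, 1 ≤ finrank ℂ (T.Z ρ ψ 1 0 ⊓ Ew ρ ψ T.b β : Submodule ℂ V) := fun β => by
    rcases eq_or_ne β 0 with rfl | hβ
    · exact (hf 1 one_ne_zero).trans (fr_le T.na fun u hu =>
        ⟨⟨Ew_mv1 T.ena hu.2, Ew_mv1 T.hna hu.1.2⟩, Ew_mv T.bna hu.1.1 (by simp)⟩)
    · exact wts S hψ (Nat.le_of_lt_succ (not_le.1 hc)) hβ (hf β hβ)
  rw [← T.Z_eq (.inl one_ne_zero) (d := 0)] at h
  have k2 := T.Z_split (ρ := ρ) hΨ (.inl one_ne_zero) (d := 0) 1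
  obtain ⟨β, u, u0, hu, hu'⟩ := exists_Ew hψ T.b_add (W := T.Z ρ ψ 1 0 ⊓ Ew ρ (T.Ψ ψ) T.d 1)
    (fun t u hu => ⟨T.Z_b t (by simp) u hu.1, Ew_mv1 (T.db t) hu.2⟩) (Nat.pos_of_ne_zero fun e => by
      rw [e, h] at k2; exact Fintype.card_ne_zero k2)
  have k3 : finrank ℂ (T.Z ρ ψ 1 0 ⊓ Ew ρ ψ T.b β : Submodule ℂ V) ≤ 1 := by
    by_contra e
    have := Finset.sum_lt_sum (s := Finset.univ) (fun β _ => k1 β) ⟨β, Finset.mem_univ _, by omega⟩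
    rw [← T.Z0_split hψ, h] at this
    simp at this
  have ω0 : ω ≠ 0 := by rintro rfl; simp at h3
  obtain ⟨g, -, -, g1, -, g2, g3, g4⟩ := tor S ω0 one_ne_zero
  obtain ⟨z, hz⟩ := exists_smul_of_fr k3 ⟨hu.1, hu'⟩ u0 (w := ρ g u)
    ⟨⟨Ew_mv g3 hu.1.1 (by simp [h3]), Ew_mv g4 hu.1.2 (by simp)⟩, Ew_mv g1 hu' (by simp)⟩
  have := Ew_unique hΨ (rho_ne_zero g u0) (Ew_mv g2 hu.2 rfl) (hz ▸ Submodule.smul_mem _ z hu.2)
  exact h1 (by linear_combination h3 - ω * this)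

end DG

end Cfsg.Agent.H17
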