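import Mathlib
import Cfsg.Agent.H17.G2Deg

/-! Small representations of groups of type `G₂` in characteristic three. -/

set_option autoImplicit false
set_option linter.unusedSectionVars false
set_option maxRecDepth 100000

namespace Cfsg.Agent.H17

open Module H11 H12 H13 Cfsg.Lie

namespace DG

variable {V : Type*} [AddCommGroup V] [Module ℂ V] [FiniteDimensional ℂ V] {G : Type*} [Group G]
  {ρ : Representation ℂ G V} {F : Type*} [Field F] {ψ : AddChar F ℂ} (S : StSys (cdOf chevG2) F G)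

local notation "v" n:max => Ex.var n

theorem rels3 (h3 : (3 : F) = 0) (r s : F) : S.x 8 s * S.x 7 r = S.x 7 r * (S.x 8 s * S.x 9 (2 * r * s)) ∧
    S.x 9 s * S.x 7 r = S.x 7 r * S.x 9 s ∧ S.x 9 s * S.x 8 r = S.x 8 r * S.x 9 s ∧
    S.x 6 s * S.x 7 r = S.x 7 r * (S.x 6 s * (S.x 8 (r * s) * (S.x 9 (r ^ 2 * s) *
      (S.x 10 (-(r ^ 3 * s)) * S.x 11 (-(r ^ 3 * s ^ 2)))))) ∧
    S.x 7 r * S.x 6 s = S.x 6 s * (S.x 7 r * (S.x 8 (-(r * s)) * (S.x 9 (-(r ^ 2 * s)) *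
      (S.x 10 (r ^ 3 * s) * S.x 11 (r ^ 3 * s ^ 2))))) := by
  obtain ⟨μ, e1, e2, -⟩ := exists_mu8 r s 0 0 0 0 0 0
  have k := fun w w' => chk S μ w w' (p := 3) (by exact_mod_cast h3)
  simpa [e1, e2, pow_succ] using And.intro
    (k [(8, v 3), (7, v 2)] [(7, v 2), (8, v 3), (9, .cst 2 * v 2 * v 3)] (by decide +kernel)) <| And.intro
    (k [(9, v 3), (7, v 2)] [(7, v 2), (9, v 3)] (by decide +kernel)) <| And.intro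
    (k [(9, v 3), (8, v 2)] [(8, v 2), (9, v 3)] (by decide +kernel)) <| And.intro
    (k [(6, v 3), (7, v 2)] [(7, v 2), (6, v 3), (8, v 2 * v 3), (9, v 2 * v 2 * v 3), (10, -(v 2 * v 2 * v 2 * v 3)),
      (11, -(v 2 * v 2 * v 2 * (v 3 * v 3)))] (by decide +kernel))
    (k [(7, v 2), (6, v 3)] [(6, v 3), (7, v 2), (8, -(v 2 * v 3)), (9, -(v 2 * v 2 * v 3)), (10, v 2 * v 2 * v 2 * v 3),
      (11, v 2 * v 2 * v 2 * (v 3 * v 3))] (by decide +kernel))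

variable [Fintype F]

/-- the weight spaces of the abelian subgroup of the four highest roots -/
noncomputable def W (ρ : Representation ℂ G V) (ψ : AddChar F ℂ) (γ δ ε ζ : F) : Submodule ℂ V :=
  (Ew ρ ψ (S.x 8) γ ⊓ Ew ρ ψ (S.x 9) δ) ⊓ (Ew ρ ψ (S.x 10) ε ⊓ Ew ρ ψ (S.x 11) ζ)

/-- the multiplicities -/
noncomputable def mm (ρ : Representation ℂ G V) (ψ : AddChar F ℂ) (γ δ ε ζ : F) : ℕ := finrank ℂ (W S ρ ψ γ δ ε ζ)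

variable {γ δ ε ζ : F}

theorem W_b (u : F) {ε' : F} (h : ε' = ε + ζ * -u) : ∀ y ∈ W S ρ ψ γ δ ε ζ, ρ (S.x 6 u) y ∈ W S ρ ψ γ δ ε' ζ :=
  fun y hy => ⟨⟨Ew_mv1 (fun t => (rels S u t).1.2.2.2.2.2.2) hy.1.1, Ew_mv1 ((gt S).db u) hy.1.2⟩,
    (gt S).Z_b u h y hy.2⟩

theorem W_z {y : V} (hy : y ∈ W S ρ ψ γ δ ε ζ) (a b c d : F) :
    ρ (S.x 8 a * (S.x 9 b * (S.x 10 c * S.x 11 d))) y = ψ (γ * a + (δ * b + (ε * c + ζ * d))) • y := by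
  simpa only [AddChar.map_add_eq_mul] using eig_mul (mem_Ew.1 hy.1.1 a) (eig_mul (mem_Ew.1 hy.1.2 b)
    (eig_mul (mem_Ew.1 hy.2.1 c) (mem_Ew.1 hy.2.2 d)))

theorem W_na {β : F} {y : V} (hy : y ∈ W S ρ ψ γ δ ε ζ) (hb : y ∈ Ew ρ ψ (S.x 6) β) :
    ρ (S.n 7 1) y ∈ W S ρ ψ (-δ) γ β ζ ∧ ρ (S.n 7 1) y ∈ Ew ρ ψ (S.x 6) (-ε) :=
  ⟨⟨⟨Ew_mv (nx2 S 0 7 9 8 (by decide +kernel)) hy.1.2 (by ring), Ew_mv1 (nx1 S 0 7 8 9 (by decide +kernel)) hy.1.1⟩,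
    Ew_mv1 (gt S).ena hb, Ew_mv1 (gt S).hna hy.2.2⟩, Ew_mv (gt S).bna hy.2.1 (by ring)⟩

theorem W_nb {α : F} {y : V} (hy : y ∈ W S ρ ψ γ δ ε ζ) (ha : y ∈ Ew ρ ψ (S.x 7) α) :
    ρ (S.n 6 1) y ∈ W S ρ ψ α δ (-ζ) ε ∧ ρ (S.n 6 1) y ∈ Ew ρ ψ (S.x 7) (-γ) :=
  ⟨⟨⟨Ew_mv1 (nx1 S 1 6 7 8 (by decide +kernel)) ha, Ew_mv1 (nx1 S 1 6 9 9 (by decide +kernel)) hy.1.2⟩,
    (gt S).Z_nb y hy.2⟩, Ew_mv (nx2 S 1 6 8 7 (by decide +kernel)) hy.1.1 (by ring)⟩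

theorem sum_cst {f : F → ℕ} {n : ℕ} (h : ∀ c, f c = n) : ∑ c, f c = Fintype.card F * n := by simp [h]

theorem m_b (h : ζ ≠ 0) (ε' : F) : mm S ρ ψ γ δ ε ζ = mm S ρ ψ γ δ ε' ζ :=
  le_antisymm (fr_le _ (W_b S ((ε - ε') / ζ) (by field_simp; ring)))
    (fr_le _ (W_b S ((ε' - ε) / ζ) (by field_simp; ring)))

variable (hψ : ψ ≠ 1) (h3 : (3 : F) = 0)
include h3

theorem W_a (r : F) {γ' : F} (h : γ' = γ + δ * (2 * r)) :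
    ∀ y ∈ W S ρ ψ γ δ ε ζ, ρ (S.x 7 r) y ∈ W S ρ ψ γ' δ ε ζ :=
  fun _ hy => ⟨⟨Ew_mv2 (fun t => (rels3 S h3 r t).1) hy.1.1 hy.1.2 h, Ew_mv1 (fun t => (rels3 S h3 r t).2.1) hy.1.2⟩,
    Ew_mv1 ((gt S).ea r) hy.2.1, Ew_mv1 ((gt S).ha r) hy.2.2⟩

theorem W_ab {β β' : F} {y : V} (hy : y ∈ W S ρ ψ γ δ ε 0) (hb : y ∈ Ew ρ ψ (S.x 6) β) (r : F)
    (h : β' = β + γ * r + δ * r ^ 2 - ε * r ^ 3) : ρ (S.x 7 r) y ∈ Ew ρ ψ (S.x 6) β' :=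
  mem_Ew.2 fun t => (eig_mv (rels3 S h3 r t).2.2.2.1 (eig_mul (mem_Ew.1 hb t) (W_z S hy _ _ _ _))).trans (by
    rw [← AddChar.map_add_eq_mul, h]; congr 2; ring)

theorem W_ba {α : F} {y : V} (hy : y ∈ W S ρ ψ γ 0 ε ζ) (ha : y ∈ Ew ρ ψ (S.x 7) α) (u r : F) :
    ρ (S.x 7 r) (ρ (S.x 6 u) y) = ψ ((α - γ * u) * r + (ε * u + ζ * u ^ 2) * r ^ 3) • ρ (S.x 6 u) y :=
  (eig_mv (rels3 S h3 r u).2.2.2.2 (eig_mul (mem_Ew.1 ha r) (W_z S hy _ _ _ _))).trans (by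
    rw [← AddChar.map_add_eq_mul]; congr 2; ring)

omit [Fintype F] in
theorem two_ne : (2 : F) ≠ 0 := fun h => one_ne_zero (by linear_combination h3 - h : (1 : F) = 0)

theorem cube (t : F) : ∃ r, r ^ 3 = t := by
  haveI : CharP F 3 := (CharP.charP_iff_prime_eq_zero Nat.prime_three).2 (by exact_mod_cast h3)
  exact (frobeniusEquiv F 3).surjective t

theorem m_a (h : δ ≠ 0) (γ' : F) : mm S ρ ψ γ δ ε ζ = mm S ρ ψ γ' δ ε ζ :=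
  have := two_ne h3
  le_antisymm (fr_le _ (W_a S h3 ((γ' - γ) / (2 * δ)) (by field_simp; ring)))
    (fr_le _ (W_a S h3 ((γ - γ') / (2 * δ)) (by field_simp; ring)))

include hψ

theorem n1 : finrank ℂ (Ew ρ ψ (S.x 9) δ ⊓ (Ew ρ ψ (S.x 10) ε ⊓ Ew ρ ψ (S.x 11) ζ) : Submodule ℂ V) =
    ∑ γ, mm S ρ ψ γ δ ε ζ := by
  refine (fr_split (ρ := ρ) hψ (S.add 8) fun t y hy => ?_).trans
    (Finset.sum_congr rfl fun _ _ => by rw [inf_comm, ← inf_assoc]; rfl)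
  exact ⟨Ew_mv1 (fun s => (rels3 S h3 t s).2.2.1) hy.1, Ew_mv1 ((gt S).ec t) hy.2.1, Ew_mv1 ((gt S).hc t) hy.2.2⟩

theorem s1 (h : ε ≠ 0 ∨ ζ ≠ 0) : ∑ γ, mm S ρ ψ γ δ ε ζ = ∑ γ, mm S ρ ψ γ δ 0 1 := by
  rw [← n1 S hψ h3, ← n1 S hψ h3]
  exact pair_eq (κ := -1) (by simp) (fun r t => by simpa using (gt S).eb r t) (gt S).hb (gt S).enb (gt S).hnb
    (fun r y hy => Ew_mv1 ((gt S).db r) hy) (fun y hy => Ew_mv1 (nx1 S 1 6 9 9 (by decide +kernel)) hy) h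

theorem s2 (h : γ ≠ 0 ∨ δ ≠ 0) : ∑ ε, mm S ρ ψ γ δ ε ζ = ∑ ε, mm S ρ ψ 0 1 ε ζ := by
  have : ∀ γ δ, finrank ℂ (Ew ρ ψ (S.x 11) ζ ⊓ (Ew ρ ψ (S.x 8) γ ⊓ Ew ρ ψ (S.x 9) δ) : Submodule ℂ V) =
      ∑ ε, mm S ρ ψ γ δ ε ζ := fun γ δ => by
    refine (fr_split (ρ := ρ) hψ (S.add 10) fun t y hy => ?_).trans (Finset.sum_congr rfl fun _ _ => by
      rw [inf_comm (Ew ρ ψ (S.x 11) ζ), inf_assoc, inf_comm (Ew ρ ψ _ ζ)]; rfl)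
    exact ⟨Ew_mv1 ((gt S).he t) hy.1, Ew_mv1 (fun s => ((gt S).ec s t).symm) hy.2.1,
      Ew_mv1 (fun s => ((gt S).ed s t).symm) hy.2.2⟩
  rw [← this, ← this]
  exact pair_eq (two_ne h3) (fun r t => (rels3 S h3 r t).1) (fun r t => (rels3 S h3 r t).2.1)
    (nx2 S 0 7 9 8 (by decide +kernel)) (nx1 S 0 7 8 9 (by decide +kernel))
    (fun r y hy => Ew_mv1 ((gt S).ha r) hy) (fun y hy => Ew_mv1 (gt S).hna hy) h

theorem m_one (h : γ ≠ 0 ∨ δ ≠ 0) (hζ : ζ ≠ 0) : mm S ρ ψ γ δ ε ζ = mm S ρ ψ 0 1 0 1 :=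
  Nat.eq_of_mul_eq_mul_left (Fintype.card_pos (α := F)) (by
    rw [← sum_cst fun ε' => m_b S hζ ε, s2 S hψ h3 h, sum_cst fun ε' => m_b S hζ 0,
      ← sum_cst fun γ' => m_a S h3 one_ne_zero 0, s1 S hψ h3 (.inr hζ), sum_cst fun γ' => m_a S h3 one_ne_zero 0])

theorem m_two (h : δ ≠ 0) (hε : ε ≠ 0) : mm S ρ ψ γ δ ε 0 = mm S ρ ψ 0 1 0 1 :=
  Nat.eq_of_mul_eq_mul_left (Fintype.card_pos (α := F)) (by
    rw [← sum_cst fun γ' => m_a S h3 h γ, s1 S hψ h3 (.inl hε), sum_cst fun γ' => m_one S hψ h3 (.inr h) one_ne_zero])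

theorem s4 (h : γ ≠ 0 ∨ δ ≠ 0) :
    ∑ ε, mm S ρ ψ γ δ ε 0 = (Fintype.card F - 1) * mm S ρ ψ 0 1 0 1 + mm S ρ ψ 0 1 0 0 := by
  rw [s2 S hψ h3 h, sum_eq_of_ne fun ε hε => m_two S hψ h3 one_ne_zero hε]

theorem s5 (h : ε ≠ 0) : ∑ γ, mm S ρ ψ γ 0 ε 0 = (Fintype.card F - 1) * mm S ρ ψ 0 1 0 1 + mm S ρ ψ 0 0 0 1 := by
  rw [s1 S hψ h3 (.inl h), sum_eq_of_ne fun γ hγ => m_one S hψ h3 (.inl hγ) one_ne_zero]

theorem m_four (h : δ ≠ 0) : mm S ρ ψ γ δ 0 0 = mm S ρ ψ 0 1 0 0 := by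
  have := s4 S hψ h3 (ρ := ρ) (γ := γ) (.inr h)
  rw [sum_eq_of_ne fun ε hε => m_two S hψ h3 h hε] at this
  omega

theorem fr_Z : finrank ℂ ((gt S).Z ρ ψ ε ζ) = ∑ δ, ∑ γ, mm S ρ ψ γ δ ε ζ := by
  rw [fr_split hψ (S.add 9) fun s => (gt S).Z_d s]
  exact Finset.sum_congr rfl fun _ _ => by rw [inf_comm, ← n1 S hψ h3]; rfl

theorem dim3 : finrank ℂ V = (Fintype.card F ^ 2 - 1) * ((Fintype.card F - 1) * (Fintype.card F * mm S ρ ψ 0 1 0 1) +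
    ((Fintype.card F - 1) * mm S ρ ψ 0 1 0 1 + mm S ρ ψ 0 0 0 1)) +
    ((Fintype.card F - 1) * (Fintype.card F * mm S ρ ψ 0 1 0 0) + ∑ γ, mm S ρ ψ γ 0 0 0) := by
  rw [(gt S).dim_eq (ρ := ρ) hψ, fr_Z S hψ h3, fr_Z S hψ h3,
    sum_eq_of_ne fun δ hδ => sum_cst fun γ => m_one S hψ h3 (.inr hδ) one_ne_zero,
    sum_eq_of_ne fun γ hγ => m_one S hψ h3 (.inl hγ) one_ne_zero,
    sum_eq_of_ne fun δ hδ => sum_cst fun γ => m_four S hψ h3 hδ]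

theorem m1_pos (h : ρ (S.x 11 1) ≠ 1) {c : F} (c0 : c ≠ 0) (c1 : c ^ 2 ≠ 1) : 1 ≤ mm S ρ ψ 0 1 0 1 := by
  by_contra h0
  have k1 : ∀ {ε ζ}, ζ ≠ 0 → W S ρ ψ 0 0 ε ζ = (gt S).Z ρ ψ ε ζ := fun {ε ζ} hζ =>
    Submodule.eq_of_le_of_finrank_eq inf_le_right (by
      rw [fr_Z S hψ h3, sum_eq_of_ne fun δ hδ => sum_cst fun γ => m_one S hψ h3 (.inr hδ) hζ,
        sum_eq_of_ne fun γ hγ => m_one S hψ h3 (.inl hγ) hζ, show mm S ρ ψ 0 1 0 1 = 0 by omega]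
      simp [mm])
  have k2 : ∀ {ε y}, ε ≠ 0 → y ∈ (gt S).Z ρ ψ ε 1 → y ∈ Ew ρ ψ (S.x 7) 0 := fun {ε y} hε hy =>
    mem_Ew0.2 fun t => (ρ.apply_bijective (S.n 6 1)).1 (by
      rw [← End.mul_apply, ← map_mul, ← nx1 S 1 6 7 8 (by decide +kernel), map_mul]
      exact mem_Ew0.1 ((k1 hε).ge ((gt S).Z_nb y hy)).1.1 t)
  obtain ⟨y, hy, y0⟩ := exists_of_fr_pos (((gt S).Z_pos hψ h).trans ((gt S).Z_eq (.inl c0) (d := 1)).ge)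
  have k3 := k2 (ε := c - 1) (fun e => c1 (by rw [sub_eq_zero.1 e, one_pow])) ((gt S).Z_b 1 (by ring) y hy)
  refine c1 ((congrArg (· ^ 2) (eq_neg_of_add_eq_zero_left (eq_of_addChar hψ (c := c + 1) (d := 0) fun t => ?_))).trans
    neg_one_sq)
  obtain ⟨r, rfl⟩ := cube h3 t
  have := (W_ba S h3 ((k1 one_ne_zero).ge hy) (k2 c0 hy) 1 r).symm.trans (mem_Ew.1 k3 r)
  simpa using smul_left_injective ℂ (rho_ne_zero _ y0) this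

theorem heis (hγ : γ ≠ 0) (hε : ε ≠ 0) (h : 1 ≤ mm S ρ ψ γ 0 ε 0) : Fintype.card F ≤ 3 * mm S ρ ψ γ 0 ε 0 := by
  classical
  obtain ⟨β, y, y0, hy, hb⟩ := exists_Ew hψ (S.add 6) (fun t => W_b S t (by simp)) h
  let P : Polynomial F := Polynomial.C (-ε) * Polynomial.X ^ 3 + Polynomial.C 0 * Polynomial.X ^ 2 +
    Polynomial.C γ * Polynomial.X + Polynomial.C β
  have hP : P.natDegree = 3 := Polynomial.natDegree_cubic (neg_ne_zero.2 hε)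
  have := FiniteField.card_image_polynomial_eval (p := P) (Polynomial.natDegree_pos_iff_degree_pos.1 (by omega))
  rw [hP] at this
  refine this.trans (Nat.mul_le_mul_left _ (card_image_le (ρ := ρ) hψ (x := S.x 6) _ fun c hc => ?_))
  obtain ⟨r, -, rfl⟩ := Finset.mem_image.1 hc
  exact ⟨_, rho_ne_zero _ y0, W_a S h3 r (by simp) y hy, W_ab S h3 hy hb r (by simp [P]; ring)⟩

theorem big (hq : 9 ≤ Fintype.card F) (hγ : γ ≠ 0) (hε : ε ≠ 0) (h : 1 ≤ mm S ρ ψ γ 0 ε 0) :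
    4 * Fintype.card F ≤ 3 * ∑ γ, mm S ρ ψ γ 0 ε 0 := by
  classical
  let P : Polynomial F := Polynomial.C γ * Polynomial.X ^ 2
  have hP : P.natDegree = 2 := Polynomial.natDegree_C_mul_X_pow 2 γ hγ
  have h1 := FiniteField.card_image_polynomial_eval (p := P) (Polynomial.natDegree_pos_iff_degree_pos.1 (by omega))
  have h2 := Finset.pred_card_le_card_erase (s := Finset.univ.image fun x => P.eval x) (a := 0)
  have h4 := Finset.card_nsmul_le_sum ((Finset.univ.image fun x => P.eval x).erase 0)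
    (fun γ => 3 * mm S ρ ψ γ 0 ε 0) _ fun c hc => by
      obtain ⟨r, -, rfl⟩ := Finset.mem_image.1 (Finset.mem_of_mem_erase hc)
      have c0 := Finset.ne_of_mem_erase hc
      have r0 : r ≠ 0 := by rintro rfl; simp [P] at c0
      obtain ⟨g, -, -, -, g1, g2, g3, g4⟩ := tor S (inv_ne_zero r0) (pow_ne_zero 3 r0)
      exact heis S hψ h3 c0 hε (h.trans (fr_le g fun y hy => ⟨⟨Ew_mv g1 hy.1.1 (by
          simp only [P, Polynomial.eval_mul, Polynomial.eval_C, Polynomial.eval_pow, Polynomial.eval_X]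
          field_simp),
        Ew_mv g2 hy.1.2 (by simp)⟩, Ew_mv g3 hy.2.1 (by field_simp), Ew_mv g4 hy.2.2 (by simp)⟩))
  rw [smul_eq_mul, ← Finset.mul_sum] at h4
  rw [hP] at h1
  exact (Nat.mul_le_mul_right _ (by omega)).trans (h4.trans (Nat.mul_le_mul_left _
    (Finset.sum_le_sum_of_subset (Finset.subset_univ _))))

section Small

variable (h1 : 1 ≤ mm S ρ ψ 0 1 0 1) (h0 : ∀ γ ε, γ ≠ 0 → ε ≠ 0 → mm S ρ ψ γ 0 ε 0 = 0)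
include h1 h0

theorem m4_pos : 1 ≤ mm S ρ ψ 0 1 0 0 := by
  obtain ⟨β, y, y0, hy, hb⟩ := exists_Ew hψ (S.add 6) (fun t => W_b S t (by simp))
    (h1.trans (m_two S hψ h3 (γ := 0) one_ne_zero one_ne_zero).ge)
  obtain rfl : β = 0 := by
    by_contra hβ
    exact (h0 _ _ (by simp) hβ).not_gt (fr_pos (W_na S hy hb).1 (rho_ne_zero _ y0))
  exact (fr_pos (W_na S (W_a S h3 1 rfl y hy) (W_ab S h3 hy hb 1 (β' := 0) (by simp))).1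
    (rho_ne_zero _ (rho_ne_zero _ y0))).trans (m_four S hψ h3 (by simpa using two_ne h3)).le

theorem m5_pos : 1 ≤ mm S ρ ψ 0 0 0 1 := by
  obtain ⟨γ, hγ⟩ : ∃ γ, ∀ r : F, ψ (-r ^ 3) = ψ (γ * r) := by
    haveI : CharP F 3 := (CharP.charP_iff_prime_eq_zero Nat.prime_three).2 (by exact_mod_cast h3)
    exact exists_eq_addChar hψ _ (by simp) fun s t => by rw [add_pow_char, neg_add, AddChar.map_add_eq_mul]
  have γ0 : γ ≠ 0 := by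
    rintro rfl
    refine hψ (AddChar.ext _ _ fun t => ?_)
    obtain ⟨r, hr⟩ := cube h3 (-t)
    simpa [hr] using hγ r
  obtain ⟨α, y, y0, hy, ha⟩ := exists_Ew hψ (S.add 7) (fun t => W_a S h3 t (by simp))
    (h1.trans (m_one S hψ h3 (δ := 0) (ε := 0) (ζ := -1) (.inl γ0) (by simp)).ge)
  obtain rfl : α = 0 := by
    by_contra hα
    exact (h0 _ _ hα (by simp)).not_gt (fr_pos (W_nb S hy ha).1 (rho_ne_zero _ y0))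
  have := fr_pos (W_nb S (W_b S 1 (ε' := 1) (by simp) y hy) (mem_Ew0.2 fun r => (W_ba S h3 hy ha 1 r).trans (by
    rw [AddChar.map_add_eq_mul]
    simp [hγ, ← AddChar.map_add_eq_mul]))).1 (rho_ne_zero _ (rho_ne_zero _ y0))
  exact this.trans (m_b S one_ne_zero 0).le

theorem m4' (hγ : γ ≠ 0) : Fintype.card F ≤ mm S ρ ψ γ 0 0 0 := by
  have h2 := s4 S hψ h3 (ρ := ρ) (δ := 0) (.inl hγ)
  rw [sum_eq_of_ne fun ε hε => h0 γ ε hγ hε] at h2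
  have := m4_pos S hψ h3 h1 h0
  have := Nat.mul_le_mul_left (Fintype.card F - 1) h1
  omega

theorem m6 (hq : 3 ≤ Fintype.card F) : 2 * (Fintype.card F - 1) ≤ mm S ρ ψ 0 0 0 0 := by
  have ka : ∀ α, α ≠ 0 → 1 ≤ finrank ℂ (W S ρ ψ 0 0 0 0 ⊓ Ew ρ ψ (S.x 7) α : Submodule ℂ V) := fun α hα => by
    obtain ⟨a, y, y0, hy, ha⟩ := exists_Ew hψ (S.add 7) (fun t => W_a S h3 t (by simp))
      (Fintype.card_pos.trans_le (m4' S hψ h3 h1 h0 (neg_ne_zero.2 hα)))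
    simpa using fr_pos (W := _ ⊓ _) (W_nb S (W_b S (a / -α) (ε' := 0) (by simp) y hy) (mem_Ew0.2 fun r =>
      (W_ba S h3 hy ha _ r).trans (by simp [mul_div_cancel₀ _ (neg_ne_zero.2 hα)])))
        (rho_ne_zero _ (rho_ne_zero _ y0))
  have kb : ∀ β, β ≠ 0 → 1 ≤ finrank ℂ (W S ρ ψ 0 0 0 0 ⊓ Ew ρ ψ (S.x 6) β : Submodule ℂ V) := fun β hβ => by
    have h2 := s5 S hψ h3 (ρ := ρ) (neg_ne_zero.2 hβ)
    rw [sum_eq_of_ne fun γ hγ => h0 γ _ hγ (neg_ne_zero.2 hβ)] at h2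
    obtain ⟨b, y, y0, hy, hb⟩ := exists_Ew hψ (S.add 6) (W := W S ρ ψ 0 0 (-β) 0) (fun t => W_b S t (by simp))
      (by have := m5_pos S hψ h3 h1 h0; rw [mm] at h2; omega)
    obtain ⟨r, hr⟩ := cube h3 (b / -β)
    simpa using fr_pos (W := _ ⊓ _) (W_na S (W_a S h3 r (γ' := 0) (by simp) y hy) (W_ab S h3 hy hb r (β' := 0) (by
      simp [hr, mul_div_cancel₀ _ (neg_ne_zero.2 hβ)]))) (rho_ne_zero _ (rho_ne_zero _ y0))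
  have kc : ∀ α n, (∀ β, β ≠ 0 → ∃ y, y ≠ 0 ∧ y ∈ W S ρ ψ 0 0 0 0 ⊓ Ew ρ ψ (S.x 7) α ∧ y ∈ Ew ρ ψ (S.x 6) β) →
      n ≤ Fintype.card F - 1 → n ≤ finrank ℂ (W S ρ ψ 0 0 0 0 ⊓ Ew ρ ψ (S.x 7) α : Submodule ℂ V) :=
    fun α n h hn => by
      classical
      refine hn.trans (le_trans ?_ (card_image_le hψ (Finset.univ.erase 0) fun β hβ => h β (Finset.ne_of_mem_erase hβ)))
      rw [Finset.card_erase_of_mem (Finset.mem_univ _), Finset.card_univ]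
  rw [mm, fr_split hψ (S.add 7) fun t => W_a S h3 t (by simp)]
  by_cases h : ∃ α β y, α ≠ 0 ∧ β ≠ 0 ∧ y ≠ 0 ∧ y ∈ W S ρ ψ 0 0 0 0 ∧ y ∈ Ew ρ ψ (S.x 7) α ∧ y ∈ Ew ρ ψ (S.x 6) β
  · obtain ⟨α, β, y, α0, β0, y0, hy, ha, hb⟩ := h
    refine le_trans ?_ (le_sum_of_ne (n := 2) fun α' hα => kc α' 2 (fun β' hβ => ?_) (by omega))
    · omega
    obtain ⟨g, -, g1, g2, g3, g4, g5, g6⟩ := tor S (div_ne_zero hα α0) (div_ne_zero hβ β0)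
    exact ⟨_, rho_ne_zero g y0, ⟨⟨⟨Ew_mv g3 hy.1.1 (by simp), Ew_mv g4 hy.1.2 (by simp)⟩, Ew_mv g5 hy.2.1 (by simp),
      Ew_mv g6 hy.2.2 (by simp)⟩, Ew_mv g1 ha (by field_simp)⟩, Ew_mv g2 hb (by field_simp)⟩
  · refine le_trans ?_ (le_sum_of_ne ka)
    have := kc 0 _ (fun β hβ => ?_) le_rfl
    · omega
    obtain ⟨α, y, y0, hy, ha⟩ := exists_Ew hψ (S.add 7) (W := W S ρ ψ 0 0 0 0 ⊓ Ew ρ ψ (S.x 6) β)
      (fun t y hy => ⟨W_a S h3 t (by simp) y hy.1, W_ab S h3 hy.1 hy.2 t (by simp)⟩) (kb β hβ)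
    obtain rfl : α = 0 := by_contra fun hα => h ⟨α, β, y, hα, hβ, y0, hy.1, ha, hy.2⟩
    exact ⟨y, y0, ⟨hy.1, ha⟩, hy.2⟩

end Small

theorem dim3_ge (hq : 9 ≤ Fintype.card F) (h : ρ (S.x 11 1) ≠ 1) :
    Fintype.card F ^ 4 + Fintype.card F ^ 2 ≤ finrank ℂ V + 2 := by
  obtain ⟨c, c0, c1⟩ := exists_pow_ne_one_of_card (K := F) two_pos ⟨Finset.univ, by rw [Finset.card_univ]; omega⟩
  have h1 := m1_pos S hψ h3 h c0 c1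
  rw [dim3 S hψ h3 (ρ := ρ)]
  obtain ⟨n, hn⟩ : ∃ n, Fintype.card F = n + 1 := Nat.exists_eq_add_of_le' Fintype.card_pos
  have e : Fintype.card F ^ 2 - 1 = n * (n + 2) := Nat.sub_eq_of_eq_add (by rw [hn]; ring)
  by_cases h0 : ∀ γ ε, γ ≠ 0 → ε ≠ 0 → mm S ρ ψ γ 0 ε 0 = 0
  · have k1 := m4_pos S hψ h3 h1 h0
    have k2 := m5_pos S hψ h3 h1 h0
    have k3 := m6 S hψ h3 h1 h0 (by omega)
    have k4 := le_sum_of_ne fun γ hγ => m4' S hψ h3 h1 h0 hγ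
    rw [e]
    simp only [hn, Nat.add_sub_cancel] at k3 k4 ⊢
    nlinarith [Nat.mul_le_mul_left (n * (n + 2) * (n * (n + 2))) h1, Nat.mul_le_mul_left (n * (n + 2)) k2,
      Nat.mul_le_mul_left (n * (n + 1)) k1]
  push Not at h0
  obtain ⟨γ, ε, γ0, ε0, h0⟩ := h0
  have k1 := big S hψ h3 hq γ0 ε0 (Nat.one_le_iff_ne_zero.2 h0)
  rw [s5 S hψ h3 ε0] at k1
  rw [e]
  simp only [hn, Nat.add_sub_cancel] at k1 hq ⊢
  rcases h1.eq_or_lt with h1 | h1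
  · rw [← h1] at k1 ⊢
    nlinarith [Nat.mul_le_mul_left (n * (n + 2)) (show 4 ≤ mm S ρ ψ 0 0 0 1 by omega), Nat.zero_le
      (n * ((n + 1) * mm S ρ ψ 0 1 0 0) + ∑ γ, mm S ρ ψ γ 0 0 0)]
  · have h8 : 8 ≤ n := by omega
    nlinarith [Nat.mul_le_mul_left (n * (n + 2) * (n * (n + 2))) h1, Nat.mul_le_mul h8 h8, Nat.zero_le
      (n * ((n + 1) * mm S ρ ψ 0 1 0 0) + ∑ γ, mm S ρ ψ γ 0 0 0), Nat.zero_le (n * (n + 2) * mm S ρ ψ 0 0 0 1),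
      Nat.mul_le_mul_left (n * n) (Nat.mul_le_mul h8 h8)]

end DG

end Cfsg.Agent.H17
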