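import Mathlib
import Cfsg.Agent.H15.Ly.G
import Cfsg.Agent.H27.Schur4
import Cfsg.Agent.S2047
import Cfsg.Agent.S2100
import Cfsg.Agent.S0892
import Cfsg.Agent.S0102
import Cfsg.Agent.S3962

/-! The Schur multiplier of the Lyons group from three subgroups. -/

set_option autoImplicit false
set_option maxRecDepth 100000

namespace Cfsg.Agent.H17.LyM

open Cfsg Subgroup
open scoped commutatorElement

section gen
variable {G : Type} [Group G] [Finite G]

omit [Finite G] in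
theorem stem_perfect {Γ : Type*} [Group Γ] {τ : Γ →* G} (hτ : IsStemExtension τ) (hG : commutator G = ⊤) :
    commutator Γ = ⊤ := by
  rw [eq_top_iff]
  intro x _
  have h1 : (commutator Γ).map τ = commutator G := by
    rw [map_commutator_eq, MonoidHom.range_eq_top.2 hτ.1]; rfl
  obtain ⟨y, hy, hxy⟩ : τ x ∈ (commutator Γ).map τ := by rw [h1, hG]; trivial
  have h3 : y⁻¹ * x ∈ τ.ker := by simp [MonoidHom.mem_ker, hxy]
  simpa using mul_mem hy (hτ.2.2 h3)

theorem triv_of_cover {Q : Type} [Group Q] {f : G →* Q} (hf : IsStemExtension f) (hQ : commutator Q = ⊤)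
    (h : ∀ (Γ : Type) [Group Γ] [Finite Γ] (σ : Γ →* Q), IsStemExtension σ → Nat.card σ.ker ≤ Nat.card f.ker) :
    HasCyclicSchurMultiplier G 1 := by
  rw [H27.trivial_mult_iff]
  intro Γ _ _ τ hτ
  have hΓ := stem_perfect hτ (stem_perfect hf hQ)
  have hc := S3962.result (Group.isPerfect_def.2 hΓ) τ hτ.1 hτ.2.1
  have hk : (f.comp τ).ker ≤ center Γ := by
    intro x hx
    have h1 : τ x ∈ center G := hf.2.1 hx
    rw [← hc] at h1
    obtain ⟨y, hy, hxy⟩ := h1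
    have h3 : y⁻¹ * x ∈ τ.ker := by simp [MonoidHom.mem_ker, hxy]
    simpa using mul_mem hy (hτ.2.1 h3)
  have h1 := h Γ _ ⟨hf.1.comp hτ.1, hk, hΓ ▸ le_top⟩
  have h2 := (f.comp τ).ker.card_mul_index
  have h3 := τ.ker.card_mul_index
  have h4 := f.ker.card_mul_index
  rw [index_ker, (MonoidHom.range_eq_top (f := f.comp τ)).2 (hf.1.comp hτ.1), card_top] at h2
  rw [index_ker, MonoidHom.range_eq_top.2 hτ.1, card_top] at h3
  rw [index_ker, MonoidHom.range_eq_top.2 hf.1, card_top] at h4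
  have h5 : 0 < Nat.card G := Nat.card_pos
  rw [← card_le_one_iff_eq_bot]
  refine Nat.le_of_mul_le_mul_right ?_ h5
  rw [h3, one_mul, ← h2, ← h4]
  exact Nat.mul_le_mul_right _ h1

omit [Finite G] in
theorem not_dvd_of_sub {Γ : Type*} [Group Γ] [Finite Γ] {σ : Γ →* G} (hσ : IsStemExtension σ) {H : Subgroup G}
    (hH : HasCyclicSchurMultiplier H 1) {p : ℕ} [Fact p.Prime] (hp : ¬ p ∣ H.index) : ¬ p ∣ Nat.card σ.ker := by
  intro hd
  obtain ⟨w, hw⟩ := exists_prime_orderOf_dvd_card' p hd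
  rw [← orderOf_coe] at hw
  have h1 := H27.central_pow_index_mem_commutator (H.comap σ) (hσ.2.1 w.2) (hσ.2.2 w.2)
  rw [index_comap_of_surjective _ hσ.1, ← map_subtype_commutator] at h1
  obtain ⟨y, hy, e⟩ := h1
  have h2 := H27.mult_eq_bot_of_trivial hH (ξ := σ.subgroupComap H)
    ⟨σ.subgroupComap_surjective_of_surjective H hσ.1, fun x hx => mem_center_iff.2 fun y => Subtype.ext
      (mem_center_iff.1 (hσ.2.1 (congrArg Subtype.val hx)) y)⟩
  have h3 : y ∈ H27.mult (σ.subgroupComap H) := ⟨Subtype.ext (by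
    show σ y = 1
    rw [show (y : Γ) = _ from e, map_pow, show σ w = 1 from w.2, one_pow]), hy⟩
  rw [h2, mem_bot] at h3
  rw [h3, map_one] at e
  exact hp (hw ▸ orderOf_dvd_of_pow_eq_one e.symm)

theorem not_dvd_of_range {T : Type} [Group T] {ψ : G →* T} (hψ : Function.Injective ψ) {K : Subgroup T}
    (hK : K ≤ ψ.range) (h : HasCyclicSchurMultiplier K 1) {p : ℕ} [Fact p.Prime] {m : ℕ}
    (hm : Nat.card G = Nat.card K * m) (hp : ¬ p ∣ m) {Γ : Type*} [Group Γ] [Finite Γ] {σ : Γ →* G}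
    (hσ : IsStemExtension σ) : ¬ p ∣ Nat.card σ.ker := by
  have e : K.comap ψ ≃* K := ((K.comap ψ).equivMapOfInjective ψ hψ).trans
    (MulEquiv.subgroupCongr (map_comap_eq_self hK))
  refine not_dvd_of_sub hσ (H27.hasSchurMultiplier_of_mulEquiv h e.symm) ?_
  have h1 := (K.comap ψ).card_mul_index
  rw [hm, ← Nat.card_congr e.toEquiv] at h1
  rwa [Nat.eq_of_mul_eq_mul_left Nat.card_pos h1]

omit [Finite G] in
theorem stem_of {Q : Type} [Group Q] {z u v : G} (h : z ∈ center G ∧ ∃ f : G →* Q, Function.Surjective f ∧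
    f.ker = zpowers z) (e : u * v = z * (v * u)) : ∃ f : G →* Q, IsStemExtension f ∧ Nat.card f.ker = orderOf z := by
  obtain ⟨a, f, b, c⟩ := h
  refine ⟨f, ⟨b, c ▸ zpowers_le.2 a, c ▸ zpowers_le.2 ?_⟩, by rw [c, Nat.card_zpowers]⟩
  have : z = ⁅u, v⁆ := by rw [commutatorElement_def, e]; group
  exact this ▸ commutator_mem_commutator (mem_top _) (mem_top _)

theorem perfect_of_simple [IsSimpleGroup G] (h : ¬ (Nat.card G).Prime) : commutator G = ⊤ := by
  refine (IsSimpleGroup.eq_bot_or_eq_top_of_normal _ inferInstance).resolve_left fun e => ?_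
  have h1 := H15.center_eq_bot_of_simple h
  rw [(commutator_eq_bot_iff_center_eq_top G).1 e] at h1
  exact top_ne_bot h1

end gen

open Cfsg.Agent.H15 Cfsg.Agent.H14

def W : List (List ℕ) := [[1, 0, 0, 6, 4, 3, 1, 3, 4, 6, 1, 6, 4, 3, 1, 3, 4, 6, 3, 1, 3, 0, 6, 3, 4, 5, 4, 3, 6, 4, 1, 4, 3], [0, 1, 0, 3, 4, 6, 4, 1, 4, 6, 4, 0, 1, 6, 3, 4, 1, 3, 0, 5, 4, 3, 1, 4, 1, 6], [0, 6, 4, 3, 1, 3, 4, 6, 0, 0, 1, 0, 6, 4, 3, 1, 3, 4, 6, 3, 1, 4, 6, 4, 1, 0, 3, 1, 0, 6, 3, 4, 1, 0, 6, 5, 4, 3, 1, 4, 1, 6, 3, 4], [0, 0, 1, 6, 4, 3, 1, 3, 4, 6, 1, 6, 4, 3, 1, 3, 4, 6, 0, 0, 3, 1, 0, 4, 6, 4, 1, 0, 4, 3, 6, 4, 1, 3, 0, 1, 5, 4, 3, 1, 4, 5], [0, 6, 4, 3, 1, 3, 4, 6, 1, 4, 6, 4, 6, 3, 4, 1, 6, 3, 4, 1, 5, 4, 3, 1, 4, 1, 6, 4, 3], [0, 0, 3, 4, 6, 4, 3, 1, 4, 6, 4, 6, 3, 4, 1, 3, 0, 6, 4, 5, 4, 3, 1, 0, 4, 6, 3], [0, 0, 6, 4, 3, 1, 3, 4, 6, 0, 0, 3, 1, 0, 3, 6, 3, 4, 1, 0, 3, 1, 6], [0, 0, 1, 0, 0, 6, 4, 3, 1, 3, 4, 6, 4, 6, 4,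 6, 3, 4, 1, 0, 3, 1, 0, 5, 4, 3, 1, 6, 0]]

noncomputable def E' (l : ℕ) : H25.McM.G0 := lprod H25.McM.g (nthW W l)

theorem sat' : Sat E' (invT McP.pT 8) McP.pB := by
  refine ⟨fun l => ?_, fun p hp => ?_⟩
  · by_cases h : l < 8
    · have := allLt_iff.1 (show allLt 8 (fun l => H25.McM.chk (appL (nthW W l) (nthW W (invT McP.pT 8 l)))) = true
        by decide +kernel) l h
      exact eq_inv_of_mul_eq_one_right ((lprod_appL _ _).symm.trans (H25.McM.hchk _ this))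
    · rw [invT_of_le (not_lt.1 h), E', nthW_of_le (not_lt.1 h), lprod_nil, inv_one]
  · have := allL_iff.1 (show allL McP.pB (fun p => H25.McM.chk (subst (nthW W) (repL p.1 p.2))) = true
      by decide +kernel) p hp
    rw [← lprod_repL]
    exact (lprod_subst _ _).symm.trans (H25.McM.hchk _ this)

theorem mcIso : Nonempty (H25.McM.G0 ≃* McP.S) := by
  have := McP.simple
  obtain ⟨ψ, hψ⟩ := exists_hom_of_card (McP.bnd _ _ (McP.satS.prod sat')) McP.topS
  have h := inj_simple ψ (a := McP.A.e 0) (by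
    rw [hψ 0 (by norm_num)]
    intro e
    obtain ⟨a, b⟩ := H25.McM.hAM.tr (w := nthW W 0) (H25.PT.small_sound _ (by decide +kernel)) 1 (by decide)
    rw [show H25.ev H25.McM.g (nthW W 0) = 1 from e, inv_one, one_smul] at b
    exact absurd (H25.McM.hinj _ (by decide) _ a b) (by decide +kernel))
  exact ⟨(MulEquiv.ofBijective ψ (h.bijective_of_nat_card_le (by rw [McP.card, H25.McM.hcard]))).symm⟩

open Cfsg.Agent.H15.Ly

theorem mcT : HasCyclicSchurMultiplier (cl mcA.e mcA.L) 1 := by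
  have := McP.simple
  obtain ⟨f, h1, h2⟩ := stem_of (u := lprod mcA.own.e [0, 5, 6, 5]) (v := lprod mcA.own.e [6, 0, 6]) mc (by
    simp only [← lprod_append]
    exact (mcb.sub _ _ _ _).eq (show eqOn (fun x l => tr MM.ap (nthW mcs l) x) 8 MM.bs _ _ = true by decide +kernel))
  refine triv_of_cover h1 (perfect_of_simple (by rw [McP.card]; norm_num)) fun Γ _ _ σ hσ => ?_
  obtain ⟨π, hπ⟩ := H27.schur_onto_ker (H27.hasSchurMultiplier_of_mulEquiv S2047.result mcIso.some) hσ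
  rw [h2, mco.1]
  simpa using Nat.card_le_card_of_surjective π hπ

theorem alT : HasCyclicSchurMultiplier (cl alA.e alA.L) 1 := by
  have := (center_alt (n := 11) (by norm_num)).1
  obtain ⟨f, h1, h2⟩ := stem_of (u := lprod alA.own.e [0, 2]) (v := lprod alA.own.e [2, 0]) al (by
    simp only [← lprod_append]
    exact (alb.sub _ _ _ _).eq (show eqOn (fun x l => tr MM.ap (nthW als l) x) 18 MM.bs _ _ = true by decide +kernel))
  refine triv_of_cover h1 (perfect_of_simple (by rw [Alt11.card]; norm_num)) fun Γ _ _ σ hσ => ?_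
  rw [h2, alo.1]
  exact S0892.result 11 (by norm_num) (by norm_num) (by norm_num) σ.ker hσ.2.1 hσ.2.2
    (QuotientGroup.quotientKerEquivOfSurjective σ hσ.1)

theorem g2T : HasCyclicSchurMultiplier φ.range 1 :=
  H27.hasSchurMultiplier_of_mulEquiv (S2100.result (F := ZMod M14.p) (ZMod.card M14.p).ge)
    (iso.some.symm.trans (MonoidHom.ofInjective Ly.fin.2.2.2.2.1))

theorem main : HasCyclicSchurMultiplier Ly.G 1 := by
  have := Ly.simple
  have hc : Nat.card Ly.G = 8835156 * 5859000000 := Ly.fin.2.1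
  rw [H27.trivial_mult_iff]
  intro Γ _ _ σ hσ
  rw [← card_eq_one]
  by_contra h
  obtain ⟨p, hp, hd⟩ := Nat.exists_prime_and_dvd h
  have := Fact.mk hp
  have hG := perfect_of_simple (G := Ly.G) (by rw [hc]; norm_num)
  by_cases h2 : p = 2
  · exact not_dvd_of_range ψ_inj Ly.all alT (m := 1296826875) (by rw [hc, alN]) (by rw [h2]; norm_num) hσ hd
  by_cases h3 : p = 3
  · exact not_dvd_of_range ψ_inj mcl mcT (m := 19212250) (by rw [hc, mcN]) (by rw [h3]; norm_num) hσ hd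
  by_cases h5 : p = 5
  · exact not_dvd_of_sub hσ g2T (by rw [h5, Ly.fin.2.2.1]; norm_num) hd
  refine S0102.result hG (fun P => ?_) σ hσ.1 hσ.2.1 (stem_perfect hσ hG) hd
  obtain ⟨k, hk⟩ := P.isPGroup'.exists_card_eq
  have h6 : p ^ k ∣ (2 ^ 8 * 3 ^ 7 * 5 ^ 6) * (7 * 11 * 31 * 37 * 67) :=
    hk ▸ (card_subgroup_dvd_card _).trans (by rw [hc]; norm_num)
  have h7 : Nat.Coprime p (2 ^ 8 * 3 ^ 7 * 5 ^ 6) :=
    (((Nat.coprime_primes hp Nat.prime_two).2 h2).pow_right _ |>.mul_right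
      (((Nat.coprime_primes hp Nat.prime_three).2 h3).pow_right _)).mul_right
      (((Nat.coprime_primes hp Nat.prime_five).2 h5).pow_right _)
  have h8 := (h7.pow_left k).dvd_of_dvd_mul_left h6
  have h9 : Squarefree (7 * 11 * 31 * 37 * 67) := by
    simp only [Nat.squarefree_mul_iff]
    refine ⟨by norm_num, ⟨by norm_num, ⟨by norm_num, ⟨by norm_num, ?_, ?_⟩, ?_⟩, ?_⟩, ?_⟩ <;>
      exact (Nat.prime_iff.1 (by norm_num)).squarefree
  rcases (h9.squarefree_of_dvd h8).eq_zero_or_one_of_pow_of_not_isUnit (Nat.isUnit_iff.not.2 hp.ne_one) with e | e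
  · rw [e, pow_zero, Nat.card_eq_one_iff_unique] at hk
    have := hk.1
    infer_instance
  · exact isCyclic_of_prime_card (p := p) (by rw [hk, e, pow_one])

end Cfsg.Agent.H17.LyM
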