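import Mathlib
import Cfsg.Agent.H11.LS6
import Cfsg.Agent.H11.Omega
import Cfsg.Agent.H11.OrthOrder

/-!
# Weight projections for the groups of Eichler transformations in `Ω(U, Q)`
-/

set_option autoImplicit false

namespace Cfsg.Agent.H17.Om

open Module Cfsg.Agent.H11

variable {F : Type*} [Field F] {U : Type*} [AddCommGroup U] [Module F U]
  {B : U →ₗ[F] U →ₗ[F] F} {Q : U → F}

/-- The standing hypotheses on the quadratic space. -/
structure OC (B : U →ₗ[F] U →ₗ[F] F) (Q : U → F) : Prop where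
  h : IsQuad B Q
  sep : B.SeparatingLeft
  ex : NonExc B Q

/-- The group `Ω`. -/
abbrev Gp (B : U →ₗ[F] U →ₗ[F] F) (Q : U → F) : Subgroup (Isom B Q) := commutator (Isom B Q)

/-- The action on the natural module. -/
def act : Gp B Q →* (U ≃ₗ[F] U) := (Isom B Q).subtype.comp (Gp B Q).subtype

theorem act_B (g : Gp B Q) (x y : U) : B (act g x) (act g y) = B x y := g.1.2.1 x y

theorem act_Q (g : Gp B Q) (x : U) : Q (act g x) = Q x := g.1.2.2 x

theorem act_ext {g g' : Gp B Q} (h : ∀ v, act g v = act g' v) : g = g' :=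
  Subtype.ext (Subtype.ext (LinearEquiv.ext h))

theorem act_mul (g g' : Gp B Q) (v : U) : act (g * g') v = act g (act g' v) := rfl

theorem act_one (v : U) : act (1 : Gp B Q) v = v := rfl

theorem act_inv_act (g : Gp B Q) (v : U) : act g⁻¹ (act g v) = v := by
  rw [← act_mul, inv_mul_cancel, act_one]

theorem act_act_inv (g : Gp B Q) (v : U) : act g (act g⁻¹ v) = v := by
  rw [← act_mul, mul_inv_cancel, act_one]

theorem act_inv_of {g : Gp B Q} {v w : U} (h : act g v = w) : act g⁻¹ w = v := by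
  rw [← h, act_inv_act]

variable [Fintype F] [Fintype U]

instance (priority := 50) finDim : FiniteDimensional F U := Module.Finite.of_finite

open Classical in
/-- Eichler transformations, as a total function. -/
noncomputable def ei (c : OC B Q) (x w : U) : Gp B Q :=
  if h : Q x = 0 ∧ B x w = 0 then ⟨c.h.eich h.1 h.2, c.h.eich_mem_commutator c.sep c.ex h.1 h.2⟩
  else 1

variable (c : OC B Q)

theorem ei_apply {x w : U} (hx : Q x = 0) (hw : B x w = 0) (v : U) :
    act (ei c x w) v = v + B w v • x - B x v • w - (Q w * B x v) • x := by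
  rw [ei, dif_pos ⟨hx, hw⟩]
  rfl

theorem ei_conj (g : Gp B Q) (x w : U) : g * ei c x w = ei c (act g x) (act g w) * g := by
  by_cases h : Q x = 0 ∧ B x w = 0
  · refine act_ext fun v => ?_
    rw [act_mul, act_mul, ei_apply c h.1 h.2,
      ei_apply c (by rw [act_Q g, h.1]) (by rw [act_B, h.2])]
    simp only [map_sub, map_add, map_smul, act_B, act_Q g]
  · rw [ei, dif_neg h, ei, dif_neg (by rwa [act_B, act_Q g]), mul_one, one_mul]

theorem ei_add {x w w' : U} (hx : Q x = 0) (hw : B x w = 0) (hw' : B x w' = 0) :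
    ei c x (w + w') = ei c x w * ei c x w' := by
  refine act_ext fun v => ?_
  rw [act_mul, ei_apply c hx hw, ei_apply c hx hw', ei_apply c hx (by simp [hw, hw'])]
  simp only [map_add, map_sub, map_smul, smul_eq_mul, c.h.diag_zero hx, hw', c.h.refl hw,
    c.h.add', LinearMap.add_apply]
  module

theorem ei_smul {x w : U} (hx : Q x = 0) (hw : B x w = 0) (a : F) :
    ei c (a • x) w = ei c x (a • w) := by
  refine act_ext fun v => ?_
  rw [ei_apply c hx (by simp [hw]), ei_apply c (by simp [c.h.smul', hx]) (by simp [hw])]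
  simp only [c.h.smul', map_smul, LinearMap.smul_apply, smul_eq_mul]
  module

theorem ei_self {x : U} (hx : Q x = 0) (a : F) : ei c x (a • x) = 1 := by
  refine act_ext fun v => ?_
  rw [ei_apply c hx (by simp [c.h.diag_zero hx]), act_one]
  simp only [c.h.smul', map_smul, LinearMap.smul_apply, smul_eq_mul, hx]
  module

theorem ei_zero {x : U} (hx : Q x = 0) : ei c x 0 = 1 := by
  simpa using ei_self c hx 0

theorem ei_swap {x y : U} (hx : Q x = 0) (hy : Q y = 0) (hxy : B x y = 0) (a : F) :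
    ei c y (a • x) = ei c x ((-a) • y) := by
  refine act_ext fun v => ?_
  rw [ei_apply c hx (by simp [hxy]), ei_apply c hy (by simp [c.h.refl hxy])]
  simp only [c.h.smul', map_smul, LinearMap.smul_apply, smul_eq_mul, hx, hy]
  module

theorem ei_comb {x y w : U} (hx : Q x = 0) (hy : Q y = 0) (hxy : B x y = 0) (hxw : B x w = 0)
    (hyw : B y w = 0) (a b : F) :
    ei c (a • x + b • y) w = ei c x (a • w) * ei c y (b • w) * ei c x ((a * b * Q w) • y) := by
  refine act_ext fun v => ?_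
  rw [act_mul, act_mul, ei_apply c hx (w := a • w) (by simp [hxw]),
    ei_apply c hy (w := b • w) (by simp [hyw]), ei_apply c hx (by simp [hxy]),
    ei_apply c (by simp [c.h.add', c.h.smul', hx, hy, hxy]) (by simp [hxw, hyw])]
  simp only [c.h.smul', map_smul, map_add, map_sub, LinearMap.smul_apply, LinearMap.add_apply,
    smul_eq_mul, hx, hy, hxy, hxw, hyw, c.h.refl hxy, c.h.refl hxw, c.h.refl hyw, c.h.diag',
    c.h.diag_zero hx, c.h.diag_zero hy]
  module

theorem ei_det {x y : U} (hx : Q x = 0) (hy : Q y = 0) (hxy : B x y = 0) (a b a' b' : F) :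
    ei c (a • x + b • y) (a' • x + b' • y) = ei c x ((a * b' - a' * b) • y) := by
  refine act_ext fun v => ?_
  rw [ei_apply c hx (by simp [hxy]), ei_apply c (by simp [c.h.add', c.h.smul', hx, hy, hxy])
    (by simp [hxy, c.h.refl hxy, c.h.diag_zero hx, c.h.diag_zero hy])]
  simp only [c.h.smul', c.h.add', map_smul, map_add, map_sub, LinearMap.smul_apply,
    LinearMap.add_apply, smul_eq_mul, hx, hy, hxy]
  module

include c in
theorem witt_om {ι : Type*} (v w : ι → U) (hv : LinearIndependent F v)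
    (hw : LinearIndependent F w) (hB : ∀ i j, B (w i) (w j) = B (v i) (v j))
    (hQ : ∀ i, Q (w i) = Q (v i)) {Z : Submodule F U} (hZ : NondegOn B Z) (h2 : 2 ≤ finrank F Z)
    (hZv : ∀ z ∈ Z, ∀ i, B z (v i) = 0) : ∃ g : Gp B Q, ∀ i, act g (v i) = w i := by
  obtain ⟨g, hg, h1⟩ := c.h.witt_family c.sep v w hv hw hB hQ
  let S : Subgroup (Isom B Q) :=
    { carrier := {s | ∀ i, s.1 (v i) = v i}
      one_mem' := fun _ => rfl
      mul_mem' := fun {a b} ha hb i => by
        rw [Subgroup.coe_mul, LinearEquiv.mul_apply, hb i, ha i]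
      inv_mem' := fun {a} ha i => by
        change a.1.symm _ = _
        rw [LinearEquiv.symm_apply_eq, ha i] }
  obtain ⟨s, hs, h3⟩ := c.h.exists_mul_mem_of_nondeg c.sep c.ex hZ h2 S
    (fun z hz _ i => c.h.reflO_of_perp (hZv z hz i)) ⟨g, hg⟩
  refine ⟨⟨_, h3⟩, fun i => ?_⟩
  change g (s.1 (v i)) = _
  rw [hs i, h1 i]

open Classical in
/-- A subspace as a finite set. -/
noncomputable def fs (Z : Submodule F U) : Finset U := Finset.univ.filter (· ∈ Z)

@[simp] theorem mem_fs {Z : Submodule F U} {w : U} : w ∈ fs Z ↔ w ∈ Z := by simp [fs]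

theorem card_fs (Z : Submodule F U) : (fs Z).card = Fintype.card F ^ finrank F Z := by
  classical
  rw [← Module.card_eq_pow_finrank (K := F) (V := Z), fs, Fintype.card_subtype]

theorem card_fs_ne (Z : Submodule F U) : ((fs Z).card : ℂ) ≠ 0 :=
  Nat.cast_ne_zero.mpr (Finset.card_ne_zero.mpr ⟨0, by simp⟩)

theorem sum_char {ψ : AddChar F ℂ} (hψ : ψ ≠ 1) {Z : Submodule F U} (f : U →ₗ[F] F) {w : U}
    (hw : w ∈ Z) (h0 : f w ≠ 0) : ∑ w ∈ fs Z, ψ (f w) = 0 := by
  classical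
  have := sum_addChar_eq_zero hψ (f ∘ₗ Z.subtype) (w := ⟨w, hw⟩) h0
  rw [← this]
  exact Finset.sum_subtype _ (fun _ => mem_fs) fun w => ψ (f w)

/-- `x` is singular and perpendicular to `Z`. -/
def Good (B : U →ₗ[F] U →ₗ[F] F) (Q : U → F) (x : U) (Z : Submodule F U) : Prop :=
  Q x = 0 ∧ ∀ w ∈ Z, B x w = 0

variable {V : Type*} [AddCommGroup V] [Module ℂ V] (ψ : AddChar F ℂ)
  (ρ : Representation ℂ (Gp B Q) V)

/-- Projection onto a weight space of a group of Eichler transformations. -/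
noncomputable def pj (x : U) (Z : Submodule F U) (y : U) : End ℂ V :=
  ((fs Z).card : ℂ)⁻¹ • ∑ w ∈ fs Z, ψ (-(B w y)) • ρ (ei c x w)

variable {c ψ ρ}

theorem ei_mul_pj {x : U} {Z : Submodule F U} (hg : Good B Q x Z) {w : U} (hw : w ∈ Z) (y : U) :
    ρ (ei c x w) * pj c ψ ρ x Z y = ψ (B w y) • pj c ψ ρ x Z y := by
  rw [pj, mul_smul_comm, smul_comm (ψ _), Finset.mul_sum, Finset.smul_sum (r := ψ _)]
  congr 1
  refine Finset.sum_equiv (Equiv.addLeft w) (fun a => by simp [Z.add_mem_iff_right hw])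
    fun a ha => ?_
  rw [mul_smul_comm, ← map_mul, ← ei_add c hg.1 (hg.2 w hw) (hg.2 a (mem_fs.mp ha)), smul_smul,
    ← AddChar.map_add_eq_mul]
  simp

theorem pj_mul_ei {x : U} {Z : Submodule F U} (hg : Good B Q x Z) {w : U} (hw : w ∈ Z) (y : U) :
    pj c ψ ρ x Z y * ρ (ei c x w) = ψ (B w y) • pj c ψ ρ x Z y := by
  rw [← ei_mul_pj hg hw, pj, mul_smul_comm, smul_mul_assoc, Finset.mul_sum, Finset.sum_mul]
  congr 1
  refine Finset.sum_congr rfl fun a ha => ?_
  rw [mul_smul_comm, smul_mul_assoc, ← map_mul, ← map_mul,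
    ← ei_add c hg.1 (hg.2 w hw) (hg.2 a (mem_fs.mp ha)),
    ← ei_add c hg.1 (hg.2 a (mem_fs.mp ha)) (hg.2 w hw), add_comm]

theorem pj_mul_of {x y : U} {Z : Submodule F U} {T : End ℂ V}
    (h : ∀ w ∈ Z, ρ (ei c x w) * T = ψ (B w y) • T) : pj c ψ ρ x Z y * T = T := by
  rw [pj, smul_mul_assoc, Finset.sum_mul, Finset.sum_congr rfl (g := fun _ => T) fun w hw => by
    rw [smul_mul_assoc, h w (mem_fs.mp hw), smul_smul, ← AddChar.map_add_eq_mul]; simp]
  rw [Finset.sum_const, ← Nat.cast_smul_eq_nsmul ℂ, smul_smul, inv_mul_cancel₀ (card_fs_ne Z),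
    one_smul]

theorem mul_pj_of {x y : U} {Z : Submodule F U} {T : End ℂ V}
    (h : ∀ w ∈ Z, T * ρ (ei c x w) = ψ (B w y) • T) : T * pj c ψ ρ x Z y = T := by
  rw [pj, mul_smul_comm, Finset.mul_sum, Finset.sum_congr rfl (g := fun _ => T) fun w hw => by
    rw [mul_smul_comm, h w (mem_fs.mp hw), smul_smul, ← AddChar.map_add_eq_mul]; simp]
  rw [Finset.sum_const, ← Nat.cast_smul_eq_nsmul ℂ, smul_smul, inv_mul_cancel₀ (card_fs_ne Z),
    one_smul]

theorem pj_apply_of {x y : U} {Z : Submodule F U} {v : V}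
    (h : ∀ w ∈ Z, ρ (ei c x w) v = ψ (B w y) • v) : pj c ψ ρ x Z y v = v := by
  rw [pj, LinearMap.smul_apply, LinearMap.sum_apply,
    Finset.sum_congr rfl (g := fun _ => v) fun w hw => by
    rw [LinearMap.smul_apply, h w (mem_fs.mp hw), smul_smul, ← AddChar.map_add_eq_mul]; simp]
  rw [Finset.sum_const, ← Nat.cast_smul_eq_nsmul ℂ, smul_smul, inv_mul_cancel₀ (card_fs_ne Z),
    one_smul]

theorem pj_mul_ne (hψ : ψ ≠ 1) {x y y' : U} {Z : Submodule F U} {T : End ℂ V}
    (h : ∀ w ∈ Z, ρ (ei c x w) * T = ψ (B w y') • T) {z : U} (hz : z ∈ Z)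
    (hne : B z y ≠ B z y') : pj c ψ ρ x Z y * T = 0 := by
  rw [pj, smul_mul_assoc, Finset.sum_mul, Finset.sum_congr rfl
    (g := fun w => ψ (B.flip (y' - y) w) • T) fun w hw => by
      rw [smul_mul_assoc, h w (mem_fs.mp hw), smul_smul, ← AddChar.map_add_eq_mul]
      simp [neg_add_eq_sub]]
  rw [← Finset.sum_smul, sum_char hψ _ hz (by simpa [sub_eq_zero] using hne.symm)]
  simp

theorem pj_idem {x : U} {Z : Submodule F U} (hg : Good B Q x Z) (y : U) :
    pj c ψ ρ x Z y * pj c ψ ρ x Z y = pj c ψ ρ x Z y :=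
  pj_mul_of fun _ hw => ei_mul_pj hg hw y

theorem pj_congr {x y y' : U} {Z : Submodule F U} (h : ∀ w ∈ Z, B w y = B w y') :
    pj c ψ ρ x Z y = pj c ψ ρ x Z y' := by
  rw [pj, pj, Finset.sum_congr rfl fun w hw => by rw [h w (mem_fs.mp hw)]]

theorem conj_pj (g : Gp B Q) {x x' y y' : U} {Z Z' : Submodule F U} (hx : act g x = x')
    (hZ : ∀ w, w ∈ Z ↔ act g w ∈ Z') (hy : act g y = y') :
    ρ g * pj c ψ ρ x Z y = pj c ψ ρ x' Z' y' * ρ g := by
  have hc : (fs Z).card = (fs Z').card :=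
    Finset.card_equiv (act g).toEquiv fun w => by simp [hZ]
  rw [pj, pj, mul_smul_comm, smul_mul_assoc, hc, Finset.mul_sum, Finset.sum_mul]
  congr 1
  refine Finset.sum_equiv (act g).toEquiv (fun w => by simp [hZ]) fun w _ => ?_
  rw [mul_smul_comm, smul_mul_assoc, ← map_mul, ← map_mul, ei_conj, hx, ← hy]
  simp [act_B]

theorem pj_smul {x : U} {Z : Submodule F U} (hg : Good B Q x Z) {a : F} (ha : a ≠ 0) (y : U) :
    pj c ψ ρ (a • x) Z (a • y) = pj c ψ ρ x Z y := by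
  rw [pj, pj]
  congr 1
  refine Finset.sum_equiv (LinearEquiv.smulOfNeZero F U a ha).toEquiv
    (fun w => by simp [Z.smul_mem_iff ha]) fun w hw => ?_
  rw [ei_smul c hg.1 (hg.2 w (mem_fs.mp hw))]
  simp

theorem sum_pj (hψ : ψ ≠ 1) {x : U} (hx : Q x = 0) {Z : Submodule F U} (hZ : NondegOn B Z) :
    ∑ y ∈ fs Z, pj c ψ ρ x Z y = 1 := by
  simp only [pj, ← Finset.smul_sum]
  rw [Finset.sum_comm, Finset.sum_eq_single 0 (fun a ha h0 => ?_) (by simp)]
  · simp [ei_zero c hx, ← Nat.cast_smul_eq_nsmul ℂ, smul_smul, inv_mul_cancel₀ (card_fs_ne Z)]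
  · obtain ⟨w, hw, h1⟩ : ∃ w ∈ Z, B a w ≠ 0 := by
      by_contra! H
      exact h0 (hZ a (mem_fs.mp ha) H)
    rw [← Finset.sum_smul]
    have := sum_char hψ (-B a) hw (by simpa using h1)
    simp only [LinearMap.neg_apply] at this
    rw [this, zero_smul]

theorem mul_pj_comm {x y : U} {Z : Submodule F U} {T : End ℂ V}
    (h : ∀ w ∈ Z, ρ (ei c x w) * T = T * ρ (ei c x w)) :
    pj c ψ ρ x Z y * T = T * pj c ψ ρ x Z y := by
  rw [pj, smul_mul_assoc, mul_smul_comm, Finset.sum_mul, Finset.mul_sum]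
  congr 1
  exact Finset.sum_congr rfl fun w hw => by rw [smul_mul_assoc, mul_smul_comm, h w (mem_fs.mp hw)]

theorem ei_pj_comm {x : U} {Z : Submodule F U} (hg : Good B Q x Z) {w : U} (hw : B x w = 0)
    (y : U) : ρ (ei c x w) * pj c ψ ρ x Z y = pj c ψ ρ x Z y * ρ (ei c x w) :=
  (mul_pj_comm fun z hz => by
    rw [← map_mul, ← map_mul, ← ei_add c hg.1 (hg.2 z hz) hw, ← ei_add c hg.1 hw (hg.2 z hz),
      add_comm]).symm

theorem Good.sup {x : U} {Z Z' : Submodule F U} (hg : Good B Q x Z) (hg' : Good B Q x Z') :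
    Good B Q x (Z ⊔ Z') := ⟨hg.1, fun w hw => by
  obtain ⟨a, ha, b, hb, rfl⟩ := Submodule.mem_sup.mp hw
  rw [map_add, hg.2 a ha, hg'.2 b hb, add_zero]⟩

theorem Good.span {x v : U} (hx : Q x = 0) (hv : B x v = 0) : Good B Q x (F ∙ v) :=
  ⟨hx, fun w hw => by
    obtain ⟨a, rfl⟩ := Submodule.mem_span_singleton.mp hw
    simp [hv]⟩

theorem pj_sup {x : U} {Z Z' : Submodule F U} (hg : Good B Q x Z) (hg' : Good B Q x Z') (y : U) :
    pj c ψ ρ x (Z ⊔ Z') y = pj c ψ ρ x Z y * pj c ψ ρ x Z' y := by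
  have h1 : pj c ψ ρ x (Z ⊔ Z') y * (pj c ψ ρ x Z y * pj c ψ ρ x Z' y) =
      pj c ψ ρ x Z y * pj c ψ ρ x Z' y := pj_mul_of fun w hw => by
    obtain ⟨a, ha, b, hb, rfl⟩ := Submodule.mem_sup.mp hw
    rw [ei_add c hg.1 (hg.2 a ha) (hg'.2 b hb), map_mul, mul_assoc, ← mul_assoc (ρ (ei c x b)),
      ei_pj_comm hg (hg'.2 b hb), mul_assoc, ei_mul_pj hg' hb, mul_smul_comm, mul_smul_comm,
      ← mul_assoc, ei_mul_pj hg ha, smul_mul_assoc, smul_smul, ← AddChar.map_add_eq_mul]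
    simp [add_comm]
  rw [← h1, ← mul_assoc, mul_pj_of (T := pj c ψ ρ x (Z ⊔ Z') y) fun w hw =>
    pj_mul_ei (hg.sup hg') (Submodule.mem_sup_left hw) y, mul_pj_of fun w hw =>
    pj_mul_ei (hg.sup hg') (Submodule.mem_sup_right hw) y]

theorem pj_span {x v : U} (hv : v ≠ 0) :
    pj c ψ ρ x (F ∙ v) 0 = (Fintype.card F : ℂ)⁻¹ • ∑ t : F, ρ (ei c x (t • v)) := by
  rw [pj, card_fs, finrank_span_singleton hv, pow_one]
  congr 1
  symm
  refine Finset.sum_bij (fun t _ => t • v)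
    (fun t _ => mem_fs.mpr (Submodule.mem_span_singleton.mpr ⟨t, rfl⟩))
    (fun a _ b _ h => smul_left_injective F hv h) (fun w hw => ?_) fun t _ => by simp
  obtain ⟨a, rfl⟩ := Submodule.mem_span_singleton.mp (mem_fs.mp hw)
  exact ⟨a, Finset.mem_univ _, rfl⟩

variable (c ψ ρ) in
/-- Projection onto the fixed space of the Eichler group of `x`. -/
noncomputable def EE (x : U) : End ℂ V := pj c ψ ρ x (LinearMap.ker (B x)) 0

theorem good_ker {x : U} (hx : Q x = 0) : Good B Q x (LinearMap.ker (B x)) := ⟨hx, fun _ h => h⟩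

theorem ei_mul_EE {x w : U} (hx : Q x = 0) (hw : B x w = 0) :
    ρ (ei c x w) * EE c ψ ρ x = EE c ψ ρ x := by
  simpa [EE] using ei_mul_pj (c := c) (ψ := ψ) (ρ := ρ) (good_ker hx) hw 0

theorem EE_mul_ei {x w : U} (hx : Q x = 0) (hw : B x w = 0) :
    EE c ψ ρ x * ρ (ei c x w) = EE c ψ ρ x := by
  simpa [EE] using pj_mul_ei (c := c) (ψ := ψ) (ρ := ρ) (good_ker hx) hw 0

theorem EE_idem {x : U} (hx : Q x = 0) : EE c ψ ρ x * EE c ψ ρ x = EE c ψ ρ x :=
  pj_idem (good_ker hx) 0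

theorem conj_EE (g : Gp B Q) (x : U) : ρ g * EE c ψ ρ x = EE c ψ ρ (act g x) * ρ g :=
  conj_pj g rfl (fun w => by simp [act_B]) (map_zero _)

theorem EE_smul {x : U} (hx : Q x = 0) {a : F} (ha : a ≠ 0) : EE c ψ ρ (a • x) = EE c ψ ρ x := by
  rw [EE, EE, ← pj_smul (good_ker hx) ha, smul_zero]
  congr 1
  ext w
  simp [ha]

theorem EE_eq {x : U} {Z : Submodule F U} (hg : Good B Q x Z)
    (hZ : ∀ w, B x w = 0 → ∃ a : F, w - a • x ∈ Z) : EE c ψ ρ x = pj c ψ ρ x Z 0 := by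
  have h1 : EE c ψ ρ x * pj c ψ ρ x Z 0 = pj c ψ ρ x Z 0 := pj_mul_of fun w hw => by
    obtain ⟨a, ha⟩ := hZ w hw
    have : ei c x w = ei c x (w - a • x) := by
      conv_lhs => rw [← sub_add_cancel w (a • x)]
      rw [ei_add c hg.1 (hg.2 _ ha) (by simp [c.h.diag_zero hg.1]), ei_self c hg.1, mul_one]
    rw [this, ei_mul_pj hg ha]
    simp
  rw [← h1, mul_pj_of fun w hw => by simpa using EE_mul_ei hg.1 (hg.2 w hw)]

section rank

variable [FiniteDimensional ℂ V]

/-- The rank of an operator. -/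
noncomputable def rk (P : End ℂ V) : ℕ := finrank ℂ (LinearMap.range P)

theorem tr_idem {P : End ℂ V} (h : P * P = P) : LinearMap.trace ℂ V P = rk P :=
  (LinearMap.IsIdempotentElem.isProj_range _ h).trace

theorem rk_le {P P' : End ℂ V} (h : P' * P = P) : rk P ≤ rk P' :=
  Submodule.finrank_mono (by rw [← h]; exact LinearMap.range_comp_le_range _ _)

theorem rk_eq_zero {P : End ℂ V} : rk P = 0 ↔ P = 0 := by
  rw [rk, Submodule.finrank_eq_zero, LinearMap.range_eq_bot]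

end rank

end Cfsg.Agent.H17.Om
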