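import Mathlib
import Cfsg.Agent.H17.Om1

/-!
# Geometry of two hyperbolic pairs
-/

set_option autoImplicit false

namespace Cfsg.Agent.H17.Om

open Module Cfsg.Agent.H11

variable {F : Type*} [Field F] {U : Type*} [AddCommGroup U] [Module F U]
  {B : U →ₗ[F] U →ₗ[F] F} {Q : U → F}

/-- Two orthogonal hyperbolic pairs. -/
structure Fr (B : U →ₗ[F] U →ₗ[F] F) (Q : U → F) (e1 f1 e2 f2 : U) : Prop where
  Qe1 : Q e1 = 0
  Qf1 : Q f1 = 0
  Qe2 : Q e2 = 0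
  Qf2 : Q f2 = 0
  e1e1 : B e1 e1 = 0
  e1f1 : B e1 f1 = 1
  e1e2 : B e1 e2 = 0
  e1f2 : B e1 f2 = 0
  f1e1 : B f1 e1 = 1
  f1f1 : B f1 f1 = 0
  f1e2 : B f1 e2 = 0
  f1f2 : B f1 f2 = 0
  e2e1 : B e2 e1 = 0
  e2f1 : B e2 f1 = 0
  e2e2 : B e2 e2 = 0
  e2f2 : B e2 f2 = 1
  f2e1 : B f2 e1 = 0
  f2f1 : B f2 f1 = 0
  f2e2 : B f2 e2 = 1
  f2f2 : B f2 f2 = 0

theorem Fr.of_hyp (h : IsQuad B Q) {ι : Type*} [DecidableEq ι] {e f : ι → U} (hs : HypSys B Q e f)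
    {i j : ι} (hij : i ≠ j) : Fr B Q (e i) (f i) (e j) (f j) := by
  constructor <;> simp [hs.Qe, hs.Qf, hs.ee, hs.ff, hs.ef, hs.fe h, hij, hij.symm]

/-- The perpendicular space of both pairs. -/
def W2 (B : U →ₗ[F] U →ₗ[F] F) (e1 f1 e2 f2 : U) : Submodule F U := hperp B e1 f1 ⊓ hperp B e2 f2

theorem mem_W2 {e1 f1 e2 f2 w : U} :
    w ∈ W2 B e1 f1 e2 f2 ↔ (B e1 w = 0 ∧ B f1 w = 0) ∧ B e2 w = 0 ∧ B f2 w = 0 := by
  rw [W2, Submodule.mem_inf, mem_hperp, mem_hperp]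

theorem li3 {x y u : U} (hxx : B x x = 0) (hxy : B x y = 1) (hyx : B y x = 1) (hyy : B y y = 0)
    (hxu : B x u = 0) (hyu : B y u = 0) (hu : u ≠ 0) : LinearIndependent F ![x, y, u] := by
  rw [Fintype.linearIndependent_iff]
  intro g hg
  simp only [Fin.sum_univ_three, Matrix.cons_val_zero, Matrix.cons_val_one, Matrix.cons_val] at hg
  have h1 : g 1 = 0 := by simpa [hxx, hxy, hxu] using congrArg (B x) hg
  have h0 : g 0 = 0 := by simpa [hyy, hyx, hyu] using congrArg (B y) hg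
  have h2 : g 2 = 0 := by simpa [h0, h1, hu] using hg
  intro i
  fin_cases i <;> assumption

variable [Fintype F] [Fintype U] (c : OC B Q)

include c

theorem finrank_le_inf_perp (Y X : Submodule F U) :
    finrank F Y ≤ finrank F ↥(Y ⊓ perp B X) + finrank F X := by
  have h1 := Submodule.finrank_sup_add_finrank_inf_eq Y (perp B X)
  have h2 := c.h.finrank_perp c.sep X
  have h3 := Submodule.finrank_le (Y ⊔ perp B X)
  omega

theorem sing_out {Y X : Submodule F U} (h : finrank F X + 3 ≤ finrank F Y) :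
    ∃ v ∈ Y, v ∉ X ∧ Q v = 0 := by
  obtain ⟨C, hC⟩ := Submodule.exists_isCompl X
  have h1 := Submodule.finrank_sup_add_finrank_inf_eq Y C
  have h2 := Submodule.finrank_add_eq_of_isCompl hC
  have h3 := Submodule.finrank_le (Y ⊔ C)
  obtain ⟨v, hv, h0⟩ := IsQuad.exists_singular (c.h.restrict (Y ⊓ C)) (by omega)
  refine ⟨v, v.2.1, fun hx => hv (Subtype.ext ?_), h0⟩
  exact (Submodule.disjoint_def.mp hC.disjoint) _ hx v.2.2

theorem plane {a b : U} (ha : Q a = 0) (hab : B a b ≠ 0) : ∃ Z : Submodule F U,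
    NondegOn B Z ∧ 2 ≤ finrank F Z ∧ ∀ v, B a v = 0 → B b v = 0 → ∀ z ∈ Z, B z v = 0 := by
  obtain ⟨t, ht⟩ := c.h.exists_add_smul_singular ha hab
  have h1 : B a (b + t • a) ≠ 0 := by simpa [c.h.diag_zero ha] using hab
  refine ⟨_, c.h.nondegOn_span_pair ha ht h1, ?_, fun v h2 h3 z hz => ?_⟩
  · have := finrank_span_eq_card (c.h.linearIndependent_pair ha h1)
    rw [show Set.range ![a, b + t • a] = {a, b + t • a} by simp [Set.pair_comm]] at this
    simp [this]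
  · obtain ⟨x, y, rfl⟩ := Submodule.mem_span_pair.mp hz
    simp [h2, h3]

omit c in
open Classical in
theorem card_level_ne (h : IsQuad B Q) {Z : Submodule F U} {e f : U} (he : Q e = 0) (hf : Q f = 0)
    (hef : B e f = 1) (heZ : e ∈ Z) (hfZ : f ∈ Z) (k : F) {b : F} (hb : b ≠ 0) :
    ((fs Z).filter fun u => Q u = k ∧ B e u = b).card = (fs (Z ⊓ hperp B e f)).card := by
  have hfe : B f e = 1 := by rw [h.comm, hef]
  symm
  refine Finset.card_bij (fun w _ => ((k - Q w) / b) • e + b • f + w) (fun w hw => ?_)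
    (fun w hw w' hw' hh => ?_) fun u hu => ?_
  · simp only [mem_fs, Submodule.mem_inf, mem_hperp] at hw
    simp only [Finset.mem_filter, mem_fs]
    refine ⟨Z.add_mem (Z.add_mem (Z.smul_mem _ heZ) (Z.smul_mem _ hfZ)) hw.1, ?_, ?_⟩
    · simp [h.add', h.smul', he, hf, hef, hw.2.1, hw.2.2, mul_div_cancel₀ _ hb]
    · simp [h.diag_zero he, hef, hw.2.1]
  · simp only [mem_fs, Submodule.mem_inf, mem_hperp] at hw hw'
    have := congrArg (B f) hh
    simp only [map_add, map_smul, hfe, h.diag_zero hf, hw.2.2, hw'.2.2, smul_eq_mul, mul_one,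
      mul_zero, add_zero] at this
    rw [this] at hh
    exact add_left_cancel hh
  · simp only [Finset.mem_filter, mem_fs] at hu
    obtain ⟨a, w, h1, h2, h3⟩ := h.exists_decomp_pair he hf hef u
    rw [hu.2.2] at h3
    have h4 := hu.2.1
    refine ⟨w, ?_, ?_⟩
    · simp only [mem_fs, Submodule.mem_inf, mem_hperp]
      refine ⟨?_, h1, h2⟩
      rw [show w = u - a • e - b • f by rw [h3]; module]
      exact Z.sub_mem (Z.sub_mem hu.1 (Z.smul_mem _ heZ)) (Z.smul_mem _ hfZ)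
    · rw [h3] at h4
      simp only [h.add', h.smul', he, hf, hef, h1, h2, map_smul, map_add, LinearMap.add_apply,
        LinearMap.smul_apply, smul_eq_mul] at h4
      rw [h3, show (k - Q w) / b = a by field_simp; linear_combination -h4]

omit c in
open Classical in
theorem card_level_zero (h : IsQuad B Q) {Z : Submodule F U} {e f : U} (he : Q e = 0)
    (hf : Q f = 0) (hef : B e f = 1) (heZ : e ∈ Z) (k : F) :
    ((fs Z).filter fun u => Q u = k ∧ B e u = 0).card =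
      Fintype.card F * ((fs (Z ⊓ hperp B e f)).filter fun u => Q u = k).card := by
  have hfe : B f e = 1 := by rw [h.comm, hef]
  rw [← Finset.card_univ, ← Finset.card_product]
  symm
  refine Finset.card_bij (fun p _ => p.1 • e + p.2) (fun p hp => ?_)
    (fun p hp p' hp' hh => ?_) fun u hu => ?_
  · simp only [Finset.mem_product, Finset.mem_filter, mem_fs, Submodule.mem_inf, mem_hperp] at hp
    simp only [Finset.mem_filter, mem_fs]
    refine ⟨Z.add_mem (Z.smul_mem _ heZ) hp.2.1.1, ?_, ?_⟩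
    · simp [h.add', h.smul', he, hp.2.1.2.1, hp.2.2]
    · simp [h.diag_zero he, hp.2.1.2.1]
  · simp only [Finset.mem_product, Finset.mem_filter, mem_fs, Submodule.mem_inf, mem_hperp]
      at hp hp'
    have := congrArg (B f) hh
    simp only [map_add, map_smul, hfe, hp.2.1.2.2, hp'.2.1.2.2, smul_eq_mul, mul_one,
      add_zero] at this
    rw [this] at hh
    exact Prod.ext this (add_left_cancel hh)
  · simp only [Finset.mem_filter, mem_fs] at hu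
    obtain ⟨a, w, h1, h2, h3⟩ := h.exists_decomp_pair he hf hef u
    rw [hu.2.2, zero_smul, add_zero] at h3
    have h4 := hu.2.1
    refine ⟨(a, w), ?_, h3.symm⟩
    simp only [Finset.mem_product, Finset.mem_filter, mem_fs, Submodule.mem_inf, mem_hperp]
    refine ⟨Finset.mem_univ _, ⟨?_, h1, h2⟩, ?_⟩
    · rw [show w = u - a • e by rw [h3]; module]
      exact Z.sub_mem hu.1 (Z.smul_mem _ heZ)
    · rw [h3] at h4
      simpa [h.add', h.smul', he, h1] using h4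

variable {e1 f1 e2 f2 : U} (r : Fr B Q e1 f1 e2 f2)

include r

omit [Fintype F] [Fintype U] c in
theorem pr1_mem (v : U) : v - B f1 v • e1 - B e1 v • f1 ∈ hperp B e1 f1 := by
  simp [mem_hperp, r.e1e1, r.e1f1, r.f1e1, r.f1f1]

omit [Fintype F] [Fintype U] c in
theorem pr2_mem (v : U) :
    v - B f1 v • e1 - B e1 v • f1 - B f2 v • e2 - B e2 v • f2 ∈ W2 B e1 f1 e2 f2 := by
  simp [mem_W2, r.e1e1, r.e1f1, r.f1e1, r.f1f1, r.e1e2, r.e1f2, r.f1e2, r.f1f2, r.e2e1, r.e2f1,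
    r.e2e2, r.e2f2, r.f2e1, r.f2f1, r.f2e2, r.f2f2]

omit [Fintype F] [Fintype U] in
theorem B_pr1 {z : U} (hz : z ∈ hperp B e1 f1) (v : U) :
    B z (v - B f1 v • e1 - B e1 v • f1) = B z v := by
  rw [mem_hperp] at hz
  simp [c.h.refl hz.1, c.h.refl hz.2]

omit [Fintype F] [Fintype U] in
theorem B_pr2 {z : U} (hz : z ∈ W2 B e1 f1 e2 f2) (v : U) :
    B z (v - B f1 v • e1 - B e1 v • f1 - B f2 v • e2 - B e2 v • f2) = B z v := by
  rw [mem_W2] at hz
  simp [c.h.refl hz.1.1, c.h.refl hz.1.2, c.h.refl hz.2.1, c.h.refl hz.2.2]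

omit [Fintype F] [Fintype U] in
theorem nondeg_W1 : NondegOn B (hperp B e1 f1) := fun x hx h =>
  c.sep x fun v => by rw [← B_pr1 c r hx v, h _ (pr1_mem r v)]

omit [Fintype F] [Fintype U] in
theorem nondeg_W2 : NondegOn B (W2 B e1 f1 e2 f2) := fun x hx h =>
  c.sep x fun v => by rw [← B_pr2 c r hx v, h _ (pr2_mem r v)]

theorem finrank_W1 : finrank F (hperp B e1 f1) + 2 = finrank F U :=
  c.h.finrank_hperp c.sep r.Qe1 r.Qf1 r.e1f1

theorem finrank_W2 : finrank F (W2 B e1 f1 e2 f2) + 4 = finrank F U := by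
  have hs : HypSys B Q ![e1, e2] ![f1, f2] := by
    constructor <;> simp [Fin.forall_fin_two, r.Qe1, r.Qe2, r.Qf1, r.Qf2, r.e1e1, r.e1f1, r.f1e1,
      r.f1f1, r.e1e2, r.e1f2, r.f1e2, r.f1f2, r.e2e1, r.e2f1, r.e2e2, r.e2f2, r.f2e1, r.f2f1,
      r.f2e2, r.f2f2]
  have := hs.finrank_perp c.h c.sep
  rw [show perp B _ = W2 B e1 f1 e2 f2 from Submodule.ext fun x => by
    rw [HypSys.mem_perp_iff, mem_W2]; simp [Fin.forall_fin_two]; tauto] at this
  simpa using this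

omit [Fintype F] [Fintype U] c in
theorem e1_ne : e1 ≠ 0 := fun h => by simpa [h] using r.f1e1

omit [Fintype F] [Fintype U] c in
theorem e2_ne : e2 ≠ 0 := fun h => by simpa [h] using r.f2e2

omit [Fintype F] [Fintype U] c in
theorem f1_ne : f1 ≠ 0 := fun h => by simpa [h] using r.e1f1

omit [Fintype F] [Fintype U] c in
theorem f2_ne : f2 ≠ 0 := fun h => by simpa [h] using r.e2f2

theorem dual_W2 {X : Submodule F U} (hX : X ≤ W2 B e1 f1 e2 f2) {x : U}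
    (hx : x ∈ W2 B e1 f1 e2 f2) (h : x ∉ X) :
    ∃ y ∈ W2 B e1 f1 e2 f2, (∀ z ∈ X, B z y = 0) ∧ B x y = 1 := by
  obtain ⟨y, h1, h2⟩ := c.h.exists_perp_not c.sep h
  exact ⟨_, pr2_mem r y, fun z hz => by rw [B_pr2 c r (hX hz), h1 z hz], by rw [B_pr2 c r hx, h2]⟩

variable (h7 : 7 ≤ finrank F U)

include h7

theorem mv_one {x : U} (hx : Q x = 0) (h0 : x ≠ 0) : ∃ g : Gp B Q, act g e1 = x := by
  have := finrank_W2 c r
  obtain ⟨g, hg⟩ := witt_om c (fun _ : Unit => e1) (fun _ => x)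
    (linearIndependent_unique_iff.mpr (e1_ne r)) (linearIndependent_unique_iff.mpr h0)
    (fun _ _ => by rw [c.h.diag_zero hx, r.e1e1]) (fun _ => by rw [hx, r.Qe1]) (nondeg_W2 c r)
    (by omega) fun z hz _ => c.h.refl (mem_W2.mp hz).1.1
  exact ⟨g, hg ()⟩

theorem mv_perp {x : U} (hx : Q x = 0) (h0 : B e1 x = 0) (h1 : ∀ a : F, a • e1 ≠ x) :
    ∃ g : Gp B Q, act g e1 = e1 ∧ act g e2 = x := by
  have := finrank_W2 c r
  obtain ⟨g, hg⟩ := witt_om c ![e1, e2] ![e1, x]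
    ((LinearIndependent.pair_iff' (e1_ne r)).mpr fun a h => by
      simpa [r.f2e1, r.f2e2] using congrArg (B f2) h)
    ((LinearIndependent.pair_iff' (e1_ne r)).mpr h1)
    (by simp [Fin.forall_fin_two, h0, c.h.refl h0, c.h.diag_zero hx, r.e1e2, r.e2e1, r.e2e2])
    (by simp [Fin.forall_fin_two, hx, r.Qe2]) (nondeg_W2 c r) (by omega) fun z hz => by
      simp [Fin.forall_fin_two, c.h.refl (mem_W2.mp hz).1.1, c.h.refl (mem_W2.mp hz).2.1]
  exact ⟨g, hg 0, hg 1⟩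

theorem mv_opp {x : U} (hx : Q x = 0) (h0 : B e1 x = 1) :
    ∃ g : Gp B Q, act g e1 = e1 ∧ act g f1 = x := by
  have := finrank_W2 c r
  obtain ⟨g, hg⟩ := witt_om c ![e1, f1] ![e1, x]
    (c.h.linearIndependent_pair r.Qe1 (by simp [r.e1f1]))
    (c.h.linearIndependent_pair r.Qe1 (by simp [h0]))
    (by simp [Fin.forall_fin_two, h0, c.h.comm x e1, c.h.diag_zero hx, r.e1f1, r.f1e1, r.f1f1])
    (by simp [Fin.forall_fin_two, hx, r.Qf1]) (nondeg_W2 c r) (by omega) fun z hz => by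
      simp [Fin.forall_fin_two, c.h.refl (mem_W2.mp hz).1.1, c.h.refl (mem_W2.mp hz).1.2]
  exact ⟨g, hg 0, hg 1⟩

theorem mv_swap : ∃ g : Gp B Q, act g e1 = f1 ∧ act g f1 = e1 ∧ act g e2 = e2 := by
  have := finrank_W2 c r
  obtain ⟨g, hg⟩ := witt_om c ![e1, f1, e2] ![f1, e1, e2]
    (li3 r.e1e1 r.e1f1 r.f1e1 r.f1f1 r.e1e2 r.f1e2 (e2_ne r))
    (li3 r.f1f1 r.f1e1 r.e1f1 r.e1e1 r.f1e2 r.e1e2 (e2_ne r))
    (fun i j => by
      fin_cases i <;> fin_cases j <;>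
        simp [r.e1e1, r.e1f1, r.f1e1, r.f1f1, r.e1e2, r.f1e2, r.e2e1, r.e2f1])
    (fun i => by fin_cases i <;> simp [r.Qe1, r.Qf1]) (nondeg_W2 c r) (by omega) fun z hz i => by
      fin_cases i <;>
        simp [c.h.refl (mem_W2.mp hz).1.1, c.h.refl (mem_W2.mp hz).1.2, c.h.refl (mem_W2.mp hz).2.1]
  exact ⟨g, hg 0, hg 1, hg 2⟩

theorem mv_W1 {u u' : U} (hu : u ∈ hperp B e1 f1) (hu' : u' ∈ hperp B e1 f1) (h0 : u ≠ 0)
    (h0' : u' ≠ 0) (hQ : Q u' = Q u) {l : F} (hl : l ≠ 0) :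
    ∃ g : Gp B Q, act g e1 = l⁻¹ • e1 ∧ act g f1 = l • f1 ∧ act g u = u' := by
  have h1 := finrank_W1 c r
  have h2 := finrank_le_inf_perp c (hperp B e1 f1) (F ∙ u)
  rw [finrank_span_singleton h0] at h2
  obtain ⟨a, ha, h3, h4⟩ := sing_out c (Y := hperp B e1 f1 ⊓ perp B (F ∙ u)) (X := F ∙ u)
    (by rw [finrank_span_singleton h0]; omega)
  obtain ⟨b, h5, h6⟩ := c.h.exists_perp_not c.sep h3
  obtain ⟨Z, hZ, h8, h9⟩ := plane c h4 (b := b - B f1 b • e1 - B e1 b • f1)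
    (by rw [B_pr1 c r ha.1, h6]; exact one_ne_zero)
  have hb := mem_hperp.mp (pr1_mem r b)
  have ha1 := mem_hperp.mp ha.1
  rw [mem_hperp] at hu hu'
  obtain ⟨g, hg⟩ := witt_om c ![e1, f1, u] ![l⁻¹ • e1, l • f1, u']
    (li3 r.e1e1 r.e1f1 r.f1e1 r.f1f1 hu.1 hu.2 h0)
    (li3 (B := B) (by simp [r.e1e1]) (by simp [r.e1f1, hl]) (by simp [r.f1e1, hl])
      (by simp [r.f1f1]) (by simp [hu'.1]) (by simp [hu'.2]) h0')
    (fun i j => by
      fin_cases i <;> fin_cases j <;>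
        simp [r.e1e1, r.e1f1, r.f1e1, r.f1f1, hu.1, hu.2, hu'.1, hu'.2, c.h.refl hu.1,
          c.h.refl hu.2, c.h.refl hu'.1, c.h.refl hu'.2, hl, c.h.diag', hQ, c.h.smul', r.Qe1,
          r.Qf1])
    (fun i => by fin_cases i <;> simp [r.Qe1, r.Qf1, hQ, c.h.smul']) hZ h8 fun z hz i => by
      fin_cases i
      · exact h9 _ (c.h.refl ha1.1) (c.h.refl hb.1) z hz
      · exact h9 _ (c.h.refl ha1.2) (c.h.refl hb.2) z hz
      · refine h9 _ (c.h.refl (mem_perp.mp ha.2 u (Submodule.mem_span_singleton_self u)))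
          (c.h.refl ?_) z hz
        change B u _ = 0
        rw [B_pr1 c r (mem_hperp.mpr hu), h5 u (Submodule.mem_span_singleton_self u)]
  exact ⟨g, hg 0, hg 1, hg 2⟩

omit h7

/-- Fixing both hyperbolic pairs. -/
def Fix4 (g : Gp B Q) (e1 f1 e2 f2 : U) : Prop :=
  act g e1 = e1 ∧ act g f1 = f1 ∧ act g e2 = e2 ∧ act g f2 = f2

omit r in
theorem fix4_ei {v w : U} (hv : v ∈ W2 B e1 f1 e2 f2) (hw : w ∈ W2 B e1 f1 e2 f2) (hQ : Q v = 0)
    (hvw : B v w = 0) : Fix4 (ei c v w) e1 f1 e2 f2 := by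
  rw [mem_W2] at hv hw
  refine ⟨?_, ?_, ?_, ?_⟩ <;> simp [ei_apply c hQ hvw, c.h.refl hv.1.1, c.h.refl hv.1.2,
    c.h.refl hv.2.1, c.h.refl hv.2.2, c.h.refl hw.1.1, c.h.refl hw.1.2, c.h.refl hw.2.1,
    c.h.refl hw.2.2]

theorem mv_off {u1 u v : U} (h1 : u1 ∈ W2 B e1 f1 e2 f2) (hu : u ∈ W2 B e1 f1 e2 f2)
    (hv : v ∈ W2 B e1 f1 e2 f2) (hQ : Q v = 0) (hv1 : B v u1 = 0) (hv' : v ∉ (F ∙ u1) ⊔ F ∙ u)
    (hu' : u ∉ F ∙ u1) (hr : 2 * finrank F (F ∙ u1) + 3 ≤ finrank F (W2 B e1 f1 e2 f2)) :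
    ∃ g : Gp B Q, Fix4 g e1 f1 e2 f2 ∧ act g u1 = u1 ∧ act g u - u ∉ F ∙ u1 := by
  have hX : (F ∙ u1) ⊔ (F ∙ v) ≤ W2 B e1 f1 e2 f2 :=
    sup_le ((Submodule.span_singleton_le_iff_mem _ _).mpr h1)
      ((Submodule.span_singleton_le_iff_mem _ _).mpr hv)
  have m1 : u1 ∈ (F ∙ u1) ⊔ (F ∙ v) := Submodule.mem_sup_left (Submodule.mem_span_singleton_self _)
  have m2 : v ∈ (F ∙ u1) ⊔ (F ∙ v) := Submodule.mem_sup_right (Submodule.mem_span_singleton_self _)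
  by_cases h : B v u = 0
  · have h2 : u ∉ (F ∙ u1) ⊔ F ∙ v := fun hm => by
      obtain ⟨x, hx, y, hy, rfl⟩ := Submodule.mem_sup.mp hm
      obtain ⟨a, rfl⟩ := Submodule.mem_span_singleton.mp hy
      by_cases ha : a = 0
      · exact hu' (by simpa [ha] using hx)
      · refine hv' ?_
        have := Submodule.add_mem_sup (Submodule.neg_mem _ (Submodule.smul_mem _ a⁻¹ hx))
          (Submodule.smul_mem _ a⁻¹ (Submodule.mem_span_singleton_self (R := F) (x + a • v)))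
        rwa [smul_add, smul_smul, inv_mul_cancel₀ ha, one_smul, neg_add_cancel_left] at this
    obtain ⟨w, hw, h3, h4⟩ := dual_W2 c r hX hu h2
    refine ⟨ei c v w, fix4_ei c hv hw hQ (h3 v m2), ?_, ?_⟩
    · simp [ei_apply c hQ (h3 v m2), hv1, c.h.refl (h3 u1 m1)]
    · rw [ei_apply c hQ (h3 v m2), c.h.comm w u, h4, h]
      simpa using fun hm => hv' (Submodule.mem_sup_left hm)
  · have h2 := finrank_le_inf_perp c (W2 B e1 f1 e2 f2) ((F ∙ u1) ⊔ (F ∙ v))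
    have h3 := Submodule.finrank_add_le_finrank_add_finrank (F ∙ u1) (F ∙ v)
    have h4 : finrank F (F ∙ v) ≤ 1 := by simpa using finrank_span_le_card ({v} : Set U)
    obtain ⟨w, hw, h5⟩ : ∃ w ∈ W2 B e1 f1 e2 f2 ⊓ perp B ((F ∙ u1) ⊔ (F ∙ v)),
        w ∉ (F ∙ u1) ⊔ (F ∙ v) := by
      by_contra! H
      have := Submodule.finrank_mono H
      omega
    have h6 := mem_perp.mp hw.2
    refine ⟨ei c v w, fix4_ei c hv hw.1 hQ (h6 v m2), ?_, fun hm => h5 ?_⟩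
    · simp [ei_apply c hQ (h6 v m2), hv1, c.h.refl (h6 u1 m1)]
    · rw [ei_apply c hQ (h6 v m2)] at hm
      rw [show w = -((B v u)⁻¹ • (u + B w u • v - B v u • w - (Q w * B v u) • v - u)) +
        ((B v u)⁻¹ * B w u - Q w) • v by match_scalars <;> field_simp <;> ring]
      exact Submodule.add_mem_sup (Submodule.neg_mem _ (Submodule.smul_mem _ _ hm))
        (Submodule.smul_mem _ _ (Submodule.mem_span_singleton_self _))

theorem mv_ne (h7 : 7 ≤ finrank F U) {u : U} (hu : u ∈ W2 B e1 f1 e2 f2) (h0 : u ≠ 0) :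
    ∃ g : Gp B Q, Fix4 g e1 f1 e2 f2 ∧ act g u ≠ u := by
  have h1 := finrank_W2 c r
  obtain ⟨v, hv, hQ, h2⟩ : ∃ v ∈ W2 B e1 f1 e2 f2, Q v = 0 ∧ v ∉ F ∙ u := by
    by_cases h : Q u = 0
    · obtain ⟨y, hy, -, h3⟩ := dual_W2 c r (X := ⊥) bot_le hu (by simpa using h0)
      obtain ⟨t, ht⟩ := c.h.exists_add_smul_singular h (y := y) (by simp [h3])
      refine ⟨_, Submodule.add_mem _ hy (Submodule.smul_mem _ t hu), ht, fun hm => ?_⟩
      obtain ⟨a, ha⟩ := Submodule.mem_span_singleton.mp hm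
      simpa [h3, c.h.diag_zero h] using congrArg (B u) ha
    · obtain ⟨v, hv, h3, h4⟩ := sing_out c (Y := W2 B e1 f1 e2 f2) (X := ⊥) (by simp; omega)
      refine ⟨v, hv, h4, fun hm => h3 ?_⟩
      obtain ⟨a, rfl⟩ := Submodule.mem_span_singleton.mp hm
      obtain rfl : a = 0 := by simpa [c.h.smul', h] using h4
      simp
  obtain ⟨g, h3, -, h4⟩ := mv_off c r (u1 := 0) (Submodule.zero_mem _) hu hv hQ (by simp)
    (by simpa using h2) (by simpa using h0)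
    (by rw [Submodule.span_zero_singleton, finrank_bot]; omega)
  exact ⟨g, h3, by simpa [sub_eq_zero] using h4⟩

theorem mv_big (h10 : 10 ≤ finrank F U) {u1 u : U} (h1 : u1 ∈ W2 B e1 f1 e2 f2)
    (hu : u ∈ W2 B e1 f1 e2 f2) (h0 : u1 ≠ 0) (hu' : u ∉ F ∙ u1) :
    ∃ g : Gp B Q, Fix4 g e1 f1 e2 f2 ∧ act g u1 = u1 ∧ act g u - u ∉ F ∙ u1 := by
  have h2 := finrank_W2 c r
  have h3 := finrank_le_inf_perp c (W2 B e1 f1 e2 f2) (F ∙ u1)
  have h4 := Submodule.finrank_add_le_finrank_add_finrank (F ∙ u1) (F ∙ u)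
  have h5 : finrank F (F ∙ u) ≤ 1 := by simpa using finrank_span_le_card ({u} : Set U)
  rw [finrank_span_singleton h0] at h3 h4
  obtain ⟨v, hv, h6, h8⟩ := sing_out c (Y := W2 B e1 f1 e2 f2 ⊓ perp B (F ∙ u1))
    (X := (F ∙ u1) ⊔ F ∙ u) (by omega)
  exact mv_off c r h1 hu hv.1 h8
    (c.h.refl (mem_perp.mp hv.2 u1 (Submodule.mem_span_singleton_self _))) h6 hu'
    (by rw [finrank_span_singleton h0]; omega)

theorem mv_dil {l : F} (hl : l ≠ 0) : ∃ g : Gp B Q, act g e1 = e1 ∧ act g e2 = (l * l) • e2 ∧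
    ∀ w ∈ W2 B e1 f1 e2 f2, act g w = w := by
  have h0 : l * l ≠ 0 := mul_ne_zero hl hl
  refine ⟨⟨c.h.dil e2 f2 (l * l), (c.h.dil_mem_commutator_iff c.sep c.ex r.Qe2 r.Qf2 r.e2f2
    h0).mpr ⟨l, rfl⟩⟩, ?_, ?_, fun w hw => ?_⟩
  · change (c.h.dil e2 f2 (l * l)).1 _ = _
    simp [c.h.dil_apply r.Qe2 r.Qf2 r.e2f2 h0, r.f2e1, r.e2e1]
  · change (c.h.dil e2 f2 (l * l)).1 _ = _
    simp [c.h.dil_apply r.Qe2 r.Qf2 r.e2f2 h0, r.f2e2, r.e2e2, sub_smul]
  · change (c.h.dil e2 f2 (l * l)).1 _ = _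
    rw [mem_W2] at hw
    simp [c.h.dil_apply r.Qe2 r.Qf2 r.e2f2 h0, hw.2.1, hw.2.2]

end Cfsg.Agent.H17.Om
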