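import Mathlib
import Cfsg.Agent.H17.Om2

/-!
# Joint weight spaces for two Eichler groups
-/

set_option autoImplicit false

namespace Cfsg.Agent.H17.Om

open Module Cfsg.Agent.H11

variable {F : Type*} [Field F] {U : Type*} [AddCommGroup U] [Module F U]
  {B : U →ₗ[F] U →ₗ[F] F} {Q : U → F}

/-- The perpendicular space of `e1, f1, e2`. -/
def Z1 (B : U →ₗ[F] U →ₗ[F] F) (e1 f1 e2 : U) : Submodule F U :=
  hperp B e1 f1 ⊓ LinearMap.ker (B e2)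

theorem mem_Z1 {e1 f1 e2 w : U} : w ∈ Z1 B e1 f1 e2 ↔ (B e1 w = 0 ∧ B f1 w = 0) ∧ B e2 w = 0 := by
  rw [Z1, Submodule.mem_inf, mem_hperp, LinearMap.mem_ker]

theorem fix_W1 {g : Gp B Q} {e1 f1 : U} {a b : F} (ha : a ≠ 0) (hb : b ≠ 0)
    (h1 : act g e1 = a • e1) (h2 : act g f1 = b • f1) (w : U) :
    w ∈ hperp B e1 f1 ↔ act g w ∈ hperp B e1 f1 := by
  rw [mem_hperp, mem_hperp, ← act_B g e1 w, ← act_B g f1 w, h1, h2]
  simp [ha, hb]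

theorem fix_Z1 {g : Gp B Q} {e1 f1 e2 : U} (h1 : act g e1 = e1) (h2 : act g f1 = f1)
    (h3 : act g e2 = e2) (w : U) : w ∈ Z1 B e1 f1 e2 ↔ act g w ∈ Z1 B e1 f1 e2 := by
  rw [mem_Z1, mem_Z1, ← act_B g e1 w, ← act_B g f1 w, ← act_B g e2 w, h1, h2, h3]

theorem Fix4.mem {g : Gp B Q} {e1 f1 e2 f2 : U} (h : Fix4 g e1 f1 e2 f2) (w : U) :
    w ∈ W2 B e1 f1 e2 f2 ↔ act g w ∈ W2 B e1 f1 e2 f2 := by
  rw [mem_W2, mem_W2, ← act_B g e1 w, ← act_B g f1 w, ← act_B g e2 w, ← act_B g f2 w, h.1, h.2.1,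
    h.2.2.1, h.2.2.2]

theorem Fix4.inv {g : Gp B Q} {e1 f1 e2 f2 : U} (h : Fix4 g e1 f1 e2 f2) : Fix4 g⁻¹ e1 f1 e2 f2 :=
  ⟨act_inv_of h.1, act_inv_of h.2.1, act_inv_of h.2.2.1, act_inv_of h.2.2.2⟩

variable [Fintype F] [Fintype U] (c : OC B Q) {V : Type*} [AddCommGroup V] [Module ℂ V]
  (ψ : AddChar F ℂ) (ρ : Representation ℂ (Gp B Q) V) (e1 f1 e2 f2 : U)

/-- Joint weight spaces. -/
def NN (u1 u2 : U) : Submodule ℂ V where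
  carrier := {v | (∀ w ∈ W2 B e1 f1 e2 f2, ρ (ei c e1 w) v = ψ (B w u1) • v) ∧
    (∀ w ∈ W2 B e1 f1 e2 f2, ρ (ei c e2 w) v = ψ (B w u2) • v) ∧
      ∀ t : F, ρ (ei c e1 (t • e2)) v = v}
  zero_mem' := by simp
  add_mem' {a b} ha hb := ⟨fun w hw => by rw [map_add, ha.1 w hw, hb.1 w hw, smul_add],
    fun w hw => by rw [map_add, ha.2.1 w hw, hb.2.1 w hw, smul_add],
    fun t => by rw [map_add, ha.2.2, hb.2.2]⟩
  smul_mem' s a ha := ⟨fun w hw => by rw [map_smul, ha.1 w hw, smul_comm],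
    fun w hw => by rw [map_smul, ha.2.1 w hw, smul_comm], fun t => by rw [map_smul, ha.2.2]⟩

/-- The projection onto a joint weight space. -/
noncomputable def JJ (u1 u2 : U) : End ℂ V :=
  pj c ψ ρ e1 (Z1 B e1 f1 e2) u1 * pj c ψ ρ e2 (W2 B e1 f1 e2 f2) u2

/-- The dimension of a joint weight space. -/
noncomputable def nn (u1 u2 : U) : ℕ := finrank ℂ (NN c ψ ρ e1 f1 e2 f2 u1 u2)

variable {c ψ ρ e1 f1 e2 f2} (r : Fr B Q e1 f1 e2 f2)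

include r

omit [Fintype F] [Fintype U] in
theorem good_W1 : Good B Q e1 (hperp B e1 f1) := ⟨r.Qe1, fun _ hw => (mem_hperp.mp hw).1⟩

omit [Fintype F] [Fintype U] in
theorem good_Z1 : Good B Q e1 (Z1 B e1 f1 e2) := ⟨r.Qe1, fun _ hw => (mem_Z1.mp hw).1.1⟩

omit [Fintype F] [Fintype U] in
theorem good_W2 : Good B Q e2 (W2 B e1 f1 e2 f2) := ⟨r.Qe2, fun _ hw => (mem_W2.mp hw).2.1⟩

theorem NN_comb {u1 u2 w : U} {v : V} (hv : v ∈ NN c ψ ρ e1 f1 e2 f2 u1 u2)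
    (hw : w ∈ W2 B e1 f1 e2 f2) (a b : F) :
    ρ (ei c (a • e1 + b • e2) w) v = ψ (B w (a • u1 + b • u2)) • v := by
  rw [ei_comb c r.Qe1 r.Qe2 r.e1e2 (mem_W2.mp hw).1.1 (mem_W2.mp hw).2.1, map_mul, map_mul,
    End.mul_apply, End.mul_apply, hv.2.2, hv.2.1 _ (Submodule.smul_mem _ _ hw), map_smul,
    hv.1 _ (Submodule.smul_mem _ _ hw), smul_smul, ← AddChar.map_add_eq_mul]
  simp [add_comm]

theorem NN_map {g : Gp B Q} {a b a' b' : F} (h1 : act g e1 = a • e1 + b • e2)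
    (h2 : act g e2 = a' • e1 + b' • e2)
    (hW : ∀ w ∈ W2 B e1 f1 e2 f2, act g w ∈ W2 B e1 f1 e2 f2) {u1 u2 u1' u2' : U}
    (h3 : act g u1' = a • u1 + b • u2) (h4 : act g u2' = a' • u1 + b' • u2) {v : V}
    (hv : v ∈ NN c ψ ρ e1 f1 e2 f2 u1 u2) : ρ g⁻¹ v ∈ NN c ψ ρ e1 f1 e2 f2 u1' u2' := by
  have key : ∀ x w, ρ (ei c x w) (ρ g⁻¹ v) = ρ g⁻¹ (ρ (ei c (act g x) (act g w)) v) := fun x w => by
    rw [← End.mul_apply, ← End.mul_apply, ← map_mul, ← map_mul, ← mul_inv_eq_iff_eq_mul.mpr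
      (ei_conj c g x w)]
    congr 2
    group
  refine ⟨fun w hw => ?_, fun w hw => ?_, fun t => ?_⟩
  · rw [key, h1, NN_comb r hv (hW w hw), ← h3, act_B, map_smul]
  · rw [key, h2, NN_comb r hv (hW w hw), ← h4, act_B, map_smul]
  · rw [key, map_smul, h1, h2, smul_add, smul_smul, smul_smul, ei_det c r.Qe1 r.Qe2 r.e1e2, hv.2.2]

theorem ei2_P1 {w u : U} (hw : w ∈ W2 B e1 f1 e2 f2) (hu : B e2 u = 0) :
    ρ (ei c e2 w) * pj c ψ ρ e1 (Z1 B e1 f1 e2) u =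
      pj c ψ ρ e1 (Z1 B e1 f1 e2) u * ρ (ei c e2 w) := by
  rw [mem_W2] at hw
  have h1 : act (ei c e2 w) e1 = e1 := by
    simp [ei_apply c r.Qe2 hw.2.1, c.h.refl hw.1.1, r.e2e1]
  rw [conj_pj (ei c e2 w) h1 (fix_Z1 h1 (by
    simp [ei_apply c r.Qe2 hw.2.1, c.h.refl hw.1.2, r.e2f1]) (by
    simp [ei_apply c r.Qe2 hw.2.1, c.h.refl hw.2.1, r.e2e2])) rfl, pj_congr (y' := u)]
  intro z hz
  simp [ei_apply c r.Qe2 hw.2.1, hu, c.h.refl (mem_Z1.mp hz).2]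

theorem ei2_P {w : U} (hw : w ∈ W2 B e1 f1 e2 f2) (a : F) :
    ρ (ei c e2 w) * pj c ψ ρ e1 (hperp B e1 f1) (a • e2) =
      pj c ψ ρ e1 (hperp B e1 f1) (a • e2) * ρ (ei c e2 w) := by
  rw [mem_W2] at hw
  have h1 : act (ei c e2 w) e1 = e1 := by
    simp [ei_apply c r.Qe2 hw.2.1, c.h.refl hw.1.1, r.e2e1]
  exact conj_pj (ei c e2 w) h1 (fix_W1 one_ne_zero one_ne_zero (by simpa using h1) (by
    simp [ei_apply c r.Qe2 hw.2.1, c.h.refl hw.1.2, r.e2f1])) (by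
    simp [ei_apply c r.Qe2 hw.2.1, c.h.refl hw.2.1, r.e2e2])

theorem JJ_comm {u1 : U} (hu : B e2 u1 = 0) (u2 : U) : JJ c ψ ρ e1 f1 e2 f2 u1 u2 =
    pj c ψ ρ e2 (W2 B e1 f1 e2 f2) u2 * pj c ψ ρ e1 (Z1 B e1 f1 e2) u1 :=
  (mul_pj_comm fun _ hw => ei2_P1 r hw hu).symm

theorem JJ_mem {u1 : U} (hu : B e2 u1 = 0) (u2 : U) (v : V) :
    JJ c ψ ρ e1 f1 e2 f2 u1 u2 v ∈ NN c ψ ρ e1 f1 e2 f2 u1 u2 := by
  refine ⟨fun w hw => ?_, fun w hw => ?_, fun t => ?_⟩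
  · rw [← End.mul_apply, JJ, ← mul_assoc, ei_mul_pj (good_Z1 r) (mem_Z1.mpr
      ⟨(mem_W2.mp hw).1, (mem_W2.mp hw).2.1⟩), smul_mul_assoc, LinearMap.smul_apply]
  · rw [← End.mul_apply, JJ_comm r hu, ← mul_assoc, ei_mul_pj (good_W2 r) hw, smul_mul_assoc,
      LinearMap.smul_apply]
  · rw [← End.mul_apply, JJ, ← mul_assoc, ei_mul_pj (good_Z1 r) (mem_Z1.mpr
      (by simp [r.e1e2, r.f1e2, r.e2e2]))]
    simp [hu]

theorem JJ_apply {u1 u2 : U} (hu : B e2 u1 = 0) {v : V} (hv : v ∈ NN c ψ ρ e1 f1 e2 f2 u1 u2) :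
    JJ c ψ ρ e1 f1 e2 f2 u1 u2 v = v := by
  rw [JJ, End.mul_apply, pj_apply_of hv.2.1, pj_apply_of]
  intro z hz
  rw [mem_Z1] at hz
  have hw := pr2_mem r z
  simp only [hz.1.1, hz.1.2, hz.2, zero_smul, sub_zero] at hw
  conv_lhs => rw [← sub_add_cancel z (B f2 z • e2)]
  rw [ei_add c r.Qe1 (mem_W2.mp hw).1.1 (by simp [r.e1e2]), map_mul, End.mul_apply, hv.2.2,
    hv.1 _ hw]
  simp [hu]

theorem JJ_idem {u1 : U} (hu : B e2 u1 = 0) (u2 : U) :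
    JJ c ψ ρ e1 f1 e2 f2 u1 u2 * JJ c ψ ρ e1 f1 e2 f2 u1 u2 = JJ c ψ ρ e1 f1 e2 f2 u1 u2 :=
  LinearMap.ext fun v => JJ_apply r hu (JJ_mem r hu u2 v)

theorem P1_eq_sum (hψ : ψ ≠ 1) {u1 : U} (hu : u1 ∈ W2 B e1 f1 e2 f2) :
    pj c ψ ρ e1 (Z1 B e1 f1 e2) u1 = ∑ a : F, pj c ψ ρ e1 (hperp B e1 f1) (u1 + a • e2) := by
  classical
  have hle : ∀ w ∈ Z1 B e1 f1 e2, w ∈ hperp B e1 f1 := fun w hw => hw.1
  have hu' := mem_W2.mp hu
  rw [← mul_one (pj c ψ ρ e1 (Z1 B e1 f1 e2) u1), ← sum_pj (c := c) (ρ := ρ) hψ r.Qe1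
    (nondeg_W1 c r), Finset.mul_sum,
    ← Finset.sum_subset (s₁ := Finset.univ.image fun a : F => u1 + a • e2),
    Finset.sum_image fun a _ b _ h => smul_left_injective F (e2_ne r) (add_left_cancel h)]
  · refine Finset.sum_congr rfl fun a _ => pj_mul_of fun w hw => ?_
    rw [ei_mul_pj (good_W1 r) (hle w hw)]
    simp [c.h.refl (mem_Z1.mp hw).2]
  · intro u hu
    obtain ⟨a, -, rfl⟩ := Finset.mem_image.mp hu
    simp [mem_hperp, hu'.1.1, hu'.1.2, r.e1e2, r.f1e2]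
  · intro u hu1 hu2
    obtain ⟨z, hz, hne⟩ : ∃ z ∈ Z1 B e1 f1 e2, B z u1 ≠ B z u := by
      by_contra! H
      rw [mem_fs, mem_hperp] at hu1
      have h1 := H e2 (mem_Z1.mpr (by simp [r.e1e2, r.f1e2, r.e2e2]))
      have h2 := pr2_mem r u
      rw [hu'.2.1] at h1
      simp only [hu1.1, hu1.2, ← h1, zero_smul, sub_zero] at h2
      have h3 := nondeg_W2 c r _ (Submodule.sub_mem _ h2 hu) fun y hy => c.h.refl (by
        have hy' := mem_W2.mp hy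
        simp [← H y (mem_Z1.mpr ⟨hy'.1, hy'.2.1⟩), c.h.refl hy'.2.1])
      exact hu2 (Finset.mem_image.mpr ⟨B f2 u, Finset.mem_univ _, by
        rw [sub_sub, sub_eq_zero] at h3; rw [add_comm]; exact h3.symm⟩)
    exact pj_mul_ne hψ (fun w hw => ei_mul_pj (good_W1 r) (hle w hw) u) hz hne

theorem xs_e1 (s : F) : act (ei c e1 (s • f2)) e1 = e1 := by
  simp [ei_apply c r.Qe1 (w := s • f2) (by simp [r.e1f2]), r.f2e1, r.e1e1]

theorem xs_e2 (s : F) : act (ei c e1 (s • f2)) e2 = s • e1 + e2 := by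
  simp [ei_apply c r.Qe1 (w := s • f2) (by simp [r.e1f2]), r.f2e2, r.e1e2, add_comm]

theorem xs_W {w : U} (hw : w ∈ W2 B e1 f1 e2 f2) (s : F) : act (ei c e1 (s • f2)) w = w := by
  rw [mem_W2] at hw
  simp [ei_apply c r.Qe1 (w := s • f2) (by simp [r.e1f2]), hw.1.1, hw.2.2]

theorem yt_e1 (s : F) : act (ei c e2 (s • f1)) e1 = e1 + s • e2 := by
  simp [ei_apply c r.Qe2 (w := s • f1) (by simp [r.e2f1]), r.f1e1, r.e2e1]

theorem yt_e2 (s : F) : act (ei c e2 (s • f1)) e2 = e2 := by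
  simp [ei_apply c r.Qe2 (w := s • f1) (by simp [r.e2f1]), r.f1e2, r.e2e2]

theorem yt_W {w : U} (hw : w ∈ W2 B e1 f1 e2 f2) (s : F) : act (ei c e2 (s • f1)) w = w := by
  rw [mem_W2] at hw
  simp [ei_apply c r.Qe2 (w := s • f1) (by simp [r.e2f1]), hw.1.2, hw.2.1]

variable [FiniteDimensional ℂ V]

local notation "tr" => LinearMap.trace ℂ V

theorem tr_JJ {u1 : U} (hu : B e2 u1 = 0) (u2 : U) :
    tr (JJ c ψ ρ e1 f1 e2 f2 u1 u2) = nn c ψ ρ e1 f1 e2 f2 u1 u2 := by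
  rw [tr_idem (JJ_idem r hu u2), rk, nn]
  rw [show LinearMap.range (JJ c ψ ρ e1 f1 e2 f2 u1 u2) = NN c ψ ρ e1 f1 e2 f2 u1 u2 from ?_]
  refine le_antisymm ?_ fun v hv => ⟨v, JJ_apply r hu hv⟩
  rintro _ ⟨v, rfl⟩
  exact JJ_mem r hu u2 v

theorem nn_le {g : Gp B Q} {a b a' b' : F} (h1 : act g e1 = a • e1 + b • e2)
    (h2 : act g e2 = a' • e1 + b' • e2)
    (hW : ∀ w ∈ W2 B e1 f1 e2 f2, act g w ∈ W2 B e1 f1 e2 f2) {u1 u2 u1' u2' : U}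
    (h3 : act g u1' = a • u1 + b • u2) (h4 : act g u2' = a' • u1 + b' • u2) :
    nn c ψ ρ e1 f1 e2 f2 u1 u2 ≤ nn c ψ ρ e1 f1 e2 f2 u1' u2' :=
  LinearMap.finrank_le_finrank_of_injective
    (f := (ρ g⁻¹).restrict fun _ hv => NN_map r h1 h2 hW h3 h4 hv) fun _ _ h =>
      Subtype.ext ((ρ.apply_bijective g⁻¹).1 (congrArg Subtype.val h))

theorem nn_shift {u1 u2 : U} (h1 : u1 ∈ W2 B e1 f1 e2 f2) (h2 : u2 ∈ W2 B e1 f1 e2 f2) (s : F) :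
    nn c ψ ρ e1 f1 e2 f2 u1 u2 ≤ nn c ψ ρ e1 f1 e2 f2 u1 (u2 + s • u1) :=
  nn_le r (g := ei c e1 (s • f2)) (a := 1) (b := 0) (a' := s) (b' := 1) (by simp [xs_e1 r])
    (by simp [xs_e2 r]) (fun w hw => by rwa [xs_W r hw]) (by simp [xs_W r h1])
    (by simp [xs_W r h1, xs_W r h2, add_comm])

theorem nn_shift' {u1 u2 : U} (h1 : u1 ∈ W2 B e1 f1 e2 f2) (h2 : u2 ∈ W2 B e1 f1 e2 f2) (s : F) :
    nn c ψ ρ e1 f1 e2 f2 u1 u2 ≤ nn c ψ ρ e1 f1 e2 f2 (u1 + s • u2) u2 :=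
  nn_le r (g := ei c e2 (s • f1)) (a := 1) (b := s) (a' := 0) (b' := 1) (by simp [yt_e1 r])
    (by simp [yt_e2 r]) (fun w hw => by rwa [yt_W r hw]) (by simp [yt_W r h1, yt_W r h2])
    (by simp [yt_W r h2])

theorem nn_swap {u1 u2 : U} (h1 : u1 ∈ W2 B e1 f1 e2 f2) (h2 : u2 ∈ W2 B e1 f1 e2 f2) :
    nn c ψ ρ e1 f1 e2 f2 u1 u2 ≤ nn c ψ ρ e1 f1 e2 f2 u2 (-u1) := by
  have h3 := Submodule.add_mem _ h2 (Submodule.smul_mem _ (-1 : F) h1)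
  have h4 := Submodule.add_mem _ h1 (Submodule.smul_mem _ (1 : F) h3)
  refine ((nn_shift r h1 h2 (-1)).trans ((nn_shift' r h1 h3 1).trans (nn_shift r h4 h3 (-1)))).trans
    (le_of_eq ?_)
  congr 1 <;> module

theorem nn_fix {g : Gp B Q} (hg : Fix4 g e1 f1 e2 f2) (u1 u2 : U) :
    nn c ψ ρ e1 f1 e2 f2 u1 u2 ≤ nn c ψ ρ e1 f1 e2 f2 (act g u1) (act g u2) :=
  nn_le r (g := g⁻¹) (a := 1) (b := 0) (a' := 0) (b' := 1) (by simp [hg.inv.1, -map_inv])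
    (by simp [hg.inv.2.2.1, -map_inv]) (fun w hw => (hg.inv.mem w).mp hw) (by simp [act_inv_act, -map_inv])
    (by simp [act_inv_act, -map_inv])

variable (hψ : ψ ≠ 1) {k : F} [DecidableEq F]
  (hμ : ∀ u ∈ hperp B e1 f1, u ≠ 0 → rk (pj c ψ ρ e1 (hperp B e1 f1) u) = if Q u = k then 1 else 0)

include hψ hμ

theorem sum_nn {u1 : U} (hu : u1 ∈ W2 B e1 f1 e2 f2) (h0 : u1 ≠ 0) :
    ∑ u2 ∈ fs (W2 B e1 f1 e2 f2), nn c ψ ρ e1 f1 e2 f2 u1 u2 =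
      if Q u1 = k then Fintype.card F else 0 := by
  have hu' := mem_W2.mp hu
  refine Nat.cast_injective (R := ℂ) ?_
  rw [Nat.cast_sum, Finset.sum_congr rfl fun u2 _ => (tr_JJ r hu'.2.1 u2).symm, ← map_sum]
  simp only [JJ]
  rw [← Finset.mul_sum, sum_pj hψ r.Qe2 (nondeg_W2 c r), mul_one, P1_eq_sum r hψ hu, map_sum,
    Finset.sum_congr rfl (g := fun _ => if Q u1 = k then (1 : ℂ) else 0) fun a _ => ?_]
  · split_ifs <;> simp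
  · rw [tr_idem (pj_idem (good_W1 r) _), hμ _ (by simp [mem_hperp, hu'.1.1, hu'.1.2, r.e1e2, r.f1e2])
      (fun h => h0 ?_)]
    · simp [c.h.add', c.h.smul', r.Qe2, c.h.refl hu'.2.1]
    · obtain rfl : a = 0 := by simpa [hu'.2.2, r.f2e2] using congrArg (B f2) h
      simpa using h

theorem nn_coset {u1 u2 : U} (hu : u1 ∈ W2 B e1 f1 e2 f2) (h0 : u1 ≠ 0)
    (h2 : u2 ∈ W2 B e1 f1 e2 f2) (hp : 0 < nn c ψ ρ e1 f1 e2 f2 u1 u2) :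
    Q u1 = k ∧ nn c ψ ρ e1 f1 e2 f2 u1 u2 = 1 ∧ ∀ u3 ∈ W2 B e1 f1 e2 f2,
      0 < nn c ψ ρ e1 f1 e2 f2 u1 u3 → u3 - u2 ∈ F ∙ u1 := by
  classical
  have h1 := sum_nn r hψ hμ hu h0
  have hsub : (Finset.univ.image fun s : F => u2 + s • u1) ⊆ fs (W2 B e1 f1 e2 f2) := fun u h => by
    obtain ⟨a, -, rfl⟩ := Finset.mem_image.mp h
    exact mem_fs.mpr (Submodule.add_mem _ h2 (Submodule.smul_mem _ _ hu))
  have h3 : Fintype.card F * nn c ψ ρ e1 f1 e2 f2 u1 u2 ≤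
      ∑ u ∈ Finset.univ.image fun s : F => u2 + s • u1, nn c ψ ρ e1 f1 e2 f2 u1 u := by
    rw [Finset.sum_image fun a _ b _ h => smul_left_injective F h0 (add_left_cancel h)]
    simpa using Finset.card_nsmul_le_sum Finset.univ _ _ fun s _ => nn_shift r hu h2 s
  have h4 := h3.trans (Finset.sum_le_sum_of_subset hsub)
  have hq : 0 < Fintype.card F := Fintype.card_pos
  rw [h1] at h4
  split_ifs at h4 h1 with hk
  · refine ⟨hk, by nlinarith, fun u3 hu3 h5 => ?_⟩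
    by_contra H
    have h6 : u3 ∉ Finset.univ.image fun s : F => u2 + s • u1 := fun h => H (by
      obtain ⟨a, -, rfl⟩ := Finset.mem_image.mp h
      exact Submodule.mem_span_singleton.mpr ⟨a, by simp⟩)
    have h7 := Finset.sum_le_sum_of_subset (f := fun u => nn c ψ ρ e1 f1 e2 f2 u1 u)
      (Finset.insert_subset (mem_fs.mpr hu3) hsub)
    rw [Finset.sum_insert h6, h1] at h7
    nlinarith
  · nlinarith

/-- The cases in which the joint weights lie on lines. -/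
def Cos (B : U →ₗ[F] U →ₗ[F] F) (Q : U → F) (e1 f1 e2 f2 : U) (k : F) : Prop :=
  (∃ l : F, l ≠ 0 ∧ l * l ≠ 1) ∨ 10 ≤ finrank F U ∨ (k = 0 ∧ ∀ u1 ∈ W2 B e1 f1 e2 f2,
    ∀ u2 ∈ W2 B e1 f1 e2 f2, u1 ≠ 0 → Q u1 = 0 → Q u2 = 0 → B u1 u2 = 0 → u2 ∈ F ∙ u1)

theorem nn_line (hc : Cos B Q e1 f1 e2 f2 k) {u1 u2 : U} (hu : u1 ∈ W2 B e1 f1 e2 f2) (h0 : u1 ≠ 0)
    (h2 : u2 ∈ W2 B e1 f1 e2 f2) (hp : 0 < nn c ψ ρ e1 f1 e2 f2 u1 u2) : u2 ∈ F ∙ u1 := by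
  obtain ⟨h3, -, h4⟩ := nn_coset r hψ hμ hu h0 h2 hp
  by_contra H
  rcases hc with ⟨l, hl, hl1⟩ | h10 | ⟨rfl, h5⟩
  · obtain ⟨g, g1, g2, g3⟩ := mv_dil c r hl
    have h6 := h4 _ (Submodule.smul_mem _ (l * l) h2) (hp.trans_le (nn_le r (g := g) (a := 1)
      (b := 0) (a' := 0) (b' := l * l) (by simp [g1]) (by simp [g2])
      (fun w hw => by rwa [g3 w hw]) (by simp [g3 _ hu]) (by simp [g3 _ h2])))
    refine H ?_
    have := Submodule.smul_mem _ (l * l - 1)⁻¹ h6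
    rwa [show (l * l) • u2 - u2 = (l * l - 1) • u2 by module, smul_smul,
      inv_mul_cancel₀ (sub_ne_zero.mpr hl1), one_smul] at this
  · obtain ⟨g, g1, g2, g3⟩ := mv_big c r h10 hu h2 h0 H
    exact g3 (h4 _ ((g1.mem _).mp h2) (hp.trans_le (by simpa [g2] using nn_fix r g1 u1 u2)))
  · have key : ∀ u ∈ W2 B e1 f1 e2 f2, 0 < nn c ψ ρ e1 f1 e2 f2 u1 u → Q u = 0 := fun u h6 h7 => by
      by_cases h8 : u = 0
      · rw [h8, c.h.map_zero]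
      · exact (nn_coset r hψ hμ h6 h8 (Submodule.neg_mem _ hu) (h7.trans_le (nn_swap r hu h6))).1
    have h6 := key _ h2 hp
    have h7 := key _ (Submodule.add_mem _ h2 (Submodule.smul_mem _ _ hu))
      (hp.trans_le (nn_shift r hu h2 1))
    refine H (h5 _ hu _ h2 h0 h3 h6 ?_)
    simpa [c.h.add', h3, h6, c.h.comm u2 u1] using h7

theorem nn_zero_right (hc : Cos B Q e1 f1 e2 f2 k) {u : U} (hu : u ∈ W2 B e1 f1 e2 f2)
    (h0 : u ≠ 0) : nn c ψ ρ e1 f1 e2 f2 u 0 = if Q u = k then 1 else 0 := by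
  split_ifs with hk
  · have h1 := sum_nn r hψ hμ hu h0
    rw [if_pos hk] at h1
    obtain ⟨u2, h2, h3⟩ := Finset.exists_ne_zero_of_sum_ne_zero (h1.trans_ne Fintype.card_ne_zero)
    rw [mem_fs] at h2
    obtain ⟨a, rfl⟩ := Submodule.mem_span_singleton.mp
      (nn_line r hψ hμ hc hu h0 h2 (Nat.pos_of_ne_zero h3))
    refine (nn_coset r hψ hμ hu h0 (Submodule.zero_mem _) ((Nat.pos_of_ne_zero h3).trans_le
      ?_)).2.1
    simpa using nn_shift (c := c) (ψ := ψ) (ρ := ρ) r hu h2 (-a)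
  · by_contra H
    exact hk (nn_coset r hψ hμ hu h0 (Submodule.zero_mem _) (Nat.pos_of_ne_zero H)).1

theorem nn_zero_left (hc : Cos B Q e1 f1 e2 f2 k) {u : U} (hu : u ∈ W2 B e1 f1 e2 f2)
    (h0 : u ≠ 0) : nn c ψ ρ e1 f1 e2 f2 0 u = if Q u = k then 1 else 0 := by
  have h1 := nn_swap (c := c) (ψ := ψ) (ρ := ρ) r (Submodule.zero_mem _) hu
  have h2 := nn_swap (c := c) (ψ := ψ) (ρ := ρ) r (Submodule.neg_mem _ hu) (Submodule.zero_mem _)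
  rw [neg_zero, nn_zero_right r hψ hμ hc hu h0] at h1
  rw [neg_neg, nn_zero_right r hψ hμ hc (Submodule.neg_mem _ hu) (neg_ne_zero.mpr h0),
    c.h.neg] at h2
  exact le_antisymm h1 h2

theorem P_mul_P2 (h7 : 7 ≤ finrank F U) {u : U} (hu : u ∈ W2 B e1 f1 e2 f2) (h0 : u ≠ 0) {a : F}
    (ha : a ≠ 0) :
    pj c ψ ρ e1 (hperp B e1 f1) (a • e2) * pj c ψ ρ e2 (W2 B e1 f1 e2 f2) u = 0 := by
  classical
  obtain ⟨g, g1, g2⟩ := mv_ne c r h7 hu h0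
  set P := pj c ψ ρ e1 (hperp B e1 f1) (a • e2) with hP
  have hc : ∀ y, pj c ψ ρ e2 (W2 B e1 f1 e2 f2) y * P = P * pj c ψ ρ e2 (W2 B e1 f1 e2 f2) y :=
    fun y => mul_pj_comm fun _ hw => ei2_P r hw a
  have hi : ∀ y, tr (P * pj c ψ ρ e2 (W2 B e1 f1 e2 f2) y) =
      rk (P * pj c ψ ρ e2 (W2 B e1 f1 e2 f2) y) := fun y => tr_idem (by
    rw [mul_assoc, ← mul_assoc _ P, hc, mul_assoc, pj_idem (good_W2 r), ← mul_assoc,
      pj_idem (good_W1 r)])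
  have h1 : ∑ y ∈ fs (W2 B e1 f1 e2 f2), rk (P * pj c ψ ρ e2 (W2 B e1 f1 e2 f2) y) = rk P := by
    refine Nat.cast_injective (R := ℂ) ?_
    rw [Nat.cast_sum, Finset.sum_congr rfl fun y _ => (hi y).symm, ← map_sum, ← Finset.mul_sum,
      sum_pj hψ r.Qe2 (nondeg_W2 c r), mul_one, tr_idem (pj_idem (good_W1 r) _)]
  have h2 : rk P ≤ 1 := by
    rw [hP, hμ _ (by simp [mem_hperp, r.e1e2, r.f1e2]) (smul_ne_zero ha (e2_ne r))]
    split_ifs <;> simp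
  have h3 : rk (P * pj c ψ ρ e2 (W2 B e1 f1 e2 f2) u) =
      rk (P * pj c ψ ρ e2 (W2 B e1 f1 e2 f2) (act g u)) := by
    refine Nat.cast_injective (R := ℂ) ?_
    rw [← hi, ← hi]
    refine trace_eq_of_conj ρ g ?_
    rw [← mul_assoc, hP, conj_pj g g1.1 (fix_W1 one_ne_zero one_ne_zero (by simpa using g1.1)
      (by simpa using g1.2.1)) (y' := a • e2) (by simp [g1.2.2.1]), mul_assoc,
      conj_pj g g1.2.2.1 g1.mem rfl, mul_assoc]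
  have h4 := Finset.sum_le_sum_of_subset
    (f := fun y => rk (P * pj c ψ ρ e2 (W2 B e1 f1 e2 f2) y)) (s := {u, act g u})
    (t := fs (W2 B e1 f1 e2 f2)) (by simp [Finset.insert_subset_iff, hu, (g1.mem u).mp hu])
  rw [Finset.sum_pair g2.symm, h1, ← h3] at h4
  exact rk_eq_zero.mp (by omega)

omit hψ hμ [FiniteDimensional ℂ V] [DecidableEq F] in
theorem EE_eq_P : EE c ψ ρ e1 = pj c ψ ρ e1 (hperp B e1 f1) 0 :=
  EE_eq (good_W1 r) fun w hw => ⟨B f1 w, by simpa [hw] using pr1_mem r w⟩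

theorem tr_EE_P2 (h7 : 7 ≤ finrank F U) (hc : Cos B Q e1 f1 e2 f2 k) {u : U}
    (hu : u ∈ W2 B e1 f1 e2 f2) (h0 : u ≠ 0) :
    tr (EE c ψ ρ e1 * pj c ψ ρ e2 (W2 B e1 f1 e2 f2) u) = if Q u = k then 1 else 0 := by
  have h1 := tr_JJ (c := c) (ψ := ψ) (ρ := ρ) r (u1 := 0) (by simp) u
  rw [nn_zero_left r hψ hμ hc hu h0, JJ, P1_eq_sum r hψ (Submodule.zero_mem _), Finset.sum_mul,
    Finset.sum_eq_single 0 (fun a _ ha => by rw [zero_add, P_mul_P2 r hψ hμ h7 hu h0 ha])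
    (by simp), zero_smul, add_zero, ← EE_eq_P r] at h1
  rw [h1]
  split_ifs <;> simp

end Cfsg.Agent.H17.Om
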