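import Mathlib
import Cfsg.Agent.H17.Om3

/-!
# The subgroup `SL₂(q)` acting on a totally singular plane
-/

set_option autoImplicit false

namespace Cfsg.Agent.H17.Om

open Module Cfsg.Agent.H11

variable {F : Type*} [Field F] {U : Type*} [AddCommGroup U] [Module F U]
  {B : U →ₗ[F] U →ₗ[F] F} {Q : U → F}

/-- `g` acts on the plane `⟨e1, e2⟩` by a given matrix. -/
structure Act (e1 f1 e2 f2 : U) (g : Gp B Q) (a b s d : F) : Prop where
  h1 : act g e1 = a • e1 + s • e2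
  h2 : act g e2 = b • e1 + d • e2
  h3 : act g f1 = d • f1 - b • f2
  h4 : act g f2 = a • f2 - s • f1
  h5 : ∀ w ∈ W2 B e1 f1 e2 f2, act g w = w

variable {e1 f1 e2 f2 : U}

theorem Act.mul {g g' : Gp B Q} {a b s d a' b' s' d' : F} (h : Act e1 f1 e2 f2 g a b s d)
    (h' : Act e1 f1 e2 f2 g' a' b' s' d') : Act e1 f1 e2 f2 (g * g') (a * a' + b * s')
      (a * b' + b * d') (s * a' + d * s') (s * b' + d * d') where
  h1 := by rw [act_mul, h'.h1, map_add, map_smul, map_smul, h.h1, h.h2]; module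
  h2 := by rw [act_mul, h'.h2, map_add, map_smul, map_smul, h.h1, h.h2]; module
  h3 := by rw [act_mul, h'.h3, map_sub, map_smul, map_smul, h.h3, h.h4]; module
  h4 := by rw [act_mul, h'.h4, map_sub, map_smul, map_smul, h.h3, h.h4]; module
  h5 w hw := by rw [act_mul, h'.h5 w hw, h.h5 w hw]

theorem Act.inv {g : Gp B Q} {a b s d : F} (h : Act e1 f1 e2 f2 g a b s d)
    (hd : a * d - b * s = 1) : Act e1 f1 e2 f2 g⁻¹ d (-b) (-s) a where
  h1 := act_inv_of (by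
    rw [map_add, map_smul, map_smul, h.h1, h.h2]
    linear_combination (norm := module) hd • e1)
  h2 := act_inv_of (by
    rw [map_add, map_smul, map_smul, h.h1, h.h2]
    linear_combination (norm := module) hd • e2)
  h3 := act_inv_of (by
    rw [map_sub, map_smul, map_smul, h.h3, h.h4]
    linear_combination (norm := module) hd • f1)
  h4 := act_inv_of (by
    rw [map_sub, map_smul, map_smul, h.h3, h.h4]
    linear_combination (norm := module) hd • f2)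
  h5 w hw := act_inv_of (h.h5 w hw)

theorem Act.one : Act e1 f1 e2 f2 (1 : Gp B Q) 1 0 0 1 := by
  constructor <;> simp

theorem Act.congr {g : Gp B Q} {a b s d a' b' s' d' : F} (h : Act e1 f1 e2 f2 g a b s d)
    (h1 : a = a') (h2 : b = b') (h3 : s = s') (h4 : d = d') : Act e1 f1 e2 f2 g a' b' s' d' := by
  subst h1 h2 h3 h4
  exact h

theorem Act.ext (r : Fr B Q e1 f1 e2 f2) {g g' : Gp B Q} {a b s d : F}
    (h : Act e1 f1 e2 f2 g a b s d) (h' : Act e1 f1 e2 f2 g' a b s d) : g = g' :=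
  act_ext fun v => by
    have h1 := h.h5 _ (pr2_mem r v)
    have h2 := h'.h5 _ (pr2_mem r v)
    simp only [map_sub, map_smul, h.h1, h.h2, h.h3, h.h4, h'.h1, h'.h2, h'.h3, h'.h4] at h1 h2
    linear_combination (norm := module) h1 - h2

variable (B Q e1 f1 e2 f2) in
/-- The subgroup `SL₂(q)`. -/
def KK : Subgroup (Gp B Q) where
  carrier := {g | ∃ a b s d : F, a * d - b * s = 1 ∧ Act e1 f1 e2 f2 g a b s d}
  one_mem' := ⟨1, 0, 0, 1, by ring, Act.one⟩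
  mul_mem' := fun ⟨_, _, _, _, h1, h2⟩ ⟨a, b, s, d, h3, h4⟩ =>
    ⟨_, _, _, _, by linear_combination (a * d - b * s) * h1 + h3, h2.mul h4⟩
  inv_mem' := fun ⟨_, _, _, _, h1, h2⟩ => ⟨_, _, _, _, by linear_combination h1, h2.inv h1⟩

variable (B Q e1 f1 e2 f2) in
/-- Its Borel subgroup. -/
def Bo : Subgroup (Gp B Q) where
  carrier := {g | ∃ a b d : F, a * d = 1 ∧ Act e1 f1 e2 f2 g a b 0 d}
  one_mem' := ⟨1, 0, 1, by ring, Act.one⟩
  mul_mem' := fun ⟨_, _, _, h1, h2⟩ ⟨a, _, d, h3, h4⟩ =>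
    ⟨_, _, _, by linear_combination (a * d) * h1 + h3, (h2.mul h4).congr rfl rfl (by ring) rfl⟩
  inv_mem' := fun ⟨_, _, _, h1, h2⟩ => ⟨_, _, _, by linear_combination h1,
    (h2.inv (by linear_combination h1)).congr rfl rfl (by ring) rfl⟩

theorem Bo_le : Bo B Q e1 f1 e2 f2 ≤ KK B Q e1 f1 e2 f2 := fun _ ⟨a, b, d, h1, h2⟩ =>
  ⟨a, b, 0, d, by linear_combination h1, h2⟩

theorem Act.eq_of (r : Fr B Q e1 f1 e2 f2) {g : Gp B Q} {a b s d a' b' s' d' : F}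
    (h : Act e1 f1 e2 f2 g a b s d) (h' : Act e1 f1 e2 f2 g a' b' s' d') : a = a' ∧ s = s' := by
  have := h.h1.symm.trans h'.h1
  exact ⟨by simpa [r.f1e1, r.f1e2] using congrArg (B f1) this,
    by simpa [r.f2e1, r.f2e2] using congrArg (B f2) this⟩

variable [Fintype F] [Fintype U] (c : OC B Q) {V : Type*} [AddCommGroup V] [Module ℂ V]
  {ψ : AddChar F ℂ} {ρ : Representation ℂ (Gp B Q) V}

noncomputable instance fintypeGp : Fintype (Gp B Q) := by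
  have : Finite (U ≃ₗ[F] U) := Finite.of_injective _ DFunLike.coe_injective
  exact Fintype.ofFinite _

open Classical in
/-- A subgroup as a finite set. -/
noncomputable def gs (S : Subgroup (Gp B Q)) : Finset (Gp B Q) := Finset.univ.filter (· ∈ S)

@[simp] theorem mem_gs {S : Subgroup (Gp B Q)} {g : Gp B Q} : g ∈ gs S ↔ g ∈ S := by simp [gs]

theorem card_gs_ne (S : Subgroup (Gp B Q)) : ((gs S).card : ℂ) ≠ 0 :=
  Nat.cast_ne_zero.mpr (Finset.card_ne_zero.mpr ⟨1, by simp⟩)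

variable (ρ) in
/-- The average over a subgroup. -/
noncomputable def Av (S : Subgroup (Gp B Q)) : End ℂ V := ((gs S).card : ℂ)⁻¹ • ∑ g ∈ gs S, ρ g

theorem mul_Av {S : Subgroup (Gp B Q)} {g : Gp B Q} (hg : g ∈ S) : ρ g * Av ρ S = Av ρ S := by
  rw [Av, mul_smul_comm, Finset.mul_sum]
  congr 1
  exact Finset.sum_equiv (Equiv.mulLeft g) (fun a => by simp [S.mul_mem_cancel_left hg])
    fun a _ => by simp

theorem Av_mul {S : Subgroup (Gp B Q)} {g : Gp B Q} (hg : g ∈ S) : Av ρ S * ρ g = Av ρ S := by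
  rw [Av, smul_mul_assoc, Finset.sum_mul]
  congr 1
  exact Finset.sum_equiv (Equiv.mulRight g) (fun a => by simp [S.mul_mem_cancel_right hg])
    fun a _ => by simp

theorem Av_mul_Av {S S' : Subgroup (Gp B Q)} (h : S ≤ S') : Av ρ S * Av ρ S' = Av ρ S' := by
  conv_lhs => rw [Av]
  rw [smul_mul_assoc, Finset.sum_mul, Finset.sum_congr rfl fun g hg => mul_Av (h (mem_gs.mp hg)),
    Finset.sum_const, ← Nat.cast_smul_eq_nsmul ℂ, smul_smul, inv_mul_cancel₀ (card_gs_ne S),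
    one_smul]

variable (r : Fr B Q e1 f1 e2 f2)

include r

theorem act_xs (t : F) : Act e1 f1 e2 f2 (ei c e1 (t • f2)) 1 t 0 1 where
  h1 := by simp [xs_e1 r]
  h2 := by simp [xs_e2 r]
  h3 := by simp [ei_apply c r.Qe1 (w := t • f2) (by simp [r.e1f2]), r.f2f1, r.e1f1, c.h.smul', r.Qf2]
  h4 := by simp [ei_apply c r.Qe1 (w := t • f2) (by simp [r.e1f2]), r.f2f2, r.e1f2]
  h5 w hw := xs_W r hw t

theorem act_yt (t : F) : Act e1 f1 e2 f2 (ei c e2 (t • f1)) 1 0 t 1 where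
  h1 := by simp [yt_e1 r]
  h2 := by simp [yt_e2 r]
  h3 := by simp [ei_apply c r.Qe2 (w := t • f1) (by simp [r.e2f1]), r.f1f1, r.e2f1]
  h4 := by simp [ei_apply c r.Qe2 (w := t • f1) (by simp [r.e2f1]), r.f1f2, r.e2f2, c.h.smul', r.Qf1]
  h5 w hw := yt_W r hw t

include c in
open Classical in
theorem card_KK : (gs (KK B Q e1 f1 e2 f2) \ gs (Bo B Q e1 f1 e2 f2)).card =
    Fintype.card F * (gs (Bo B Q e1 f1 e2 f2)).card := by
  obtain ⟨n, hn⟩ : ∃ n : Gp B Q, Act e1 f1 e2 f2 n 0 (-1) 1 0 :=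
    ⟨_, (((act_xs c r (-1)).mul (act_yt c r 1)).mul (act_xs c r (-1))).congr (by ring) (by ring)
      (by ring) (by ring)⟩
  rw [← Finset.card_univ, ← Finset.card_product]
  symm
  refine Finset.card_bij (fun p _ => ei c e1 (p.1 • f2) * n * p.2) (fun p hp => ?_)
    (fun p hp p' hp' hh => ?_) fun g hg => ?_
  · obtain ⟨a, b, d, h1, h2⟩ := mem_gs.mp (Finset.mem_product.mp hp).2
    have h3 := ((act_xs c r p.1).mul hn).mul h2
    refine Finset.mem_sdiff.mpr ⟨mem_gs.mpr ⟨_, _, _, _, by linear_combination h1, h3⟩, fun h => ?_⟩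
    obtain ⟨a', b', d', -, h4⟩ := mem_gs.mp h
    have h5 : a = 0 := by linear_combination (h3.eq_of r h4).2
    simp [h5] at h1
  · obtain ⟨a, b, d, h1, h2⟩ := mem_gs.mp (Finset.mem_product.mp hp).2
    obtain ⟨a', b', d', h1', h2'⟩ := mem_gs.mp (Finset.mem_product.mp hp').2
    have h3 := ((act_xs c r p.1).mul hn).mul h2
    have h4 := ((act_xs c r p'.1).mul hn).mul h2'
    rw [← hh] at h4
    obtain ⟨h5, h6⟩ := h3.eq_of r h4
    have h7 : p.1 = p'.1 := by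
      linear_combination d * h5 - p'.1 * d * h6 + (p'.1 - p.1) * h1
    rw [h7] at hh
    exact Prod.ext h7 (mul_left_cancel hh)
  · obtain ⟨⟨a, b, s, d, h1, h2⟩, h3⟩ := (by simpa using hg :
      g ∈ KK B Q e1 f1 e2 f2 ∧ g ∉ Bo B Q e1 f1 e2 f2)
    have hs : s ≠ 0 := fun h => h3 ⟨a, b, d, by rw [h] at h1; linear_combination h1, h ▸ h2⟩
    refine ⟨(a / s, (ei c e1 ((a / s) • f2) * n)⁻¹ * g), ?_, mul_inv_cancel_left _ _⟩
    refine Finset.mem_product.mpr ⟨Finset.mem_univ _, mem_gs.mpr ⟨_, _, _, ?_,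
      ((((act_xs c r (a / s)).mul hn).inv (by ring)).mul h2).congr rfl rfl (by field_simp; ring)
        rfl⟩⟩
    field_simp
    linear_combination s * h1

variable {c}

theorem JJ_Av {S : Subgroup (Gp B Q)} (hS : S ≤ KK B Q e1 f1 e2 f2) :
    JJ c ψ ρ e1 f1 e2 f2 0 0 * (Av ρ S * JJ c ψ ρ e1 f1 e2 f2 0 0) =
      Av ρ S * JJ c ψ ρ e1 f1 e2 f2 0 0 := by
  refine LinearMap.ext fun v => JJ_apply r (by simp) ?_
  rw [End.mul_apply, Av, LinearMap.smul_apply, LinearMap.sum_apply]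
  refine Submodule.smul_mem _ _ (Submodule.sum_mem _ fun g hg => ?_)
  obtain ⟨a, b, s, d, -, h2⟩ := hS (S.inv_mem (mem_gs.mp hg))
  simpa using NN_map r h2.h1 h2.h2 (fun w hw => by rwa [h2.h5 w hw]) (u1' := 0) (u2' := 0)
    (by simp) (by simp) (JJ_mem r (by simp) 0 v)

theorem EE_P2_comm (u : U) : pj c ψ ρ e2 (W2 B e1 f1 e2 f2) u * EE c ψ ρ e1 =
    EE c ψ ρ e1 * pj c ψ ρ e2 (W2 B e1 f1 e2 f2) u := mul_pj_comm fun w hw => by
  simpa [EE_eq_P r] using ei2_P (c := c) (ψ := ψ) (ρ := ρ) r hw 0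

theorem EE_P2_eq : EE c ψ ρ e1 * pj c ψ ρ e2 (W2 B e1 f1 e2 f2) 0 =
    pj c ψ ρ e1 (F ∙ f2) 0 * JJ c ψ ρ e1 f1 e2 f2 0 0 := by
  rw [JJ, ← mul_assoc, ← pj_sup (Good.span r.Qe1 r.e1f2) (good_Z1 r),
    EE_eq ((Good.span r.Qe1 r.e1f2).sup (good_Z1 r))]
  intro w hw
  refine ⟨B f1 w, Submodule.mem_sup.mpr ⟨B e2 w • f2, Submodule.mem_span_singleton.mpr ⟨_, rfl⟩,
    w - B f1 w • e1 - B e2 w • f2, ?_, by abel⟩⟩
  simp [mem_Z1, hw, r.e1e1, r.e1f2, r.f1e1, r.f1f2, r.e2e1, r.e2f2]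

variable [FiniteDimensional ℂ V]

local notation "tr" => LinearMap.trace ℂ V

theorem sl2_trace {ν : ℂ} (hν : ∀ s : F, s ≠ 0 →
      tr (ρ (ei c e2 (s • f1)) * (EE c ψ ρ e1 * pj c ψ ρ e2 (W2 B e1 f1 e2 f2) 0)) = ν) :
    ∃ a b : ℕ, a ≤ b ∧ b ≤ rk (EE c ψ ρ e1 * pj c ψ ρ e2 (W2 B e1 f1 e2 f2) 0) ∧
      (Fintype.card F + 1 : ℂ) * a = b + Fintype.card F * ν := by
  classical
  set D := EE c ψ ρ e1 * pj c ψ ρ e2 (W2 B e1 f1 e2 f2) 0 with hD
  set J := JJ c ψ ρ e1 f1 e2 f2 0 0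
  have hx : ∀ t : F, ei c e1 (t • f2) ∈ Bo B Q e1 f1 e2 f2 := fun t =>
    ⟨1, t, 1, by ring, act_xs c r t⟩
  have h1 : ∀ S, Bo B Q e1 f1 e2 f2 ≤ S → Av ρ S * D = Av ρ S * J := fun S hS => by
    rw [hD, EE_P2_eq r, ← mul_assoc, mul_pj_of]
    intro w hw
    obtain ⟨t, rfl⟩ := Submodule.mem_span_singleton.mp hw
    simp [Av_mul (hS (hx t))]
  have h2 : ∀ S, S ≤ KK B Q e1 f1 e2 f2 → tr (Av ρ S * J) = rk (Av ρ S * J) := fun S hS =>
    tr_idem (by rw [mul_assoc, JJ_Av r hS, ← mul_assoc, Av_mul_Av le_rfl])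
  refine ⟨rk (Av ρ (KK B Q e1 f1 e2 f2) * J), rk (Av ρ (Bo B Q e1 f1 e2 f2) * J),
    rk_le (by rw [mul_assoc, JJ_Av r le_rfl, ← mul_assoc, Av_mul_Av Bo_le]), rk_le ?_, ?_⟩
  · rw [hD, EE_P2_eq r, mul_assoc, JJ_Av r Bo_le, ← mul_assoc, pj_mul_of]
    intro w hw
    obtain ⟨t, rfl⟩ := Submodule.mem_span_singleton.mp hw
    simp [mul_Av (hx t)]
  have h3 : ∀ S, tr (Av ρ S * D) * (gs S).card = ∑ g ∈ gs S, tr (ρ g * D) := fun S => by
    rw [Av, smul_mul_assoc, map_smul, smul_eq_mul, mul_comm, mul_inv_cancel_left₀ (card_gs_ne S),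
      Finset.sum_mul, map_sum]
  have hsub : gs (Bo B Q e1 f1 e2 f2) ⊆ gs (KK B Q e1 f1 e2 f2) := fun g hg =>
    mem_gs.mpr (Bo_le (mem_gs.mp hg))
  have h4 := h3 (KK B Q e1 f1 e2 f2)
  rw [← Finset.sum_sdiff hsub, ← h3, Finset.sum_congr rfl (g := fun _ => ν) fun g hg => ?_,
    ← Finset.card_sdiff_add_card_eq_card hsub, Finset.sum_const, card_KK c r] at h4
  · rw [← h2 _ le_rfl, ← h2 _ Bo_le, ← h1 _ le_rfl, ← h1 _ Bo_le]
    refine mul_right_cancel₀ (card_gs_ne (Bo B Q e1 f1 e2 f2)) ?_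
    simp only [nsmul_eq_mul] at h4
    push_cast at h4
    linear_combination h4
  · obtain ⟨⟨a, b, s, d, h5, h6⟩, h7⟩ := (by simpa using hg :
      g ∈ KK B Q e1 f1 e2 f2 ∧ g ∉ Bo B Q e1 f1 e2 f2)
    have hs : s ≠ 0 := fun h => h7 ⟨a, b, d, by rw [h] at h5; linear_combination h5, h ▸ h6⟩
    rw [← hν s hs, h6.ext r ((((act_xs c r ((a - 1) / s)).mul (act_yt c r s)).mul
      (act_xs c r ((d - 1) / s))).congr (by field_simp; ring)
        (by field_simp; linear_combination h5) (by ring) (by field_simp; ring)), map_mul ρ, map_mul ρ,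
      mul_assoc, hD, ← mul_assoc (ρ (ei c e1 (((d - 1) / s) • f2))),
      ei_mul_EE r.Qe1 (by simp [r.e1f2]), mul_assoc, LinearMap.trace_mul_comm, ← EE_P2_comm r,
      mul_assoc, mul_assoc, EE_mul_ei r.Qe1 (by simp [r.e1f2])]

end Cfsg.Agent.H17.Om
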