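import Mathlib
import Cfsg.Agent.H17.Om4
import Cfsg.Agent.H6.Ortho

/-!
# The trace equation for small representations of `Ω(U, Q)`
-/

set_option autoImplicit false

namespace Cfsg.Agent.H17.Om

open Module Cfsg.Agent.H11

variable {F : Type*} [Field F] {U : Type*} [AddCommGroup U] [Module F U]
  {B : U →ₗ[F] U →ₗ[F] F} {Q : U → F} [Fintype F] [Fintype U]

open Classical in
/-- Nonzero vectors of a given norm in a subspace. -/
noncomputable def lv (Q : U → F) (Z : Submodule F U) (k : F) : Finset U :=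
  (fs Z).filter fun u => Q u = k ∧ u ≠ 0

theorem mem_lv {Z : Submodule F U} {k : F} {u : U} : u ∈ lv Q Z k ↔ u ∈ Z ∧ Q u = k ∧ u ≠ 0 := by
  simp [lv]

theorem sum_lv [DecidableEq F] {Z : Submodule F U} {k : F} {φ ξ : U → ℂ}
    (h : ∀ u ∈ Z, u ≠ 0 → φ u = if Q u = k then ξ u else 0) :
    ∑ u ∈ fs Z, φ u = φ 0 + ∑ u ∈ lv Q Z k, ξ u := by
  classical
  rw [← Finset.add_sum_erase _ _ (mem_fs.mpr Z.zero_mem), Finset.sum_congr rfl fun u hu =>
    h u (mem_fs.mp (Finset.mem_erase.mp hu).2) (Finset.mem_erase.mp hu).1, ← Finset.sum_filter]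
  congr 2
  ext u
  simp only [mem_lv, Finset.mem_filter, Finset.mem_erase, mem_fs]
  tauto

open Classical in
theorem card_lv_ne (h : IsQuad B Q) {Z : Submodule F U} {e f : U} (he : Q e = 0) (hf : Q f = 0)
    (hef : B e f = 1) (heZ : e ∈ Z) (hfZ : f ∈ Z) (k : F) {b : F} (hb : b ≠ 0) :
    ((lv Q Z k).filter fun u => B e u = b).card = (fs (Z ⊓ hperp B e f)).card := by
  rw [← card_level_ne h he hf hef heZ hfZ k hb]
  congr 1
  ext u
  simp only [Finset.mem_filter, mem_lv, mem_fs]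
  exact ⟨fun h => ⟨h.1.1, h.1.2.1, h.2⟩, fun h => ⟨⟨h.1, h.2.1, fun h0 => hb (by
    rw [← h.2.2, h0, map_zero])⟩, h.2.2⟩⟩

theorem sum_lv_char (h : IsQuad B Q) {Z : Submodule F U} {e f : U} (he : Q e = 0) (hf : Q f = 0)
    (hef : B e f = 1) (heZ : e ∈ Z) (hfZ : f ∈ Z) (k : F) (φ : F → ℂ) :
    ∑ u ∈ lv Q Z k, φ (B e u) = (lv Q Z k).card * φ 0 +
      (fs (Z ⊓ hperp B e f)).card * (∑ b, φ b - Fintype.card F * φ 0) := by
  classical
  have h1 : ∑ u ∈ lv Q Z k, (φ (B e u) - φ 0) =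
      ∑ b : F, ((fs (Z ⊓ hperp B e f)).card : ℂ) * (φ b - φ 0) := by
    rw [← Finset.sum_fiberwise (s := lv Q Z k) (g := fun u => B e u)]
    refine Finset.sum_congr rfl fun b _ => ?_
    rw [Finset.sum_congr rfl (g := fun _ => φ b - φ 0) fun u hu => by
      rw [(Finset.mem_filter.mp hu).2]]
    by_cases hb : b = 0
    · simp [hb]
    · rw [Finset.sum_const, card_lv_ne h he hf hef heZ hfZ k hb, nsmul_eq_mul]
  rw [Finset.sum_sub_distrib, ← Finset.mul_sum, Finset.sum_sub_distrib] at h1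
  simp only [Finset.sum_const, nsmul_eq_mul, Finset.card_univ] at h1
  linear_combination h1

open Classical in
theorem card_lv_add (h : IsQuad B Q) (Z : Submodule F U) (k : F) :
    (lv Q Z k).card + (if k = 0 then 1 else 0) = ((fs Z).filter fun u => Q u = k).card := by
  split_ifs with hk
  · rw [← Finset.card_insert_of_notMem (a := 0) (by simp [mem_lv])]
    congr 1
    ext u
    by_cases hu : u = 0 <;> simp [mem_lv, hu, hk, h.map_zero]
  · rw [add_zero]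
    congr 1
    ext u
    by_cases hu : u = 0 <;> simp [mem_lv, hu, h.map_zero, Ne.symm hk]

open Classical in
theorem card_lv_zero (h : IsQuad B Q) {Z : Submodule F U} {e f : U} (he : Q e = 0) (hf : Q f = 0)
    (hef : B e f = 1) (heZ : e ∈ Z) (k : F) :
    ((lv Q Z k).filter fun u => B e u = 0).card + (if k = 0 then 1 else 0) =
      Fintype.card F * ((lv Q (Z ⊓ hperp B e f) k).card + if k = 0 then 1 else 0) := by
  rw [card_lv_add h, ← card_level_zero h he hf hef heZ k]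
  split_ifs with hk
  · rw [← Finset.card_insert_of_notMem (a := 0) (by simp [mem_lv])]
    congr 1
    ext u
    by_cases hu : u = 0 <;> simp [mem_lv, hu, hk, h.map_zero, and_assoc]
  · rw [add_zero]
    congr 1
    ext u
    by_cases hu : u = 0 <;> simp [mem_lv, hu, h.map_zero, Ne.symm hk, and_assoc]

open Classical in
theorem card_lv_rec (h : IsQuad B Q) {Z : Submodule F U} {e f : U} (he : Q e = 0) (hf : Q f = 0)
    (hef : B e f = 1) (heZ : e ∈ Z) (hfZ : f ∈ Z) (k : F) :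
    ((lv Q Z k).card : ℂ) + (if k = 0 then 1 else 0) =
      Fintype.card F * ((lv Q (Z ⊓ hperp B e f) k).card + if k = 0 then 1 else 0) +
        (Fintype.card F - 1) * (fs (Z ⊓ hperp B e f)).card := by
  have h1 := sum_lv_char h he hf hef heZ hfZ k fun b => if b = 0 then 1 else 0
  have h2 := congrArg (Nat.cast : ℕ → ℂ) (card_lv_zero h he hf hef heZ k)
  rw [Finset.sum_boole] at h1
  simp only [if_true, Finset.sum_ite_eq', Finset.mem_univ] at h1
  push_cast at h2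
  linear_combination h2 - h1

variable {c : OC B Q} {V : Type*} [AddCommGroup V] [Module ℂ V] [FiniteDimensional ℂ V]
  {ψ : AddChar F ℂ} {ρ : Representation ℂ (Gp B Q) V} {e1 f1 e2 f2 : U} (r : Fr B Q e1 f1 e2 f2)
  (h7 : 7 ≤ finrank F U)

local notation "tr" => LinearMap.trace ℂ V

include r h7

theorem tr_EE {x : U} (hx : Q x = 0) (h0 : x ≠ 0) : tr (EE c ψ ρ x) = tr (EE c ψ ρ e1) := by
  obtain ⟨g, rfl⟩ := mv_one c r h7 hx h0
  exact (trace_eq_of_conj ρ g (conj_EE g e1)).symm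

theorem schur_eq [ρ.IsIrreducible] : ((lv Q ⊤ 0).card : ℂ) * tr (EE c ψ ρ e1) ^ 2 =
    finrank ℂ V * ((Fintype.card F - 1) * tr (EE c ψ ρ e1) +
      Fintype.card F * (lv Q (hperp B e1 f1) 0).card * tr (EE c ψ ρ e1 * EE c ψ ρ e2) +
        (Fintype.card F - 1) * (fs (hperp B e1 f1)).card * tr (EE c ψ ρ e1 * EE c ψ ρ f1)) := by
  classical
  obtain ⟨z, hz⟩ := H6.exists_scalar_of_comm ρ (∑ x ∈ lv Q ⊤ 0, EE c ψ ρ x) fun g => by
    rw [Finset.sum_mul, Finset.mul_sum]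
    exact (Finset.sum_equiv (act g).toEquiv (fun x => by simp [mem_lv, act_Q g])
      fun x _ => conj_EE g x).symm
  have h1 := congrArg tr hz
  rw [map_sum, Finset.sum_congr rfl fun x hx => tr_EE r h7 (mem_lv.mp hx).2.1 (mem_lv.mp hx).2.2,
    Finset.sum_const, map_smul, LinearMap.trace_id, nsmul_eq_mul, smul_eq_mul] at h1
  have h2 := congrArg (fun T => tr (EE c ψ ρ e1 * T)) hz
  simp only [Finset.mul_sum, map_sum, mul_smul_comm, map_smul, smul_eq_mul] at h2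
  rw [show (LinearMap.id : End ℂ V) = 1 from rfl, mul_one] at h2
  set d := tr (EE c ψ ρ e1)
  set τ := tr (EE c ψ ρ e1 * EE c ψ ρ e2)
  set t := tr (EE c ψ ρ e1 * EE c ψ ρ f1)
  have h3 : ∀ x ∈ lv Q ⊤ 0, tr (EE c ψ ρ e1 * EE c ψ ρ x) =
      (if B e1 x = 0 then τ else t) + (if x ∈ F ∙ e1 then d - τ else 0) := fun x hx => by
    obtain ⟨-, hx, h0⟩ := mem_lv.mp hx
    by_cases h4 : x ∈ F ∙ e1
    · obtain ⟨a, rfl⟩ := Submodule.mem_span_singleton.mp h4
      rw [if_pos h4, if_pos (by simp [r.e1e1]), EE_smul r.Qe1 (left_ne_zero_of_smul h0),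
        EE_idem r.Qe1, add_sub_cancel]
    rw [if_neg h4, add_zero]
    split_ifs with h5
    · obtain ⟨g, g1, g2⟩ := mv_perp c r h7 hx h5 fun a h => h4
        (Submodule.mem_span_singleton.mpr ⟨a, h⟩)
      refine (trace_eq_of_conj ρ g ?_).symm
      rw [← mul_assoc, conj_EE, mul_assoc, conj_EE, g1, g2, mul_assoc]
    · obtain ⟨g, g1, g2⟩ := mv_opp c r h7 (x := (B e1 x)⁻¹ • x) (by simp [c.h.smul', hx])
        (by simp [h5])
      refine (trace_eq_of_conj ρ g ?_).symm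
      rw [← mul_assoc, conj_EE, mul_assoc, conj_EE, g1, g2, mul_assoc, EE_smul hx (inv_ne_zero h5)]
  rw [Finset.sum_congr rfl h3, Finset.sum_add_distrib, sum_lv_char c.h r.Qe1 r.Qf1 r.e1f1
    Submodule.mem_top Submodule.mem_top 0 fun b => if b = 0 then τ else t, ← Finset.sum_filter,
    Finset.sum_const, top_inf_eq] at h2
  have h4 : ((lv Q ⊤ 0).filter (· ∈ F ∙ e1)).card + 1 = Fintype.card F := by
    rw [← Finset.card_insert_of_notMem (a := 0) (by simp [mem_lv]), ← pow_one (Fintype.card F),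
      ← finrank_span_singleton (K := F) (e1_ne r), ← card_fs]
    congr 1
    ext u
    by_cases hu : u = 0
    · simp [hu]
    · simp only [Finset.mem_insert, hu, false_or, Finset.mem_filter, mem_lv, mem_fs]
      refine ⟨fun h => h.2, fun h => ⟨⟨Submodule.mem_top, ?_, hu⟩, h⟩⟩
      obtain ⟨a, rfl⟩ := Submodule.mem_span_singleton.mp h
      simp [c.h.smul', r.Qe1]
  have h5 := congrArg (Nat.cast : ℕ → ℂ) h4
  have h6 := card_lv_rec c.h r.Qe1 r.Qf1 r.e1f1 Submodule.mem_top Submodule.mem_top 0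
  have h8 : ∑ b : F, (if b = 0 then τ else t) = τ + (Fintype.card F - 1) * t := by
    rw [Finset.sum_congr rfl (g := fun b => t + if b = 0 then τ - t else 0) fun b _ => by
      split_ifs <;> ring, Finset.sum_add_distrib]
    simp
    ring
  rw [h8] at h2
  simp only [if_true, nsmul_eq_mul, top_inf_eq] at h2 h6
  push_cast at h5
  linear_combination d * h1 - (finrank ℂ V) * h2 + (finrank ℂ V) * (τ * h6 + (d - τ) * h5)

variable (hψ : ψ ≠ 1) {k : F} [DecidableEq F]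
  (hμ : ∀ u ∈ hperp B e1 f1, u ≠ 0 → rk (pj c ψ ρ e1 (hperp B e1 f1) u) = if Q u = k then 1 else 0)

include hψ

omit h7 [DecidableEq F] in
theorem tr_yt {s : F} (hs : s ≠ 0) : tr (EE c ψ ρ e1 * ρ (ei c e2 (s • f1))) =
    tr (ρ (ei c e2 (s • f1)) * (EE c ψ ρ e1 * pj c ψ ρ e2 (W2 B e1 f1 e2 f2) 0)) := by
  conv_lhs => rw [LinearMap.trace_mul_comm, ← mul_one (EE c ψ ρ e1),
    ← sum_pj (c := c) (ρ := ρ) hψ r.Qe2 (nondeg_W2 c r)]
  rw [Finset.mul_sum, Finset.mul_sum, map_sum, Finset.sum_eq_single 0 (fun u hu h0 => ?_) (by simp)]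
  rw [mem_fs] at hu
  obtain ⟨t, ht⟩ := DFunLike.ne_iff.mp hψ
  obtain ⟨w, hw, -, h1⟩ := dual_W2 c r (X := ⊥) bot_le hu (by simpa using h0)
  replace hw := Submodule.smul_mem _ (-(t / s)) hw
  set T := EE c ψ ρ e1 * pj c ψ ρ e2 (W2 B e1 f1 e2 f2) u with hT
  have h2 : ρ (ei c ((1 : F) • e1 + (-s) • e2) (-(t / s) • w)) * T = ψ t • T := by
    refine LinearMap.ext fun v => ?_
    rw [End.mul_apply, NN_comb r (ψ := ψ) (u1 := 0) (u2 := u) ?_ hw]
    · simp [c.h.comm w u, h1, hs]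
    · refine ⟨fun x hx => ?_, fun x hx => ?_, fun a => ?_⟩
      · rw [← End.mul_apply, hT, ← mul_assoc, ei_mul_EE r.Qe1 (mem_W2.mp hx).1.1]
        simp
      · rw [← End.mul_apply, hT, ← EE_P2_comm r, ← mul_assoc, ei_mul_pj (good_W2 r) hx]
        simp
      · rw [← End.mul_apply, hT, ← mul_assoc, ei_mul_EE r.Qe1 (by simp [r.e1e2])]
  have h3 : T * ρ (ei c e1 (-(t / s) • w)) = T := by
    rw [hT, ← EE_P2_comm r, mul_assoc, EE_mul_ei r.Qe1 (mem_W2.mp hw).1.1]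
  have h4 : tr (ρ (ei c e2 (s • f1)) * T) = ψ t * tr (ρ (ei c e2 (s • f1)) * T) := by
    conv_lhs => rw [← h3, ← mul_assoc, LinearMap.trace_mul_comm, ← mul_assoc, ← map_mul ρ]
    rw [← smul_eq_mul (ψ t), ← map_smul, ← mul_smul_comm, ← h2, ← mul_assoc (ρ (ei c e2 _)), ← map_mul ρ,
      ei_conj c (ei c e2 _),
      yt_W r hw, map_add, map_smul, map_smul, yt_e1 r, yt_e2 r]
    simp
  by_contra H
  exact ht (by simpa [H] using h4.symm)

omit h7 hψ [DecidableEq F] [FiniteDimensional ℂ V] in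
theorem EE_mul_EE : EE c ψ ρ e1 * EE c ψ ρ e2 = (Fintype.card F : ℂ)⁻¹ •
    ∑ t : F, EE c ψ ρ e1 * pj c ψ ρ e2 (W2 B e1 f1 e2 f2) 0 * ρ (ei c e2 (t • f1)) := by
  have g1 : Good B Q e2 (F ∙ e1) := Good.span r.Qe2 r.e2e1
  have g2 : Good B Q e2 (F ∙ f1) := Good.span r.Qe2 r.e2f1
  rw [EE_eq (x := e2) (g1.sup ((good_W2 r).sup g2)), pj_sup g1 ((good_W2 r).sup g2),
    pj_sup (good_W2 r) g2, ← mul_assoc, mul_pj_of, pj_span (f1_ne r), ← mul_assoc, mul_smul_comm,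
    Finset.mul_sum]
  · intro w hw
    obtain ⟨a, rfl⟩ := Submodule.mem_span_singleton.mp hw
    rw [ei_swap c r.Qe1 r.Qe2 r.e1e2, EE_mul_ei r.Qe1 (by simp [r.e1e2])]
    simp
  · intro w hw
    have := pr2_mem r w
    rw [hw, zero_smul, sub_zero] at this
    refine ⟨B f2 w, Submodule.mem_sup.mpr ⟨B f1 w • e1, Submodule.mem_span_singleton.mpr ⟨_, rfl⟩,
      _, Submodule.add_mem_sup this (Submodule.mem_span_singleton.mpr ⟨B e1 w, rfl⟩), by abel⟩⟩

include hμ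

omit h7 in
theorem dim_eq : (finrank ℂ V : ℂ) = tr (EE c ψ ρ e1) + (lv Q (hperp B e1 f1) k).card := by
  rw [← LinearMap.trace_one, ← sum_pj (c := c) (ρ := ρ) hψ r.Qe1 (nondeg_W1 c r), map_sum,
    sum_lv (Q := Q) (k := k) (ξ := fun _ => 1) fun u hu h0 => by
      rw [tr_idem (pj_idem (good_W1 r) u), hμ u hu h0]; split_ifs <;> simp, EE_eq_P r]
  simp

theorem main_eq [ρ.IsIrreducible] (hc : Cos B Q e1 f1 e2 f2 k) : ∃ i j : ℕ, i ≤ j ∧
    (finrank ℂ V : ℂ) * (Fintype.card F * (lv Q ⊤ 0).card * (lv Q (hperp B e1 f1) k).card -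
      Fintype.card F * (lv Q (hperp B e1 f1) 0).card * (lv Q (W2 B e1 f1 e2 f2) k).card -
      (Fintype.card F - 1) * ((lv Q (hperp B e1 f1) 0).card +
        Fintype.card F * (lv Q (hperp B e1 f1) k).card) *
        (Fintype.card F * (lv Q (W2 B e1 f1 e2 f2) k).card + Fintype.card F * j + i)) =
      Fintype.card F * (lv Q ⊤ 0).card * (lv Q (hperp B e1 f1) k).card ^ 2 := by
  have e0 := schur_eq (c := c) (ψ := ψ) (ρ := ρ) r h7
  have e1' := dim_eq r hψ hμ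
  obtain ⟨t', ht'⟩ : ∃ t' : ℂ, ∀ u ∈ hperp B e1 f1, u ≠ 0 →
      tr (EE c ψ ρ f1 * pj c ψ ρ e1 (hperp B e1 f1) u) = if Q u = k then t' else 0 := by
    have hz : ∀ u ∈ hperp B e1 f1, u ≠ 0 → Q u ≠ k →
        tr (EE c ψ ρ f1 * pj c ψ ρ e1 (hperp B e1 f1) u) = 0 := fun u hu h0 hk => by
      rw [rk_eq_zero.mp ((hμ u hu h0).trans (if_neg hk)), mul_zero, map_zero]
    by_cases h : ∃ u0 ∈ hperp B e1 f1, u0 ≠ 0 ∧ Q u0 = k
    · obtain ⟨u0, h1, h2, h3⟩ := h
      refine ⟨tr (EE c ψ ρ f1 * pj c ψ ρ e1 (hperp B e1 f1) u0), fun u hu h0 => ?_⟩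
      split_ifs with hk
      · obtain ⟨g, g1, g2, g3⟩ := mv_W1 c r h7 hu h1 h0 h2 (h3.trans hk.symm) one_ne_zero
        refine trace_eq_of_conj ρ g ?_
        rw [← mul_assoc, conj_EE, mul_assoc, conj_pj g (x' := e1) (by simpa using g1)
          (fix_W1 (inv_ne_zero one_ne_zero) one_ne_zero g1 g2) g3, g2, one_smul, mul_assoc]
      · exact hz u hu h0 hk
    · refine ⟨0, fun u hu h0 => ?_⟩
      rw [ite_self]
      exact hz u hu h0 fun hk => h ⟨u, hu, h0, hk⟩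
  have e2' : ∀ s : F, tr (EE c ψ ρ f1 * ρ (ei c e1 (s • e2))) = tr (EE c ψ ρ f1 * EE c ψ ρ e1) +
      (∑ u ∈ lv Q (hperp B e1 f1) k, ψ (s * B e2 u)) * t' := fun s => by
    have hm : s • e2 ∈ hperp B e1 f1 := by simp [mem_hperp, r.e1e2, r.f1e2]
    rw [← mul_one (ρ _), ← sum_pj (c := c) (ρ := ρ) hψ r.Qe1 (nondeg_W1 c r), Finset.mul_sum,
      Finset.mul_sum, map_sum, sum_lv (Q := Q) (k := k) (ξ := fun u => ψ (s * B e2 u) * t'),
      ← EE_eq_P r, ei_mul_EE r.Qe1 (by simp [r.e1e2]), Finset.sum_mul]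
    intro u hu h0
    rw [ei_mul_pj (good_W1 r) hm, mul_smul_comm, map_smul, ht' u hu h0]
    split_ifs <;> simp
  have e3 := e2' 0
  rw [zero_smul, ei_zero c r.Qe1, map_one, mul_one, tr_EE r h7 r.Qf1 (f1_ne r),
    LinearMap.trace_mul_comm] at e3
  simp only [zero_mul, AddChar.map_zero_eq_one, Finset.sum_const, nsmul_eq_mul, mul_one] at e3
  obtain ⟨g, g1, g2, g3⟩ := mv_swap c r h7
  have m1 : e2 ∈ hperp B e1 f1 := by simp [mem_hperp, r.e1e2, r.f1e2]
  have m2 : f2 ∈ hperp B e1 f1 := by simp [mem_hperp, r.e1f2, r.f1f2]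
  set ν := tr (EE c ψ ρ e1 * EE c ψ ρ f1) + ((lv Q (hperp B e1 f1) k).card -
    Fintype.card F * (fs (W2 B e1 f1 e2 f2)).card) * t' with hν
  have e4 : ∀ s : F, s ≠ 0 → tr (ρ (ei c e2 (s • f1)) *
      (EE c ψ ρ e1 * pj c ψ ρ e2 (W2 B e1 f1 e2 f2) 0)) = ν := fun s hs => by
    rw [← tr_yt r hψ hs, trace_eq_of_conj ρ g (B := EE c ψ ρ f1 * ρ (ei c e1 ((-s) • e2))) (by
      rw [← mul_assoc, conj_EE, mul_assoc, ← map_mul, ei_conj, map_smul, g1, g2, g3,
        ei_swap c r.Qe1 r.Qe2 r.e1e2, map_mul, mul_assoc]), e2', LinearMap.trace_mul_comm,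
      sum_lv_char c.h r.Qe2 r.Qf2 r.e2f2 m1 m2 k fun b => ψ (-s * b),
      sum_addChar_eq_zero hψ (LinearMap.mul F F (-s)) (w := 1) (by simpa using hs) |>.trans
        rfl |> fun h => show ∑ b : F, ψ (-s * b) = 0 from h, hν]
    simp [W2, mul_comm, sub_eq_add_neg]
  obtain ⟨a, b, hab, hb, e5⟩ := sl2_trace r e4
  have e6 := congrArg tr (EE_mul_EE (c := c) (ψ := ψ) (ρ := ρ) r)
  have hD : tr (EE c ψ ρ e1 * pj c ψ ρ e2 (W2 B e1 f1 e2 f2) 0) =
      rk (EE c ψ ρ e1 * pj c ψ ρ e2 (W2 B e1 f1 e2 f2) 0) := tr_idem (by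
    rw [mul_assoc, ← mul_assoc _ (EE c ψ ρ e1), EE_P2_comm r, mul_assoc, pj_idem (good_W2 r),
      ← mul_assoc, EE_idem r.Qe1])
  rw [map_smul, map_sum, ← Finset.add_sum_erase _ _ (Finset.mem_univ 0), zero_smul,
    ei_zero c r.Qe2, map_one, mul_one, hD, Finset.sum_congr rfl (g := fun _ => ν) fun s hs => by
      rw [LinearMap.trace_mul_comm, e4 s (Finset.mem_erase.mp hs).1], Finset.sum_const,
    Finset.card_erase_of_mem (Finset.mem_univ _), Finset.card_univ, nsmul_eq_mul,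
    Nat.cast_pred Fintype.card_pos, smul_eq_mul,
    eq_inv_mul_iff_mul_eq₀ (Nat.cast_ne_zero.mpr Fintype.card_ne_zero)] at e6
  have e7 : tr (EE c ψ ρ e1) = rk (EE c ψ ρ e1 * pj c ψ ρ e2 (W2 B e1 f1 e2 f2) 0) +
      (lv Q (W2 B e1 f1 e2 f2) k).card := by
    conv_lhs => rw [← mul_one (EE c ψ ρ e1), ← sum_pj (c := c) (ρ := ρ) hψ r.Qe2 (nondeg_W2 c r)]
    rw [Finset.mul_sum, map_sum, sum_lv (Q := Q) (k := k) (ξ := fun _ => 1) fun u hu h0 =>
      tr_EE_P2 r hψ hμ h7 hc hu h0, hD]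
    simp
  have e8 := card_lv_rec c.h r.Qe1 r.Qf1 r.e1f1 Submodule.mem_top Submodule.mem_top 0
  have e9 : ((fs (hperp B e1 f1)).card : ℂ) =
      Fintype.card F ^ 2 * (fs (W2 B e1 f1 e2 f2)).card := by
    have h1 := finrank_W1 c r
    have h2 := finrank_W2 c r
    rw [card_fs, card_fs, show finrank F (hperp B e1 f1) = 2 + finrank F (W2 B e1 f1 e2 f2) by omega]
    push_cast
    ring
  simp only [if_true, top_inf_eq] at e8
  refine ⟨b - a, rk (EE c ψ ρ e1 * pj c ψ ρ e2 (W2 B e1 f1 e2 f2) 0) - a, by omega, ?_⟩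
  rw [Nat.cast_sub hab, Nat.cast_sub (hab.trans hb)]
  rw [e9] at e0 e8
  generalize tr (EE c ψ ρ e1) = d1 at *
  generalize tr (EE c ψ ρ e1 * EE c ψ ρ e2) = τ at *
  generalize tr (EE c ψ ρ e1 * EE c ψ ρ f1) = t at *
  generalize ((rk (EE c ψ ρ e1 * pj c ψ ρ e2 (W2 B e1 f1 e2 f2) 0) : ℕ) : ℂ) = d2 at *
  generalize ((finrank ℂ V : ℕ) : ℂ) = d0 at *
  generalize ((Fintype.card F : ℕ) : ℂ) = q at *
  generalize (((lv Q ⊤ 0).card : ℕ) : ℂ) = N at *
  generalize (((lv Q (hperp B e1 f1) k).card : ℕ) : ℂ) = o at *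
  generalize (((lv Q (hperp B e1 f1) 0).card : ℕ) : ℂ) = s at *
  generalize (((lv Q (W2 B e1 f1 e2 f2) k).card : ℕ) : ℂ) = o' at *
  generalize (((fs (W2 B e1 f1 e2 f2)).card : ℕ) : ℂ) = R at *
  have f1 : q * R * t' = d1 - ν := by linear_combination hν - e3
  have f2 : q * (d1 - ν) = q * o' + q * (d2 - a) + (b - a) := by linear_combination q * e7 + e5
  have f3 : (q - 1) * d1 + q * s * τ + (q - 1) * (q ^ 2 * R) * t =
      N * d1 - s * o' - (q - 1) * (s + q * o) * (d1 - ν) := by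
    linear_combination s * e6 - d1 * e8 - s * e7 - (q - 1) * q ^ 2 * R * e3 - (q - 1) * q * o * f1
  rw [f3] at e0
  rw [← f2]
  linear_combination -q * e0 - q * N * (d1 - o) * e1'

end Cfsg.Agent.H17.Om
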