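import Mathlib
import Cfsg.Agent.H17.Om5

/-!
# Case analysis and arithmetic for the smallest degrees of `Ω(U, Q)`
-/

set_option autoImplicit false

namespace Cfsg.Agent.H17.Om

open Module Cfsg.Agent.H11

theorem arithB {q X d : ℤ} {i j : ℕ} (hq : 2 ≤ q) (hX : q ^ 4 ≤ X) (hij : i ≤ j) (hd : 0 ≤ d)
    (h : d * ((q ^ 2 - 1) * (q * X + q - (q * j + i))) = q * (X - 1) * (q ^ 2 * X - 1)) :
    q ^ 2 * X - 1 ≤ (q ^ 2 - 1) * d := by
  have h1 : 4 ≤ q ^ 2 := by nlinarith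
  have h2 : 4 * q ^ 2 ≤ X := by nlinarith
  by_cases hj : 2 ≤ j
  · have h3 : 2 * q ≤ q * j + i := by
      have : (2 : ℤ) ≤ j := by exact_mod_cast hj
      nlinarith
    refine le_of_mul_le_mul_left (a := q * (X - 1)) ?_ (by nlinarith)
    rw [← h]
    nlinarith [mul_nonneg (mul_nonneg hd (by omega : 0 ≤ q ^ 2 - 1))
      (by omega : 0 ≤ q * j + i - 2 * q)]
  exfalso
  have hj' : j ≤ 1 := by omega
  interval_cases j <;> interval_cases i <;> push_cast at h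
  · have := Int.le_of_dvd (a := X + 1) (b := 2 * q ^ 2 + 2) (by omega)
      ⟨d * (q ^ 2 - 1) - (q ^ 2 * X - 2 * q ^ 2 - 1), mul_left_cancel₀ (by omega : q ≠ 0)
        (by linear_combination -h)⟩
    omega
  · have := Int.le_of_dvd (a := X) (b := 1) (by omega)
      ⟨d * (q ^ 2 - 1) - (q ^ 2 * X - q ^ 2 - 1), mul_left_cancel₀ (by omega : q ≠ 0)
        (by linear_combination -h)⟩
    omega
  · have := Int.le_of_dvd (a := q * X - 1) (b := (q - 1) ^ 2) (by nlinarith)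
      ⟨q * (q * X - 1) + (q - 1) - q * (q - 1) - d * (q ^ 2 - 1), by linear_combination h⟩
    nlinarith

theorem arithD {q a m d ε : ℤ} {i j : ℕ} (hq : 2 ≤ q) (ha : q ^ 3 ≤ a) (hij : i ≤ j) (hd : 0 ≤ d)
    (hm : a ^ 2 - 1 = (q ^ 2 - 1) * m) (hε : ε = -1 ∨ ε = 1 ∧ 3 ≤ q)
    (h : d * ((q ^ 2 - 1) * (a ^ 2 + q - (q * j + i))) = (a ^ 2 - 1) * ((q * a - ε) * (a + ε * q))) :
    (q * a - ε) * (a + ε * q) ≤ (q ^ 2 - 1) * d := by
  have h1 : 4 ≤ q ^ 2 := by nlinarith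
  have h2 : 2 * q ^ 2 ≤ a := by nlinarith
  have h0 : 0 < a ^ 2 - 1 := by nlinarith
  by_cases hj : q + 1 ≤ q * j + i
  · refine le_of_mul_le_mul_left (a := a ^ 2 - 1) ?_ h0
    rw [← h]
    nlinarith [mul_nonneg (mul_nonneg hd (by omega : 0 ≤ q ^ 2 - 1))
      (by omega : 0 ≤ q * j + i - (q + 1))]
  exfalso
  have hj' : j ≤ 1 := by
    by_contra H
    have : (2 : ℤ) ≤ j := by exact_mod_cast (by omega : 2 ≤ j)
    nlinarith
  have he : ε * ε = 1 := by rcases hε with rfl | ⟨rfl, -⟩ <;> rfl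
  interval_cases j <;> interval_cases i <;> push_cast at h hj
  · obtain ⟨k, hk⟩ : ∃ k, k = q * m + ε * a - d := ⟨_, rfl⟩
    have h3 : q * a ^ 2 - q + ε * a * (q ^ 2 - 1) = (q - 1) * k * (a ^ 2 + q) := by
      refine mul_left_cancel₀ (by omega : q + 1 ≠ 0) ?_
      rw [hk]
      linear_combination h + q * (a ^ 2 + q) * hm - (a ^ 2 - 1) * q * he
    have h4 : q ≤ a := by nlinarith
    rcases lt_trichotomy k 1 with h5 | rfl | h5
    · have : (q - 1) * k * (a ^ 2 + q) ≤ 0 :=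
        mul_nonpos_of_nonpos_of_nonneg (by nlinarith) (by nlinarith)
      rcases hε with rfl | ⟨rfl, -⟩ <;> nlinarith
    · rcases hε with rfl | ⟨rfl, -⟩ <;> nlinarith
    · have : (q - 1) * 2 * (a ^ 2 + q) ≤ (q - 1) * k * (a ^ 2 + q) :=
        mul_le_mul_of_nonneg_right (by nlinarith) (by nlinarith)
      rcases hε with rfl | ⟨rfl, h6⟩
      · nlinarith [mul_nonneg (by omega : 0 ≤ q - 2) (sq_nonneg a)]
      · nlinarith [mul_nonneg (by omega : 0 ≤ q - 3) (sq_nonneg a)]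
  · have := Int.le_of_dvd (a := a) (b := q) (by omega)
      ⟨d * (q ^ 2 - 1) * a - a * ((q * a - ε) * (a + ε * q)) + q * a + ε * (q ^ 2 - 1), by
        linear_combination -h - q * he⟩
    nlinarith
  · omega

variable {F : Type*} [Field F] {U : Type*} [AddCommGroup U] [Module F U]
  {B : U →ₗ[F] U →ₗ[F] F} {Q : U → F} [Fintype F] [Fintype U]

theorem exists_sq_ne (h : 3 < Fintype.card F) : ∃ l : F, l ≠ 0 ∧ l * l ≠ 1 := by
  classical
  obtain ⟨l, -, hl⟩ := Finset.exists_mem_notMem_of_card_lt_card (s := ({0, 1, -1} : Finset F))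
    (t := Finset.univ) (Finset.card_le_three.trans_lt h)
  simp only [Finset.mem_insert, Finset.mem_singleton, not_or] at hl
  exact ⟨l, hl.1, fun h => (mul_self_eq_one_iff.mp h).elim hl.2.1 hl.2.2⟩

theorem card_lv_top (h : IsQuad B Q) (k : F) [Decidable (k = 0)] :
    ((lv Q (⊤ : Submodule F U) k).card : ℤ) + (if k = 0 then 1 else 0) = Nat.card {v // Q v = k} := by
  classical
  have := card_lv_add h ⊤ k
  rw [Nat.card_eq_fintype_card, Fintype.card_subtype]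
  rw [show fs (⊤ : Submodule F U) = Finset.univ from Finset.ext (by simp)] at this
  rw [← this]
  split_ifs <;> simp

variable {c : OC B Q} {V : Type*} [AddCommGroup V] [Module ℂ V] [FiniteDimensional ℂ V]
  {ρ : Representation ℂ (Gp B Q) V} {e1 f1 e2 f2 : U} (r : Fr B Q e1 f1 e2 f2)

include c r

theorem lv_rec (k : F) [Decidable (k = 0)] :
    (((lv Q (⊤ : Submodule F U) k).card : ℤ) + (if k = 0 then 1 else 0) =
      Fintype.card F * ((lv Q (hperp B e1 f1) k).card + if k = 0 then 1 else 0) +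
        (Fintype.card F - 1) * Fintype.card F ^ (finrank F U - 2)) ∧
    ((lv Q (hperp B e1 f1) k).card : ℤ) + (if k = 0 then 1 else 0) =
      Fintype.card F * ((lv Q (W2 B e1 f1 e2 f2) k).card + if k = 0 then 1 else 0) +
        (Fintype.card F - 1) * Fintype.card F ^ (finrank F U - 4) := by
  have h1 := card_lv_rec c.h r.Qe1 r.Qf1 r.e1f1 Submodule.mem_top Submodule.mem_top k
  have h2 := card_lv_rec c.h r.Qe2 r.Qf2 r.e2f2 (Z := hperp B e1 f1)
    (by simp [mem_hperp, r.e1e2, r.f1e2]) (by simp [mem_hperp, r.e1f2, r.f1f2]) k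
  rw [top_inf_eq, card_fs] at h1
  rw [card_fs] at h2
  rw [← finrank_W1 c r, Nat.add_sub_cancel, finrank_W1 c r, ← finrank_W2 c r, Nat.add_sub_cancel]
  by_cases hk : k = 0
  · simp only [hk, if_true] at h1 h2 ⊢
    exact ⟨by exact_mod_cast h1, by exact_mod_cast h2⟩
  · simp only [hk, if_false] at h1 h2 ⊢
    exact ⟨by exact_mod_cast h1, by exact_mod_cast h2⟩

theorem om_cases (h7 : 7 ≤ finrank F U) [ρ.IsIrreducible] (hρ : ρ.ker ≠ ⊤) :
    (∃ k k' : F, (lv Q (hperp B e1 f1) k).card + (lv Q (hperp B e1 f1) k').card ≤ finrank ℂ V) ∨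
    ∃ k : F, (k = 0 ∨ ∀ l : F, l ≠ 0 → l * l = 1) ∧ (lv Q (hperp B e1 f1) k).card ≤ finrank ℂ V ∧
      (Cos B Q e1 f1 e2 f2 k → ∃ i j : ℕ, i ≤ j ∧
    (finrank ℂ V : ℤ) * (Fintype.card F * (lv Q ⊤ 0).card * (lv Q (hperp B e1 f1) k).card -
      Fintype.card F * (lv Q (hperp B e1 f1) 0).card * (lv Q (W2 B e1 f1 e2 f2) k).card -
      (Fintype.card F - 1) * ((lv Q (hperp B e1 f1) 0).card +
        Fintype.card F * (lv Q (hperp B e1 f1) k).card) *
        (Fintype.card F * (lv Q (W2 B e1 f1 e2 f2) k).card + Fintype.card F * j + i)) =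
      Fintype.card F * (lv Q ⊤ 0).card * (lv Q (hperp B e1 f1) k).card ^ 2) := by
  classical
  obtain ⟨ψ, hψ⟩ := exists_addChar_ne_one F
  set μ := fun u => rk (pj c ψ ρ e1 (hperp B e1 f1) u) with hμ
  have h1 : ∑ u ∈ fs (hperp B e1 f1), μ u = finrank ℂ V := by
    refine Nat.cast_injective (R := ℂ) ?_
    rw [← LinearMap.trace_one, ← sum_pj (c := c) (ρ := ρ) hψ r.Qe1 (nondeg_W1 c r), map_sum,
      Nat.cast_sum]
    exact Finset.sum_congr rfl fun u _ => (tr_idem (pj_idem (good_W1 r) u)).symm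
  have h2 : ∀ u ∈ hperp B e1 f1, ∀ u' ∈ hperp B e1 f1, u ≠ 0 → u' ≠ 0 → Q u' = Q u → ∀ l : F,
      l ≠ 0 → μ (l • u') = μ u := fun u hu u' hu' h0 h0' hQ l hl => by
    obtain ⟨g, g1, g2, g3⟩ := mv_W1 c r h7 hu hu' h0 h0' hQ hl
    refine Nat.cast_injective (R := ℂ) ?_
    rw [← tr_idem (pj_idem (good_W1 r) _), ← tr_idem (pj_idem (good_W1 r) _)]
    refine (trace_eq_of_conj ρ g ?_).symm
    rw [conj_pj g g1 (fix_W1 (inv_ne_zero hl) hl g1 g2) g3,
      ← pj_smul (good_W1 r) (inv_ne_zero hl) (l • u'), inv_smul_smul₀ hl]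
  have h3 : ∀ u ∈ hperp B e1 f1, u ≠ 0 → ∑ u' ∈ lv Q (hperp B e1 f1) (Q u), μ u' =
      (lv Q (hperp B e1 f1) (Q u)).card * μ u := fun u hu h0 => by
    rw [Finset.sum_congr rfl (g := fun _ => μ u) fun u' hu' => by
      simpa using h2 u hu u' (mem_lv.mp hu').1 h0 (mem_lv.mp hu').2.2 (mem_lv.mp hu').2.1 1
        one_ne_zero]
    simp
  have h4 : ∀ k, lv Q (hperp B e1 f1) k ⊆ fs (hperp B e1 f1) := fun k => Finset.filter_subset _ _
  obtain ⟨u, hu, h0, h5⟩ : ∃ u ∈ hperp B e1 f1, u ≠ 0 ∧ μ u ≠ 0 := by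
    by_contra! H
    have h6 : EE c ψ ρ e1 = 1 := by
      rw [EE_eq_P r, ← sum_pj (c := c) (ρ := ρ) hψ r.Qe1 (nondeg_W1 c r), Finset.sum_eq_single 0
        (fun u hu h0 => rk_eq_zero.mp (H u (mem_fs.mp hu) h0)) (by simp)]
    refine hρ (eq_top_iff.mpr fun g _ => ?_)
    suffices H : c.h.eichSub ≤ ρ.ker.map (Gp B Q).subtype by
      obtain ⟨g', h8, h9⟩ := (c.h.eichSub_eq_commutator c.sep c.ex (by omega)).ge.trans H g.2
      rwa [← Subtype.ext h9]
    refine c.h.eichSub_le fun x w hx hw => ?_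
    by_cases hx0 : x = 0
    · subst hx0
      rw [c.h.eich_zero_left]
      exact one_mem _
    refine ⟨ei c x w, ?_, by rw [ei, dif_pos ⟨hx, hw⟩]; rfl⟩
    obtain ⟨g, hg⟩ := mv_one c r h7 hx hx0
    have h8 := conj_EE (c := c) (ψ := ψ) (ρ := ρ) g e1
    rw [h6, hg, mul_one, ← one_mul (ρ g), ← mul_assoc, mul_one] at h8
    have h9 := ((End.isUnit_iff _).mpr (ρ.apply_bijective g)).mul_right_cancel h8
    have := ei_mul_EE (c := c) (ψ := ψ) (ρ := ρ) hx hw
    rwa [← h9, mul_one] at this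
  have h6 := Finset.sum_le_sum_of_subset (f := μ) (h4 (Q u))
  rw [h1, h3 u hu h0] at h6
  by_cases h8 : 2 ≤ μ u
  · exact .inl ⟨Q u, Q u, by nlinarith⟩
  have h9 : μ u = 1 := by omega
  by_cases h10 : ∃ u' ∈ hperp B e1 f1, u' ≠ 0 ∧ μ u' ≠ 0 ∧ Q u' ≠ Q u
  · obtain ⟨u', hu', h0', h11, h12⟩ := h10
    have h13 := Finset.sum_le_sum_of_subset (f := μ) (Finset.union_subset (h4 (Q u)) (h4 (Q u')))
    rw [h1, Finset.sum_union (Finset.disjoint_left.mpr fun x hx hx' =>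
      h12 ((mem_lv.mp hx').2.1.symm.trans (mem_lv.mp hx).2.1)), h3 u hu h0, h3 u' hu' h0'] at h13
    exact .inl ⟨Q u, Q u', by nlinarith [Nat.pos_of_ne_zero h11]⟩
  push Not at h10
  refine .inr ⟨Q u, ?_, by simpa [h9] using h6, fun hc => ?_⟩
  · refine or_iff_not_imp_left.mpr fun h11 l hl => ?_
    have := h10 (l • u) (Submodule.smul_mem _ _ hu) (smul_ne_zero hl h0)
      (by rwa [h2 u hu u hu h0 h0 rfl l hl])
    rwa [c.h.smul', mul_eq_right₀ h11] at this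
  · obtain ⟨i, j, hij, h11⟩ := main_eq (c := c) (ρ := ρ) r h7 hψ (k := Q u) (fun u' hu' h0' => by
      split_ifs with h
      · simpa [h9] using h2 u hu u' hu' h0 h0' h 1 one_ne_zero
      · by_contra H
        exact h (h10 u' hu' h0' H)) hc
    exact ⟨i, j, hij, by exact_mod_cast h11⟩

theorem lv_lower (k : F) : ((Fintype.card F : ℤ) - 1) * Fintype.card F ^ (finrank F U - 4) ≤
    (lv Q (hperp B e1 f1) k).card := by
  classical
  have h1 := (lv_rec (c := c) r k).2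
  have hq : (1 : ℤ) ≤ Fintype.card F := by exact_mod_cast Fintype.card_pos
  split_ifs at h1 <;> nlinarith [Int.natCast_nonneg (lv Q (W2 B e1 f1 e2 f2) k).card]

end Cfsg.Agent.H17.Om
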