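import Mathlib
import Cfsg.Agent.H17.Om6

/-!
# The smallest degrees of the groups `Ω(U, Q)`
-/

set_option autoImplicit false

namespace Cfsg.Agent.H17.Om

open Module Cfsg.Agent.H11

universe u

theorem level_minus {F : Type*} [Field F] [Finite F] {k : F} (hc : k ≠ 0) (ν : ℕ) :
    ∀ {V : Type u} [AddCommGroup V]
    [Module F V] [FiniteDimensional F V] {B : V →ₗ[F] V →ₗ[F] F} {Q : V → F}, IsQuad B Q →
    B.SeparatingLeft → WittIdx B Q ν → finrank F V = 2 * (ν + 1) →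
    (Nat.card {v : V // Q v = k} : ℤ) = (Nat.card F : ℤ) ^ ν * ((Nat.card F : ℤ) ^ (ν + 1) + 1) := by
  induction ν with
  | zero =>
    intro V _ _ _ B Q h hB hν hn
    simp [h.card_level_aniso hB hn (h.wittIdx_zero_iff.mp hν) hc]
  | succ ν ih =>
    intro V _ _ _ B Q h hB hν hn
    obtain ⟨e, f, he, hf, hef⟩ := h.exists_pair_of_wittIdx hB hν
    have h1 := h.finrank_hperp hB he hf hef
    have := ih (h.restrict _) (h.separatingLeft_hperp hB he hf hef) (h.wittIdx_hperp hB he hf hef hν)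
      (by omega)
    rw [(h.step_counts hB he hf hef (n := 2 * (ν + 1)) (by omega)).1, this]
    ring

theorem small_facts {q S : ℤ} (hq : 2 ≤ q) (hS : q ≤ S) : q ^ 3 ≤ q ^ 2 * S ∧ 1 < q * S ∧
    1 < q ^ 2 * S ∧ 0 ≤ q ^ 2 - 2 ∧ 0 ≤ S * S - S := by
  have : 1 < q * S := by nlinarith
  refine ⟨by nlinarith [mul_le_mul_of_nonneg_left hS (sq_nonneg q)], this, ?_, ?_, ?_⟩ <;> nlinarith

variable {F : Type*} [Field F] {U : Type*} [AddCommGroup U] [Module F U]
  {B : U →ₗ[F] U →ₗ[F] F} {Q : U → F} [Fintype F] [Fintype U]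
  (c : OC B Q) {V : Type*} [AddCommGroup V] [Module ℂ V] [FiniteDimensional ℂ V]
  {ρ : Representation ℂ (Gp B Q) V} {e1 f1 e2 f2 : U} (r : Fr B Q e1 f1 e2 f2)

include c r

theorem om_odd {m : ℕ} (hn : finrank F U = 2 * (m + 3) + 1) (hw : WittIdx B Q (m + 3))
    (hq : 3 < Fintype.card F) [ρ.IsIrreducible] (hρ : ρ.ker ≠ ⊤) :
    (Fintype.card F : ℤ) ^ (2 * (m + 3)) - 1 ≤ (Fintype.card F ^ 2 - 1) * finrank ℂ V := by
  classical
  have h1 := card_lv_top c.h (0 : F)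
  rw [IsQuad.card_singular_odd _ c.h c.sep hw hn, Nat.card_eq_fintype_card] at h1
  obtain ⟨h2, h3⟩ := lv_rec (c := c) r 0
  have h4 := lv_lower (c := c) r
  have h5 := om_cases (c := c) (ρ := ρ) r (by omega) hρ
  obtain ⟨l, hl, hl1⟩ := exists_sq_ne hq
  simp only [if_true, hn, show 2 * (m + 3) + 1 - 2 = 2 * m + 5 by omega,
    show 2 * (m + 3) + 1 - 4 = 2 * m + 3 by omega] at h1 h2 h3 h4
  have hq' : (4 : ℤ) ≤ Fintype.card F := by exact_mod_cast hq
  generalize (Fintype.card F : ℤ) = q at *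
  obtain ⟨Y, hY⟩ : ∃ Y, Y = q ^ (2 * m + 2) := ⟨_, rfl⟩
  have hY2 : q ^ 2 ≤ Y := hY ▸ pow_le_pow_right₀ (by omega) (by omega)
  rw [show q ^ (2 * (m + 3)) = q ^ 4 * Y by rw [hY]; ring] at *
  rw [show q ^ (2 * m + 5) = q ^ 3 * Y by rw [hY]; ring] at h2
  simp only [show q ^ (2 * m + 3) = q * Y by rw [hY]; ring] at h3 h4
  have h6 : ((lv Q (hperp B e1 f1) 0).card : ℤ) = q ^ 2 * Y - 1 :=
    mul_left_cancel₀ (by omega : q ≠ 0) (by linear_combination h1 - h2)
  have h7 : ((lv Q (W2 B e1 f1 e2 f2) 0).card : ℤ) = Y - 1 :=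
    mul_left_cancel₀ (by omega : q ≠ 0) (by linear_combination h6 - h3)
  have hY0 : 0 < Y := by nlinarith
  rcases h5 with ⟨k, k', h5⟩ | ⟨k, hk, -, h5⟩
  · have h8 : 2 * ((q - 1) * (q * Y)) ≤ finrank ℂ V := by
      have := h4 k
      have := h4 k'
      omega
    have h9 : q ^ 3 ≤ (q ^ 2 - 1) * (2 * (q - 1)) := by nlinarith
    nlinarith [mul_le_mul_of_nonneg_left h8 (by nlinarith : 0 ≤ q ^ 2 - 1),
      mul_le_mul_of_nonneg_right h9 (by positivity : 0 ≤ q * Y)]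
  · obtain rfl : k = 0 := hk.resolve_right fun h => hl1 (h l hl)
    obtain ⟨i, j, hij, h8⟩ := h5 (.inl ⟨l, hl, hl1⟩)
    rw [h6, h7, eq_sub_of_add_eq h1] at h8
    have := arithB (q := q) (X := q ^ 2 * Y) (d := finrank ℂ V) (by omega)
      (by nlinarith [mul_le_mul_of_nonneg_left hY2 (sq_nonneg q)]) hij (Int.natCast_nonneg _)
      (mul_left_cancel₀ (by nlinarith : q ^ 2 * Y - 1 ≠ 0) (by linear_combination h8))
    linarith

theorem om_plus {m : ℕ} (hn : finrank F U = 2 * (m + 4)) (hw : WittIdx B Q (m + 4))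
    (hq : 3 < Fintype.card F) [ρ.IsIrreducible] (hρ : ρ.ker ≠ ⊤) :
    ((Fintype.card F : ℤ) ^ (m + 4) - 1) * (Fintype.card F ^ (m + 3) + Fintype.card F) ≤
      (Fintype.card F ^ 2 - 1) * finrank ℂ V := by
  classical
  have h1 := IsQuad.card_singular_plus _ c.h c.sep hw hn
  rw [← card_lv_top c.h (0 : F), Nat.card_eq_fintype_card] at h1
  obtain ⟨h2, h3⟩ := lv_rec (c := c) r 0
  have h4 := lv_lower (c := c) r
  have h5 := om_cases (c := c) (ρ := ρ) r (by omega) hρ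
  obtain ⟨l, hl, hl1⟩ := exists_sq_ne hq
  simp only [if_true, hn, show 2 * (m + 4) - 2 = 2 * m + 6 by omega,
    show 2 * (m + 4) - 4 = 2 * m + 4 by omega] at h1 h2 h3 h4
  have hq' : (4 : ℤ) ≤ Fintype.card F := by exact_mod_cast hq
  generalize (Fintype.card F : ℤ) = q at *
  obtain ⟨S, hS⟩ : ∃ S, S = q ^ (m + 1) := ⟨_, rfl⟩
  have hS2 : q ≤ S := hS ▸ le_self_pow₀ (by omega) (by omega)
  obtain ⟨s1, s2, s3, s4, s5⟩ := small_facts (by omega) hS2
  rw [show q ^ (2 * (m + 4)) = q ^ 6 * S ^ 2 by rw [hS]; ring,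
    show q ^ (m + 4 + 1) = q ^ 4 * S by rw [hS]; ring] at h1
  rw [show q ^ (m + 4) = q ^ 3 * S by rw [hS]; ring] at *
  rw [show q ^ (m + 3) = q ^ 2 * S by rw [hS]; ring]
  rw [show q ^ (2 * m + 6) = q ^ 4 * S ^ 2 by rw [hS]; ring] at h2
  simp only [show q ^ (2 * m + 4) = q ^ 2 * S ^ 2 by rw [hS]; ring] at h3 h4
  have h0 : ((lv Q ⊤ 0).card : ℤ) = q ^ 5 * S ^ 2 + q ^ 3 * S - q ^ 2 * S - 1 :=
    mul_left_cancel₀ (by omega : q ≠ 0) (by linear_combination h1)
  have h6 : ((lv Q (hperp B e1 f1) 0).card : ℤ) = q ^ 3 * S ^ 2 + q ^ 2 * S - q * S - 1 :=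
    mul_left_cancel₀ (by omega : q ≠ 0) (by linear_combination h0 - h2)
  have h7 : ((lv Q (W2 B e1 f1 e2 f2) 0).card : ℤ) = q * S ^ 2 + q * S - S - 1 :=
    mul_left_cancel₀ (by omega : q ≠ 0) (by linear_combination h6 - h3)
  rcases h5 with ⟨k, k', h5⟩ | ⟨k, hk, -, h5⟩
  · have h8 : 2 * ((q - 1) * (q ^ 2 * S ^ 2)) ≤ finrank ℂ V := by
      have := h4 k
      have := h4 k'
      omega
    have h9 : q ^ 3 + q ≤ (q ^ 2 - 1) * (2 * (q - 1)) := by nlinarith
    nlinarith [mul_le_mul_of_nonneg_left h8 (by omega : 0 ≤ q ^ 2 - 1),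
      mul_le_mul_of_nonneg_right h9 (by positivity : 0 ≤ q ^ 2 * S ^ 2),
      mul_le_mul_of_nonneg_left hS2 (by have : 0 ≤ S := by omega
                                        positivity : 0 ≤ q ^ 3 * S),
      mul_nonneg (sq_nonneg q) (by omega : 0 ≤ S)]
  · obtain rfl : k = 0 := hk.resolve_right fun h => hl1 (h l hl)
    obtain ⟨i, j, hij, h8⟩ := h5 (.inl ⟨l, hl, hl1⟩)
    rw [h0, h6, h7] at h8
    obtain ⟨M, hM⟩ : q ^ 2 - 1 ∣ (q ^ 2 * S) ^ 2 - 1 := by
      rw [hS, show (q ^ 2 * q ^ (m + 1)) ^ 2 = (q ^ 2) ^ (m + 3) by ring]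
      exact sub_one_dvd_pow_sub_one _ _
    have hs : q ^ 3 * S ^ 2 + q ^ 2 * S - q * S - 1 ≠ 0 := by
      rw [show q ^ 3 * S ^ 2 + q ^ 2 * S - q * S - 1 = (q ^ 2 * S - 1) * (q * S + 1) by ring]
      exact mul_ne_zero (by omega) (by omega)
    have := arithD (d := finrank ℂ V) (ε := 1) (by omega) s1 hij (Int.natCast_nonneg _) hM
      (.inr ⟨rfl, by omega⟩) (mul_left_cancel₀ hs (by linear_combination h8))
    linarith

set_option maxHeartbeats 1000000 in
theorem om_minus {m : ℕ} (hn : finrank F U = 2 * (m + 3) + 2) (hw : WittIdx B Q (m + 3))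
    [ρ.IsIrreducible] (hρ : ρ.ker ≠ ⊤) :
    ((Fintype.card F : ℤ) ^ (m + 4) + 1) * (Fintype.card F ^ (m + 3) - Fintype.card F) ≤
      (Fintype.card F ^ 2 - 1) * finrank ℂ V := by
  classical
  have h0 := card_lv_top c.h (0 : F)
  rw [IsQuad.card_singular_minus _ c.h c.sep hw hn, Nat.card_eq_fintype_card] at h0
  have h1 : ∀ k : F, k ≠ 0 → _ := fun k hk => by
    have := card_lv_top c.h k
    rwa [level_minus hk _ c.h c.sep hw (by omega), Nat.card_eq_fintype_card, if_neg hk] at this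
  have h2 := fun k => lv_rec (c := c) r k
  have h5 := om_cases (c := c) (ρ := ρ) r (by omega) hρ
  simp only [if_true, hn, show 2 * (m + 3) + 2 - 2 = 2 * m + 6 by omega,
    show 2 * (m + 3) + 2 - 4 = 2 * m + 4 by omega] at h0 h2
  have hq' : (2 : ℤ) ≤ Fintype.card F := by exact_mod_cast Fintype.one_lt_card
  generalize (Fintype.card F : ℤ) = q at *
  obtain ⟨S, hS⟩ : ∃ S, S = q ^ (m + 1) := ⟨_, rfl⟩
  have hS2 : q ≤ S := hS ▸ le_self_pow₀ (by omega) (by omega)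
  obtain ⟨s1, s2, s3, s4, s5⟩ := small_facts (by omega) hS2
  simp only [show q ^ (2 * (m + 3) + 1) = q ^ 5 * S ^ 2 by rw [hS]; ring,
    show q ^ (m + 4) = q ^ 3 * S by rw [hS]; ring, show q ^ (m + 3) = q ^ 2 * S by rw [hS]; ring,
    show q ^ (2 * m + 6) = q ^ 4 * S ^ 2 by rw [hS]; ring,
    show q ^ (2 * m + 4) = q ^ 2 * S ^ 2 by rw [hS]; ring] at h0 h1 h2 ⊢
  have h3 := h2 0
  simp only [if_true] at h3
  have h6 : ((lv Q (hperp B e1 f1) 0).card : ℤ) = q ^ 3 * S ^ 2 - q ^ 2 * S + q * S - 1 :=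
    mul_left_cancel₀ (by omega : q ≠ 0) (by linear_combination h0 - h3.1)
  have h7 : ((lv Q (W2 B e1 f1 e2 f2) 0).card : ℤ) = q * S ^ 2 - q * S + S - 1 :=
    mul_left_cancel₀ (by omega : q ≠ 0) (by linear_combination h6 - h3.2)
  have h8 : ∀ k : F, k ≠ 0 → ((lv Q (hperp B e1 f1) k).card : ℤ) = q ^ 3 * S ^ 2 + q * S ∧
      ((lv Q (W2 B e1 f1 e2 f2) k).card : ℤ) = q * S ^ 2 + S := fun k hk => by
    have h4 := h2 k
    simp only [if_neg hk] at h4
    have h9 : ((lv Q (hperp B e1 f1) k).card : ℤ) = q ^ 3 * S ^ 2 + q * S :=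
      mul_left_cancel₀ (by omega : q ≠ 0) (by linear_combination h1 k hk - h4.1)
    exact ⟨h9, mul_left_cancel₀ (by omega : q ≠ 0) (by linear_combination h9 - h4.2)⟩
  have hS0 : 0 < S := by omega
  have hq1 : 0 ≤ q ^ 2 - 1 := by omega
  rcases h5 with ⟨k, k', h5⟩ | ⟨k, -, h4, h5⟩
  · have h9 : ∀ k : F, q ^ 3 * S ^ 2 - q ^ 2 * S + q * S - 1 ≤ (lv Q (hperp B e1 f1) k).card :=
      fun k => by
        by_cases hk : k = 0
        · rw [hk, h6]
        · rw [(h8 k hk).1]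
          nlinarith [mul_nonneg (sq_nonneg q) hS0.le]
    have h10 : 2 * ((q ^ 2 * S + 1) * (q * S - 1)) ≤ finrank ℂ V := by
      have := h9 k
      have := h9 k'
      linarith [(by exact_mod_cast h5 : ((lv Q (hperp B e1 f1) k).card : ℤ) +
        (lv Q (hperp B e1 f1) k').card ≤ finrank ℂ V)]
    have h11 : q * (q ^ 3 * S + 1) ≤ (q ^ 2 - 1) * (2 * (q ^ 2 * S + 1)) := by
      nlinarith [mul_nonneg s4 (mul_nonneg (sq_nonneg q) hS0.le)]
    nlinarith [mul_le_mul_of_nonneg_left h10 hq1,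
      mul_le_mul_of_nonneg_right h11 (by omega : 0 ≤ q * S - 1)]
  by_cases hk : k = 0
  · subst hk
    obtain ⟨i, j, hij, h9⟩ := h5 (by
      rcases Nat.eq_zero_or_pos m with rfl | hm
      · refine .inr (.inr ⟨rfl, fun u1 g1 u2 g2 g3 g4 g5 g6 => ?_⟩)
        by_contra H
        rw [mem_W2] at g1 g2
        have hli : LinearIndependent F ![e1, e2, u1, u2] := by
          rw [Fintype.linearIndependent_iff]
          intro g hg
          simp only [Fin.sum_univ_four, Matrix.cons_val_zero, Matrix.cons_val_one,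
            Matrix.cons_val] at hg
          have a0 : g 0 = 0 := by
            simpa [r.f1e1, r.f1e2, g1.1.2, g2.1.2] using congrArg (B f1) hg
          have a1 : g 1 = 0 := by
            simpa [r.f2e1, r.f2e2, g1.2.2, g2.2.2] using congrArg (B f2) hg
          rw [a0, a1, zero_smul, zero_smul, zero_add, zero_add] at hg
          have a3 : g 3 = 0 := by
            by_contra a3
            exact H (Submodule.mem_span_singleton.mpr ⟨-(g 2 / g 3), smul_right_injective _ a3 (by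
              simp only [smul_smul]
              rw [eq_neg_of_add_eq_zero_right hg, ← neg_smul]
              congr 1
              field_simp)⟩)
          have a2 : g 2 = 0 := by simpa [a3, g3] using hg
          intro i
          fin_cases i <;> assumption
        have := c.h.finrank_le_wittIdx c.sep hw (c.h.totSing_span (s := Set.range ![e1, e2, u1, u2])
          (by simp [r.Qe1, r.Qe2, g4, g5]) (by
            simp [r.e1e1, r.e1e2, r.e2e1, r.e2e2, g1.1.1, g1.2.1, g2.1.1, g2.2.1, g6,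
              c.h.refl g1.1.1, c.h.refl g1.2.1, c.h.refl g2.1.1, c.h.refl g2.2.1, c.h.refl g6,
              c.h.diag_zero g4, c.h.diag_zero g5]))
        rw [finrank_span_eq_card hli] at this
        simp at this
      · exact .inr (.inl (by omega)))
    rw [h6, h7, eq_sub_of_add_eq h0] at h9
    obtain ⟨M, hM⟩ : q ^ 2 - 1 ∣ (q ^ 2 * S) ^ 2 - 1 := by
      rw [hS, show (q ^ 2 * q ^ (m + 1)) ^ 2 = (q ^ 2) ^ (m + 3) by ring]
      exact sub_one_dvd_pow_sub_one _ _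
    have hs : q ^ 3 * S ^ 2 - q ^ 2 * S + q * S - 1 ≠ 0 := by
      rw [show q ^ 3 * S ^ 2 - q ^ 2 * S + q * S - 1 = (q ^ 2 * S + 1) * (q * S - 1) by ring]
      exact mul_ne_zero (by omega) (by omega)
    have := arithD (d := finrank ℂ V) (ε := -1) (by omega) s1 hij (Int.natCast_nonneg _) hM
      (.inl rfl) (mul_left_cancel₀ hs (by linear_combination h9))
    linarith
  rcases Nat.eq_zero_or_pos m with rfl | hm
  · have h9 : ((lv Q (hperp B e1 f1) k).card : ℤ) ≤ finrank ℂ V := by exact_mod_cast h4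
    obtain rfl : S = q := by simpa using hS
    rw [(h8 k hk).1] at h9
    nlinarith [mul_le_mul_of_nonneg_left h9 hq1, mul_nonneg hq1 s5]
  obtain ⟨i, j, hij, h9⟩ := h5 (.inr (.inl (by omega)))
  rw [h6, (h8 k hk).1, (h8 k hk).2, eq_sub_of_add_eq h0] at h9
  have h10 : (q ^ 3 * S + 1) * (q ^ 2 * S + 1) ≤ (q ^ 2 - 1) * finrank ℂ V := by
    refine le_of_mul_le_mul_left (a := q * (q * S) ^ 2 * ((q ^ 2 * S - 1) * (q ^ 2 * S + 1))) ?_
      (by have : 0 < q ^ 2 * S - 1 := by omega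
          positivity)
    have h12 : 0 ≤ (finrank ℂ V : ℤ) * ((q - 1) * ((q ^ 2 * S + 1) * (q * S - 1) +
        q * (q ^ 3 * S ^ 2 + q * S)) * (q * j + i)) := by
      have : 0 ≤ q - 1 := by omega
      have : 0 ≤ q * S - 1 := by omega
      positivity
    linarith
  nlinarith [mul_nonneg (by positivity : 0 ≤ q ^ 3 * S + 1) (by omega : 0 ≤ q + 1)]

end Cfsg.Agent.H17.Om
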