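import Mathlib
import Cfsg.Agent.H17.Simp2
import Cfsg.Agent.H11.UBridge

/-! The `2`-fusion systems of `PSL₃(q)` and `PSU₃(q)`, `q` odd. -/

set_option autoImplicit false

open Cfsg
open Cfsg.FusionSystem hiding inv_mem
open scoped commutatorElement MatrixGroups
open Matrix

namespace Cfsg.Agent.H17

variable {F : Type*} [Field F]

/-- A diagonal involution. -/
def e3 (F : Type*) [Field F] : SL(3, F) := ⟨!![-1, 0, 0; 0, 1, 0; 0, 0, -1], by simp [det_fin_three]⟩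
/-- A diagonal involution. -/
def z3 (F : Type*) [Field F] : SL(3, F) := ⟨!![-1, 0, 0; 0, -1, 0; 0, 0, 1], by simp [det_fin_three]⟩
/-- A monomial involution. -/
def t3 (F : Type*) [Field F] : SL(3, F) := ⟨!![0, -1, 0; -1, 0, 0; 0, 0, -1], by simp [det_fin_three]⟩
/-- A monomial involution. -/
def s3 (F : Type*) [Field F] : SL(3, F) := ⟨!![-1, 0, 0; 0, 0, -1; 0, -1, 0], by simp [det_fin_three]⟩

theorem sl3_ext {A B : SL(3, F)} : A = B ↔ A.1 = B.1 := Subtype.ext_iff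

theorem sl3_mul (A B : SL(3, F)) : (A * B).1 = A.1 * B.1 := rfl

theorem sl3_one : (1 : SL(3, F)).1 = !![1, 0, 0; 0, 1, 0; 0, 0, 1] := one_fin_three

theorem exists_m3 (u : Matrix (Fin 3) (Fin 3) F) :
    ∃ a b c d e f g h i : F, u = !![a, b, c; d, e, f; g, h, i] := ⟨_, _, _, _, _, _, _, _, _, eta_fin_three u⟩

theorem eq_zero_of_eq_neg (h2 : (2 : F) ≠ 0) {a : F} (h : a = -a) : a = 0 := by
  have : 2 * a = 0 := by linear_combination h
  simpa [h2] using this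

theorem e3_val : (e3 F).1 = !![-1, 0, 0; 0, 1, 0; 0, 0, -1] := rfl
theorem z3_val : (z3 F).1 = !![-1, 0, 0; 0, -1, 0; 0, 0, 1] := rfl
theorem t3_val : (t3 F).1 = !![0, -1, 0; -1, 0, 0; 0, 0, -1] := rfl
theorem s3_val : (s3 F).1 = !![-1, 0, 0; 0, 0, -1; 0, -1, 0] := rfl

theorem sl3_inv_cases (h2 : (2 : F) ≠ 0) {u : SL(3, F)} (h : u * u = 1) (h1 : u * e3 F = e3 F * u)
    (h3 : u * (t3 F * e3 F * t3 F) = t3 F * e3 F * t3 F * u) :
    u = 1 ∨ u = e3 F ∨ u = t3 F * e3 F * t3 F ∨ u = z3 F := by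
  have hu := u.2
  obtain ⟨a, b, c, d, e, f, g, h', i, hm⟩ := exists_m3 u.1
  simp only [sl3_ext, sl3_mul, sl3_one, e3_val, t3_val, z3_val, hm, mul_fin_three, det_fin_three] at h h1 h3 hu ⊢
  simp at h h1 h3 hu ⊢
  obtain rfl := eq_zero_of_eq_neg h2 h1.1
  obtain rfl := eq_zero_of_eq_neg h2 h1.2.1.2.symm
  obtain rfl := eq_zero_of_eq_neg h2 h1.2.2
  obtain rfl := eq_zero_of_eq_neg h2 h3.1.2.symm
  obtain rfl := eq_zero_of_eq_neg h2 h3.2.1
  obtain rfl := eq_zero_of_eq_neg h2 h3.2.2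
  simp at h hu ⊢
  rcases mul_self_eq_one_iff.1 h.1 with rfl | rfl <;> rcases mul_self_eq_one_iff.1 h.2.1 with rfl | rfl <;>
    simp [neg_eq_iff_eq_neg] at hu <;> simp [hu]

theorem sl3_block (h2 : (2 : F) ≠ 0) {u : SL(3, F)} (h : u * z3 F = z3 F * u) :
    ∃ a b c d i : F, u.1 = !![a, b, 0; c, d, 0; 0, 0, i] := by
  obtain ⟨a, b, c, d, e, f, g, h', i, hm⟩ := exists_m3 u.1
  simp only [sl3_ext, sl3_mul, z3_val, hm, mul_fin_three] at h
  simp at h
  obtain rfl := eq_zero_of_eq_neg h2 h.1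
  obtain rfl := eq_zero_of_eq_neg h2 h.2.1
  obtain rfl := eq_zero_of_eq_neg h2 h.2.2.1.symm
  obtain rfl := eq_zero_of_eq_neg h2 h.2.2.2.symm
  exact ⟨_, _, _, _, _, hm⟩

/-- The upper left block of an element that commutes with `z3`. -/
def blk3 (h2 : (2 : F) ≠ 0) {H : Subgroup SL(3, F)} (hz : z3 F ∈ H) :
    Subgroup.centralizer ({⟨z3 F, hz⟩} : Set H) →* Matrix (Fin 2) (Fin 2) F where
  toFun u := !![u.1.1.1 0 0, u.1.1.1 0 1; u.1.1.1 1 0, u.1.1.1 1 1]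
  map_one' := by rw [one_fin_two]; rfl
  map_mul' u v := by
    obtain ⟨a, b, c, d, i, h⟩ := sl3_block h2 (congrArg Subtype.val (Subgroup.mem_centralizer_singleton_iff.1 u.2))
    obtain ⟨a', b', c', d', i', h'⟩ := sl3_block h2
      (congrArg Subtype.val (Subgroup.mem_centralizer_singleton_iff.1 v.2))
    have : (u * v).1.1.1 = u.1.1.1 * v.1.1.1 := rfl
    rw [this, h, h']
    simp [mul_fin_three]

theorem simple_sl3 [Finite F] (h2 : (2 : F) ≠ 0) {H : Subgroup SL(3, F)} (he : e3 F ∈ H) (ht : t3 F ∈ H)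
    (hs : s3 F ∈ H) (hG : commutator H = ⊤) (U : Subgroup Fˣ)
    (hU : ∀ u ∈ H, ∀ a : Fˣ, u.1 0 0 = a → u.1 1 0 = 0 → u.1 2 0 = 0 → a ∈ U)
    (h8 : 8 * Nat.card U ∣ Nat.card H) {S : Subgroup H} (hS : H18.SylIn 2 S ⊤) :
    (groupFusionSystem S).IsSimple 2 := by
  have e1 : s3 F * e3 F * (s3 F)⁻¹ = z3 F := by
    rw [mul_inv_eq_iff_eq_mul]; simp [sl3_ext, e3_val, s3_val, z3_val]
  have e2 : t3 F * t3 F = 1 := by simp [sl3_ext, t3_val, one_fin_three]
  have hz : z3 F ∈ H := e1 ▸ mul_mem (mul_mem hs he) (inv_mem hs)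
  have h11 : (-1 : F) ≠ 1 := fun h => h2 (by linear_combination -h)
  set f := ProjGenLinGroup.mk.comp (blk3 h2 hz).toHomUnits
  have hk : ∀ k ∈ f.ker, ∃ (a : Fˣ) (i : F), k.1.1.1 = !![(a : F), 0, 0; 0, a, 0; 0, 0, i] := fun k hk => by
    obtain ⟨a, ha⟩ := (GeneralLinearGroup.center_eq_range_scalar ..).le (ProjGenLinGroup.mk_eq_one.1 hk)
    obtain ⟨a', b, c, d, i, h⟩ := sl3_block h2 (congrArg Subtype.val (Subgroup.mem_centralizer_singleton_iff.1 k.2))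
    have : scalar (Fin 2) (a : F) = !![k.1.1.1 0 0, k.1.1.1 0 1; k.1.1.1 1 0, k.1.1.1 1 1] := congrArg Units.val ha
    rw [h, eta_fin_two (scalar _ _)] at this
    simp at this
    exact ⟨a, i, by rw [h, ← this.1.1, ← this.1.2, ← this.2.1, ← this.2.2]⟩
  refine simple_of_dih h2 hG (e := ⟨_, he⟩) (t := ⟨_, ht⟩) (z := ⟨_, hz⟩)
    (Subtype.ext (by simp [pow_two, sl3_ext, e3_val, one_fin_three])) (Subtype.ext (by simpa [pow_two] using e2))
    (fun h => by simpa [sl3_ext, e3_val, t3_val, h11, h11.symm] using congrArg Subtype.val h)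
    (Subtype.ext (by simp [pow_succ, sl3_ext, e3_val, t3_val, one_fin_three])) (fun u k1 k2 k3 k4 => ?_) f
    (fun k h => Subgroup.mem_center_iff.2 fun v => ?_) (n := Nat.card U) Nat.card_pos.ne' h8 ?_ hS
  · rcases sl3_inv_cases h2 (by simpa [pow_two] using congrArg Subtype.val k1) (congrArg Subtype.val k3)
      (congrArg Subtype.val k4) with h | h | h | h
    · exact absurd (Subtype.ext h) k2
    · refine ⟨by rw [show u = ⟨_, he⟩ from Subtype.ext h], fun h' => ?_⟩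
      simpa [h, sl3_ext, e3_val, t3_val, h11, h11.symm] using congrArg Subtype.val h'
    · refine ⟨(_root_.isConj_iff.2 ⟨⟨_, ht⟩, Subtype.ext ?_⟩).symm, fun h' => ?_⟩
      · rw [h]; simp [inv_eq_of_mul_eq_one_right e2]
      · simpa [h, sl3_ext, e3_val, t3_val, h11, h11.symm] using congrArg Subtype.val h'
    · exact ⟨(_root_.isConj_iff.2 ⟨⟨_, hs⟩, Subtype.ext (e1.trans h.symm)⟩).symm, fun _ => Subtype.ext h⟩
  · obtain ⟨a, i, h⟩ := hk k h
    obtain ⟨a', b, c, d, i', h'⟩ := sl3_block h2 (congrArg Subtype.val (Subgroup.mem_centralizer_singleton_iff.1 v.2))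
    refine Subtype.ext (Subtype.ext (sl3_ext.2 ?_))
    show v.1.1.1 * k.1.1.1 = k.1.1.1 * v.1.1.1
    rw [h, h']
    simp [mul_fin_three, mul_comm]
  · choose a i h using hk
    have key : ∀ k : f.ker, ∀ b : Fˣ, k.1.1.1.1 0 0 = b ↔ a k k.2 = b := fun k b => by
      rw [h k k.2]; simp [Units.ext_iff]
    refine Subgroup.card_dvd_of_injective (MonoidHom.mk' (fun k : f.ker => (⟨a k k.2,
      hU _ k.1.1.2 _ (by simp [h k k.2]) (by simp [h k k.2]) (by simp [h k k.2])⟩ : U)) fun k l =>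
        Subtype.ext ((key _ _).1 ?_)) ((injective_iff_map_eq_one _).2 fun k hk => ?_)
    · show (k.1.1.1.1 * l.1.1.1.1) 0 0 = (a k k.2 : F) * a l l.2
      rw [h k k.2, h l l.2]
      simp [mul_fin_three]
    · have h1 : a k k.2 = 1 := congrArg Subtype.val hk
      have h3 := k.1.1.1.2
      refine Subtype.ext (Subtype.ext (Subtype.ext (sl3_ext.2 ?_)))
      rw [h k k.2, h1] at h3 ⊢
      simp [det_fin_three] at h3
      simp [h3, one_fin_three]

theorem eight_dvd_sq_sub_one {q : ℕ} (h : q % 2 = 1) : 8 ∣ q ^ 2 - 1 := by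
  obtain ⟨k, rfl⟩ : ∃ k, q = 2 * k + 1 := ⟨q / 2, by omega⟩
  obtain ⟨m, hm⟩ := (Nat.even_mul_succ_self k).two_dvd
  exact ⟨m, Nat.sub_eq_of_eq_add (by linear_combination 4 * hm)⟩

end Cfsg.Agent.H17
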