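import Cfsg.Agent.H17.SeK

/-! S3330: `M = K₁ K₂` from `C_M(e) ≤ K₁ K₂`. -/

set_option autoImplicit false
set_option linter.unusedSectionVars false
set_option linter.unusedVariables false

namespace Cfsg.Agent.L1Se

open Subgroup Equiv Cfsg.Agent.FT

universe u
variable {G : Type u} [Group G] [Finite G] {ε : W →* G} {σ : G} {M : Subgroup G}

theorem c2_dih {s d : G} (hs : s * s = 1) (hd : d * d = 1) : (∃ g ∈ ⟪s * d⟫, g * s * g⁻¹ = d) ∨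
    ∃ w ∈ ⟪s * d⟫, w ≠ 1 ∧ w * w = 1 ∧ w * s = s * w ∧ w * d = d * w := by
  have i1 : s * (s * d) * s⁻¹ = (s * d)⁻¹ := by
    rw [← mul_assoc, hs, one_mul, mul_inv_rev, inv_eq_of_mul_eq_one_right hd]
  have i2 : ∀ n : ℕ, s * (s * d) ^ n * s⁻¹ = ((s * d) ^ n)⁻¹ := fun n => by rw [← conj_pow, i1, inv_pow]
  have o := pow_orderOf_eq_one (s * d)
  rcases Nat.even_or_odd' (orderOf (s * d)) with ⟨m, e | e⟩
  · have h1 : (s * d) ^ m * (s * d) ^ m = 1 := by rw [← pow_add, ← two_mul, ← e, o]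
    have h2 : (s * d) ^ m * s = s * (s * d) ^ m := by
      rw [mul_inv_eq_iff_eq_mul.1 (i2 m), inv_eq_of_mul_eq_one_right h1]
    have p := orderOf_pos (s * d)
    refine .inr ⟨_, pow_mem (mem_zpowers _) m, pow_ne_one_of_lt_orderOf (by omega) (by omega), h1, h2, ?_⟩
    have h3 : Commute ((s * d) ^ m) (s * (s * d)) :=
      Commute.mul_right h2 ((Commute.refl _).pow_left m)
    rwa [← mul_assoc, hs, one_mul] at h3
  · refine .inl ⟨(s * d) ^ m, pow_mem (mem_zpowers _) m, ?_⟩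
    rw [e] at o
    calc _ = (s * d) ^ m * s * ((s * d) ^ m)⁻¹ := rfl
      _ = s * (s⁻¹ * (s * d) ^ m * s) * ((s * d) ^ m)⁻¹ := by group
      _ = s * (s * (s * d) ^ m * s⁻¹) * ((s * d) ^ m)⁻¹ := by rw [inv_eq_of_mul_eq_one_right hs]
      _ = s * ((s * d) ^ (2 * m + 1))⁻¹ * (s * d) := by rw [i2]; generalize s * d = y; group
      _ = d := by rw [o, inv_one, mul_one, ← mul_assoc, hs, one_mul]

theorem pB3c2 (h : SA ε σ eB) (hk : KK ε σ) (he : NE ε σ) (hM : MM M)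
    (c1 : ∀ g ∈ M, Commute g (ε eE) → ∃ a b, Perm.sign a = 1 ∧ Perm.sign b = 1 ∧ g = kk ε σ a b) :
    ∀ g ∈ M, ∃ a b, Perm.sign a = 1 ∧ Perm.sign b = 1 ∧ g = kk ε σ a b := by
  simp only [← sK_mem hk] at c1 ⊢
  have nm := hM.nm
  have inj := sK_inj h hk
  have lM := sK_leM hk hM
  have syl := sK_syl h hk hM
  have ab := sK_abE h hk
  have nr := sK_nrm h hk he hM
  have eE' := sK_EE h hk
  have sw := sK_swap h hk
  rw [← sK_e2 h hk] at c1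
  generalize EE ε σ = E at *
  generalize sK hk = κ at *
  have sN : σ ∈ N(κ.range) := mem_nrm.2 (by rintro _ ⟨⟨a, b⟩, rfl⟩; exact ⟨_, (sw a b).symm⟩)
  have cj1 : ∀ n ∈ N(κ.range), ∀ w, M ⊓ C[w] ≤ κ.range → M ⊓ C[n * w * n⁻¹] ≤ κ.range :=
    fun n hn w hw g hg => by
      have h1 : n⁻¹ * g * n⁻¹⁻¹ ∈ κ.range := hw (mem_inf.2 ⟨nm.conj_mem _ hg.1 _, by
        have := (mem_inf.1 hg).2
        rw [← cj_cen1, mem_cj] at this
        rwa [inv_inv]⟩)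
      simpa [mul_assoc] using mem_nrm.1 hn _ h1
  have cV : ∀ a ∈ C[sK_e], a ≠ 1 → ∃ k, k * sK_e * k⁻¹ = a := fun a ha a1 => by
    rcases sK_memV.1 ha with rfl | rfl | rfl | rfl
    · exact (a1 rfl).elim
    · exact ⟨1, by simp⟩
    · exact ⟨⟨swap 1 3 * swap 3 4, Perm.mem_alternatingGroup.2 (by decide)⟩, by decide +kernel⟩
    · exact ⟨⟨swap 3 4 * swap 1 3, Perm.mem_alternatingGroup.2 (by decide)⟩, by decide +kernel⟩
  have cj2 : ∀ p q : sK_A × sK_A, M ⊓ C[κ q] ≤ κ.range → M ⊓ C[κ (p * q * p⁻¹)] ≤ κ.range :=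
    fun p q hq => by
      rw [map_mul, map_mul, map_inv]; exact cj1 _ (le_nrm _ ⟨p, rfl⟩) _ hq
  have d1 : M ⊓ C[κ (1, sK_e)] ≤ κ.range := fun g hg => c1 g hg.1 (mem_cen1.1 hg.2)
  have d2 : ∀ a ∈ C[sK_e], a ≠ 1 → M ⊓ C[κ (1, a)] ≤ κ.range := fun a ha a1 => by
    obtain ⟨k, rfl⟩ := cV a ha a1
    simpa using cj2 (1, k) _ d1
  have d3 : ∀ a ∈ C[sK_e], a ≠ 1 → M ⊓ C[κ (a, 1)] ≤ κ.range := fun a ha a1 =>
    sw 1 a ▸ cj1 σ sN _ (d2 a ha a1)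
  have m1 : sK_e ∈ C[sK_e] := self_mem_cen1 _
  have dE : κ (sK_e, sK_e) ∈ E := eE' ▸ ⟨_, ⟨m1, m1⟩, rfl⟩
  have d4 : κ.range ⊓ C[κ (sK_e, sK_e)] ≤ E := by
    rintro _ ⟨⟨p, rfl⟩, e⟩
    have e' := mem_cen1.1 e
    rw [← map_mul, ← map_mul] at e'
    exact eE' ▸ ⟨p, ⟨mem_cen1.2 (congrArg Prod.fst (inj e')), mem_cen1.2 (congrArg Prod.snd (inj e'))⟩, rfl⟩
  have d5 : M ⊓ C[κ (sK_e, sK_e)] ≤ E := by
    have s1 := syl.subl_inf (ab.le_cen1 dE)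
    have s2 := (Burnside_normal_complement s1 fun g hg => ab.le_cen (d4 ⟨nr ⟨hg.1.1, hg.2⟩, hg.1.2⟩)).sd s1
    have l := pcore_le {2}ᶜ (M ⊓ C[κ (sK_e, sK_e)])
    have p := pcore_pi {2}ᶜ (M ⊓ C[κ (sK_e, sK_e)])
    generalize O[{2}ᶜ](M ⊓ C[κ (sK_e, sK_e)]) = O at *
    have u : (C[sK_e].prod ⊥).map κ ≤ E := eE' ▸ map_mono (prod_mono le_rfl bot_le)
    refine s2.sup.ge.trans (sup_le (coprime_abelian_gen_cent1 (ab.mono u) (fun hc => ?_) (u.trans s2.nrm)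
      (p.cop' (syl.pi.mono u)) ?_) le_rfl)
    · obtain ⟨x, hx⟩ := cyc_iff.1 hc
      have q : ∀ a ∈ C[sK_e], κ (a, 1) ∈ ⟪x⟫ := fun a ha => hx ▸ ⟨_, ⟨ha, one_mem _⟩, rfl⟩
      obtain ⟨⟨a, b⟩, ⟨ha, hb⟩, rfl⟩ : x ∈ (C[sK_e].prod ⊥).map κ := hx ▸ mem_zpowers x
      obtain rfl := mem_bot.1 hb
      have q2 : ∀ c ∈ C[sK_e], c ∈ ⟪a⟫ := fun c hc => by
        obtain ⟨n, hn⟩ := q c hc
        simp only [← map_zpow] at hn
        exact ⟨n, congrArg Prod.fst (inj hn)⟩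
      have q3 := card_le_of_le (show C[sK_e] ≤ ⟪a⟫ from q2)
      rw [sK_cardV, Nat.card_zpowers] at q3
      have : a ^ 2 = 1 := by rcases sK_memV.1 ha with rfl | rfl | rfl | rfl <;> decide +kernel
      have := Nat.le_of_dvd two_pos (orderOf_dvd_of_pow_eq_one this)
      omega
    · rintro _ ⟨⟨a, b⟩, ⟨ha, hb⟩, rfl⟩ a1 g hg
      obtain rfl := mem_bot.1 hb
      exact d4 ⟨d3 a ha (fun e => a1 (by subst e; exact map_one κ)) ⟨(l hg.1).1, hg.2⟩, (l hg.1).2⟩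
  have EN : E ≤ κ.range := eE' ▸ map_le_range _ _
  have d6 : ∀ w ∈ E, w ≠ 1 → M ⊓ C[w] ≤ κ.range := by
    rw [eE']
    rintro _ ⟨⟨a, b⟩, ⟨ha, hb⟩, rfl⟩ w1
    by_cases a1 : a = 1
    · subst a1; exact d2 b hb fun e => w1 (by subst e; exact map_one κ)
    by_cases b1 : b = 1
    · subst b1; exact d3 a ha a1
    obtain ⟨k, rfl⟩ := cV a ha a1
    obtain ⟨l, rfl⟩ := cV b hb b1
    exact cj2 (k, l) (sK_e, sK_e) (d5.trans EN)
  have ee : sK_e * sK_e = 1 := by decide +kernel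
  have d7 : ∀ g ∈ M, g * κ (1, sK_e) * g⁻¹ ∈ κ.range := fun g hg => by
    have sM : g * κ (1, sK_e) * g⁻¹ ∈ M := nm.conj_mem _ (lM ⟨_, rfl⟩) _
    have zM : ⟪g * κ (1, sK_e) * g⁻¹ * κ (sK_e, sK_e)⟫ ≤ M := zpowers_le.2 (mul_mem sM (lM ⟨_, rfl⟩))
    rcases c2_dih (s := g * κ (1, sK_e) * g⁻¹) (d := κ (sK_e, sK_e))
      (by rw [conj_mul, ← map_mul, Prod.mk_mul_mk, ee, mul_one, Prod.mk_one_one, map_one]; group)
      (by rw [← map_mul, Prod.mk_mul_mk, ee, Prod.mk_one_one, map_one]) with ⟨k, hk, e⟩ | ⟨w, hw, w1, -, e1, e2⟩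
    · exfalso
      have e' : k * g * κ (1, sK_e) * (k * g)⁻¹ = κ (sK_e, sK_e) := by rw [← e]; group
      have q : ∀ a, k * g * κ (a, 1) * (k * g)⁻¹ ∈ E := fun a =>
        d5 (mem_inf.2 ⟨nm.conj_mem _ (lM ⟨_, rfl⟩) _, by
          rw [← e', ← cj_cen1, conj_mem_cj, mem_cen1, ← map_mul, ← map_mul]; simp⟩)
      have := ab.comm (q sK_e) (q sK_z)
      rw [conj_mul, conj_mul, mul_left_inj, mul_right_inj, ← map_mul, ← map_mul] at this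
      exact absurd (congrArg Prod.fst (inj this)) (by decide +kernel)
    · exact d6 w (d5 ⟨zM hw, mem_cen1.2 e2⟩) w1 ⟨sM, mem_cen1.2 e1.symm⟩
  have ss : σ⁻¹ = σ := inv_eq_of_mul_eq_one_right h.ss
  have d8 : ∀ g ∈ M, g * κ (sK_e, 1) * g⁻¹ ∈ κ.range := fun g hg => by
    have := mem_nrm.1 sN _ (d7 _ (nm.conj_mem _ hg σ⁻¹))
    rwa [show σ * (σ⁻¹ * g * σ⁻¹⁻¹ * κ (1, sK_e) * (σ⁻¹ * g * σ⁻¹⁻¹)⁻¹) * σ⁻¹ =
      g * (σ * κ (1, sK_e) * σ⁻¹) * g⁻¹ by group, sw] at this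
  let H : Subgroup G := ⨅ g : M, cj (g : G)⁻¹ κ.range
  have mH : ∀ x, x ∈ H ↔ ∀ g ∈ M, g * x * g⁻¹ ∈ κ.range := fun x => by
    simp only [H, mem_iInf, mem_cj, inv_inv, Subtype.forall]
  have d9 : κ.range ≤ H := by
    have k : ∀ (i : sK_A →* sK_A × sK_A), κ (i sK_e) ∈ H → ∀ d, κ (i d) ∈ H := fun i hc d => by
      have n : (H.comap (κ.comp i)).Normal := ⟨fun x hx g => by
        rw [mem_comap, map_mul, map_mul, map_inv, mH]
        intro m hm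
        have := (mH _).1 hx (m * κ.comp i g) (mul_mem hm (lM ⟨_, rfl⟩))
        simpa [mul_assoc] using this⟩
      rcases n.eq_bot_or_eq_top with e | e
      · exact absurd (mem_bot.1 (e.le (show sK_e ∈ H.comap (κ.comp i) from hc)))
          (show sK_e ≠ 1 by decide +kernel)
      · exact e.ge (mem_top d)
    rintro _ ⟨⟨c, d⟩, rfl⟩
    rw [show (c, d) = (c, 1) * (1, d) by simp, map_mul]
    exact mul_mem (k (MonoidHom.inl _ _) ((mH _).2 d8) c) (k (MonoidHom.inr _ _) ((mH _).2 d7) d)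
  intro g hg
  obtain ⟨n, hn, e⟩ := (syl.subl EN lM).syl_Jsub (syl.pi.cj g) (by
    rintro x hx
    obtain ⟨y, hy, rfl⟩ := mem_cj'.1 hx
    exact (mH _).1 (d9 (EN hy)) g hg)
  rw [cj_cj] at e
  exact (mul_mem_cancel_left hn).1 (nr ⟨mul_mem (lM hn) hg, mem_nrm_of_cj_le e⟩)

end Cfsg.Agent.L1Se
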