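import Cfsg.Agent.L1.Se0
import Cfsg.Agent.FT.BG01

/-! S3330: basic facts about `K₁ K₂ ≅ A₅ × A₅`. -/

set_option autoImplicit false
set_option linter.unusedSectionVars false
set_option linter.unusedVariables false

namespace Cfsg.Agent.L1Se

open Subgroup Equiv Cfsg.Agent.FT

universe u
variable {G : Type u} [Group G] [Finite G] {ε : W →* G} {σ : G} {M : Subgroup G}

abbrev sK_A := alternatingGroup (Fin 5)

def sK_1 (ε : W →* G) : sK_A →* G := (ε.comp (MonoidHom.inr _ _)).comp sK_A.subtype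

/-- the map `A₅ × A₅ → G` -/
def sK (hk : KK ε σ) : sK_A × sK_A →* G :=
  (sK_1 ε).noncommCoprod ((MulAut.conj σ).toMonoidHom.comp (sK_1 ε)) fun a b => hk.cm _ _ a.2 b.2

theorem sK_apply (hk : KK ε σ) (a b : sK_A) : sK hk (a, b) = ε (1, a.1) * (σ * ε (1, b.1) * σ⁻¹) := rfl

theorem sK_mem (hk : KK ε σ) {g : G} :
    g ∈ (sK hk).range ↔ ∃ a b, Perm.sign a = 1 ∧ Perm.sign b = 1 ∧ g = kk ε σ a b :=
  ⟨fun ⟨p, e⟩ => ⟨p.1.1, p.2.1, p.1.2, p.2.2, e.symm⟩, fun ⟨a, b, ha, hb, e⟩ => ⟨(⟨a, ha⟩, ⟨b, hb⟩), e.symm⟩⟩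

theorem sK_l (hk : KK ε σ) (a : sK_A) : sK hk (a, 1) = ε (1, a.1) := by
  rw [sK_apply, show ((1 : Perm (Fin 3)), ((1 : sK_A) : Perm (Fin 5))) = 1 from rfl, map_one]; group

theorem sK_r (hk : KK ε σ) (a : sK_A) : sK hk (1, a) = σ * ε (1, a.1) * σ⁻¹ := by
  rw [sK_apply, show ((1 : Perm (Fin 3)), ((1 : sK_A) : Perm (Fin 5))) = 1 from rfl, map_one, one_mul]

theorem sK_swap {x : W} (h : SA ε σ x) (hk : KK ε σ) (a b : sK_A) : σ * sK hk (a, b) * σ⁻¹ = sK hk (b, a) := by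
  rw [sK_apply, sK_apply, (hk.cm _ _ b.2 a.2).eq]
  calc _ = σ * ε (1, a.1) * σ⁻¹ * ((σ * σ) * ε (1, b.1) * (σ * σ)⁻¹) := by group
    _ = _ := by rw [h.ss]; group

theorem sK_inj {x : W} (h : SA ε σ x) (hk : KK ε σ) : Function.Injective (sK hk) := by
  have k : ∀ a b : sK_A, sK hk (a, b) = 1 → a = 1 := fun a b e => by
    have k1 : ∀ c : sK_A, c * a = a * c := fun c => by
      have e1 : sK hk (c * a * c⁻¹, 1) = sK hk (a, 1) := by
        have e2 : sK hk (c * a * c⁻¹, b) = 1 := by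
          rw [show (c * a * c⁻¹, b) = (c, 1) * (a, b) * (c, 1)⁻¹ by simp, map_mul, map_mul, e, map_inv]
          group
        rw [show (c * a * c⁻¹, (1 : sK_A)) = (c * a * c⁻¹, b) * (1, b⁻¹) by simp,
          show (a, (1 : sK_A)) = (a, b) * (1, b⁻¹) by simp, map_mul, map_mul, e, e2]
      rw [sK_l, sK_l] at e1
      exact mul_inv_eq_iff_eq_mul.1 (Subtype.ext (congrArg Prod.snd (h.inj e1)))
    have : a ∈ center sK_A := mem_center_iff.2 k1
    rwa [alternatingGroup.center_eq_bot (by simp), mem_bot] at this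
  refine (injective_iff_map_eq_one _).2 fun ⟨a, b⟩ e => Prod.ext (k a b e) (k b a ?_)
  rw [← sK_swap h hk, e]; group

def sK_e : sK_A := ⟨eB.2, Perm.mem_alternatingGroup.2 (by decide)⟩
def sK_u : sK_A := ⟨uE.2, Perm.mem_alternatingGroup.2 (by decide)⟩
def sK_z : sK_A := ⟨zF.2, Perm.mem_alternatingGroup.2 (by decide)⟩

theorem sK_memV {a : sK_A} : a ∈ C[sK_e] ↔ a = 1 ∨ a = sK_e ∨ a = sK_u ∨ a = sK_e * sK_u := by
  have k : ∀ a : Perm (Fin 5), a * eB.2 = eB.2 * a → Perm.sign a = 1 →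
      a = 1 ∨ a = eB.2 ∨ a = uE.2 ∨ a = eB.2 * uE.2 := by decide +kernel
  rw [mem_cen1]
  refine ⟨fun e => ?_, ?_⟩
  · rcases k a.1 (congrArg Subtype.val e) a.2 with e | e | e | e
    exacts [.inl (Subtype.ext e), .inr (.inl (Subtype.ext e)), .inr (.inr (.inl (Subtype.ext e))),
      .inr (.inr (.inr (Subtype.ext e)))]
  · rintro (rfl | rfl | rfl | rfl) <;> decide +kernel

theorem sK_cardV : #C[sK_e] = 4 := by
  rw [← SetLike.coe_sort_coe, Nat.card_coe_set_eq, show ((C[sK_e] : Subgroup sK_A) : Set sK_A) =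
    ↑({1, sK_e, sK_u, sK_e * sK_u} : Finset sK_A) by ext a; simp [sK_memV], Set.ncard_coe_finset]
  decide +kernel

theorem sK_e1 (hk : KK ε σ) : sK hk (sK_e, 1) = ε eB := sK_l hk _

theorem sK_e2 (h : SA ε σ eB) (hk : KK ε σ) : sK hk (1, sK_e) = ε eE := by
  rw [← sK_swap h hk, sK_e1, ← h.se]
  calc _ = (σ * σ) * ε eE * (σ * σ)⁻¹ := by group
    _ = _ := by rw [h.ss]; group

theorem sK_EE (h : SA ε σ eB) (hk : KK ε σ) : EE ε σ = (C[sK_e].prod C[sK_e]).map (sK hk) := by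
  have m1 : sK_e ∈ C[sK_e] := sK_memV.2 (by simp)
  have m2 : sK_u ∈ C[sK_e] := sK_memV.2 (by simp)
  refine le_antisymm ((closure_le _).2 ?_) ?_
  · rintro _ (rfl | rfl | rfl | rfl)
    exacts [⟨(sK_e, 1), ⟨m1, one_mem _⟩, sK_e1 hk⟩, ⟨(sK_u, 1), ⟨m2, one_mem _⟩, sK_l hk _⟩,
      ⟨(1, sK_e), ⟨one_mem _, m1⟩, sK_e2 h hk⟩, ⟨(1, sK_u), ⟨one_mem _, m2⟩, sK_r hk _⟩]
  · rintro _ ⟨⟨a, b⟩, ⟨ha, hb⟩, rfl⟩
    have n1 : sK hk (sK_e, 1) ∈ EE ε σ := sK_e1 hk ▸ subset_closure (by simp)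
    have n2 : sK hk (sK_u, 1) ∈ EE ε σ := (sK_l hk sK_u).symm ▸ subset_closure (.inr (.inl rfl))
    have n3 : sK hk (1, sK_e) ∈ EE ε σ := sK_e2 h hk ▸ subset_closure (by simp)
    have n4 : sK hk (1, sK_u) ∈ EE ε σ := (sK_r hk sK_u).symm ▸ subset_closure (.inr (.inr (.inr rfl)))
    rw [show (a, b) = (a, 1) * (1, b) by simp, map_mul]
    refine mul_mem ?_ ?_
    · rcases sK_memV.1 ha with rfl | rfl | rfl | rfl
      · exact (map_one (sK hk)).symm ▸ one_mem _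
      · exact n1
      · exact n2
      · simpa [← map_mul] using mul_mem n1 n2
    · rcases sK_memV.1 hb with rfl | rfl | rfl | rfl
      · exact (map_one (sK hk)).symm ▸ one_mem _
      · exact n3
      · exact n4
      · simpa [← map_mul] using mul_mem n3 n4

theorem sK_cardE (h : SA ε σ eB) (hk : KK ε σ) : #(EE ε σ) = 16 := by
  rw [sK_EE h hk, card_map_of_injective (sK_inj h hk), Nat.card_congr (prodEquiv _ _).toEquiv,
    Nat.card_prod, sK_cardV]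

theorem sK_abE (h : SA ε σ eB) (hk : KK ε σ) : Ab (EE ε σ) := by
  have k := ab_of_card_sq Nat.prime_two (A := C[sK_e]) sK_cardV
  rw [sK_EE h hk, ab_iff_forall]
  rintro _ ⟨a, ha, rfl⟩ _ ⟨b, hb, rfl⟩
  rw [← map_mul, ← map_mul, show a * b = b * a from Prod.ext (k.comm ha.1 hb.1) (k.comm ha.2 hb.2)]

theorem sK_EN (h : SA ε σ eB) (hk : KK ε σ) : EE ε σ ≤ (sK hk).range := sK_EE h hk ▸ map_le_range _ _

/-- a subgroup normalized by `K₁K₂` that meets both factors contains `K₁K₂` -/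
theorem sK_le (hk : KK ε σ) {H : Subgroup G} (hn : (sK hk).range ≤ N(H)) {a b : sK_A} (a1 : a ≠ 1)
    (b1 : b ≠ 1) (ha : sK hk (a, 1) ∈ H) (hb : sK hk (1, b) ∈ H) : (sK hk).range ≤ H := by
  have k : ∀ (i : sK_A →* sK_A × sK_A) (c : sK_A), c ≠ 1 → sK hk (i c) ∈ H → ∀ d, sK hk (i d) ∈ H :=
    fun i c c1 hc d => by
      have n : (H.comap ((sK hk).comp i)).Normal := ⟨fun x hx g => by
        rw [mem_comap, map_mul, map_mul, map_inv]
        exact mem_nrm.1 (hn ⟨_, rfl⟩) _ hx⟩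
      rcases n.eq_bot_or_eq_top with e | e
      · exact (c1 (mem_bot.1 (e ▸ (hc : c ∈ H.comap ((sK hk).comp i))))).elim
      · exact e.ge (mem_top d)
  rintro _ ⟨⟨c, d⟩, rfl⟩
  rw [show (c, d) = (c, 1) * (1, d) by simp, map_mul]
  exact mul_mem (k (MonoidHom.inl _ _) a a1 ha c) (k (MonoidHom.inr _ _) b b1 hb d)

theorem sK_leM (hk : KK ε σ) (hM : MM M) : (sK hk).range ≤ M := by
  haveI := hM.nm
  refine sK_le hk (a := sK_z ^ 2) (b := sK_z ^ 2) le_normalizer_of_normal (by decide +kernel)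
    (by decide +kernel) ?_ ?_
  · simpa [← map_pow] using hM.sq (sK hk (sK_z, 1))
  · simpa [← map_pow] using hM.sq (sK hk (1, sK_z))

theorem sK_syl (h : SA ε σ eB) (hk : KK ε σ) (hM : MM M) : Syl 2 (EE ε σ) M := by
  have l := (sK_EN h hk).trans (sK_leM hk hM)
  refine syl_of_not_dvd l (pGrp_of_card (n := 4) Nat.prime_two (sK_cardE h hk)) fun ⟨c, hc⟩ => hM.n32 ?_
  rw [← card_mul_relIndex l, sK_cardE h hk, hc]
  exact ⟨c, by ring⟩

theorem sK_nM (h : SA ε σ eB) (hk : KK ε σ) (hM : MM M) : ε tE ∉ M ∧ σ ∉ M ∧ ε tE * σ ∉ M := by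
  have m : ∀ g ∈ EE ε σ, g * ε eB = ε eB * g ∧ g * ε uE = ε uE * g := fun g hg =>
    ⟨(sK_abE h hk).comm hg (subset_closure (by simp)), (sK_abE h hk).comm hg (subset_closure (by simp))⟩
  have nn : ∀ g : G, (∀ s ∈ ({ε eB, ε uE, ε eE, σ * ε uE * σ⁻¹} : Set G), g * s * g⁻¹ ∈ EE ε σ) →
      g ∈ N(EE ε σ) := fun g hg => mem_nrm_of_cj_le (by
    rw [← cj_le_cj (g := g⁻¹), cj_inv_cj]
    exact (closure_le _).2 fun s hs => mem_cj.2 (by rw [inv_inv]; exact hg s hs))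
  have g1 : ε eB ∈ EE ε σ := subset_closure (by simp)
  have g2 : ε uE ∈ EE ε σ := subset_closure (by simp)
  have g3 : ε eE ∈ EE ε σ := subset_closure (by simp)
  have g4 : σ * ε uE * σ⁻¹ ∈ EE ε σ := subset_closure (by simp)
  have s2 : ∀ g : G, σ * (σ * g * σ⁻¹) * σ⁻¹ = g := fun g => by
    calc _ = (σ * σ) * g * (σ * σ)⁻¹ := by group
      _ = _ := by rw [h.ss]; group
  have se' : σ * ε eB * σ⁻¹ = ε eE := by rw [← h.se, s2]
  have ns : σ ∈ N(EE ε σ) := nn σ (by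
    rintro _ (rfl | rfl | rfl | rfl)
    exacts [se' ▸ g3, g4, h.se ▸ g1, (s2 _).symm ▸ g2])
  have c : ∀ a b : W, tE * a * tE⁻¹ = b → ε tE * ε a * (ε tE)⁻¹ = ε b := fun a b e => by
    rw [← e]; simp
  have nt : ε tE ∈ N(EE ε σ) := nn _ (by
    rintro _ (rfl | rfl | rfl | rfl)
    · rw [c eB eB (by decide)]; exact g1
    · rw [c uE (eB * uE) (by decide), map_mul]; exact mul_mem g1 g2
    · rw [c eE eE (by decide)]; exact g3
    · rw [← h.st, conj_inv, conj_mul, conj_mul, c uE (eB * uE) (by decide), map_mul, ← conj_mul, se']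
      exact mul_mem g3 g4)
  have k : ∀ g ∈ M, g ∈ N(EE ε σ) → g * g = 1 → g ∈ EE ε σ := fun g hg hn e =>
    (sK_syl h hk hM).le_of_norm (pElt_of_pow_eq_one Nat.prime_two (by rw [sq, e])).zpowers
      (zpowers_le.2 hg) (zpowers_le.2 hn) (mem_zpowers g)
  have tt : ε tE * ε tE = 1 := by rw [← map_mul, show tE * tE = 1 by decide, map_one]
  have ne : ε eE ≠ ε eB := fun e => absurd (h.inj e) (by decide)
  refine ⟨fun e => ?_, fun e => ?_, fun e => ?_⟩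
  · have := (m _ (k _ e nt tt)).2
    rw [← map_mul, ← map_mul] at this
    exact absurd (h.inj this) (by decide)
  · exact ne (by rw [← se', (m _ (k _ e ns h.ss)).1, mul_inv_cancel_right])
  · have := (m _ (k _ e (mul_mem nt ns) (by
      rw [mul_assoc, ← mul_assoc σ, mul_inv_eq_iff_eq_mul.1 h.st, mul_assoc, h.ss, mul_one, tt]))).1
    apply ne
    rw [← c eE eE (by decide), ← se']
    calc _ = ε tE * σ * ε eB * (ε tE * σ)⁻¹ := by group
      _ = _ := by rw [this, mul_inv_cancel_right]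

theorem sK_nrm (h : SA ε σ eB) (hk : KK ε σ) (he : NE ε σ) (hM : MM M) :
    M ⊓ N(EE ε σ) ≤ (sK hk).range := fun g hg => by
  obtain ⟨a, b, ha, hb, e⟩ := he g hg.2
  have k : kk ε σ a b ∈ (sK hk).range := (sK_mem hk).2 ⟨a, b, ha, hb, rfl⟩
  have k' := sK_leM hk hM k
  obtain ⟨n1, n2, n3⟩ := sK_nM h hk hM
  have := hg.1
  rcases e with rfl | rfl | rfl | rfl
  · exact k
  · exact (n1 ((mul_mem_cancel_left k').1 this)).elim
  · exact (n2 ((mul_mem_cancel_left k').1 this)).elim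
  · exact (n3 ((mul_mem_cancel_left k').1 (mul_assoc (_ : G) _ _ ▸ this))).elim

end Cfsg.Agent.L1Se
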