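import Mathlib
import Cfsg.Agent.H17.SimpD
import Cfsg.Agent.H25.VM

/-! Tables of Sylow subgroups inside permutation and matrix models. -/

set_option autoImplicit false

open Cfsg
open Cfsg.Agent.H25

namespace Cfsg.Agent.H17

variable {G : Type*} [Group G]

/-- the images of the points `B` -/
noncomputable def sigA (P : PT) (B u : List ℕ) : ℕ :=
  List.rec (motive := fun _ => ℕ) 0 (fun b _ ih => Nat.add (Nat.mul ih 1024) (P.tr u b)) B

theorem am_ts {Ω : Type*} [MulAction G Ω] {P P' : PT} {g : ℕ → G} {pt : ℕ → Ω} (h : AM P g pt)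
    (hinj : ∀ i < P.N, ∀ j < P.N, pt i = pt j → i = j) {B : List ℕ} (hB : IsBase G P.N pt B)
    {df : List (List ℕ)} {T : Tb} (H0 : P'.N = P.N ∧ T.n ≤ P'.G ∧ allL P.small df = true)
    (H1 : extOK P P' df (fun i => i) 0 P.N = true) (H2 : T.tabChk (P'.chk2 B) 0 (2 ^ T.n) = true)
    (H3 : T.injChk (fun a => sigA P' B (T.w a)) = true) :
    T.TS (locv df g) ∧ ∀ u v, P'.chk2 B u v = true → ev (locv df g) u = ev (locv df g) v := by
  have h1 : AM P' (locv df g) pt :=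
    h.ext H0.2.2 fun i hi => extOK_sound H1 i (Nat.zero_le _) (H0.1 ▸ hi)
  rw [← H0.1] at hinj hB
  have h2 := Tb.tabChk_spec (h1.chk2 hB) H2
  refine ⟨⟨fun a ha => (h2 a (Nat.zero_le _) ha).2, fun a ha => (h2 a (Nat.zero_le _) ha).1,
    Tb.injChk_spec H3 fun a b e => ?_⟩, h1.chk2 hB⟩
  have h3 := hB.1
  clear hB h2 H3 H2
  induction B with
  | nil => rfl
  | cons c B ih =>
    obtain ⟨a1, a2⟩ := h1.tr (w := T.w a) (fun j hj => (Tb.w_lt hj).trans_le H0.2.1) c (h3 c (by simp))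
    obtain ⟨a3, a4⟩ := h1.tr (w := T.w b) (fun j hj => (Tb.w_lt hj).trans_le H0.2.1) c (h3 c (by simp))
    exact congrArg₂ (fun s t => s * 1024 + t) (ih fun d hd => h3 d (by simp [hd]))
      (hinj _ a1 _ a3 (by rw [← a2, ← a4]; exact congrArg (·⁻¹ • pt c) e))

theorem vm_ts {V : Type*} [AddCommGroup V] [DistribMulAction G V] {P : VT} {bas : ℕ → V} {x : ℕ → G}
    (h : VM P bas x) {T : Tb} (H0 : T.n ≤ P.G)
    (H2 : ∀ a < 2 ^ T.n, ∃ lo hi, lo ≤ a ∧ a < hi ∧ T.tabChk P.chk2 lo hi = true) {v : ℕ}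
    (H3 : T.injChk (fun a => P.red (P.tr (T.w a) v)) = true) : T.TS x := by
  refine ⟨fun a ha => ?_, fun a ha => ?_, Tb.injChk_spec H3 fun a b e => red_eq h.ok h.bs ?_⟩
  · obtain ⟨lo, hi, h1, h2, h3⟩ := H2 a ha
    exact (Tb.tabChk_spec h.chk2 h3 a h1 h2).2
  · obtain ⟨lo, hi, h1, h2, h3⟩ := H2 a ha
    exact (Tb.tabChk_spec h.chk2 h3 a h1 h2).1
  · rw [← h.tr fun j hj => (Tb.w_lt hj).trans_le H0, ← h.tr fun j hj => (Tb.w_lt hj).trans_le H0]
    exact congrArg (·⁻¹ • vdec P.n P.w bas v) e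

end Cfsg.Agent.H17
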