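import Mathlib
import Cfsg.Agent.H17.L2

/-! The `2`-fusion system of `PSp₄(q)`, `q` odd, is simple. -/

set_option autoImplicit false

open Cfsg
open Cfsg.FusionSystem hiding inv_mem
open scoped commutatorElement

namespace Cfsg.Agent.H17

variable {L G : Type*} [Group L] [Group G] {m a b c d i j γ : L} {ι : L × L →* G} {τ x y : G}

/-- `y'` is the conjugate of `y` by `1 + e`. -/
def Rf (n e y y' : G) : Prop := (e * y = y * e ∧ y' = y) ∨ (An n e y ∧ y' = e * y)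

/-- `G` behaves like `Sp₄(q)`, `q` odd, with its subgroup `SL₂(q) ≀ 2`. -/
structure W4 (m : L) (ι : L × L →* G) (τ : G) : Prop where
  l2 : L2 m
  sg : Sg (ι (m, m))
  inj : Function.Injective ι
  sq : τ * τ = 1
  swp : ∀ a b, τ * ι (a, b) = ι (b, a) * τ
  cz : ∀ x, x * ι (1, m) = ι (1, m) * x → ∃ a b, x = ι (a, b)
  rot : ∀ e f, e * e = ι (m, m) → f * f = ι (m, m) → e * f = f * e → ∃ x, PEl 2 x ∧
    ∀ y y' y'', Rf (ι (m, m)) f y y' → Rf (ι (m, m)) e y' y'' → x * y * x⁻¹ = y''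

theorem io_mul (ι : L × L →* G) (a b c d : L) : ι (a, b) * ι (c, d) = ι (a * c, b * d) := (map_mul ι _ _).symm

theorem io_mul' (ι : L × L →* G) (a b c d : L) (x : G) : ι (a, b) * (ι (c, d) * x) = ι (a * c, b * d) * x := by
  rw [← mul_assoc, io_mul]

theorem io_inv (ι : L × L →* G) (a b : L) : (ι (a, b))⁻¹ = ι (a⁻¹, b⁻¹) := (map_inv ι _).symm

theorem W4.swp' (h : W4 m ι τ) (a b : L) (x : G) : τ * (ι (a, b) * x) = ι (b, a) * (τ * x) := by
  rw [← mul_assoc, h.swp, mul_assoc]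

theorem W4.an (h : W4 m ι τ) : An (ι (m, m)) τ (ι (1, m)) := by simp [An, h.swp, io_mul', h.l2.sq]

theorem W4.cases (h : W4 m ι τ) (k : Cm (ι (m, m)) x (ι (1, m))) : ∃ a b, x = ι (a, b) ∨ x = ι (a, b) * τ :=
  k.elim (fun k => (h.cz x k).imp fun _ => .imp fun _ => .inl) fun k => (h.cz _ (k.mul_an h.sg h.an)).imp fun _ =>
    .imp fun _ e => .inr (by rw [← e, mul_assoc, h.sq, mul_one])

theorem W4.cm_io (h : W4 m ι τ) (k : Cm (ι (m, m)) (ι (a, b)) (ι (c, d))) :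
    (a * c = c * a ∧ b * d = d * b) ∨ (An m a c ∧ An m b d) := by
  simpa [Cm, An, io_mul, h.inj.eq_iff] using k

theorem W4.cen_eq (h : W4 m ι τ) (k : An m i j) (h0 : Cm (ι (m, m)) x (ι (1, m))) (h1 : Cm (ι (m, m)) x (ι (i, 1)))
    (h2 : Cm (ι (m, m)) x (ι (j, 1))) (h3 : Cm (ι (m, m)) x (ι (1, i))) (h4 : Cm (ι (m, m)) x (ι (1, j))) :
    x ∈ h.sg.pm ∨ x * ι (1, m) ∈ h.sg.pm := by
  have k0 : ∀ b, ¬ An m b 1 := fun b e => h.l2.ne (by simpa [An] using e)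
  obtain ⟨a, b, rfl | rfl⟩ := h.cases h0
  · rcases h.l2.pm_of_comm k ((h.cm_io h1).resolve_right (k0 _ ·.2)).1 ((h.cm_io h2).resolve_right (k0 _ ·.2)).1
      with rfl | rfl <;>
    rcases h.l2.pm_of_comm k ((h.cm_io h3).resolve_right (k0 _ ·.1)).2 ((h.cm_io h4).resolve_right (k0 _ ·.1)).2
      with rfl | rfl
    exacts [.inl (.inl ι.map_one), .inr (.inl (by rw [io_mul, h.l2.sq, mul_one]; exact ι.map_one)),
      .inr (.inr (by simp [io_mul])), .inl (.inr rfl)]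
  · have := h.l2.not_pm k
    simp [Cm, An, mul_assoc, h.swp, io_mul', h.inj.eq_iff, ← h.l2.cen b, this] at h1

theorem W4.center_eq (h : W4 m ι τ) (k : An m i j) : Subgroup.center G = h.sg.pm := by
  refine le_antisymm (fun x hx => ?_) ?_
  · have k0 : ∀ y, Cm (ι (m, m)) x y := fun y => .inl (Subgroup.mem_center_iff.1 hx y).symm
    refine (h.cen_eq k (k0 _) (k0 _) (k0 _) (k0 _) (k0 _)).resolve_right fun e => h.l2.ne ?_
    have k1 : x * ι (1, m) * τ = τ * (x * ι (1, m)) := by rcases e with e | e <;> simp [e, h.sg.cen]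
    rw [← mul_assoc, Subgroup.mem_center_iff.1 hx τ, mul_assoc, mul_assoc, mul_right_inj, h.an, right_eq_mul] at k1
    simpa using congrArg Prod.fst (h.inj (k1.trans ι.map_one.symm))
  · rintro _ (rfl | rfl)
    exacts [one_mem _, Subgroup.mem_center_iff.2 h.sg.cen]

theorem mem_normalizer_closure {H : Type*} [Group H] [Finite H] {s : Set H} {g : H}
    (h : ∀ y ∈ s, g * y * g⁻¹ ∈ Subgroup.closure s) : g ∈ Subgroup.normalizer (Subgroup.closure s : Set H) :=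
  H18.mem_normalizer_of_conj_mem fun _ hy =>
    (Subgroup.closure_le ((Subgroup.closure s).comap (MulAut.conj g).toMonoidHom)).2 h hy

variable {H : Type*} [Group H] {π : G →* H}

theorem W4.pi_n (h : W4 m ι τ) (hπ : π.ker = h.sg.pm) : π (ι (m, m)) = 1 := show _ ∈ π.ker from hπ ▸ .inr rfl

theorem W4.pi_comm (h : W4 m ι τ) (hπ : π.ker = h.sg.pm) : π x * π y = π y * π x ↔ Cm (ι (m, m)) x y := by
  rw [← h.sg.comm_mem, ← hπ, MonoidHom.mem_ker, map_commutatorElement, commutatorElement_eq_one_iff_mul_comm]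

theorem W4.pCent (h : W4 m ι τ) (hπ : π.ker = h.sg.pm) (hs : Function.Surjective π) (k : An m c d) :
    PCent 2 (Subgroup.closure {π (ι (c, c)), π (ι (d, d)), π (ι (1, m)), π τ}) := by
  intro x _ hx
  obtain ⟨x, rfl⟩ := hs x
  simp only [Subgroup.centralizer_closure, Subgroup.mem_centralizer_iff, Set.mem_insert_iff, Set.mem_singleton_iff,
    forall_eq_or_imp, forall_eq, h.pi_comm hπ] at hx
  set E := Subgroup.closure {π (ι (c, c)), π (ι (d, d)), π (ι (1, m)), π τ}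
  have k1 : π τ ∈ E := Subgroup.subset_closure (by simp)
  have k2 : π (ι (1, m)) ∈ E := Subgroup.subset_closure (by simp)
  have k0 : ∀ a b, Cm (ι (m, m)) (ι (a, b)) (ι (c, c)) → Cm (ι (m, m)) (ι (a, b)) (ι (d, d)) →
      Cm (ι (m, m)) (ι (a, b)) τ → π (ι (a, b)) ∈ E := fun a b h1 h2 h3 => by
    have k3 : π (ι (a, a)) ∈ E := h.l2.mem_of_cm (K := E.comap (π.comp (ι.comp ((MonoidHom.id L).prod (.id L))))) k
      (Subgroup.subset_closure (by simp)) (Subgroup.subset_closure (by simp)) ((h.cm_io h1).imp (·.1) (·.1))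
      ((h.cm_io h2).imp (·.1) (·.1))
    simp only [Cm, An, h.swp, io_mul', mul_left_inj, h.inj.eq_iff, Prod.mk.injEq] at h3
    rcases h3 with ⟨rfl, -⟩ | ⟨-, rfl⟩
    · exact k3
    · simpa [← map_mul, h.l2.cen] using mul_mem k3 k2
  obtain ⟨a, b, rfl | rfl⟩ := h.cases (hx.2.2.1.symm h.sg)
  · exact k0 _ _ (hx.1.symm h.sg) (hx.2.1.symm h.sg) (hx.2.2.2.symm h.sg)
  · have k4 : ∀ y, Cm (ι (m, m)) y (ι (a, b) * τ) → Cm (ι (m, m)) τ y → Cm (ι (m, m)) (ι (a, b)) y := fun y h1 h2 => by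
      simpa [mul_assoc, h.sq] using (h1.symm h.sg).mul h.sg h2
    exact map_mul π _ _ ▸ mul_mem (k0 _ _ (k4 _ hx.1 (.inl (h.swp _ _))) (k4 _ hx.2.1 (.inl (h.swp _ _)))
      (k4 _ hx.2.2.2 (.inl rfl))) k1

theorem W4.rot' (h : W4 m ι τ) (hπ : π.ker = h.sg.pm) (k : An m c d) : ∃ x, PEl 2 x ∧ x * π (ι (c, c)) * x⁻¹ = π (ι (c, c)) ∧
    x * π (ι (d, d)) * x⁻¹ = π (ι (c, c)) * π (ι (d, d)) ∧ x * π (ι (1, m)) * x⁻¹ = π τ ∧ x * π τ * x⁻¹ = π (ι (1, m)) := by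
  have k1 : ∀ c, ι (1, m) * τ * ι (c, c) = ι (c, c) * (ι (1, m) * τ) := fun c => by
    simp [mul_assoc, h.swp, io_mul', h.l2.cen]
  have k2 : ι (1, m) * τ * ι (1, m) = ι (m, m) * τ := by simp [mul_assoc, h.swp, io_mul']
  have k3 : ι (1, m) * τ * τ = ι (1, m) := by simp [mul_assoc, h.sq]
  obtain ⟨x, h1, h2⟩ := h.rot (ι (c, c)) (ι (1, m) * τ) (by rw [io_mul, h.l2.anti _ _ k])
    (by rw [← mul_assoc, k2, mul_assoc, h.sq, mul_one]) (k1 c).symm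
  refine ⟨π x, h1.map π, ?_, ?_, ?_, ?_⟩ <;> simp only [← map_mul, ← map_inv π]
  · rw [h2 _ _ _ (.inl ⟨k1 c, rfl⟩) (.inl ⟨rfl, rfl⟩)]
  · rw [h2 _ _ _ (.inl ⟨k1 d, rfl⟩) (.inr ⟨by rw [An, io_mul, io_mul, io_mul, k], rfl⟩), map_mul ι]
  · rw [h2 _ _ _ (.inr ⟨h.an.mul_comm h.sg rfl, rfl⟩) (.inl ⟨by rw [k2, h.sg.mv, mul_assoc, h.swp], rfl⟩), k2,
      map_mul, h.pi_n hπ, one_mul]
  · rw [h2 _ _ _ (.inr ⟨(h.an.symm h.sg).comm_mul rfl, rfl⟩) (.inl ⟨by simp [k3, io_mul, h.l2.cen], rfl⟩), k3]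

theorem W4.mem_fam [Finite H] (h : W4 m ι τ) (hπ : π.ker = h.sg.pm) (k : An m c d) {A} (hA : NFam 2 A)
    (h1 : γ * c * γ⁻¹ = d) (h2 : γ * d * γ⁻¹ = c * d ∨ γ * d * γ⁻¹ = m * (c * d)) :
    π (ι (γ, γ)) ∈ A (Subgroup.closure {π (ι (c, c)), π (ι (d, d)), π (ι (1, m)), π τ}) := by
  obtain ⟨x, a0, a1, a2, a3, a4⟩ := h.rot' hπ k
  obtain ⟨y, b0, b1, b2, b3, b4⟩ := h.rot' hπ (k.symm h.l2.toSg)
  have c0 : π (ι (c, c)) * π (ι (d, d)) = π (ι (d, d)) * π (ι (c, c)) :=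
    (h.pi_comm hπ).2 (.inr (by rw [An, io_mul, io_mul, io_mul, k]))
  have c5 : π (ι (c, c)) * π (ι (c, c)) = 1 := by rw [← map_mul, io_mul, h.l2.anti _ _ k, h.pi_n hπ]
  have c1 : π (ι (γ, γ)) * π (ι (c, c)) * (π (ι (γ, γ)))⁻¹ = π (ι (d, d)) := by
    simp only [← map_inv, ← map_mul, Prod.inv_mk, Prod.mk_mul_mk, h1]
  have c2 : π (ι (γ, γ)) * π (ι (d, d)) * (π (ι (γ, γ)))⁻¹ = π (ι (c, c)) * π (ι (d, d)) := by
    simp only [← map_inv, ← map_mul, Prod.inv_mk, Prod.mk_mul_mk]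
    rcases h2 with e | e <;> rw [e]
    rw [← io_mul, map_mul, h.pi_n hπ, one_mul]
  have c3 : π (ι (γ, γ)) * π (ι (1, m)) * (π (ι (γ, γ)))⁻¹ = π (ι (1, m)) := by
    simp [← map_inv, ← map_mul, h.l2.cen]
  have c4 : π (ι (γ, γ)) * π τ * (π (ι (γ, γ)))⁻¹ = π τ := by rw [← map_mul, ← h.swp, map_mul, mul_inv_cancel_right]
  generalize π (ι (γ, γ)) = g, π (ι (c, c)) = C, π (ι (d, d)) = D, π (ι (1, m)) = z, π τ = t at *
  have e1 : C ∈ Subgroup.closure {C, D, z, t} := Subgroup.subset_closure (by simp)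
  have e2 : D ∈ Subgroup.closure {C, D, z, t} := Subgroup.subset_closure (by simp)
  have e3 : z ∈ Subgroup.closure {C, D, z, t} := Subgroup.subset_closure (by simp)
  have e4 : t ∈ Subgroup.closure {C, D, z, t} := Subgroup.subset_closure (by simp)
  have k1 := hA.pel _ x (mem_normalizer_closure (s := {C, D, z, t}) (by simp [*, mul_mem])) a0
  have k2 := hA.pel _ y (mem_normalizer_closure (s := {C, D, z, t}) (by simp [*, mul_mem])) b0
  have k3 : ∀ w, x * y * w * (x * y)⁻¹ = g * w * g⁻¹ → w * (g⁻¹ * (x * y)) = g⁻¹ * (x * y) * w := fun w e => by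
    rw [mul_assoc g⁻¹, mul_inv_eq_iff_eq_mul.1 e]; group
  have k4 : ∀ w, x * y * w * (x * y)⁻¹ = x * (y * w * y⁻¹) * x⁻¹ := fun w => by group
  have k5 : g⁻¹ * (x * y) ∈ A (Subgroup.closure {C, D, z, t}) := hA.cent _ (by
    simp only [Subgroup.centralizer_closure, Subgroup.mem_centralizer_iff, Set.mem_insert_iff, Set.mem_singleton_iff,
      forall_eq_or_imp, forall_eq]
    refine ⟨k3 _ ?_, k3 _ ?_, k3 _ ?_, k3 _ ?_⟩ <;> rw [k4]
    · rw [b2, ← c0, ← conj_mul, a1, a2, ← mul_assoc, c5, one_mul, c1]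
    · rw [b1, a2, c2]
    · rw [b3, a4, c3]
    · rw [b4, a3, c4])
  simpa using inv_mem ((Subgroup.mul_mem_cancel_right _ (mul_mem k1 k2)).1 k5)

theorem W4.simple [Finite L] [Finite G] [Finite H] (h : W4 m ι τ) (hπ : π.ker = h.sg.pm) (hs : Function.Surjective π)
    (k : An m i j) {S' : Subgroup H} (hS' : H18.SylIn 2 S' ⊤) : (groupFusionSystem S').IsSimple 2 := by
  have hm := h.l2.toSg
  have k0 : ∀ b c, An m b c → PEl 2 b := fun b c e => ⟨2, by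
    rw [show 2 ^ 2 = 2 * 2 from rfl, pow_mul, pow_two b, h.l2.anti _ _ e, pow_two, hm.sq]⟩
  obtain ⟨Q, hQ, hQ'⟩ := H18.exists_sylIn_ge (isPGroup_sup_zpowers (k0 _ _ k).zpowers (k0 _ _ (k.symm hm))
    (H18.mem_normalizer_of_conj_mem (by
      rintro _ ⟨n, rfl⟩
      rw [← conj_zpow, k.symm hm, ← mul_assoc, mul_inv_cancel_right, ← h.l2.anti _ _ k]
      exact zpow_mem (mul_mem (mul_mem (Subgroup.mem_zpowers i) (Subgroup.mem_zpowers i)) (Subgroup.mem_zpowers i)) n)))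
    le_top
  have hi : i ∈ Q := hQ' (Subgroup.mem_sup_left (Subgroup.mem_zpowers i))
  have hj : j ∈ Q := hQ' (Subgroup.mem_sup_right (Subgroup.mem_zpowers j))
  have hmQ : m ∈ Q := h.l2.anti _ _ k ▸ mul_mem hi hi
  have hτ : τ⁻¹ = τ := inv_eq_of_mul_eq_one_right h.sq
  obtain ⟨S, hS, hS1⟩ := H18.exists_sylIn_ge (isPGroup_sup_zpowers (p := 2) (P := (Q.prod Q).map ι)
    (IsPGroup.map (isPGroup_of_pEl fun x hx => by
      obtain ⟨n1, h1⟩ := pEl_of_mem hQ.isP hx.1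
      obtain ⟨n2, h2⟩ := pEl_of_mem hQ.isP hx.2
      exact ⟨n1 + n2, Prod.ext (by simp [pow_add, pow_mul, h1]) (by simp [pow_add, pow_mul', h2])⟩) ι)
    (pEl_of_pow (x := τ) (by rw [pow_two, h.sq])) (H18.mem_normalizer_of_conj_mem (by
      rintro _ ⟨⟨a, b⟩, hx, rfl⟩
      exact ⟨(b, a), ⟨hx.2, hx.1⟩, by rw [h.swp, mul_inv_cancel_right]⟩))) le_top
  have s1 : ∀ a ∈ Q, ∀ b ∈ Q, ι (a, b) ∈ S := fun a ha b hb => hS1 (Subgroup.mem_sup_left ⟨_, ⟨ha, hb⟩, rfl⟩)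
  have s2 : τ ∈ S := hS1 (Subgroup.mem_sup_right (Subgroup.mem_zpowers τ))
  have s3 : ∀ a b, ι (a, b) ∈ S → a ∈ Q := fun a b e => hQ.max ((S.comap ι).map (MonoidHom.fst L L)) le_top
    ((hS.isP.comap_of_injective ι h.inj).map _) (fun a ha => ⟨(a, 1), s1 a ha 1 (one_mem _), rfl⟩) ▸ ⟨(a, b), e, rfl⟩
  have s4 : ∀ a b, ι (a, b) ∈ S → b ∈ Q := fun a b e => s3 b a (by
    simpa [h.swp, mul_assoc, h.sq] using mul_mem (mul_mem s2 e) s2)
  have z0 : ι (1, m) ∉ h.sg.pm := by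
    rintro (e | e)
    · exact h.l2.ne (congrArg Prod.snd (h.inj (e.trans ι.map_one.symm)))
    · exact h.l2.ne (congrArg Prod.fst (h.inj e)).symm
  have z1 := s1 1 (one_mem _) m hmQ
  have z2 : ∀ x, (∀ y ∈ S, Cm (ι (m, m)) x y) → π x ≠ 1 → π x = π (ι (1, m)) := fun x e e' => by
    have := (h.cen_eq k (e _ z1) (e _ (s1 _ hi _ (one_mem _))) (e _ (s1 _ hj _ (one_mem _))) (e _ (s1 _ (one_mem _) _ hi))
      (e _ (s1 _ (one_mem _) _ hj))).resolve_left (by rwa [← hπ])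
    rw [← hπ, MonoidHom.mem_ker, map_mul, mul_eq_one_iff_eq_inv, ← map_inv, io_inv, inv_one, hm.inv] at this
    exact this
  have z3 : ∀ y ∈ S, Cm (ι (m, m)) (ι (1, m)) y := fun y hy => by
    obtain ⟨x, -, h2, -, h3⟩ := H3.exists_central_mod_of_le (N := h.sg.pm) hS.isP le_rfl Subgroup.le_normalizer
      fun e => z0 (e z1)
    rw [← h.pi_comm hπ, ← z2 x (fun y hy => h.sg.comm_mem.1 (h3 y hy)) (by rwa [← hπ] at h2), h.pi_comm hπ]
    exact h.sg.comm_mem.1 (h3 y hy)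
  have h1 := hS.map π
  rw [← MonoidHom.range_eq_map, MonoidHom.range_eq_top.2 hs] at h1
  refine simple_equiv (MulEquiv.refl _) h1 hS' (simple_of_crit h1 (fun e => z0 ?_) ?_ fun A hA g hg => ?_)
  · rw [← hπ]
    exact (Subgroup.map_eq_bot_iff _).1 e z1
  · rintro X hX _ hz hz1 - ⟨z, -, rfl⟩ hz3 _ ⟨x, hx, rfl⟩
    rw [z2 z (fun y hy => (h.pi_comm hπ).1 (hz3 _ ⟨y, hy, rfl⟩).symm) hz1] at hz
    have hY := hX.comap π
    obtain ⟨w, -, -, -, hw, -⟩ := h.rot' hπ k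
    have t1 : τ ∈ π ⁻¹' X := show π τ ∈ X from hw ▸ hX.conj w _ hz
    have t2 := hY.mul S hS.isP _ (mul_mem (mul_mem (s1 _ hi _ (one_mem _)) s2) (inv_mem (s1 _ hi _ (one_mem _)))) _ s2
      (hY.conj _ _ t1) t1
    simp only [io_inv, mul_assoc, h.swp', h.sq, io_mul, mul_one, one_mul, inv_one] at t2
    obtain ⟨ω, hω⟩ := _root_.isConj_iff.1 (h.l2.isConj j i⁻¹ (by
      rw [An, mul_inv_eq_iff_eq_mul, mul_assoc, mul_assoc, k.symm hm, hm.mv, hm.mm, inv_mul_cancel_left]))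
    have t3 := hY.conj (ι (1, ω)) _ t2
    simp only [io_inv, io_mul, hω, mul_one, one_mul, inv_one] at t3
    have t4 := hY.mul S hS.isP _ (inv_mem (s1 _ hi _ (inv_mem hi))) _ (s1 _ hi _ hj) (hY.inv _ t2) t3
    simp only [io_inv, io_mul, inv_inv, inv_mul_cancel] at t4
    have t5 : ∀ b ∈ Q, ι (1, b) ∈ π ⁻¹' X := fun b hb =>
      h.l2.sub_of_pCl (hY.comap (ι.comp (MonoidHom.inr L L))) hQ.isP hi hj k t4 hb
    have t6 : ∀ a b, ι (a, b) ∈ S → ι (a, b) ∈ π ⁻¹' X := fun a b e => by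
      have := hY.conj τ _ (t5 a (s3 _ _ e))
      rw [h.swp, mul_inv_cancel_right] at this
      simpa [io_mul] using hY.mul S hS.isP _ (s1 _ (s3 _ _ e) _ (one_mem _)) _ (s1 _ (one_mem _) _ (s4 _ _ e)) this
        (t5 b (s4 _ _ e))
    obtain ⟨a, b, rfl | rfl⟩ := h.cases ((z3 x hx).symm h.sg)
    · exact t6 a b hx
    · have := (S.mul_mem_cancel_right s2).1 hx
      exact hY.mul S hS.isP _ this _ s2 (t6 a b this) t1
  obtain ⟨g, rfl⟩ := hs g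
  have n0 : ∀ g, π g ∈ Subgroup.normalizer (S.map π : Set H) ↔ g ∈ Subgroup.normalizer (S : Set G) := fun g =>
    ⟨fun e => H18.mem_normalizer_of_conj_mem fun x hx => by
      rw [← Subgroup.comap_map_eq_self (f := π) (H := S) (by
        rw [hπ]; rintro _ (rfl | rfl); exacts [one_mem _, s1 _ hmQ _ hmQ])]
      simpa using conj_mem_of_mem_normalizer e ⟨x, hx, rfl⟩, fun e => Subgroup.le_normalizer_map π ⟨g, e, rfl⟩⟩
  have n1 : ∀ x ∈ S, x ∈ (A (S.map π)).comap π := fun x hx => hA.sylow h1.isP ⟨x, hx, rfl⟩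
  have n2 : ∀ γ, ι (γ, γ) ∈ Subgroup.normalizer (S : Set G) → ι (γ, γ) ∈ (A (S.map π)).comap π := fun γ e => by
    rcases h.l2.normalizer_cases hQ.isP hi hj k (γ := γ) (H18.mem_normalizer_of_conj_mem fun a ha => s3 _ 1 (by
      simpa [io_inv, io_mul] using conj_mem_of_mem_normalizer e (s1 a ha 1 (one_mem _)))) with
      e' | ⟨c, hc, d, hd, k1, k2, k3⟩
    · exact hA.pel _ _ ((n0 _).2 e) (e'.map (π.comp (ι.comp ((MonoidHom.id L).prod (.id L)))))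
    · refine hA.up _ _ h1.isP ((Subgroup.closure_le _).2 ?_) (h.pCent hπ hs k1) _ (h.mem_fam hπ k1 hA k2 k3) ((n0 _).2 e)
      rintro _ (rfl | rfl | rfl | rfl)
      exacts [⟨_, s1 _ hc _ hc, rfl⟩, ⟨_, s1 _ hd _ hd, rfl⟩, ⟨_, z1, rfl⟩, ⟨_, s2, rfl⟩]
  have n3 : ∀ a b, ι (a, b) ∈ Subgroup.normalizer (S : Set G) → ι (a, b) ∈ (A (S.map π)).comap π := fun a b e => by
    have k1 := s1 _ (s3 (a * b⁻¹) (b * a⁻¹) (by
      simpa [io_inv, mul_assoc, h.swp', h.sq, io_mul] using mul_mem (conj_mem_of_mem_normalizer e s2) s2)) _ (one_mem _)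
    have k2 : ι (a, b) = ι (a * b⁻¹, 1) * ι (b, b) := by simp [io_mul]
    rw [k2] at e ⊢
    exact mul_mem (n1 _ k1) (n2 b ((Subgroup.mul_mem_cancel_left _ (Subgroup.le_normalizer k1)).1 e))
  have hg' := (n0 g).1 hg
  have n4 : Cm (ι (m, m)) g (ι (1, m)) := by
    rw [← h.pi_comm hπ, ← mul_inv_eq_iff_eq_mul, ← map_inv, ← map_mul, ← map_mul]
    refine z2 _ (fun y hy => ?_) fun e => z0 ?_
    · have := (h.pi_comm hπ).2 (z3 _ (conj_mem_of_mem_normalizer' hg' hy))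
      rw [← h.pi_comm hπ]
      simp only [map_mul, map_inv] at this ⊢
      calc _ = π g * (π (ι (1, m)) * ((π g)⁻¹ * π y * π g)) * (π g)⁻¹ := by group
        _ = _ := by rw [this]; group
    · simpa [← hπ] using e
  obtain ⟨a, b, rfl | rfl⟩ := h.cases n4
  · exact n3 a b hg'
  · exact mul_mem (n3 a b ((Subgroup.mul_mem_cancel_right _ (Subgroup.le_normalizer s2)).1 hg')) (n1 _ s2)

end Cfsg.Agent.H17
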