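import Mathlib
import Cfsg.Agent.H17.Sp4
import Cfsg.Agent.H17.SL3

/-! The matrix groups `SL₂(q)` and `Sp₄(q)`, `q` odd, satisfy the axioms `L2` and `W4`. -/

set_option autoImplicit false

open Cfsg Matrix
open Cfsg.FusionSystem hiding inv_mem
open scoped MatrixGroups

namespace Cfsg.Agent.H17

theorem one_add_mul_of_an {R : Type*} [Ring R] {e y : R} (h : e * e = -1) (k : e * y = -(y * e)) :
    (1 + e) * y = e * y * (1 + e) := by
  rw [mul_add, mul_assoc _ y e, ← neg_neg (y * e), ← k, mul_neg, ← mul_assoc, h]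
  noncomm_ring

variable {F : Type*} [Field F]

theorem exists_m2 (u : SL(2, F)) : ∃ a b c d : F, u.1 = !![a, b; c, d] ∧ a * d - b * c = 1 :=
  ⟨_, _, _, _, eta_fin_two _, by rw [← det_fin_two, u.2]⟩

theorem exists_sl2 {a b c d : F} (h : a * d - b * c = 1) : ∃ u : SL(2, F), u.1 = !![a, b; c, d] :=
  ⟨⟨_, by rwa [det_fin_two_of]⟩, rfl⟩

theorem sl2_ext {A B : SL(2, F)} : A = B ↔ A.1 = B.1 := Subtype.ext_iff

theorem sl2_mul (A B : SL(2, F)) : (A * B).1 = A.1 * B.1 := rfl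

theorem sl2_anti (h2 : (2 : F) ≠ 0) {b c : SL(2, F)} (h : An (-1) b c) : b.1.trace = 0 ∧ b * b = -1 := by
  have k : b.1.trace = 0 := eq_zero_of_eq_neg h2 (by
    have := congrArg (fun x : SL(2, F) => x.1.trace) (eq_mul_inv_of_mul_eq h)
    simp only [neg_mul, one_mul, SpecialLinearGroup.coe_neg, trace_neg] at this
    rwa [sl2_mul, trace_mul_comm, ← sl2_mul, inv_mul_cancel_left] at this)
  refine ⟨k, Subtype.ext ?_⟩
  obtain ⟨x, y, z, w, e, e'⟩ := exists_m2 b
  simp [e] at k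
  simp [e, one_fin_two]
  grind

theorem l2_sl2 (h2 : (2 : F) ≠ 0) : L2 (-1 : SL(2, F)) where
  sq := by simp
  cen := by simp
  ne h := h2 (by have := congrArg (fun x : SL(2, F) => x.1 0 0) h; simp at this; grind)
  invol a h := by
    obtain ⟨x, y, z, w, e, e'⟩ := exists_m2 a
    simp [sl2_ext, e, one_fin_two] at h ⊢
    grind
  anti b c h := (sl2_anti h2 h).2
  isConj b c h := by
    have h' := h.symm ⟨by simp, by simp⟩
    have k : ∀ {b c : SL(2, F)}, An (-1) b c → (1 + b.1).det = 2 ∧ (1 + b.1) * c.1 = b.1 * c.1 * (1 + b.1) := fun {b c} h =>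
      ⟨by obtain ⟨x, y, z, w, e, e'⟩ := exists_m2 b
          have := (sl2_anti h2 h).1
          simp [e, one_fin_two] at this ⊢
          grind, one_add_mul_of_an (congrArg Subtype.val (sl2_anti h2 h).2) (by simpa using congrArg Subtype.val h)⟩
    refine _root_.isConj_iff.2 ⟨⟨(2 : F)⁻¹ • ((1 + c.1) * (1 + b.1)), by
      simp [(k h).1, (k h').1]; field_simp⟩, mul_inv_eq_iff_eq_mul.2 (Subtype.ext ?_)⟩
    have k1 : (1 + c.1) * (b.1 * c.1) = b.1 * (1 + c.1) := by
      have h1 : c.1 * b.1 = -(b.1 * c.1) := by simpa using congrArg Subtype.val h'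
      rw [add_mul, ← mul_assoc c.1, h1, neg_mul, mul_assoc, show c.1 * c.1 = -1 from congrArg Subtype.val (sl2_anti h2 h').2]
      noncomm_ring
    show (_ • _) * c.1 = b.1 * (_ • _)
    rw [smul_mul_assoc, mul_smul_comm, mul_assoc, (k h).2, ← mul_assoc, k1, mul_assoc]

theorem exists_an_sl2 [Finite F] : ∃ i j : SL(2, F), An (-1) i j := by
  obtain ⟨p, _⟩ := CharP.exists F
  haveI : NeZero p := ⟨CharP.char_ne_zero_of_finite F p⟩
  obtain ⟨a, b, h⟩ := CharP.sq_add_sq F p (-1)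
  obtain ⟨i, hi⟩ := exists_sl2 (a := (a : F)) (b := b) (c := b) (d := -a) (by simp at h; grind)
  obtain ⟨j, hj⟩ := exists_sl2 (a := (0 : F)) (b := -1) (c := 1) (d := 0) (by simp)
  exact ⟨i, j, by simp [An, sl2_ext, hi, hj]⟩

/-- The embedding of `SL₂ × SL₂` in `Sp₄`. -/
def sp4i (F : Type*) [Field F] : SL(2, F) × SL(2, F) →* symplecticGroup (Fin 2) F :=
  MonoidHom.mk' (fun x => ⟨fromBlocks (diagonal ![x.1 0 0, x.2 0 0]) (diagonal ![x.1 0 1, x.2 0 1])
    (diagonal ![x.1 1 0, x.2 1 0]) (diagonal ![x.1 1 1, x.2 1 1]), by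
      have h1 := x.1.2
      have h2 := x.2.2
      rw [det_fin_two] at h1 h2
      simp only [SymplecticGroup.fromBlocks_mem_iff, diagonal_transpose, diagonal_mul_diagonal, mul_comm, true_and, diagonal_sub]
      ext i j
      fin_cases i <;> fin_cases j <;> simp [h1, h2]⟩) fun x y => Subtype.ext (by
    simp only [Submonoid.coe_mul, fromBlocks_multiply, diagonal_mul_diagonal, diagonal_add, fromBlocks_inj,
      diagonal_eq_diagonal_iff, Fin.forall_fin_two]
    simp [mul_apply, Fin.sum_univ_two])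

theorem sp4i_val (a b : SL(2, F)) : (sp4i F (a, b)).1 = fromBlocks (diagonal ![a 0 0, b 0 0]) (diagonal ![a 0 1, b 0 1])
    (diagonal ![a 1 0, b 1 0]) (diagonal ![a 1 1, b 1 1]) := rfl

/-- The element swapping the two factors. -/
def sp4t (F : Type*) [Field F] : symplecticGroup (Fin 2) F :=
  ⟨fromBlocks !![0, 1; 1, 0] 0 0 !![0, 1; 1, 0], by
    simp only [SymplecticGroup.fromBlocks_mem_iff]; simp; ext i j; fin_cases i <;> fin_cases j <;> simp [mul_apply]⟩

theorem sp4i_neg : (sp4i F (-1, -1)).1 = -1 := by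
  ext (i | i) (j | j) <;> fin_cases i <;> fin_cases j <;> simp [sp4i_val]

theorem w4_sp4 (h2 : (2 : F) ≠ 0) : W4 (-1) (sp4i F) (sp4t F) where
  l2 := l2_sl2 h2
  sg := ⟨Subtype.ext (by simp [sp4i_neg]), fun _ => Subtype.ext (by simp [sp4i_neg])⟩
  inj := by
    rintro ⟨a, b⟩ ⟨c, d⟩ h
    simp only [Subtype.ext_iff, sp4i_val, fromBlocks_inj, diagonal_eq_diagonal_iff, Fin.forall_fin_two] at h
    simp at h
    ext i j <;> fin_cases i <;> fin_cases j <;> simp [h]
  sq := Subtype.ext (by simp [sp4t, fromBlocks_multiply, ← one_fin_two])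
  swp a b := Subtype.ext (by
    ext (i | i) (j | j) <;> fin_cases i <;> fin_cases j <;> simp [sp4t, sp4i_val, mul_apply, Fin.sum_univ_two])
  cz x h := by
    have k := fun i j => congrFun (congrFun (congrArg Subtype.val h) i) j
    have k1 := fun i j => congrFun (congrFun (SymplecticGroup.mem_iff.1 x.2) i) j
    simp [sp4i_val, mul_apply, Fin.sum_univ_two, eq_neg_iff_add_eq_zero, neg_eq_iff_add_eq_zero, ← two_mul, h2] at k
    simp [J, mul_apply, Fin.sum_univ_two, k] at k1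
    obtain ⟨a, ha⟩ := exists_sl2 (a := x.1 (.inl 0) (.inl 0)) (b := x.1 (.inl 0) (.inr 0)) (c := x.1 (.inr 0) (.inl 0))
      (d := x.1 (.inr 0) (.inr 0)) (by grind)
    obtain ⟨b, hb⟩ := exists_sl2 (a := x.1 (.inl 1) (.inl 1)) (b := x.1 (.inl 1) (.inr 1)) (c := x.1 (.inr 1) (.inl 1))
      (d := x.1 (.inr 1) (.inr 1)) (by grind)
    refine ⟨a, b, Subtype.ext ?_⟩
    ext (i | i) (j | j) <;> fin_cases i <;> fin_cases j <;> simp [sp4i_val, k, ha, hb]
  rot e f he hf hef := by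
    have k : ∀ {e : symplecticGroup (Fin 2) F}, e * e = sp4i F (-1, -1) → e.1 * e.1 = -1 ∧
        (1 + e.1) * J (Fin 2) F * (1 + e.1)ᵀ = (2 : F) • J (Fin 2) F ∧
        ∀ y y', Rf (sp4i F (-1, -1)) e y y' → (1 + e.1) * y.1 = y'.1 * (1 + e.1) := fun {e} he => by
      have k : e.1 * e.1 = -1 := (congrArg Subtype.val he).trans sp4i_neg
      have k1 := SymplecticGroup.mem_iff.1 e.2
      refine ⟨k, ?_, ?_⟩
      · have : J (Fin 2) F * e.1ᵀ = -(e.1 * J (Fin 2) F) := by
          conv_rhs => rw [← k1, ← mul_assoc, ← mul_assoc, k]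
          simp
        rw [transpose_add, transpose_one, mul_add, add_mul, add_mul, add_mul, k1, one_mul, this, two_smul]
        noncomm_ring
      · rintro y _ (⟨h, rfl⟩ | ⟨h, rfl⟩)
        · exact ((Commute.one_left _).add_left (congrArg Subtype.val h)).eq
        · exact one_add_mul_of_an k (by simpa [sp4i_neg] using congrArg Subtype.val h)
    obtain ⟨e1, e2, e3⟩ := k he
    obtain ⟨f1, f2, f3⟩ := k hf
    have c : Commute e.1 f.1 := congrArg Subtype.val hef
    refine ⟨⟨(2 : F)⁻¹ • ((1 + e.1) * (1 + f.1)), SymplecticGroup.mem_iff.2 ?_⟩, ⟨2, Subtype.ext ?_⟩,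
      fun y y' y'' h h' => mul_inv_eq_iff_eq_mul.2 (Subtype.ext ?_)⟩
    · rw [transpose_smul, transpose_mul, smul_mul_assoc, smul_mul_assoc, mul_smul_comm, mul_assoc _ (1 + f.1), mul_assoc,
        ← mul_assoc _ _ (1 + e.1)ᵀ, f2, smul_mul_assoc, mul_smul_comm, ← mul_assoc, e2]
      simp [smul_smul, h2]
    · have k1 : ∀ {e : Matrix (Fin 2 ⊕ Fin 2) (Fin 2 ⊕ Fin 2) F}, e * e = -1 → (1 + e) ^ 4 = (-4 : F) • 1 := fun {e} h => by
        have : (1 + e) ^ 2 = (2 : F) • e := by rw [sq, mul_add, add_mul, add_mul, h, two_smul]; noncomm_ring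
        rw [show 4 = 2 * 2 from rfl, pow_mul, this, smul_pow, sq e, h]; norm_num
      rw [SubmonoidClass.coe_pow, smul_pow, (((Commute.one_left _).add_left ((Commute.one_right _).add_right c))).mul_pow]
      simp [k1 e1, k1 f1, smul_smul]
      rw [show (2 ^ 4 : F)⁻¹ * (4 * 4) = 1 by field_simp; norm_num, one_smul]
    · simp only [Submonoid.coe_mul, smul_mul_assoc, mul_smul_comm]
      rw [mul_assoc, f3 _ _ h, ← mul_assoc, e3 _ _ h', mul_assoc]

end Cfsg.Agent.H17
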