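import Mathlib
import Cfsg.Agent.FT.BG01
import Cfsg.Agent.H2.Fitting

/-! S4069 part (H), first half: groups `K` with cyclic odd Sylow subgroups and `(K / O(K))'` perfect of order 120. -/

set_option autoImplicit false
set_option linter.unusedSectionVars false

namespace Cfsg.Agent.H17.SwH

open Cfsg Subgroup Cfsg.Agent.FT
open scoped commutatorElement

variable {K : Type*} [Group K] [Finite K] {O R P : Subgroup K} {r : ℕ}

theorem aut_dvd (Q : Type*) [Group Q] [Finite Q] : Nat.card (MulAut Q) ∣ (Nat.card Q).factorial := by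
  rw [← Nat.card_perm]
  exact Subgroup.card_dvd_of_injective (MulAut.toPerm Q) fun a b h => MulEquiv.toEquiv_injective h

/-- the centraliser of a cyclic Sylow subgroup of `O` covers the derived group of `K / O` -/
theorem cov [O.Normal] (hR : Syl r R O) (hc : Cyc R) :
    commutator (K ⧸ O) ≤ C(R).map (QuotientGroup.mk' O) := by
  have hn : O ⊴ ⊤ := ⟨le_top, by rw [normalizer_eq_top]⟩
  have h1 : (⊤ : Subgroup (K ⧸ O)) ≤ N(R).map (QuotientGroup.mk' O) := by
    intro y _
    obtain ⟨x, rfl⟩ := QuotientGroup.mk'_surjective O y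
    obtain ⟨a, ha, b, hb, rfl⟩ := (hR.frattini hn).mul x trivial
    refine ⟨b, hb.2, ?_⟩
    rw [map_mul, (QuotientGroup.eq_one_iff a).2 ha |> fun e => show QuotientGroup.mk' O a = 1 from e, one_mul]
  rw [commutator_def]
  refine (commutator_mono h1 h1).trans ?_
  rw [← map_commutator]
  exact map_mono (hc.der_cents le_rfl)

theorem not_dvd_core [O.Normal] (hr : r.Prime) (hc : ∀ P : Subgroup K, PGrp r P → Cyc P)
    (hp : ⁅commutator (K ⧸ O), commutator (K ⧸ O)⁆ = commutator (K ⧸ O))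
    (hd : r ∣ #(commutator (K ⧸ O))) : ¬ r ∣ #O := by
  intro h
  haveI := Fact.mk hr
  obtain ⟨R, hR⟩ := exists_syl r O
  have hR1 : R ≠ ⊥ := fun e => (hR.syl_eq_bot_iff hr).1 e h
  have hcR := hc R hR.pi
  have h1 := cov hR hcR
  have h2 : commutator (K ⧸ O) ≤ ⁅C(R), C(R)⁆.map (QuotientGroup.mk' O) := by
    rw [map_commutator, ← hp]; exact commutator_mono h1 h1
  have h3 : r ∣ #⁅C(R), C(R)⁆ := hd.trans ((card_dvd h2).trans (card_map_dvd' _ _))
  obtain ⟨P, hP, hRP⟩ := hR.pi.exists_syl hcR.ab.le_cen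
  obtain ⟨T, hT⟩ := hP.exists_sylow hr
  have hcP := hc P hP.pi
  haveI : IsCyclic T := by
    rw [← hT] at hcP
    exact (T.1.equivMapOfInjective _ C(R).subtype_injective).isCyclic.2 hcP
  have h4 : ¬ r ∣ (commutator C(R)).index := by
    refine T.not_dvd_card_commutator_or_not_dvd_index_commutator.resolve_left fun e => e ?_
    rwa [der_eq_map, card_map_of_injective C(R).subtype_injective] at h3
  have h5 : P ≤ ⁅C(R), C(R)⁆ := by
    rw [← hT, der_eq_map]
    refine map_mono (le_of_coprime_relIndex (M := ⊤) le_top (by rw [normalizer_eq_top]) ?_)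
    rw [relIndex_top_right]
    obtain ⟨n, hn⟩ := T.isPGroup'.exists_card_eq
    rw [hn]
    exact Nat.Coprime.pow_left _ ((Nat.Prime.coprime_iff_not_dvd hr).2 h4)
  have h6 := hP.isHall.inf_der_center_ab hcP.ab
  exact hR1 (eq_bot_iff.2 (h6 ▸ le_inf (le_inf hRP (hRP.trans h5)) (le_centralizer_iff.1 le_rfl)))

theorem not_dvd_idx [O.Normal] (hr : r.Prime) (hc : ∀ P : Subgroup K, PGrp r P → Cyc P)
    (hd : r ∣ #(commutator (K ⧸ O))) : ¬ r ∣ (commutator (K ⧸ O)).index := by
  haveI := Fact.mk hr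
  obtain ⟨T⟩ : Nonempty (Sylow r K) := inferInstance
  have h1 : Cyc ((T : Subgroup K).map (QuotientGroup.mk' O)) := (hc T (syl_top hr T).pi).map _
  haveI : IsCyclic (T.mapSurjective (QuotientGroup.mk'_surjective O)) := h1
  exact (T.mapSurjective
    (QuotientGroup.mk'_surjective O)).not_dvd_card_commutator_or_not_dvd_index_commutator.resolve_left fun e => e hd

theorem card_eq [O.Normal] : Nat.card K = #O * (#(commutator (K ⧸ O)) * (commutator (K ⧸ O)).index) := by
  rw [card_mul_index, ← O.card_mul_index]; rfl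

theorem not_sq_dvd [O.Normal] (hr : r.Prime) (hc : ∀ P : Subgroup K, PGrp r P → Cyc P)
    (hp : ⁅commutator (K ⧸ O), commutator (K ⧸ O)⁆ = commutator (K ⧸ O))
    (hd : r ∣ #(commutator (K ⧸ O))) (h2 : ¬ r * r ∣ #(commutator (K ⧸ O))) : ¬ r * r ∣ Nat.card K := by
  rw [card_eq (O := O)]
  intro h
  have c1 := (Nat.Prime.coprime_iff_not_dvd hr).2 (not_dvd_core hr hc hp hd)
  have c2 := (Nat.Prime.coprime_iff_not_dvd hr).2 (not_dvd_idx hr hc hd)
  exact h2 ((Nat.Coprime.mul_left c2 c2).dvd_of_dvd_mul_right ((Nat.Coprime.mul_left c1 c1).dvd_of_dvd_mul_left h))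

theorem syl_normal (hr : r.Prime) (h11 : 11 ≤ r) (hL : #(commutator K) = 120) (hP : Syl r P ⊤) : P.Normal := by
  have hn : P ≤ N(commutator K) := by rw [normalizer_eq_top]; exact le_top
  have hr' : ∀ n, n ≤ 10 → ¬ r ∣ n.factorial := fun n hn e => by
    have := (hr.dvd_factorial).1 e; omega
  have hc : Cop (commutator K) P := by
    refine PiGrp.cop' (p'grp_of_not_dvd ?_) hP.pi
    rw [hL]; exact hr' 5 (by omega)
  have h1 : commutator K ≤ C(P) := by
    refine le_of_forall_syl fun p hp hd => ?_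
    obtain ⟨Q, hQ, hPQ⟩ := coprime_Sylow_exists p hn hc (Or.inr hP.pi.sol)
    refine ⟨Q, hQ, le_centralizer_iff.1 ?_⟩
    have hq : #Q ≤ 10 := by
      obtain ⟨n, hn⟩ := hQ.pi.card
      have h2 : p ^ n ∣ 120 := by rw [← hn, ← hL]; exact card_dvd hQ.le
      rw [hn]
      rw [hL] at hd
      have h3 : p ≤ 120 := Nat.le_of_dvd (by norm_num) hd
      have h4 : p = 2 ∨ p = 3 ∨ p = 5 := by
        have : p ∣ 2 ^ 3 * 3 * 5 := hd
        rcases (Nat.Prime.dvd_mul hp).1 this with h | h
        · rcases (Nat.Prime.dvd_mul hp).1 h with h | h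
          · exact Or.inl ((Nat.prime_dvd_prime_iff_eq hp Nat.prime_two).1 (hp.dvd_of_dvd_pow h))
          · exact Or.inr (Or.inl ((Nat.prime_dvd_prime_iff_eq hp Nat.prime_three).1 h))
        · exact Or.inr (Or.inr ((Nat.prime_dvd_prime_iff_eq hp Nat.prime_five).1 h))
      have h5 : n ≤ 3 := by
        by_contra h
        have := (pow_dvd_pow p (show 4 ≤ n by omega)).trans h2
        rcases h4 with rfl | rfl | rfl <;> norm_num at this
      rcases h4 with rfl | rfl | rfl <;> interval_cases n <;> simp_all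
    by_contra h
    exact hr' _ hq ((hP.pi.dvd_relIndex h).trans ((relIndex_cen_dvd_card_aut hPQ).trans (aut_dvd Q)))
  haveI := Fact.mk hr
  obtain ⟨T, rfl⟩ := (syl_top_iff hr).1 hP
  have h2 : commutator K ≤ normalizer (T : Set K) := h1.trans (cen_le_nrm _)
  haveI : (normalizer (T : Set K)).Normal := Normal.of_commutator_le _ h2
  have h3 := T.normalizer_normalizer
  rw [normalizer_eq_top] at h3
  exact normalizer_eq_top_iff.1 h3.symm

theorem syl_le_core (hr : r.Prime) (h11 : 11 ≤ r) (hL : #(commutator (K ⧸ oddCore K)) = 120) (hP : Syl r P ⊤) :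
    P ≤ oddCore K := by
  have h1 : Syl r (P.map (QuotientGroup.mk' (oddCore K))) ⊤ := by
    have := hP.map (QuotientGroup.mk' (oddCore K))
    rwa [map_top_of_surjective _ (QuotientGroup.mk'_surjective _)] at this
  haveI := syl_normal hr h11 hL h1
  refine (le_comap_map (QuotientGroup.mk' (oddCore K)) P).trans (H2.le_pPrimeCore ?_)
  rw [comap_map_eq, QuotientGroup.ker_mk']
  refine Nat.Coprime.coprime_dvd_left (sup_comm P (oddCore K) ▸ card_sup_dvd (A := oddCore K) (B := P)
    (by rw [normalizer_eq_top]; exact le_top)) (Nat.Coprime.mul_left H2.pPrimeCore_coprime ?_)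
  exact (p'grp_iff_coprime Nat.prime_two).1 (hP.pi.p' (by omega))

theorem five_cen (hr : r.Prime) (h11 : 11 ≤ r) (hL : #(commutator (K ⧸ oddCore K)) = 120) (hP : Syl r P ⊤)
    (hc : Cyc P) : ∃ u ∈ C(P), orderOf u = 5 := by
  have h1 := cov (hP.subl (syl_le_core hr h11 hL hP) le_top) hc
  refine exists_elt_of_prime_dvd Nat.prime_five (Dvd.dvd.trans ?_ ((card_dvd h1).trans (card_map_dvd' _ _)))
  rw [hL]; norm_num

end Cfsg.Agent.H17.SwH
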