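import Mathlib
import Cfsg.Agent.H17.SwH1
import Cfsg.Agent.H3.ABG
import Cfsg.Agent.H10.SL

/-! S4069 part (H): the case `C(t) / O(C(t)) ⊵ SL₂(5)` with 357 involutions. -/

set_option autoImplicit false
set_option linter.unusedSectionVars false

namespace Cfsg.Agent.H17.SwH

open Cfsg Subgroup Cfsg.Agent.FT Matrix
open scoped commutatorElement MatrixGroups

universe u

variable {G : Type u} [Group G] [Finite G] {r : ℕ} {t u s s' : G} {P : Subgroup G}

theorem cyc_of (hodd : ∀ p : ℕ, p.Prime → p ≠ 2 → ∀ P : Sylow p G, IsCyclic P) (hr : r.Prime) (h2 : r ≠ 2)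
    (P : Subgroup G) (hP : PGrp r P) : Cyc P := by
  obtain ⟨Q, hQ, hle⟩ := hP.exists_syl le_top
  obtain ⟨T, rfl⟩ := (syl_top_iff hr).1 hQ
  exact Cyc.mono (hodd r hr h2 T) hle

theorem cyc_sub (hodd : ∀ p : ℕ, p.Prime → p ≠ 2 → ∀ P : Sylow p G, IsCyclic P) (hr : r.Prime) (h2 : r ≠ 2)
    (H : Subgroup G) (P : Subgroup H) (hP : PGrp r P) : Cyc P :=
  (P.equivMapOfInjective _ H.subtype_injective).isCyclic.2 (cyc_of hodd hr h2 _ (hP.map _))

theorem sl_facts {Q : Type*} [Group Q] {L : Subgroup Q} {F : Type} [Field F] [Fintype F] (hF : Fintype.card F = 5)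
    (e : L ≃* SL(2, F)) : #L = 120 ∧ ⁅L, L⁆ = L := by
  classical
  refine ⟨by rw [Nat.card_congr e.toEquiv, H10.card_SL_two, hF], ?_⟩
  have h1 : commutator SL(2, F) = ⊤ := H10.commutator_SL_fin_eq_top le_rfl fun _ => by
    rw [Nat.card_eq_fintype_card, hF]; norm_num
  have h2 := map_commutator_eq _ e.symm.toMonoidHom
  rw [h1, map_top_of_surjective _ e.symm.surjective, MonoidHom.range_eq_top.2 e.symm.surjective,
    ← commutator_def] at h2
  rw [← map_subtype_commutator, ← h2, ← MonoidHom.range_eq_map, range_subtype]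

/-- no four-group centralises an element of order five -/
def NK (G : Type u) [Group G] : Prop := ∀ u s s' : G, orderOf u = 5 → orderOf s = 2 → orderOf s' = 2 →
  s ∈ C[u] → s' ∈ C[u] → s' ∈ C[s] → s = s'

theorem NK.central (h : NK G) (hu : orderOf u = 5) (hs : orderOf s = 2) (hP : Syl 2 P C[u]) (hsP : s ∈ P) :
    P ≤ C[s] := by
  have h1 : P ≠ ⊥ := fun e => by
    rw [e, mem_bot] at hsP; rw [hsP, orderOf_one] at hs; norm_num at hs
  obtain ⟨z, hz, ho⟩ := exists_elt_of_prime_dvd Nat.prime_two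
    ((hP.pi.mono inf_le_left).dvd (hP.pi.center_ne_bot h1))
  have := h u s z hu hs ho (hP.le hsP) (hP.le hz.1) (cen_le_cen1 hsP hz.2)
  rw [this]
  exact fun x hx => cen1_comm.1 (cen_le_cen1 hx hz.2)

theorem NK.conj (h : NK G) (hu : orderOf u = 5) (hs : orderOf s = 2) (hs' : orderOf s' = 2) (h1 : s ∈ C[u])
    (h2 : s' ∈ C[u]) : ∃ x ∈ C[u], x * s * x⁻¹ = s' := by
  obtain ⟨P, hP⟩ := exists_syl 2 C[u]
  obtain ⟨g, hg, e⟩ := hP.syl_elt h1 ((piElt_of_orderOf_prime Nat.prime_two hs).2 rfl)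
  obtain ⟨g', hg', e'⟩ := hP.syl_elt h2 ((piElt_of_orderOf_prime Nat.prime_two hs').2 rfl)
  have o := (orderOf_conj g s).trans hs
  have := h u _ _ hu o ((orderOf_conj g' s').trans hs') (hP.le e) (hP.le e') (h.central hu o hP e e')
  refine ⟨g'⁻¹ * g, mul_mem (inv_mem hg') hg, ?_⟩
  calc g'⁻¹ * g * s * (g'⁻¹ * g)⁻¹ = g'⁻¹ * (g * s * g⁻¹) * g' := by group
    _ = s' := by rw [this]; group

theorem NK.not_dvd (h : NK G) (hr : r.Prime) (hu : orderOf u = 5) (ht : orderOf t = 2) (hs : orderOf s = 2)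
    (h1 : t ∈ C[u]) (h2 : s ∈ C[u]) (hP : Syl r P C[u]) (hle : P ≤ C[s]) : ¬ r ∣ C[t].relIndex C[u] := by
  obtain ⟨x, hx, rfl⟩ := h.conj hu ht hs h1 h2
  rw [← relIndex_cj x, cj_cen1, cj_of_mem hx]
  exact (p'nat_iff hr).1 (hP.relIndex_of_le hle)

theorem NK.count (h : NK G) (hu : orderOf u = 5) (ht : orderOf t = 2) (h1 : t ∈ C[u]) :
    C[t].index ≡ C[t].relIndex C[u] [MOD 5] := by
  haveI : Fact (Nat.Prime 5) := ⟨Nat.prime_five⟩
  have hp : IsPGroup 5 ⟪u⟫ := IsPGroup.of_card (n := 1) (by rw [Nat.card_zpowers, hu, pow_one])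
  have h2 := hp.card_modEq_card_fixedPoints (G ⧸ C[t])
  have h3 : MulAction.fixedPoints ⟪u⟫ (G ⧸ C[t]) = MulAction.orbit C[u] ((1 : G) : G ⧸ C[t]) := by
    ext y
    obtain ⟨g, rfl⟩ := QuotientGroup.mk_surjective y
    constructor
    · intro hy
      have h4 : ((u * g : G) : G ⧸ C[t]) = g := hy ⟨u, mem_zpowers u⟩
      have h5 := mem_cen1.1 (QuotientGroup.eq.1 h4.symm)
      have h6 : g * t * g⁻¹ ∈ C[u] := mem_cen1.2 (by
        calc g * t * g⁻¹ * u = g * (t * (g⁻¹ * (u * g))) * g⁻¹ := by group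
          _ = _ := by rw [← h5]; group)
      obtain ⟨x, hx, e⟩ := h.conj hu ht ((orderOf_conj g t).trans ht) h1 h6
      refine ⟨⟨x, hx⟩, ?_⟩
      show ((x * 1 : G) : G ⧸ C[t]) = g
      refine QuotientGroup.eq.2 (mem_cen1.2 ?_)
      calc (x * 1)⁻¹ * g * t = x⁻¹ * (g * t * g⁻¹) * g := by group
        _ = _ := by rw [← e]; group
    · rintro ⟨⟨x, hx⟩, e⟩ ⟨v, hv⟩
      rw [← e]
      show ((v * (x * 1) : G) : G ⧸ C[t]) = ((x * 1 : G) : G ⧸ C[t])
      refine QuotientGroup.eq.2 ?_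
      have h4 : x * v = v * x := (mem_cen1.1 ((zpowers_le.2 (cen1_comm.1 hx)) hv)).symm
      have h5 : (v * (x * 1))⁻¹ * (x * 1) = v⁻¹ := by rw [mul_one, ← h4]; group
      rw [h5]
      exact inv_mem ((zpowers_le.2 (cen1_comm.1 h1)) hv)
  have h4 : MulAction.stabilizer C[u] ((1 : G) : G ⧸ C[t]) = C[t].subgroupOf C[u] := by
    ext ⟨x, hx⟩
    rw [MulAction.mem_stabilizer_iff, mem_subgroupOf]
    show ((x * 1 : G) : G ⧸ C[t]) = ((1 : G) : G ⧸ C[t]) ↔ x ∈ C[t]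
    rw [QuotientGroup.eq, mul_one, mul_one, inv_mem_iff]
  rw [h3, Nat.card_coe_set_eq, ← MulAction.index_stabilizer, h4] at h2
  exact h2

theorem main (hodd : ∀ p : ℕ, p.Prime → p ≠ 2 → ∀ P : Sylow p G, IsCyclic P) (h : NK G) (ht : orderOf t = 2)
    (hL : #(commutator (C[t] ⧸ oddCore C[t])) = 120) (h9 : ¬ 3 * 3 ∣ Nat.card C[t])
    (h25 : ¬ 5 * 5 ∣ Nat.card C[t]) (hN : C[t].index = 357) : ∃ g : G, orderOf g = 35 ∨ orderOf g = 85 := by
  have hG : Nat.card G = #C[t] * 357 := by rw [← hN, card_mul_index]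
  have h25' : ¬ 5 * 5 ∣ Nat.card G := fun e =>
    h25 ((show Nat.Coprime (5 * 5) 357 by norm_num).dvd_of_dvd_mul_right (hG ▸ e))
  have h27 : ¬ 3 ^ 3 ∣ Nat.card G := fun e => h9 (by
    rw [hG, show 357 = 119 * 3 by norm_num, ← mul_assoc, show 3 ^ 3 = 3 * 3 * 3 by norm_num] at e
    exact (show Nat.Coprime (3 * 3) 119 by norm_num).dvd_of_dvd_mul_right (Nat.dvd_of_mul_dvd_mul_right (by norm_num) e))
  have h5 : 5 ∣ #C[t] := by
    rw [card_eq (O := oddCore C[t]), hL]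
    exact Dvd.dvd.mul_left (Dvd.dvd.mul_right (by norm_num) _) _
  obtain ⟨u, hut, hu⟩ := exists_elt_of_prime_dvd Nat.prime_five h5
  have htu : t ∈ C[u] := cen1_comm.1 hut
  have s5 : ∀ (M : Subgroup G) (v : G), v ∈ M → orderOf v = 5 → Syl 5 ⟪v⟫ M := fun M v hv ho =>
    syl_of_not_dvd (zpowers_le.2 hv) (pGrp_of_card_prime Nat.prime_five ((card_zpowers' v).trans ho)) fun e => by
      refine h25' (Dvd.dvd.trans ?_ (card_subgroup_dvd_card M))
      rw [← card_mul_relIndex (zpowers_le.2 hv), card_zpowers', ho]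
      exact Nat.mul_dvd_mul_left _ e
  by_contra hno
  have key : ∀ {d : ℕ}, d.Prime → d ∣ C[t].relIndex C[u] → d = 3 := by
    intro d hd hk
    by_contra h3
    have hx : ∃ x : G, orderOf x = 5 * d ∨ d = 5 := by
      obtain ⟨x, hx, ho⟩ := exists_elt_of_prime_dvd hd (hk.trans (relIndex_dvd _ _))
      by_cases e : d = 5
      · exact ⟨1, Or.inr e⟩
      refine ⟨u * x, Or.inl ?_⟩
      rw [Commute.orderOf_mul_eq_mul_orderOf_of_coprime (mem_cen1.1 hx).symm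
        (by rw [hu, ho]; exact (Nat.coprime_primes Nat.prime_five hd).2 (Ne.symm e)), hu, ho]
    by_cases e2 : d = 2
    · subst e2
      obtain ⟨P, hP, hle⟩ := (pGrp_of_card_prime Nat.prime_two ((card_zpowers' t).trans ht)).exists_syl
        (zpowers_le.2 htu)
      exact h.not_dvd hd hu ht ht htu htu hP (h.central hu ht hP (hle (mem_zpowers t))) hk
    by_cases e5 : d = 5
    · subst e5
      exact h.not_dvd hd hu ht ht htu htu (s5 _ u (self_mem_cen1 u) hu) (zpowers_le.2 hut) hk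
    obtain ⟨x, hx⟩ := hx
    by_cases e7 : d = 7
    · subst e7; exact hno ⟨x, Or.inl (hx.resolve_right e5)⟩
    by_cases e17 : d = 17
    · subst e17; exact hno ⟨x, Or.inr (hx.resolve_right e5)⟩
    have h11 : 11 ≤ d := by
      by_contra hlt
      push Not at hlt
      interval_cases d <;> first | exact absurd rfl ‹_› | exact absurd hd (by norm_num)
    have hd' : ¬ d ∣ 357 := fun e => by
      have : d ∣ 3 * 7 * 17 := e
      rcases (Nat.Prime.dvd_mul hd).1 this with h | h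
      · rcases (Nat.Prime.dvd_mul hd).1 h with h | h
        · exact h3 ((Nat.prime_dvd_prime_iff_eq hd Nat.prime_three).1 h)
        · exact e7 ((Nat.prime_dvd_prime_iff_eq hd (by norm_num)).1 h)
      · exact e17 ((Nat.prime_dvd_prime_iff_eq hd (by norm_num)).1 h)
    obtain ⟨R, hR⟩ := exists_syl d C[u]
    obtain ⟨P, hP⟩ := exists_syl d C[t]
    have hP' : Syl d P ⊤ := hP.of_relIndex le_top (by rw [relIndex_top_right, hN]; exact p'nat_of_not_dvd hd')
    have hP2 := (hall_so_top hP.le).2 hP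
    obtain ⟨⟨w, hwt⟩, hw, ow⟩ := five_cen hd h11 hL hP2 (cyc_sub hodd hd e2 _ _ hP2.pi)
    have ow' : orderOf w = 5 := (orderOf_coe _).trans ow |> fun e => e
    have hwP : w ∈ C(P) := mem_cen.2 fun y hy => congrArg Subtype.val (mem_cen.1 hw ⟨y, hP.le hy⟩ hy)
    obtain ⟨g, -, hg⟩ := hP'.syl_subJ hR.pi le_top
    have a1 : g * w * g⁻¹ ∈ C(R) := centralizer_le hg (by rw [← cj_cen]; exact conj_mem_cj.2 hwP)
    have a2 : R ≤ C[g * t * g⁻¹] := hg.trans (by rw [← cj_cen1]; exact cj_mono g hP.le)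
    have a3 : g * w * g⁻¹ ∈ C[g * t * g⁻¹] := by rw [← cj_cen1]; exact conj_mem_cj.2 hwt
    have a4 : u ∈ C(R) := mem_cen.2 fun y hy => mem_cen1.1 (hR.le hy)
    obtain ⟨y, hy, e⟩ := (s5 _ _ a1 ((orderOf_conj g w).trans ow')).syl_trans (s5 _ u a4 hu)
    refine h.not_dvd (s := y * (g * t * g⁻¹) * y⁻¹) hd hu ht ((orderOf_conj _ _).trans ((orderOf_conj _ _).trans ht))
      htu (cen1_comm.1 ?_) hR ?_ hk
    · rw [← cj_cen1]
      exact cj_mono y (zpowers_le.2 a3) (e ▸ mem_zpowers u)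
    · rw [← cj_cen1, ← cj_of_mem_cen hy]
      exact cj_mono y a2
  have h1 := Nat.eq_prime_pow_of_unique_prime_dvd (relIndex_pos C[t] C[u]).ne' key
  have h2 := h.count hu ht htu
  have h3 := (relIndex_dvd C[t] C[u]).trans (card_subgroup_dvd_card _)
  rw [hN, h1] at h2
  rw [h1] at h3
  generalize (C[t].relIndex C[u]).primeFactorsList.length = n at h2 h3
  have h4 : n ≤ 2 := by
    by_contra hlt
    exact h27 ((pow_dvd_pow 3 (show 3 ≤ n by omega)).trans h3)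
  interval_cases n <;> simp [Nat.ModEq] at h2

theorem five (hodd : ∀ p : ℕ, p.Prime → p ≠ 2 → ∀ P : Sylow p G, IsCyclic P) {S : Sylow 2 G} {a b : G} {m : ℕ}
    (h : H3.MCS (S : Subgroup G) a b m) (hres : (S : Subgroup G) ≤ pResidual 2 G)
    {F : Type} [Field F] [Fintype F] (hF : Fintype.card F = 5)
    (e : Nonempty (commutator (Subgroup.centralizer ({a ^ 2 ^ (m - 1)} : Set G) ⧸
      oddCore (Subgroup.centralizer ({a ^ 2 ^ (m - 1)} : Set G))) ≃* SL(2, F)))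
    (hN : (Subgroup.centralizer ({a ^ 2 ^ (m - 1)} : Set G)).index = 357)
    (hc : (Subgroup.centralizer ({b} : Set G)).relIndex (Subgroup.centralizer ({a ^ 2 ^ (m - 1)} : Set G)) = 20)
    (_hm : m = 3) :
    ¬ 25 ∣ Nat.card G ∧ ∃ g : G, orderOf g = 35 ∨ orderOf g = 85 := by
  obtain ⟨hL, hp⟩ := sl_facts hF e.some
  have h9 := not_sq_dvd Nat.prime_three (cyc_sub hodd Nat.prime_three (by norm_num) _) hp
    (by rw [hL]; norm_num) (by rw [hL]; norm_num)
  have h25 := not_sq_dvd Nat.prime_five (cyc_sub hodd Nat.prime_five (by norm_num) _) hp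
    (by rw [hL]; norm_num) (by rw [hL]; norm_num)
  have hS : Syl 2 (S : Subgroup G) ⊤ := syl_top Nat.prime_two S
  have hK := (h.cen_case hS hres).1
  refine ⟨fun e => h25 ((show Nat.Coprime (5 * 5) 357 by norm_num).dvd_of_dvd_mul_right
    (by rw [← hN, card_mul_index]; exact e)), main hodd ?_ h.ord_z hL h9 h25 hN⟩
  intro u s s' hu hs hs' h1 h2 h3
  obtain ⟨g, rfl⟩ := _root_.isConj_iff.1 (h.cls2_one hS (h.oa_of_le_res hS hres).1 hs)
  have a1 : g⁻¹ * u * g ∈ C[a ^ 2 ^ (m - 1)] := mem_cj.1 (by rw [cj_cen1]; exact cen1_comm.1 h1)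
  have a2 : g⁻¹ * s' * g ∈ C[a ^ 2 ^ (m - 1)] := mem_cj.1 (by rw [cj_cen1]; exact h3)
  have o2 : orderOf (⟨_, a2⟩ : C[a ^ 2 ^ (m - 1)]) = 2 := by
    refine (orderOf_coe _).symm.trans (Eq.trans ?_ hs')
    simpa using orderOf_conj g⁻¹ s'
  rcases (h.so hK).cls_two ((hall_so_top hK).2 (hS.subl hK le_top)) o2 with e | e
  · obtain ⟨⟨c, hc'⟩, e⟩ := _root_.isConj_iff.1 e
    have e1 : c * a ^ 2 ^ (m - 1) * c⁻¹ = g⁻¹ * s' * g := congrArg Subtype.val e
    rw [mem_cen1.1 hc', mul_inv_cancel_right] at e1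
    rw [e1]; group
  · obtain ⟨⟨c, hc'⟩, e⟩ := _root_.isConj_iff.1 e
    have e1 : c * b * c⁻¹ = g⁻¹ * s' * g := congrArg Subtype.val e
    have a3 : c⁻¹ * (g⁻¹ * u * g) * c ∈ C[b] ⊓ C[a ^ 2 ^ (m - 1)] := by
      refine mem_inf.2 ⟨mem_cj.1 ?_, mul_mem (mul_mem (inv_mem hc') a1) hc'⟩
      rw [cj_cen1, e1]
      refine mem_cj.1 ?_
      rw [cj_cen1]
      simpa [mul_assoc] using cen1_comm.1 h2
    have a4 := orderOf_dvd_card' a3
    have a5 : orderOf (c⁻¹ * (g⁻¹ * u * g) * c) = 5 := by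
      rw [← hu, ← orderOf_conj (c⁻¹ * g⁻¹) u]; congr 1; group
    refine absurd ?_ h25
    rw [← card_inf_mul_relIndex C[b], hc]
    exact Nat.mul_dvd_mul (a5 ▸ a4) (by norm_num)

end Cfsg.Agent.H17.SwH
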