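import Mathlib
import Cfsg.Agent.GO.A8

/-! An extension of `E₁₆` by `S₆` (acting faithfully) has a section `E₃₂`. -/

set_option autoImplicit false
set_option linter.unusedSectionVars false

namespace Cfsg.Agent.H17.Sx

open Cfsg Subgroup Cfsg.Agent.FT Equiv

section pure

variable {Γ : Type*} [Group Γ] {V : Type*} [CommGroup V] [Finite V] (α : Γ →* MulAut V)

def Fx (a : Γ) : Subgroup V := MonoidHom.eqLocus (α a).toMonoidHom (MonoidHom.id V)

def cm (a : Γ) : V →* V := (α a).toMonoidHom * MonoidHom.id V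

variable {α} {a b s t : Γ} {v w q : V}

theorem mem_Fx : v ∈ Fx α a ↔ α a v = v := Iff.rfl
theorem cm_apply : cm α a v = α a v * v := rfl
theorem act_mul (v : V) : α (a * b) v = α a (α b v) := by rw [map_mul]; rfl
theorem act_one (v : V) : α 1 v = v := by rw [map_one]; rfl

theorem ker_cm (h2 : ∀ v : V, v * v = 1) : (cm α a).ker = Fx α a := by
  ext v
  rw [MonoidHom.mem_ker, cm_apply, mem_Fx, mul_eq_one_iff_eq_inv, inv_eq_of_mul_eq_one_right (h2 v)]

theorem card_cm (h2 : ∀ v : V, v * v = 1) : #(Fx α a) * #(cm α a).range = Nat.card V := by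
  rw [← ker_cm h2, ← index_ker, card_mul_index]

theorem rg_le (ha : a * a = 1) : (cm α a).range ≤ Fx α a := by
  rintro _ ⟨v, rfl⟩
  rw [mem_Fx, cm_apply, map_mul, ← act_mul, ha, act_one, mul_comm]

theorem rg_inv (h : s * a = a * s) (hv : v ∈ (cm α a).range) : α s v ∈ (cm α a).range := by
  obtain ⟨v, rfl⟩ := hv
  exact ⟨α s v, by rw [cm_apply, cm_apply, map_mul, ← act_mul, ← act_mul, h]⟩

theorem rg_fix (hr : #(cm α a).range ≤ 2) (h : s * a = a * s) : (cm α a).range ≤ Fx α s := fun v hv => by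
  by_contra e
  have h1 : v ≠ 1 := by rintro rfl; exact e (one_mem _)
  have h2 : α s v ≠ 1 := fun e => h1 ((map_eq_one_iff _ (α s).injective).1 e)
  have h3 : ({1, v, α s v} : Set V) ⊆ (cm α a).range := by
    rintro x (rfl | rfl | rfl)
    exacts [one_mem _, hv, rg_inv h hv]
  have h4 := Set.ncard_le_ncard h3
  rw [Set.ncard_eq_three.2 ⟨_, _, _, h1.symm, h2.symm, fun e' => e (mem_Fx.2 e'.symm), rfl⟩,
    ← Nat.card_coe_set_eq] at h4
  have : 3 ≤ 2 := h4.trans hr
  omega

theorem five (hα : Function.Injective α) (h16 : Nat.card V ∣ 16) (h5 : a ^ 5 = 1) (h1 : a ≠ 1) :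
    Nat.card V = 16 ∧ Fx α a = ⊥ := by
  haveI : Fact (Nat.Prime 5) := ⟨Nat.prime_five⟩
  have ho : orderOf (α a) = 5 := by rw [orderOf_injective α hα, orderOf_eq_prime h5 h1]
  have hp : IsPGroup 5 ⟪α a⟫ := IsPGroup.of_card (n := 1) (by rw [Nat.card_zpowers, ho, pow_one])
  have h2 := hp.card_modEq_card_fixedPoints V
  have h3 : MulAction.fixedPoints ⟪α a⟫ V = Fx α a := by
    ext v
    refine ⟨fun h => h ⟨α a, mem_zpowers _⟩, fun h g => ?_⟩
    exact (zpowers_le.2 (show α a ∈ MulAction.stabilizer (MulAut V) v from h)) g.2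
  rw [h3] at h2
  have h4 : #(Fx α a) ∣ Nat.card V := card_subgroup_dvd_card _
  have h6 : #(Fx α a) ≠ Nat.card V := fun e => h1 (hα (by
    rw [map_one]; ext v; exact mem_Fx.1 ((card_eq_iff_eq_top _).1 e ▸ mem_top v)))
  rw [eq_bot_iff_card']
  change Nat.card V ≡ #(Fx α a) [MOD 5] at h2
  have h7 := Nat.le_of_dvd (by norm_num) h16
  have h8 := Nat.le_of_dvd Nat.card_pos h4
  generalize Nat.card V = n at *
  generalize #(Fx α a) = m at *
  interval_cases n <;> simp at h16 <;> interval_cases m <;> simp_all [Nat.ModEq]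

def Dbl (a : Γ) : Prop := ∃ g : Γ, (a * (g * a * g⁻¹)) ^ 5 = 1 ∧ a * (g * a * g⁻¹) ≠ 1

theorem Dbl.card (hα : Function.Injective α) (h16 : Nat.card V ∣ 16) (h : Dbl a) :
    Nat.card V = 16 ∧ #(Fx α a) ≤ 4 := by
  obtain ⟨g, h5, h1⟩ := h
  obtain ⟨hV, hb⟩ := five hα h16 h5 h1
  have e1 : Fx α (g * a * g⁻¹) = (Fx α a).map (α g).toMonoidHom := by
    ext v
    constructor
    · intro hv
      refine ⟨α g⁻¹ v, ?_, by show α g (α g⁻¹ v) = v; rw [← act_mul, mul_inv_cancel, act_one]⟩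
      have := congrArg (α g⁻¹) (mem_Fx.1 hv)
      rwa [← act_mul, show g⁻¹ * (g * a * g⁻¹) = a * g⁻¹ by group, act_mul] at this
    · rintro ⟨v, hv, rfl⟩
      show α (g * a * g⁻¹) (α g v) = α g v
      rw [← act_mul, inv_mul_cancel_right, act_mul, mem_Fx.1 hv]
  have e2 : Fx α a ⊓ Fx α (g * a * g⁻¹) = ⊥ := eq_bot_iff.2 (hb ▸ fun v hv => by
    rw [mem_Fx, act_mul, mem_Fx.1 hv.2, mem_Fx.1 hv.1])
  have e3 := card_mul_le (A := Fx α a) (B := Fx α (g * a * g⁻¹)) le_top le_top
  rw [e2, card_bot', card_top', hV, e1, card_map_of_injective (α g).injective] at e3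
  exact ⟨hV, by nlinarith⟩

theorem eq_rg (h2 : ∀ v : V, v * v = 1) (hV : Nat.card V = 16) (ha : a * a = 1) (h : #(Fx α a) ≤ 4) :
    Fx α a = (cm α a).range := by
  have := card_cm (α := α) (a := a) h2
  rw [hV] at this
  exact (eq_of_card_le (rg_le ha) (by nlinarith)).symm

theorem small (h2 : ∀ v : V, v * v = 1) (hV : Nat.card V = 16) (h : ¬ #(cm α a).range ≤ 2) : #(Fx α a) ≤ 4 := by
  have := card_cm (α := α) (a := a) h2
  rw [hV] at this
  generalize #(Fx α a) = m at *
  generalize #(cm α a).range = n at *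
  by_contra e
  have h3 : n ≤ 3 := by nlinarith
  have h4 : n = 3 := by omega
  subst h4
  omega

theorem fix3 (h2 : ∀ v : V, v * v = 1) (hr : #(cm α a).range ≤ 2) (h : s * a = a * s) (h3 : s ^ 3 = 1)
    (hq : ∃ v, α s q = cm α a v * q) : α s q = q := by
  obtain ⟨v, hv⟩ := hq
  have h1 := mem_Fx.1 (rg_fix hr h ⟨v, rfl⟩)
  have h4 := act_one (α := α) q
  rw [← h3, pow_succ, pow_succ, pow_one, act_mul, act_mul, hv, map_mul, h1, hv, map_mul, map_mul, h1, hv,
    ← mul_assoc, h2, one_mul] at h4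
  rw [hv, h4]

def Wf (α : Γ →* MulAut V) (L : List Γ) : Subgroup V := ⨅ a ∈ L, Fx α a

theorem mem_Wf {L : List Γ} : v ∈ Wf α L ↔ ∀ a ∈ L, α a v = v := by simp [Wf, mem_Fx]

def Good (L : List Γ) (a : Γ) : Prop := Dbl a ∨ ∃ s t, s ^ 3 = 1 ∧ t ^ 3 = 1 ∧ s * a = a * s ∧ t * a = a * t ∧
  s * t ∈ L ∧ Dbl (s * t)

theorem Good.mem {L : List Γ} (hα : Function.Injective α) (h2 : ∀ v : V, v * v = 1) (h16 : Nat.card V ∣ 16)
    (hL : ∀ a ∈ L, a * a = 1) (hW : ∀ a ∈ L, (cm α a).range ≤ Wf α L) (ha : a ∈ L) (h : Good L a)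
    (hq : α a q = q) (hs : ∀ s, s * a = a * s → ∃ v, α s q = cm α a v * q) : q ∈ Wf α L := by
  have k : ∀ d ∈ L, Dbl d → Fx α d ≤ Wf α L := fun d hd e =>
    (eq_rg h2 (e.card hα h16).1 (hL d hd) (e.card hα h16).2).le.trans (hW d hd)
  rcases h with h | ⟨s, t, s3, t3, c1, c2, hd, e⟩
  · exact k a ha h hq
  by_cases hr : #(cm α a).range ≤ 2
  · refine k _ hd e ?_
    rw [mem_Fx, act_mul, fix3 h2 hr c2 t3 (hs t c2), fix3 h2 hr c1 s3 (hs s c1)]
  · have hV := (e.card hα h16).1
    exact hW a ha ((eq_rg h2 hV (hL a ha) (small h2 hV hr)).le hq)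

theorem rg_mul (h2 : ∀ v : V, v * v = 1) {W : Subgroup V} (ha : (cm α a).range ≤ W) (hb : (cm α b).range ≤ W) :
    (cm α (a * b)).range ≤ W := by
  rintro _ ⟨v, rfl⟩
  have : cm α (a * b) v = cm α a (α b v) * cm α b v := by
    rw [cm_apply, cm_apply, cm_apply, act_mul, mul_assoc, ← mul_assoc (α b v), h2, one_mul]
  rw [this]
  exact mul_mem (ha ⟨_, rfl⟩) (hb ⟨_, rfl⟩)

theorem rg_one (h2 : ∀ v : V, v * v = 1) {W : Subgroup V} : (cm α 1).range ≤ W := by
  rintro _ ⟨v, rfl⟩
  rw [cm_apply, act_one, h2]; exact one_mem _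

def L8 (x y z : Γ) : List Γ := [1, x, y, z, x * y, x * z, y * z, x * y * z]

theorem quad (h2 : ∀ v : V, v * v = 1) {x y z : Γ} {W : Subgroup V} (hx : (cm α x).range ≤ W)
    (hy : (cm α y).range ≤ W) (hz : (cm α z).range ≤ W) (fx : W ≤ Fx α x) (fy : W ≤ Fx α y) (fz : W ≤ Fx α z) :
    ∀ a ∈ L8 x y z, (cm α a).range ≤ Wf α (L8 x y z) := by
  have h1 : W ≤ Wf α (L8 x y z) := fun v hv => mem_Wf.2 fun a ha => by
    have e1 := mem_Fx.1 (fx hv)
    have e2 := mem_Fx.1 (fy hv)
    have e3 := mem_Fx.1 (fz hv)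
    simp only [L8, List.mem_cons, List.not_mem_nil, or_false] at ha
    rcases ha with rfl | rfl | rfl | rfl | rfl | rfl | rfl | rfl <;> simp only [act_mul, act_one, e1, e2, e3]
  intro a ha
  refine le_trans ?_ h1
  simp only [L8, List.mem_cons, List.not_mem_nil, or_false] at ha
  rcases ha with rfl | rfl | rfl | rfl | rfl | rfl | rfl | rfl
  exacts [rg_one h2, hx, hy, hz, rg_mul h2 hx hy, rg_mul h2 hx hz, rg_mul h2 hy hz, rg_mul h2 (rg_mul h2 hx hy) hz]

theorem rg_conj (g : Γ) : #(cm α (g * a * g⁻¹)).range ≤ #(cm α a).range := by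
  refine le_trans (card_le ?_) (Nat.le_of_dvd (card_pos _) (card_map_dvd' (α g).toMonoidHom _))
  rintro _ ⟨v, rfl⟩
  refine ⟨cm α a (α g⁻¹ v), ⟨_, rfl⟩, ?_⟩
  show α g (α a (α g⁻¹ v) * α g⁻¹ v) = α (g * a * g⁻¹) v * v
  rw [map_mul, act_mul, act_mul, ← act_mul (a := g) (b := g⁻¹), mul_inv_cancel, act_one]

theorem perm3 : ∀ a b : Perm (Fin 3), a ^ 3 = 1 → b ^ 3 = 1 → (a * b) ^ 2 = 1 → a * b = 1 := by decide +kernel

theorem four_fix (h4 : #(Fx α a) = 4) (hs : s * a = a * s) (ht : t * a = a * t) (s3 : s ^ 3 = 1) (t3 : t ^ 3 = 1)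
    (h : (s * t) ^ 2 = 1) : Fx α a ≤ Fx α (s * t) := by
  classical
  let X := {v : V // v ∈ Fx α a ∧ v ≠ 1}
  have hX : Nat.card X = 3 := by
    have e : (Fx α a : Set V) \ {1} = {v | v ∈ Fx α a ∧ v ≠ 1} := rfl
    have := Set.ncard_diff_singleton_add_one (s := (Fx α a : Set V)) (one_mem (Fx α a))
    rw [e, ← Nat.card_coe_set_eq, ← Nat.card_coe_set_eq] at this
    change Nat.card X + 1 = #(Fx α a) at this
    omega
  letI : MulAction C[a] X :=
    { smul := fun g v => ⟨α g v.1, by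
        rw [mem_Fx, ← act_mul, ← mem_cen1.1 g.2, act_mul, mem_Fx.1 v.2.1],
        fun e => v.2.2 ((map_eq_one_iff _ (α g).injective).1 e)⟩
      one_smul := fun v => Subtype.ext (act_one v.1)
      mul_smul := fun g g' v => Subtype.ext (act_mul v.1) }
  let φ := (Finite.equivFinOfCardEq hX).permCongrHom.toMonoidHom.comp (MulAction.toPermHom C[a] X)
  let s' : C[a] := ⟨s, mem_cen1.2 hs⟩
  let t' : C[a] := ⟨t, mem_cen1.2 ht⟩
  have e := perm3 (φ s') (φ t') (by rw [← map_pow, show s' ^ 3 = 1 from Subtype.ext s3, map_one])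
    (by rw [← map_pow, show t' ^ 3 = 1 from Subtype.ext t3, map_one])
    (by rw [← map_mul, ← map_pow, show (s' * t') ^ 2 = 1 from Subtype.ext h, map_one])
  rw [← map_mul] at e
  have e2 : MulAction.toPermHom C[a] X (s' * t') = 1 :=
    (map_eq_one_iff _ (Finite.equivFinOfCardEq hX).permCongrHom.injective).1 e
  intro v hv
  by_cases h1 : v = 1
  · rw [h1]; exact one_mem _
  · exact congrArg Subtype.val (DFunLike.congr_fun e2 ⟨v, hv, h1⟩)

theorem rg_le_of_fix (h2 : ∀ v : V, v * v = 1) (hb : b * a = a * b) (h : (cm α a).range ≤ Fx α b) :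
    (cm α b).range ≤ Fx α a := by
  rintro _ ⟨v, rfl⟩
  rw [← ker_cm h2, MonoidHom.mem_ker, cm_apply (a := b), map_mul]
  have : cm α a (α b v) = cm α a v := by
    rw [← mem_Fx.1 (h ⟨v, rfl⟩), cm_apply, cm_apply, map_mul, ← act_mul, ← act_mul, hb]
  rw [this, h2]

end pure

theorem good1 : ∀ a ∈ L8 (swap (0 : Fin 6) 1) (swap 2 3) (swap 4 5), a ≠ 1 →
    Good (L8 (swap (0 : Fin 6) 1) (swap 2 3) (swap 4 5)) a := by
  intro a ha h1
  simp only [L8, List.mem_cons, List.not_mem_nil, or_false] at ha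
  rcases ha with rfl | rfl | rfl | rfl | rfl | rfl | rfl | rfl
  · exact absurd rfl h1
  · exact .inr ⟨swap 2 3 * swap 2 4, swap 2 4 * swap 4 5, by decide +kernel, by decide +kernel, by decide +kernel, by decide +kernel, by decide +kernel,
      swap 0 2 * swap 0 4, by decide +kernel, by decide +kernel⟩
  · exact .inr ⟨swap 0 1 * swap 0 4, swap 0 4 * swap 4 5, by decide +kernel, by decide +kernel, by decide +kernel, by decide +kernel, by decide +kernel,
      swap 0 2 * swap 0 4, by decide +kernel, by decide +kernel⟩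
  · exact .inr ⟨swap 0 1 * swap 0 2, swap 0 2 * swap 2 3, by decide +kernel, by decide +kernel, by decide +kernel, by decide +kernel, by decide +kernel,
      swap 0 2 * swap 0 4, by decide +kernel, by decide +kernel⟩
  · exact .inl ⟨swap 0 2 * swap 0 4, by decide +kernel, by decide +kernel⟩
  · exact .inl ⟨swap 0 2 * swap 0 4, by decide +kernel, by decide +kernel⟩
  · exact .inl ⟨swap 0 2 * swap 0 4, by decide +kernel, by decide +kernel⟩
  · exact .inr ⟨swap 0 2 * swap 0 4 * swap 1 3 * swap 1 5, swap 0 2 * swap 1 3 * swap 2 5 * swap 3 4, by decide +kernel,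
      by decide +kernel, by decide +kernel, by decide +kernel, by decide +kernel, swap 0 2 * swap 0 4, by decide +kernel, by decide +kernel⟩

theorem good2 : ∀ a ∈ L8 (swap (0 : Fin 6) 1) (swap 2 3 * swap 4 5) (swap 2 4 * swap 3 5), a ≠ 1 →
    Good (L8 (swap (0 : Fin 6) 1) (swap 2 3 * swap 4 5) (swap 2 4 * swap 3 5)) a := by
  intro a ha h1
  simp only [L8, List.mem_cons, List.not_mem_nil, or_false] at ha
  rcases ha with rfl | rfl | rfl | rfl | rfl | rfl | rfl | rfl
  · exact absurd rfl h1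
  · exact .inr ⟨swap 2 3 * swap 2 4, swap 2 3 * swap 2 5, by decide +kernel, by decide +kernel, by decide +kernel, by decide +kernel, by decide +kernel,
      swap 0 2 * swap 0 3, by decide +kernel, by decide +kernel⟩
  · exact .inl ⟨swap 0 2 * swap 0 4, by decide +kernel, by decide +kernel⟩
  · exact .inl ⟨swap 0 2 * swap 0 3, by decide +kernel, by decide +kernel⟩
  · exact .inr ⟨swap 0 2 * swap 0 4 * swap 1 3 * swap 1 5, swap 0 2 * swap 1 3 * swap 2 5 * swap 3 4, by decide +kernel,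
      by decide +kernel, by decide +kernel, by decide +kernel, by decide +kernel, swap 0 2 * swap 0 4, by decide +kernel, by decide +kernel⟩
  · exact .inr ⟨swap 0 2 * swap 0 3 * swap 1 4 * swap 1 5, swap 0 2 * swap 1 3 * swap 1 4 * swap 2 5, by decide +kernel,
      by decide +kernel, by decide +kernel, by decide +kernel, by decide +kernel, swap 0 2 * swap 0 3, by decide +kernel, by decide +kernel⟩
  · exact .inl ⟨swap 0 2 * swap 0 3, by decide +kernel, by decide +kernel⟩
  · exact .inr ⟨swap 0 2 * swap 0 3 * swap 1 4 * swap 4 5, swap 0 2 * swap 1 3 * swap 1 5 * swap 2 4, by decide +kernel,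
      by decide +kernel, by decide +kernel, by decide +kernel, by decide +kernel, swap 0 2 * swap 0 3, by decide +kernel, by decide +kernel⟩

theorem dich {V : Type*} [CommGroup V] [Finite V] (α : Perm (Fin 6) →* MulAut V) (hα : Function.Injective α)
    (h2 : ∀ v : V, v * v = 1) (h16 : Nat.card V ∣ 16) :
    ∃ (L : List (Perm (Fin 6))) (W : Subgroup V), (∀ a ∈ L, a * a = 1) ∧ (∀ a ∈ L, ∀ b ∈ L, a * b ∈ L) ∧ 1 ∈ L ∧
      L.toFinset.card = 8 ∧ Nat.card V = 16 ∧ #W ≤ 4 ∧ ∀ a ∈ L, a ≠ 1 → ∀ q, α a q = q →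
        (∀ s, s * a = a * s → ∃ v, α s q = cm α a v * q) → q ∈ W := by
  have hd : Dbl (swap (2 : Fin 6) 3 * swap 4 5) := ⟨swap 0 2 * swap 0 4, by decide +kernel, by decide +kernel⟩
  obtain ⟨hV, h4⟩ := hd.card hα h16
  have hW : ∀ L : List (Perm (Fin 6)), swap (2 : Fin 6) 3 * swap 4 5 ∈ L → #(Wf α L) ≤ 4 := fun L hL =>
    le_trans (card_le fun v hv => mem_Wf.1 hv _ hL) h4
  by_cases hr : #(cm α (swap 0 1)).range ≤ 2
  · have hy : #(cm α (swap 2 3)).range ≤ 2 := by
      rw [show swap (2 : Fin 6) 3 = (swap 0 2 * swap 1 3) * swap 0 1 * (swap 0 2 * swap 1 3)⁻¹ by decide +kernel]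
      exact (rg_conj _).trans hr
    have hz : #(cm α (swap 4 5)).range ≤ 2 := by
      rw [show swap (4 : Fin 6) 5 = (swap 0 4 * swap 1 5) * swap 0 1 * (swap 0 4 * swap 1 5)⁻¹ by decide +kernel]
      exact (rg_conj _).trans hr
    have k : ∀ a, #(cm α a).range ≤ 2 → swap 0 1 * a = a * swap 0 1 → swap 2 3 * a = a * swap 2 3 →
        swap 4 5 * a = a * swap 4 5 → (cm α a).range ≤ Fx α (swap 0 1) ⊓ Fx α (swap 2 3) ⊓ Fx α (swap 4 5) :=
      fun a h a1 a2 a3 => le_inf (le_inf (rg_fix h a1) (rg_fix h a2)) (rg_fix h a3)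
    have hq := quad h2 (k _ hr rfl (by decide +kernel) (by decide +kernel)) (k _ hy (by decide +kernel) rfl (by decide +kernel))
      (k _ hz (by decide +kernel) (by decide +kernel) rfl) (inf_le_left.trans inf_le_left) (inf_le_left.trans inf_le_right) inf_le_right
    exact ⟨_, _, by decide +kernel, by decide +kernel, by decide +kernel, by decide +kernel, hV, hW _ (by decide +kernel), fun a ha h1 q =>
      (good1 a ha h1).mem hα h2 h16 (by decide +kernel) hq ha⟩
  · have e := eq_rg h2 hV (show swap (0 : Fin 6) 1 * swap 0 1 = 1 by decide +kernel) (small h2 hV hr)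
    have c4 : #(Fx α (swap 0 1)) = 4 := by
      have := card_cm (α := α) (a := swap 0 1) h2
      rw [← e, hV] at this
      nlinarith
    have fy : Fx α (swap 0 1) ≤ Fx α (swap 2 3 * swap 4 5) := by
      rw [show swap (2 : Fin 6) 3 * swap 4 5 = (swap 2 3 * swap 2 4) * (swap 2 4 * swap 4 5) by decide +kernel]
      exact four_fix c4 (by decide +kernel) (by decide +kernel) (by decide +kernel) (by decide +kernel) (by decide +kernel)
    have fz : Fx α (swap 0 1) ≤ Fx α (swap 2 4 * swap 3 5) := by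
      rw [show swap (2 : Fin 6) 4 * swap 3 5 = (swap 2 3 * swap 2 4) * (swap 3 4 * swap 3 5) by decide +kernel]
      exact four_fix c4 (by decide +kernel) (by decide +kernel) (by decide +kernel) (by decide +kernel) (by decide +kernel)
    have hq := quad h2 e.ge (rg_le_of_fix h2 (by decide +kernel) (e ▸ fy)) (rg_le_of_fix h2 (by decide +kernel) (e ▸ fz)) le_rfl fy fz
    exact ⟨_, _, by decide +kernel, by decide +kernel, by decide +kernel, by decide +kernel, hV, hW _ (by decide +kernel), fun a ha h1 q =>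
      (good2 a ha h1).mem hα h2 h16 (by decide +kernel) hq ha⟩

theorem card_comap {X Y : Type*} [Group X] [Group Y] [Finite X] (f : X →* Y) (hf : Function.Surjective f)
    (K : Subgroup Y) : #(K.comap f) = #f.ker * #K := by
  rw [← card_mul_relIndex (ker_le_comap f K), relIndex_ker, map_comap_eq_self_of_surjective hf]

theorem sr_surj {X Y : Type*} [Group X] [Group Y] [Finite X] [Finite Y] {k : ℕ} (f : X →* Y)
    (hf : Function.Surjective f) (h : GO.SR k (⊤ : Subgroup X)) : GO.SR k (⊤ : Subgroup Y) := fun K N _ hN hs => by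
  have := h (K.comap f) (N.comap f) le_top (comap_mono hN) fun x hx => by
    rw [mem_comap, map_mul]; exact hs _ hx
  rw [card_comap f hf, card_comap f hf, mul_left_comm] at this
  exact Nat.le_of_mul_le_mul_left this (card_pos _)

theorem core {Y Q : Type*} [Group Y] [Finite Y] [Group Q] (V : Subgroup Y) [V.Normal] (hV : ∀ v ∈ V, v * v = 1)
    (h16 : #V ∣ 16) (hC : C(V) ≤ V) (f : Y →* Q) (hf : Function.Surjective f) (hk : f.ker = V)
    (j : Perm (Fin 6) →* Q) (hj : Function.Injective j) : ¬ GO.SR 4 (⊤ : Subgroup Y) := by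
  intro hs
  have h2 : ∀ v : V, v * v = 1 := fun v => Subtype.ext (hV v v.2)
  have hcm : ∀ a b : V, a * b = b * a := fun a b =>
    (Commute.of_orderOf_dvd_two (fun g => orderOf_dvd_of_pow_eq_one (by rw [sq, h2])) a b).eq
  letI : CommGroup V := { (inferInstance : Group V) with mul_comm := hcm }
  have hle : f.ker ≤ (MulAut.conjNormal : Y →* MulAut V).ker := fun y hy => by
    rw [hk] at hy
    ext v
    exact mul_inv_eq_iff_eq_mul.2 (congrArg Subtype.val (hcm ⟨y, hy⟩ v))
  let β : Q →* MulAut V := f.liftOfSurjective hf ⟨_, hle⟩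
  have hβ : ∀ y (v : V), (β (f y) v : Y) = y * v * y⁻¹ := fun y v => by
    rw [show β (f y) = MulAut.conjNormal y from f.liftOfRightInverse_comp_apply _ _ _ y]; rfl
  have hβi : Function.Injective β := (injective_iff_map_eq_one β).2 fun q hq => by
    obtain ⟨y, rfl⟩ := hf q
    refine hk.ge (hC (mem_cen.2 fun v hv => ?_))
    have := hβ y ⟨v, hv⟩
    rw [hq] at this
    exact eq_mul_inv_iff_mul_eq.1 this
  obtain ⟨L, W, a1, a2, a3, a4, a5, a6, a7⟩ := dich (β.comp j) (hβi.comp hj) h2 h16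
  let A : Subgroup (Perm (Fin 6)) :=
    { carrier := {a | a ∈ L}
      mul_mem' := fun ha hb => a2 _ ha _ hb
      one_mem' := a3
      inv_mem' := fun {a} ha => by rw [inv_eq_of_mul_eq_one_right (a1 a ha)]; exact ha }
  have cA : #A = 8 := by
    rw [← a4, ← Set.ncard_coe_finset, ← Nat.card_coe_set_eq, List.coe_toFinset]; rfl
  have := hs ((A.map j).comap f) (W.map V.subtype) le_top
    ((map_subtype_le _).trans (hk ▸ ker_le_comap f _)) fun y hy => by
      obtain ⟨a, ha, e⟩ := hy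
      by_cases h1 : a = 1
      · rw [hV y (hk ▸ (show f y = 1 by rw [← e, h1, map_one]))]; exact one_mem _
      have hy2 : y * y ∈ V := hk ▸ (show f (y * y) = 1 by rw [map_mul, ← e, ← map_mul, a1 a ha, map_one])
      refine ⟨⟨_, hy2⟩, a7 a ha h1 _ (Subtype.ext ?_) fun s hs => ?_, rfl⟩
      · show (β (j a) _ : Y) = _
        rw [e, hβ]; simp [mul_assoc]
      · obtain ⟨x, hx⟩ := hf (j s)
        have hv : x * y * x⁻¹ * y⁻¹ ∈ V := hk ▸ (show f (x * y * x⁻¹ * y⁻¹) = 1 by
          rw [map_mul, map_mul, map_mul, map_inv, map_inv, hx, ← e, ← map_mul, hs, map_mul]; group)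
        refine ⟨⟨_, hv⟩, Subtype.ext ?_⟩
        rw [cm_apply, hcm (β.comp j a _)]
        show (β (j s) _ : Y) = _ * (β (j a) _ : Y) * _
        rw [e, ← hx, hβ, hβ]
        simp [mul_assoc]
  rw [card_comap f hf, hk, card_map_of_injective hj, cA, card_map_of_injective V.subtype_injective] at this
  change #V = 16 at a5
  omega

end Cfsg.Agent.H17.Sx
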