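import Mathlib
import Cfsg.Agent.H17.Sx1
import Cfsg.Agent.H24.A8a

/-! Nonsolvable subgroups of `A₈` with trivial 2-core. -/

set_option autoImplicit false
set_option linter.unusedSectionVars false

namespace Cfsg.Agent.H17.Sx

open Cfsg Subgroup Cfsg.Agent.FT Equiv Equiv.Perm
open scoped commutatorElement

def eps : ℤˣ →* Perm (Fin 2) where
  toFun u := if u = 1 then 1 else swap 0 1
  map_one' := by decide
  map_mul' := by decide

theorem s6_a8 : ∃ j : Perm (Fin 6) →* alternatingGroup (Fin 8), Function.Injective j := by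
  let j0 : Perm (Fin 6) →* Perm (Fin 8) := (finSumFinEquiv (m := 6) (n := 2)).permCongrHom.toMonoidHom.comp
    ((sumCongrHom (Fin 6) (Fin 2)).comp ((MonoidHom.id _).prod (eps.comp sign)))
  have h : ∀ u : ℤˣ, u * sign (eps u) = 1 := by decide
  refine ⟨j0.codRestrict _ fun σ => ?_, fun a b e => ?_⟩
  · rw [mem_alternatingGroup]
    show sign ((finSumFinEquiv (m := 6) (n := 2)).permCongr (Perm.sumCongr σ (eps (sign σ)))) = 1
    rw [sign_permCongr, sign_sumCongr, h]
  · have e1 : j0 a = j0 b := congrArg Subtype.val e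
    exact congrArg Prod.fst (sumCongrHom_injective ((finSumFinEquiv (m := 6) (n := 2)).permCongrHom.injective e1))

theorem part2 {X Q : Type*} [Group X] [Finite X] [Group Q] (hc : C(pCore 2 X) ≤ pCore 2 X)
    (h4 : GO.SR 4 (⊤ : Subgroup X)) (e : X ⧸ pCore 2 X ≃* Q) (j : Perm (Fin 6) →* Q) (hj : Function.Injective j) :
    False := by
  have pQ : PGrp 2 (pCore 2 X) := pcore_top' Nat.prime_two (G := X) ▸ pcore_pi _ _
  have hN : (⊤ : Subgroup X) ≤ N(pCore 2 X) := (normalizer_eq_top _).ge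
  haveI : (Phi (pCore 2 X)).Normal := normalizer_eq_top_iff.1 (top_le_iff.1 (norms_Phi hN))
  let π := QuotientGroup.mk' (Phi (pCore 2 X))
  have hπ : Function.Surjective π := QuotientGroup.mk'_surjective _
  haveI : ((pCore 2 X).map π).Normal := Normal.map inferInstance π hπ
  let f0 : X →* Q := e.toMonoidHom.comp (QuotientGroup.mk' _)
  have k0 : f0.ker = pCore 2 X := by
    ext x
    rw [MonoidHom.mem_ker]
    exact (map_eq_one_iff _ e.injective).trans (QuotientGroup.eq_one_iff x)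
  let f : X ⧸ Phi (pCore 2 X) →* Q := QuotientGroup.lift _ f0 (k0 ▸ Phi_le _)
  refine core ((pCore 2 X).map π) ?_ ?_ ?_ f ?_ ?_ j hj (sr_surj π hπ h4)
  · rintro _ ⟨x, hx, rfl⟩
    rw [← map_mul]
    exact (QuotientGroup.eq_one_iff _).2 (GO.sq_Phi pQ hx)
  · rw [card_map_eq, QuotientGroup.ker_mk']
    exact (h4.mono le_top).idx pQ
  · intro y hy
    obtain ⟨x, rfl⟩ := hπ y
    haveI : (C((pCore 2 X).map π).comap π).Normal := Normal.comap inferInstance π
    refine ⟨x, GO.le_of_cen_Phi (K := C((pCore 2 X).map π).comap π) Nat.prime_two hc ?_ hy, rfl⟩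
    rw [commutator_le]
    intro a ha b hb
    rw [← QuotientGroup.eq_one_iff]
    show π ⁅a, b⁆ = 1
    rw [map_commutatorElement, commutatorElement_eq_one_iff_mul_comm]
    exact mem_cen.1 hb _ ⟨a, ha, rfl⟩
  · intro q
    obtain ⟨x, hx⟩ := (e.surjective.comp (QuotientGroup.mk'_surjective (pCore 2 X))) q
    exact ⟨π x, hx⟩
  · rw [QuotientGroup.ker_lift, k0]

theorem fix_supp {α : Type*} [Fintype α] [DecidableEq α] {h m : Perm α} {r k : ℕ} (hr : r.Prime) (hc : h.IsCycle)
    (ho : orderOf h = r) (hm : Commute m h) (hk : m ^ k = 1) (hkr : r.Coprime k) {a : α} (ha : a ∈ h.support) :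
    m a = a := by
  have h1 : m a ∈ h.support := by
    rw [mem_support] at ha ⊢
    rw [← mul_apply, ← hm.eq, mul_apply]
    exact fun e => ha (m.injective e)
  obtain ⟨i, hi⟩ := hc.exists_pow_eq (mem_support.1 ha) (mem_support.1 h1)
  have h2 : ∀ n : ℕ, (m ^ n) a = (h ^ (i * n)) a := fun n => by
    induction n with
    | zero => simp
    | succ n ih => rw [pow_succ', mul_apply, ih, ← mul_apply, (hm.pow_right _).eq, mul_apply, ← hi, ← mul_apply,
        ← pow_add, Nat.mul_succ]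
  have h3 := h2 k
  rw [hk, one_apply] at h3
  have h4 := (hc.pow_eq_one_iff' (mem_support.1 ha)).2 h3.symm
  rw [← orderOf_dvd_iff_pow_eq_one, ho] at h4
  rw [← hi, orderOf_dvd_iff_pow_eq_one.1 (ho ▸ hkr.dvd_of_dvd_mul_right h4), one_apply]

theorem card_mod {G : Type*} [Group G] [Finite G] (M : Subgroup G) [M.Normal] {h : G} {r : ℕ} (hr : r.Prime)
    (ho : orderOf h = r) : #M ≡ #(M ⊓ C[h]) [MOD r] := by
  haveI := Fact.mk hr
  have hp : IsPGroup r ⟪h⟫ := IsPGroup.of_card (n := 1) (by rw [Nat.card_zpowers, ho, pow_one])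
  letI : MulAction ⟪h⟫ M := MulAction.compHom M ((MulAut.conjNormal : G →* MulAut M).comp ⟪h⟫.subtype)
  refine (hp.card_modEq_card_fixedPoints M).trans (Eq.subst (motive := fun n => _ ≡ n [MOD r]) ?_ Nat.ModEq.rfl)
  refine Nat.card_congr ⟨fun x => ⟨x.1.1, x.1.2, mem_cen1.2 (mul_inv_eq_iff_eq_mul.1
    (congrArg Subtype.val (x.2 ⟨h, mem_zpowers h⟩))).symm⟩, fun x => ⟨⟨x.1, x.2.1⟩, fun g => Subtype.ext ?_⟩,
    fun _ => rfl, fun _ => rfl⟩
  exact mul_inv_eq_iff_eq_mul.2 (mem_cen1.1 ((zpowers_le.2 (cen1_comm.1 x.2.2)) g.2))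

variable {Q : Type*} [Group Q] [Finite Q]

theorem cyc_of (f : Q →* Perm (Fin 8)) (hf : Function.Injective f) {h : Q} {r : ℕ} (hr : r.Prime) (h5 : 5 ≤ r)
    (ho : orderOf h = r) : (f h).IsCycle ∧ orderOf (f h) = r ∧ (f h).support.card = r := by
  have hg := (orderOf_injective f hf h).trans ho
  have hc : (f h).IsCycle := isCycle_of_prime_order' (by rw [hg]; exact hr) (by rw [hg]; simp; omega)
  exact ⟨hc, hg, by rw [← hc.orderOf, hg]⟩

theorem three (f : Q →* Perm (Fin 8)) (hf : Function.Injective f) (hA : ∀ x, f x ∈ alternatingGroup (Fin 8))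
    (hs : ¬ Group.IsSolvable Q) {h : Q} (ho : orderOf h = 5) (hd : Nat.card Q ∣ 20160) (h1 : pCore 3 Q ≠ ⊥) :
    Nat.card (pCore 3 Q) = 3 ∧ (Nonempty (Q ⧸ pCore 3 Q ≃* alternatingGroup (Fin 5)) ∨
      Nonempty (Q ⧸ pCore 3 Q ≃* Perm (Fin 5))) := by
  classical
  have pO : PGrp 3 (pCore 3 Q) := pcore_top' Nat.prime_three (G := Q) ▸ pcore_pi _ _
  obtain ⟨hc, hg, hcard⟩ := cyc_of f hf Nat.prime_five le_rfl ho
  obtain ⟨n, hn⟩ := pO.card
  have hn2 : n ≤ 2 := by
    by_contra e
    have := (pow_dvd_pow 3 (show 3 ≤ n by omega)).trans (hn ▸ (card_subgroup_dvd_card _).trans hd)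
    norm_num at this
  have hcen : pCore 3 Q ≤ C[h] := by
    have a1 := card_mod (pCore 3 Q) Nat.prime_five ho
    have a2 : #(pCore 3 Q ⊓ C[h]) ∣ #(pCore 3 Q) := card_dvd inf_le_left
    refine inf_eq_left.1 (eq_of_card_eq inf_le_left ?_)
    rw [hn] at a1 a2 ⊢
    have a3 := Nat.le_of_dvd (by positivity) a2
    generalize #(pCore 3 Q ⊓ C[h]) = m at *
    interval_cases n <;> norm_num at a3 <;> interval_cases m <;> simp_all [Nat.ModEq]
  have hfix : ∀ m ∈ pCore 3 Q, (f m).support ⊆ (f h).supportᶜ := fun m hm a ha => Finset.mem_compl.2 fun e =>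
    mem_support.1 ha (fix_supp Nat.prime_five hc hg (Commute.map (mem_cen1.1 (hcen hm)) f)
      (by rw [← map_pow, pow_card hm, map_one]) (by rw [hn]; exact Nat.Coprime.pow_right _ (by norm_num)) e)
  have cT : (f h).supportᶜ.card = 3 := by rw [Finset.card_compl, hcard]; rfl
  have h3 : ∀ x, x ≠ 1 → (f x).support ⊆ (f h).supportᶜ → (f x).support = (f h).supportᶜ ∧ orderOf x = 3 := by
    intro x hx hsub
    have b1 := Finset.card_le_card hsub
    have b2 : (f x).support.card ≠ 0 := fun e => hx (hf (by rw [card_support_eq_zero.1 e, map_one]))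
    have b3 := card_support_ne_one (f x)
    have b4 : (f x).support.card ≠ 2 := fun e => by
      have := (card_support_eq_two.1 e).sign_eq
      rw [mem_alternatingGroup.1 (hA x)] at this
      exact absurd this (by decide)
    have b5 : (f x).support.card = 3 := by omega
    exact ⟨Finset.eq_of_subset_of_card_le hsub (by omega),
      (orderOf_injective f hf x).symm.trans (card_support_eq_three_iff.1 b5).orderOf⟩
  obtain ⟨⟨m0, hm0⟩, hm1⟩ := ne_bot_iff_exists_ne_one.1 h1
  have hm1' : m0 ≠ 1 := fun e => hm1 (Subtype.ext e)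
  have hinv : ∀ g : Q, ∀ a, f g a ∈ (f h).support ↔ a ∈ (f h).support := fun g a => by
    have c1 := (h3 _ hm1' (hfix _ hm0)).1
    have c2 := (h3 _ (conj_ne_one.2 hm1') (hfix _ ((pCore_normal 3 Q).conj_mem _ hm0 g))).1
    rw [← not_iff_not, ← Finset.mem_compl, ← Finset.mem_compl]
    conv_lhs => rw [← c2]
    rw [← c1, map_mul, map_mul, map_inv, mem_support, mem_support]
    simp
  let ρ : Q →* Perm {a // a ∈ (f h).support} :=
    { toFun := fun g => (f g).subtypePerm (hinv g)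
      map_one' := by ext a; simp
      map_mul' := fun a b => Equiv.ext fun c => Subtype.ext (DFunLike.congr_fun (map_mul f a b) c.1) }
  have hker : ∀ x, x ∈ ρ.ker ↔ (f x).support ⊆ (f h).supportᶜ := fun x => by
    rw [MonoidHom.mem_ker]
    refine ⟨fun e a ha => Finset.mem_compl.2 fun e' => mem_support.1 ha
      (congrArg Subtype.val (DFunLike.congr_fun e ⟨a, e'⟩) :), fun e => ?_⟩
    ext a
    exact congrArg Fin.val (by_contra fun e' => Finset.mem_compl.1 (e (mem_support.2 e')) a.2)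
  have hk : ρ.ker = pCore 3 Q := by
    refine le_antisymm (H2.le_pCore fun x => ?_) fun x hx => (hker x).2 (hfix x hx)
    refine ⟨1, Subtype.ext ?_⟩
    by_cases e : x.1 = 1
    · simp [e]
    · have := pow_orderOf_eq_one x.1
      rw [(h3 _ e ((hker _).1 x.2)).2] at this
      simpa using this
  have b2 : Nat.card ρ.ker ≤ Nat.card (Perm {x // x ∈ (f h).supportᶜ}) := by
    rw [Nat.card_congr (Equiv.Perm.subtypeEquivSubtypePerm (· ∈ (f h).supportᶜ))]
    refine Nat.card_le_card_of_injective (fun x => ⟨f x.1, fun y hy => ?_⟩) fun x y hxy => ?_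
    · exact by_contra fun e => hy ((hker _).1 x.2 (mem_support.2 e))
    · exact Subtype.ext (hf (Subtype.mk.inj hxy))
  rw [Nat.card_perm, Nat.card_eq_fintype_card (α := {x // x ∈ (f h).supportᶜ}), Fintype.card_coe, cT, hk, hn] at b2
  have hn0 : n ≠ 0 := fun e => h1 (eq_bot_iff_card'.2 (by rw [hn, e, pow_zero]))
  have hn1 : n = 1 := by
    interval_cases n
    · exact absurd rfl hn0
    · rfl
    · exact absurd b2 (by decide)
  refine ⟨by rw [hn, hn1, pow_one], ?_⟩
  let φ : Q ⧸ pCore 3 Q →* _ := QuotientGroup.lift _ ρ hk.ge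
  have hφ : Function.Injective φ := (QuotientGroup.injective_lift_iff _ _ _).2 hk.symm
  have c5 : Nat.card {a // a ∈ (f h).support} = 5 := by rw [Nat.card_eq_fintype_card, Fintype.card_coe, hcard]
  have d1 : Nat.card (Q ⧸ pCore 3 Q) ∣ 120 := by
    have := card_dvd_of_injective φ hφ
    rwa [Nat.card_perm, c5] at this
  have d2 : 60 ≤ Nat.card (Q ⧸ pCore 3 Q) := not_lt.1 fun e =>
    hs ((Group.isSolvable_iff_subgroup_quotient (pCore 3 Q)).2 ⟨pO.sol, A8s.sol60 _ e⟩)
  obtain ⟨c, hc'⟩ := d1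
  have d3 : c ≤ 2 := by nlinarith
  interval_cases c
  · omega
  · exact Or.inr (H10.nonempty_equiv_perm_of_injective c5 φ hφ (by rw [show Nat.factorial 5 = 120 from rfl]; omega))
  · exact Or.inl (H10.nonempty_equiv_alternating_of_injective c5 φ hφ
      (by rw [show Nat.factorial 5 = 120 from rfl]; omega))

theorem part1 (f : Q →* alternatingGroup (Fin 8)) (hf : Function.Injective f) (hs : ¬ Group.IsSolvable Q)
    (h2 : pCore 2 Q = ⊥) : A8s.Con Q ∨ Nat.card (pCore 3 Q) = 3 ∧
      (Nonempty (Q ⧸ pCore 3 Q ≃* alternatingGroup (Fin 5)) ∨ Nonempty (Q ⧸ pCore 3 Q ≃* Perm (Fin 5))) := by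
  let f' : Q →* Perm (Fin 8) := (alternatingGroup (Fin 8)).subtype.comp f
  have hf' : Function.Injective f' := (subtype_injective _).comp hf
  have c8 : Nat.card (alternatingGroup (Fin 8)) = 20160 := by
    rw [nat_card_alternatingGroup]; simp [Nat.factorial]
  have hd : Nat.card Q ∣ 20160 := c8 ▸ card_dvd_of_injective f hf
  by_cases hr : A8s.Rad Q
  · have e' := MonoidHom.ofInjective hf'
    have : Nontrivial Q := by
      by_contra e
      rw [not_nontrivial_iff_subsingleton] at e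
      exact hs inferInstance
    have : Nontrivial f'.range := e'.symm.toEquiv.nontrivial
    exact Or.inl (A8s.Con.of e' (A8s.main f'.range (by rintro _ ⟨x, rfl⟩; exact Subtype.property _) (hr.of e')))
  right
  simp only [A8s.Rad, not_forall] at hr
  obtain ⟨N, hN, hNs, h1⟩ := hr
  obtain ⟨M, a2, a3⟩ := exists_minNml (M := ⊤) h1 (normalizer_eq_top N).ge
  obtain ⟨p, hp, a4⟩ := a3.abelem (Sol.mono hNs a2)
  haveI a5 : M.Normal := normalizer_eq_top_iff.1 (top_le_iff.1 a3.nrm)
  have pM := a4.pGrp hp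
  obtain ⟨n, hn⟩ := pM.card
  have hn0 : n ≠ 0 := fun e => a3.ne (eq_bot_iff_card'.2 (by rw [hn, e, pow_zero]))
  have hdM : p ^ n ∣ 20160 := hn ▸ (card_subgroup_dvd_card _).trans hd
  have hp2 : p ≠ 2 := by
    rintro rfl
    exact a3.ne (le_bot_iff.1 (h2 ▸ H2.le_pCore pM.isPGroup))
  have hM : p = 3 ∧ #M = 3 ∨ p = 3 ∧ #M = 9 ∨ #M = 5 ∨ #M = 7 := by
    have b1 : p ∣ 20160 := (dvd_pow_self p hn0).trans hdM
    have b2 : p = 3 ∨ p = 5 ∨ p = 7 := by
      have := Nat.mem_primeFactors.2 ⟨hp, b1, by norm_num⟩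
      rw [show Nat.primeFactors 20160 = {2, 3, 5, 7} by decide +kernel] at this
      simpa [hp2] using this
    have b3 : n ≤ 2 := by
      by_contra e
      have := (pow_dvd_pow p (show 3 ≤ n by omega)).trans hdM
      rcases b2 with rfl | rfl | rfl <;> norm_num at this
    rw [hn]
    rcases b2 with rfl | rfl | rfl <;> interval_cases n <;> simp_all
  have h7M : #M ≠ 7 := fun e => by
    have := A8s.n7_alt.of f hf M e
    rw [normalizer_eq_top, card_top'] at this
    exact hs (A8s.sol60 _ ((Nat.le_of_dvd (by norm_num) this).trans_lt (by norm_num)))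
  have h7 : ¬ 7 ∣ Nat.card Q := fun e => by
    haveI : Fact (Nat.Prime 7) := ⟨by norm_num⟩
    obtain ⟨h, ho⟩ := exists_prime_orderOf_dvd_card' 7 e
    obtain ⟨hc, hg, hcard⟩ := cyc_of f' hf' (by norm_num) (by norm_num) ho
    have b1 := card_mod M (by norm_num) ho
    have b2 : M ⊓ C[h] = ⊥ := eq_bot_iff.2 fun m hm => hf' (by
      rw [map_one, ← card_support_le_one]
      refine (Finset.card_le_card (t := (f' h).supportᶜ) fun a ha => Finset.mem_compl.2 fun e =>
        mem_support.1 ha (fix_supp (by norm_num) hc hg (Commute.map (mem_cen1.1 hm.2) f')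
          (by rw [← map_pow, pow_card hm.1, map_one]) ?_ e)).trans (by rw [Finset.card_compl, hcard]; rfl)
      rcases hM with ⟨-, e⟩ | ⟨-, e⟩ | e | e
      · rw [e]; norm_num
      · rw [e]; norm_num
      · rw [e]; norm_num
      · exact absurd e h7M)
    rw [b2, card_bot'] at b1
    rcases hM with ⟨-, e⟩ | ⟨-, e⟩ | e | e <;> rw [e] at b1 <;> simp [Nat.ModEq] at b1
  have hd' : Nat.card Q ∣ 576 * 5 :=
    (((Nat.Prime.coprime_iff_not_dvd (by norm_num)).2 h7).symm).dvd_of_dvd_mul_right (show _ ∣ 576 * 5 * 7 from hd)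
  have h5 : 5 ∣ Nat.card Q := by_contra fun e =>
    hs (A8s.sol23 ((((Nat.Prime.coprime_iff_not_dvd Nat.prime_five).2 e).symm).dvd_of_dvd_mul_right hd'))
  have h5M : #M ≠ 5 := fun e => by
    refine hs ((Group.isSolvable_iff_subgroup_quotient M).2 ⟨pM.sol, A8s.sol23 ?_⟩)
    rw [← M.index_mul_card, e] at hd'
    exact Nat.dvd_of_mul_dvd_mul_right (by norm_num) hd'
  have hp3 : p = 3 := by tauto
  subst hp3
  haveI : Fact (Nat.Prime 5) := ⟨Nat.prime_five⟩
  obtain ⟨h, ho⟩ := exists_prime_orderOf_dvd_card' 5 h5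
  exact three f' hf' (fun x => (f x).2) hs ho hd fun e => a3.ne (le_bot_iff.1 (e ▸ H2.le_pCore pM.isPGroup))

theorem gl_psl : Nonempty (GL (Fin 3) (ZMod 2) ≃* Matrix.ProjectiveSpecialLinearGroup (Fin 3) (ZMod 2)) := by
  have h : center (Matrix.SpecialLinearGroup (Fin 3) (ZMod 2)) = ⊥ := eq_bot_iff.2 fun g hg => by
    obtain ⟨r, hr, h1⟩ := Matrix.SpecialLinearGroup.mem_center_iff.1 hg
    have : r = 1 := (by decide : ∀ r : ZMod 2, r ≠ 0 → r = 1) r (by rintro rfl; simp at hr)
    subst this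
    rw [map_one] at h1
    exact Subtype.ext h1.symm
  exact ⟨(A8s.slGL 3).symm.trans ((QuotientGroup.quotientMulEquivOfEq h).trans QuotientGroup.quotientBot).symm⟩

end Cfsg.Agent.H17.Sx
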